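import Mathlib

set_option autoImplicit false
set_option linter.unusedSectionVars false

namespace Cfsg.Agent.H13.Bin

variable {H V : Type*} [Group H] [AddCommGroup V] [DistribMulAction H V]

/-- the binary property of the affine group `V ⋊ K` -/
def Bin (K : Subgroup H) (V : Type*) [AddCommGroup V] [DistribMulAction H V] : Prop :=
  ∀ S : Set (V × V), (∀ a ∈ S, ∀ b ∈ S, ∃ k ∈ K, k • (a.1 - b.1) = a.2 - b.2) →
    ∃ k ∈ K, ∀ a ∈ S, ∀ b ∈ S, k • (a.1 - b.1) = a.2 - b.2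

/-- pointwise stabilizer -/
def fxr (H : Type*) [Group H] [DistribMulAction H V] (C : AddSubgroup V) : Subgroup H where
  carrier := {k | ∀ c ∈ C, k • c = c}
  one_mem' := fun c _ => one_smul _ c
  mul_mem' := fun {a b} ha hb c hc => by rw [mul_smul, hb c hc, ha c hc]
  inv_mem' := fun {a} ha c hc => by rw [inv_smul_eq_iff, ha c hc]

theorem mem_fxr {C : AddSubgroup V} {k : H} : k ∈ fxr H C ↔ ∀ c ∈ C, k • c = c := Iff.rfl

theorem bin_fxr (hb : Bin (⊤ : Subgroup H) V) (C : AddSubgroup V) : Bin (fxr H C) V := by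
  intro S hS
  rcases S.eq_empty_or_nonempty with rfl | ⟨a0, ha0⟩
  · exact ⟨1, one_mem _, by simp⟩
  obtain ⟨k, -, hk⟩ := hb (S ∪ {p | ∃ c ∈ C, p = (a0.1 + c, a0.2 + c)}) (by
    rintro a (ha | ⟨c, hc, rfl⟩) b (hb' | ⟨d, hd, rfl⟩)
    · obtain ⟨k, -, hk⟩ := hS a ha b hb'; exact ⟨k, trivial, hk⟩
    · obtain ⟨k, hkK, hk⟩ := hS a ha a0 ha0
      refine ⟨k, trivial, ?_⟩
      have : a.1 - (a0.1 + d) = (a.1 - a0.1) - d := by abel
      simp only [this, smul_sub k (a.1 - a0.1), hk, hkK d hd]; abel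
    · obtain ⟨k, hkK, hk⟩ := hS a0 ha0 b hb'
      refine ⟨k, trivial, ?_⟩
      have : a0.1 + c - b.1 = (a0.1 - b.1) + c := by abel
      simp only [this, smul_add k (a0.1 - b.1), hk, hkK c hc]; abel
    · exact ⟨1, trivial, by simp⟩)
  refine ⟨k, fun c hc => ?_, fun a ha b hb' => hk a (Or.inl ha) b (Or.inl hb')⟩
  have := hk (a0.1 + c, a0.2 + c) (Or.inr ⟨c, hc, rfl⟩) a0 (Or.inl ha0)
  simpa using this

/-- the translation lemma: one element realises all the shifts by `D` -/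
theorem Bin.shift {K : Subgroup H} (hb : Bin K V) (D : V) :
    ∃ h ∈ K, ∀ A : V, (∃ k ∈ K, k • A = A + D) → h • A = A + D := by
  obtain ⟨k, hkK, hk⟩ := hb ({p | ∃ A : V, (∃ k ∈ K, k • A = A + D) ∧ p = (-A, -A)} ∪ {(0, D)}) (by
    rintro a (⟨A, ⟨k, hk, hA⟩, rfl⟩ | rfl) b (⟨B, ⟨l, hl, hB⟩, rfl⟩ | rfl)
    · exact ⟨1, one_mem _, by simp⟩
    · refine ⟨k, hk, ?_⟩
      simp only [sub_zero, smul_neg, hA]; abel
    · refine ⟨l, hl, ?_⟩
      simp only [zero_sub, neg_neg, hB]; abel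
    · exact ⟨1, one_mem _, by simp⟩)
  refine ⟨k, hkK, fun A hA => ?_⟩
  have := hk (0, D) (Or.inr rfl) (-A, -A) (Or.inl ⟨A, hA, rfl⟩)
  simp only [sub_neg_eq_add, zero_add] at this
  rw [this]; abel

theorem Bin.four {K : Subgroup H} (hb : Bin K V) {D P Q : V} (h1 : ∃ k ∈ K, k • P = P + D)
    (h2 : ∃ k ∈ K, k • Q = Q + D) (h3 : ∃ k ∈ K, k • (P + Q) = P + Q + D) : D = 0 := by
  obtain ⟨h, -, hh⟩ := hb.shift D
  have e1 := hh P h1
  have e2 := hh Q h2
  have e3 := hh _ h3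
  rw [smul_add, e1, e2] at e3
  have : P + D + (Q + D) - (P + Q + D) = D := by abel
  rw [← this, e3, sub_self]

theorem Bin.swap {K : Subgroup H} (hb : Bin K V) {u v : V} (h : ∃ k ∈ K, k • u = v) :
    ∃ g ∈ K, g • u = v ∧ g • v = u := by
  obtain ⟨g, hg, hh⟩ := hb.shift (v - u)
  obtain ⟨k, hk, e⟩ := h
  refine ⟨g, hg, ?_, ?_⟩
  · rw [hh u ⟨k, hk, by rw [e]; abel⟩]; abel
  · have := hh (-v) ⟨k⁻¹, inv_mem hk, by rw [smul_neg, ← e, inv_smul_smul]; abel⟩
    rw [smul_neg, neg_eq_iff_eq_neg] at this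
    rw [this]; abel

theorem Bin.cyc {K : Subgroup H} (hb : Bin K V) {h : H} (hK : h ∈ K) (w : V) :
    ∃ g ∈ K, ∀ j : ℤ, g • h ^ j • (h • w - w) = h ^ (-j) • (h • w - w) := by
  obtain ⟨g, hg, hh⟩ := hb {p | ∃ j : ℤ, p = (h ^ j • w, - (h ^ (-j) • w))} (by
    rintro _ ⟨i, rfl⟩ _ ⟨j, rfl⟩
    refine ⟨h ^ (-i - j), zpow_mem hK _, ?_⟩
    simp only [smul_sub, ← mul_smul, ← zpow_add]
    have e1 : -i - j + i = -j := by ring
    have e2 : -i - j + j = -i := by ring
    rw [e1, e2]; abel)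
  refine ⟨h * g, mul_mem hK hg, fun j => ?_⟩
  have := hh _ ⟨j + 1, rfl⟩ _ ⟨j, rfl⟩
  simp only at this
  have e1 : h ^ j • (h • w - w) = h ^ (j + 1) • w - h ^ j • w := by
    rw [smul_sub, ← mul_smul, zpow_add_one]
  rw [mul_smul, e1, this, smul_sub, smul_neg, smul_neg, smul_sub, ← mul_smul, ← mul_smul,
    ← mul_smul]
  have e2 : h * h ^ (-(j + 1)) = h ^ (-j) := by
    rw [← zpow_one_add]; congr 1; ring
  have e3 : h * h ^ (-j) = h ^ (-j) * h := by
    rw [← zpow_one_add, ← zpow_add_one]; congr 1; ring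
  rw [e2, e3]; abel

theorem Bin.no4 [FaithfulSMul H V] (hb : Bin (⊤ : Subgroup H) V) (h2 : ∀ v : V, v + v = 0) {k : H}
    (hk : (k * k) * (k * k) = 1) : k * k = 1 := by
  have hn : ∀ v : V, -v = v := fun v => neg_eq_iff_add_eq_zero.mpr (h2 v)
  -- N v = k v + v
  have key : ∀ u : V, k • (k • k • u + u) = k • k • u + u → k • k • u = u := by
    intro u hu
    have h0 : k • k • u + u = 0 := by
      refine hb.four (P := u) (Q := k • u + u) ⟨k * k, trivial, ?_⟩ ⟨k, trivial, ?_⟩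
        ⟨k * k, trivial, ?_⟩
      · rw [mul_smul, add_comm (k • k • u), ← add_assoc, h2, zero_add]
      · rw [smul_add]
        have : k • u + u + (k • k • u + u) = k • k • u + k • u + (u + u) := by abel
        rw [this, h2, add_zero]
      · have e : u + (k • u + u) = k • u := by
          rw [add_comm (k • u), ← add_assoc, h2, zero_add]
        rw [e, mul_smul]
        rw [smul_add] at hu
        rw [← hu, add_comm (k • k • k • u), ← add_assoc, h2, zero_add]
    rw [← hn u] at h0 ⊢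
    rw [smul_neg, smul_neg] at h0
    rw [smul_neg, smul_neg, hn, hn] 
    rw [hn, hn] at h0
    have := eq_neg_of_add_eq_zero_left h0
    rwa [hn] at this
  have h4 : ∀ u : V, k • k • k • k • u = u := fun u => by
    rw [← mul_smul, ← mul_smul, ← mul_smul, mul_assoc (k * k), hk, one_smul]
  have h3 : ∀ u : V, k • k • (k • u + u) = k • u + u := by
    intro u
    apply key
    simp only [smul_add, h4]
    abel
  apply FaithfulSMul.eq_of_smul_eq_smul (α := V)
  intro u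
  rw [mul_smul, one_smul]
  apply key
  have := h3 u
  simp only [smul_add] at this ⊢
  have e : k • k • k • u + k • u = (k • k • k • u + k • k • u) + (k • k • u + k • u) := by
    have : (k • k • k • u + k • k • u) + (k • k • u + k • u)
      = k • k • k • u + k • u + (k • k • u + k • k • u) := by abel
    rw [this, h2, add_zero]
  rw [e, this]
  have : k • u + u + (k • k • u + k • u) = k • k • u + u + (k • u + k • u) := by abel
  rw [this, h2, add_zero]

end Cfsg.Agent.H13.Bin
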