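import Cfsg.Agent.H13.Bin1

set_option autoImplicit false
set_option linter.unusedSectionVars false

namespace Cfsg.Agent.H13.Bin

variable {H V : Type*} [Group H] [AddCommGroup V] [DistribMulAction H V]

/-- `v ↦ k v - v` -/
def dm (V : Type*) [AddCommGroup V] [DistribMulAction H V] (k : H) : V →+ V :=
  AddMonoidHom.mk' (fun v => k • v - v) (fun a b => by rw [smul_add]; abel)

@[simp] theorem dm_apply (k : H) (v : V) : dm V k v = k • v - v := rfl

/-- centre `[V,k]` -/
abbrev Cm (V : Type*) [AddCommGroup V] [DistribMulAction H V] (k : H) : AddSubgroup V := (dm V k).range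
/-- axis `C_V(k)` -/
abbrev Fx (V : Type*) [AddCommGroup V] [DistribMulAction H V] (k : H) : AddSubgroup V := (dm V k).ker

theorem mem_Cm {k : H} {v : V} : v ∈ Cm V k ↔ ∃ w, k • w - w = v := Iff.rfl
theorem mem_Fx {k : H} {v : V} : v ∈ Fx V k ↔ k • v = v := by
  rw [AddMonoidHom.mem_ker, dm_apply, sub_eq_zero]

theorem card_Fx_Cm [Finite V] (k : H) : Nat.card (Fx V k) * Nat.card (Cm V k) = Nat.card V := by
  rw [← AddSubgroup.index_ker, AddSubgroup.card_mul_index]

theorem Cm_comm {s k : H} (h : Commute s k) {v : V} (hv : v ∈ Cm V k) : s • v ∈ Cm V k := by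
  obtain ⟨w, rfl⟩ := mem_Cm.1 hv
  exact mem_Cm.2 ⟨s • w, by rw [smul_sub, ← mul_smul, ← mul_smul, h.eq]⟩

structure Mx (H : Type*) [Group H] [DistribMulAction H V] (C : AddSubgroup V) : Prop where
  bin : Bin (⊤ : Subgroup H) V
  el : ∀ k ∈ fxr H C, ∀ v, v ∉ C → k • v = v → k * k = 1
  par : (∀ v : V, v + v = 0) ∨ (∀ v : V, v + v = 0 → v = 0)

variable [FaithfulSMul H V] [Finite V] {C : AddSubgroup V}

theorem eq_one_of {s : H} (h : ∀ v : V, s • v = v) : s = 1 :=
  FaithfulSMul.eq_of_smul_eq_smul (α := V) (fun v => by rw [h, one_smul])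

theorem comm_of_sq {a b : H} (ha : a * a = 1) (hb : b * b = 1) (hab : (a * b) * (a * b) = 1) :
    Commute a b := by
  have e1 : a⁻¹ = a := inv_eq_of_mul_eq_one_right ha
  have e2 : b⁻¹ = b := inv_eq_of_mul_eq_one_right hb
  have e3 : (a * b)⁻¹ = a * b := inv_eq_of_mul_eq_one_right hab
  rw [mul_inv_rev, e1, e2] at e3
  exact e3.symm

namespace Mx

theorem binK (M : Mx H C) : Bin (fxr H C) V := bin_fxr M.bin C

theorem fix_mem (M : Mx H C) {k : H} (hk : k ∈ fxr H C) (h2 : k * k ≠ 1) {v : V} (hv : k • v = v) :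
    v ∈ C := by
  by_contra h
  exact h2 (M.el k hk v h hv)

theorem comm_of_fix (M : Mx H C) {a b : H} (ha : a ∈ fxr H C) (hb : b ∈ fxr H C) {v : V}
    (hv : v ∉ C) (h1 : a • v = v) (h2 : b • v = v) : Commute a b :=
  comm_of_sq (M.el a ha v hv h1) (M.el b hb v hv h2)
    (M.el _ (mul_mem ha hb) v hv (by rw [mul_smul, h2, h1]))

theorem odd_c (M : Mx H C) (ho : ∀ v : V, v + v = 0 → v = 0) {s k : H} (hs : s ∈ fxr H C)
    (hk : k ∈ fxr H C) (hc : Commute s k) {a y : V} (ha : a ∉ C) (hsa : s • a = a)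
    (hy : s • y = -y) : k • k • y = y := by
  have hinj : Function.Injective (fun v : V => v + v) := by
    intro u v h
    have : (u - v) + (u - v) = 0 := by
      have e : (u - v) + (u - v) = (u + u) - (v + v) := by abel
      simp only at h
      rw [e, h, sub_self]
    exact sub_eq_zero.1 (ho _ this)
  have hsur := Finite.surjective_of_injective hinj
  have fixa : ∀ D : V, s • D = -D → ∀ h : H,
      (∀ A : V, (∃ k ∈ fxr H C, k • A = A + D) → h • A = A + D) → h • a = a := by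
    intro D hD h hh
    obtain ⟨D', hD'⟩ := hsur D
    simp only at hD'
    have e : s • D' = -D' := by
      apply eq_neg_of_add_eq_zero_left
      apply ho
      have : s • D' + D' + (s • D' + D') = s • (D' + D') + (D' + D') := by rw [smul_add]; abel
      rw [this, hD', hD]; abel
    have e1 := hh (-D') ⟨s, hs, by rw [smul_neg, e, ← hD']; abel⟩
    have e2 := hh (a - D') ⟨s, hs, by rw [smul_sub, e, hsa, ← hD']; abel⟩
    rw [sub_eq_add_neg, smul_add, e1, add_assoc] at e2
    exact add_right_cancel e2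
  have n1 : s • k • y = -(k • y) := by rw [← mul_smul, hc.eq, mul_smul, hy, smul_neg]
  have n2 : s • k • k • y = -(k • k • y) := by rw [← mul_smul, hc.eq, mul_smul, n1, smul_neg]
  obtain ⟨h, hK, hh⟩ := M.binK.shift (y - k • k • y)
  obtain ⟨h', hK', hh'⟩ := M.binK.shift (-(k • k • y) - k • y)
  have f1 := fixa _ (by rw [smul_sub, hy, n2]; abel) h hh
  have f2 := fixa _ (by rw [smul_sub, smul_neg, n1, n2]; abel) h' hh'
  have hcm := M.comm_of_fix hK hK' ha f1 f2
  have a2 : h • k • k • y = y := by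
    rw [hh _ ⟨k⁻¹ * k⁻¹, mul_mem (inv_mem hk) (inv_mem hk), by
      rw [mul_smul, inv_smul_smul, inv_smul_smul]; abel⟩]; abel
  have a0 : h • y = k • k • y := by
    have := hh (-y) ⟨k * k, mul_mem hk hk, by rw [mul_smul, smul_neg, smul_neg]; abel⟩
    rw [smul_neg, neg_eq_iff_eq_neg] at this
    rw [this]; abel
  have a1 : h • k • y = k • y := by
    have := hh (-(k • y + y)) ⟨k, hk, by rw [smul_neg, smul_add]; abel⟩
    rw [smul_neg, neg_eq_iff_eq_neg, smul_add, a0] at this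
    have e : h • k • y = (h • k • y + k • k • y) - k • k • y := by abel
    rw [e, this]; abel
  have b1 : h' • k • y = -(k • k • y) := by
    rw [hh' _ ⟨s * k, mul_mem hs hk, by rw [mul_smul, n2]; abel⟩]; abel
  have := congrArg (fun g : H => g • k • y) hcm.eq
  simp only [mul_smul] at this
  rw [b1, a1, b1, smul_neg, a2] at this
  exact (neg_injective this).symm

theorem sq_fix (M : Mx H C) {k : H} (hk : k ∈ fxr H C) (h2 : k * k ≠ 1) {v : V}
    (hv : k • k • v = v) : v ∈ C := by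
  rw [← mul_smul] at hv
  by_contra hvC
  have hs := M.el _ (mul_mem hk hk) v hvC hv
  rcases M.par with he | ho
  · exact h2 (M.bin.no4 he hs)
  · apply h2
    apply eq_one_of (V := V)
    intro u
    have hy : (k * k) • ((k * k) • u - u) = -((k * k) • u - u) := by
      rw [smul_sub, ← mul_smul (k * k), hs, one_smul]; abel
    have := M.odd_c ho (mul_mem hk hk) hk ((Commute.refl k).mul_left (Commute.refl k)) hvC hv hy
    rw [← mul_smul, hy] at this
    exact sub_eq_zero.1 (ho _ (by nth_rewrite 1 [← this]; abel))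

theorem ss (M : Mx H C) {k : H} (hk : k ∈ fxr H C) (h2 : k * k ≠ 1) {v : V}
    (hv : k • v - v ∈ C) : v ∈ C := by
  have e1 : k • v = v + (k • v - v) := by abel
  set c := k • v - v with hc
  have e2 : k • k • v = v + (c + c) := by rw [e1, smul_add, hk c hv, e1]; abel
  rcases M.par with he | ho
  · exact M.sq_fix hk h2 (by rw [e2, he, add_zero])
  · have : c + c = 0 := M.bin.four (P := v) (Q := v) ⟨k * k, trivial, by rw [mul_smul, e2]⟩
      ⟨k * k, trivial, by rw [mul_smul, e2]⟩ ⟨k, trivial, by rw [smul_add, e1]; abel⟩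
    exact M.fix_mem hk h2 (by rw [e1, ho c this, add_zero])

theorem cm_disj (M : Mx H C) {k : H} (hk : k ∈ fxr H C) (h2 : k * k ≠ 1) {u : V}
    (hu : u ∈ Cm V k) (hC : u ∈ C) : u = 0 := by
  obtain ⟨w, rfl⟩ := mem_Cm.1 hu
  rw [hk w (M.ss hk h2 hC), sub_self]

theorem cm_sur (M : Mx H C) {k : H} (hk : k ∈ fxr H C) (h2 : k * k ≠ 1) {u : V}
    (hu : u ∈ Cm V k) : ∃ w ∈ Cm V k, k • w - w = u := by
  let f : Cm V k → Cm V k := fun w => ⟨k • w.1 - w.1, mem_Cm.2 ⟨_, rfl⟩⟩
  have hinj : Function.Injective f := by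
    intro a b h
    have h' : k • a.1 - a.1 = k • b.1 - b.1 := congrArg Subtype.val h
    have : k • (a.1 - b.1) = a.1 - b.1 := by
      rw [smul_sub]
      have e : k • a.1 - k • b.1 = (k • a.1 - a.1) - (k • b.1 - b.1) + (a.1 - b.1) := by abel
      rw [e, h']; abel
    exact Subtype.ext (sub_eq_zero.1 (M.cm_disj hk h2 (sub_mem a.2 b.2) (M.fix_mem hk h2 this)))
  obtain ⟨w, hw⟩ := Finite.surjective_of_injective hinj ⟨u, hu⟩
  exact ⟨w.1, w.2, congrArg Subtype.val hw⟩

theorem dec (M : Mx H C) {k : H} (hk : k ∈ fxr H C) (h2 : k * k ≠ 1) (v : V) :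
    ∃ u ∈ Cm V k, ∃ c ∈ C, v = u + c := by
  obtain ⟨w, hw, e⟩ := M.cm_sur hk h2 (mem_Cm.2 ⟨v, rfl⟩)
  refine ⟨w, hw, v - w, M.fix_mem hk h2 ?_, by abel⟩
  rw [smul_sub]
  have : k • v - k • w = (k • v - v) - (k • w - w) + (v - w) := by abel
  rw [this, e]; abel

theorem c2e (M : Mx H C) (he : ∀ v : V, v + v = 0) {s k : H} (hs : s ∈ fxr H C) (hk : k ∈ fxr H C)
    (hc : Commute s k) (h2 : k * k ≠ 1) (hss : s * s = 1) : s = 1 := by
  apply eq_one_of (V := V)
  have hneg : ∀ u : V, s • (s • u - u) = -(s • u - u) := fun u => by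
    rw [smul_sub, ← mul_smul, hss, one_smul]; abel
  have hn : ∀ v : V, -v = v := fun v => neg_eq_iff_add_eq_zero.mpr (he v)
  intro v
  obtain ⟨u, hu, c, hc', rfl⟩ := M.dec hk h2 v
  rw [smul_add, hs c hc']
  congr 1
  have hb : s • u - u ∈ Cm V k := sub_mem (Cm_comm hc hu) hu
  obtain ⟨Q, hQ, e⟩ := M.cm_sur hk h2 hb
  have hsQ : s • Q = Q := by
    apply sub_eq_zero.1
    apply M.cm_disj hk h2 (sub_mem (Cm_comm hc hQ) hQ)
    apply M.fix_mem hk h2
    have e' : k • s • Q - s • Q = k • Q - Q := by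
      rw [← mul_smul, ← hc.eq, mul_smul, ← smul_sub, e, hneg, hn]
    rw [smul_sub]
    have : k • s • Q - k • Q = (k • s • Q - s • Q) - (k • Q - Q) + (s • Q - Q) := by abel
    rw [this, e']; abel
  apply sub_eq_zero.1
  exact M.bin.four (P := u) (Q := Q) ⟨s, trivial, by abel⟩ ⟨k, trivial, by rw [← e]; abel⟩
    ⟨s, trivial, by rw [smul_add, hsQ]; abel⟩

theorem c2 (M : Mx H C) {s k : H} (hs : s ∈ fxr H C) (hk : k ∈ fxr H C) (hc : Commute s k)
    (h2 : k * k ≠ 1) {a : V} (ha : a ∉ C) (hsa : s • a = a) : s = 1 := by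
  have hss := M.el s hs a ha hsa
  rcases M.par with he | ho
  · exact M.c2e he hs hk hc h2 hss
  · apply eq_one_of (V := V)
    have hneg : ∀ u : V, s • (s • u - u) = -(s • u - u) := fun u => by
      rw [smul_sub, ← mul_smul, hss, one_smul]; abel
    intro u
    have h1 := M.sq_fix hk h2 (M.odd_c ho hs hk hc ha hsa (hneg u))
    have h3 := hs _ h1
    rw [hneg] at h3
    exact sub_eq_zero.1 (ho _ (by nth_rewrite 1 [← h3]; abel))

theorem inv (M : Mx H C) {k : H} (hk : k ∈ fxr H C) (h2 : k * k ≠ 1) {u : V} (hu : u ∈ Cm V k)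
    (h0 : u ≠ 0) : ∃ g ∈ fxr H C, g • u = u ∧ g * g = 1 ∧ g * k = k⁻¹ * g := by
  obtain ⟨w, rfl⟩ := mem_Cm.1 hu
  obtain ⟨g, hg, hh⟩ := M.binK.cyc hk w
  set u := k • w - w
  have e0 : g • u = u := by simpa using hh 0
  have e1 : g • k • u = k⁻¹ • u := by simpa using hh 1
  have huC : u ∉ C := fun h => h0 (M.cm_disj hk h2 hu h)
  have hgg := M.el g hg u huC e0
  refine ⟨g, hg, e0, hgg, ?_⟩
  have hv : u + k⁻¹ • u ∉ C := by
    intro h
    have h' := M.cm_disj hk h2 (add_mem hu (Cm_comm (Commute.refl k).inv_left hu)) h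
    apply huC
    apply M.sq_fix hk h2
    have e : k⁻¹ • u = -u := eq_neg_of_add_eq_zero_right h'
    have e' : k • u = -u := by
      rw [inv_smul_eq_iff, smul_neg] at e
      rw [eq_neg_iff_add_eq_zero]
      nth_rewrite 2 [e]; abel
    rw [e', smul_neg, e', neg_neg]
  have := M.el (g * k) (mul_mem hg hk) _ hv (by
    rw [mul_smul, smul_add, smul_inv_smul, smul_add, e0, e1, add_comm])
  have e2 : g⁻¹ = g := inv_eq_of_mul_eq_one_right hgg
  have e3 := inv_eq_of_mul_eq_one_right this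
  rw [mul_inv_rev, e2] at e3
  exact e3.symm

end Mx

end Cfsg.Agent.H13.Bin
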