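import Cfsg.Agent.H13.Bin2

set_option autoImplicit false
set_option linter.unusedSectionVars false

namespace Cfsg.Agent.H13.Bin

open Polynomial

variable {H V : Type*} [Group H] [AddCommGroup V] [DistribMulAction H V]

/-- an abelian group acting semiregularly on the nonzero vectors of an invariant subgroup is cyclic -/
theorem cyc_of_semireg {N : Type*} [CommGroup N] [Finite N] [Finite V] (ρ : N →* H)
    (U : AddSubgroup V) {u0 : V} (hu0 : u0 ∈ U) (h0 : u0 ≠ 0)
    (hinv : ∀ m : N, ∀ u ∈ U, ρ m • u ∈ U)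
    (hsr : ∀ m : N, ∀ u ∈ U, u ≠ 0 → ρ m • u = u → m = 1) : IsCyclic N := by
  let φ : MonoidAlgebra ℤ N →ₐ[ℤ] Module.End ℤ V :=
    MonoidAlgebra.lift ℤ (Module.End ℤ V) N ((DistribMulAction.toModuleEnd ℤ V).comp ρ)
  have hφ : ∀ m : N, ∀ v, φ (MonoidAlgebra.of ℤ N m) v = ρ m • v := by
    intro m v
    simp only [φ, MonoidAlgebra.lift_of]
    rfl
  let I : Ideal (MonoidAlgebra ℤ N) :=
    { carrier := {a | ∀ u ∈ U, φ a u = 0}
      zero_mem' := fun u _ => by simp
      add_mem' := fun {a b} ha hb u hu => by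
        rw [map_add, LinearMap.add_apply, ha u hu, hb u hu, add_zero]
      smul_mem' := fun c a ha u hu => by
        rw [smul_eq_mul, map_mul, Module.End.mul_apply, ha u hu, map_zero] }
  have hI : I ≠ ⊤ := by
    intro h
    have : (1 : MonoidAlgebra ℤ N) ∈ I := h ▸ Submodule.mem_top
    have := this u0 hu0
    rw [map_one] at this
    exact h0 this
  obtain ⟨P, hP, hIP⟩ := Ideal.exists_le_maximal I hI
  haveI := hP.isPrime
  refine isCyclic_of_injective_ringHom
    ((Ideal.Quotient.mk P).toMonoidHom.comp (MonoidAlgebra.of ℤ N)) ?_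
  rw [injective_iff_map_eq_one]
  intro m hm
  by_contra hm1
  have hmP : MonoidAlgebra.of ℤ N m - 1 ∈ P := by
    rw [← Ideal.Quotient.eq, map_one]; exact hm
  let f : U → U := fun u => ⟨ρ m • u.1 - u.1, sub_mem (hinv m _ u.2) u.2⟩
  have hinj : Function.Injective f := by
    intro a b h
    have h' : ρ m • a.1 - a.1 = ρ m • b.1 - b.1 := congrArg Subtype.val h
    by_contra hab
    refine hm1 (hsr m (a.1 - b.1) (sub_mem a.2 b.2) (fun e => hab (Subtype.ext (sub_eq_zero.1 e))) ?_)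
    rw [smul_sub]
    have e : ρ m • a.1 - ρ m • b.1 = (ρ m • a.1 - a.1) - (ρ m • b.1 - b.1) + (a.1 - b.1) := by abel
    rw [e, h']; abel
  let e : Equiv.Perm U := Equiv.ofBijective f ⟨hinj, Finite.surjective_of_injective hinj⟩
  have hpow : ∀ j : ℕ, ∀ u : U, φ ((MonoidAlgebra.of ℤ N m - 1) ^ j) u.1 = ((e ^ j) u).1 := by
    intro j
    induction j with
    | zero => intro u; simp
    | succ j ih =>
      intro u
      rw [pow_succ', map_mul, Module.End.mul_apply, ih, pow_succ', Equiv.Perm.mul_apply, map_sub,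
        map_one, LinearMap.sub_apply, hφ]
      rfl
  have hmem : (MonoidAlgebra.of ℤ N m - 1) ^ orderOf e - 1 ∈ I := by
    intro u hu
    rw [map_sub, map_one, LinearMap.sub_apply, hpow _ ⟨u, hu⟩, pow_orderOf_eq_one]
    simp
  have h1 : (MonoidAlgebra.of ℤ N m - 1) ^ orderOf e ∈ P :=
    P.pow_mem_of_mem hmP _ (orderOf_pos e)
  have := P.sub_mem h1 (hIP hmem)
  rw [sub_sub_cancel] at this
  exact hP.ne_top ((Ideal.eq_top_iff_one P).2 this)

/-- evaluation of integer polynomials at `h` -/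
noncomputable def ev (h : H) (f : ℤ[X]) (v : V) : V :=
  aeval (DistribMulAction.toModuleEnd ℤ V h) f v

theorem ev_add (h : H) (f g : ℤ[X]) (v : V) : ev h (f + g) v = ev h f v + ev h g v := by
  simp [ev]
theorem ev_mul (h : H) (f g : ℤ[X]) (v : V) : ev h (f * g) v = ev h f (ev h g v) := by
  simp [ev]
theorem ev_zero (h : H) (f : ℤ[X]) : ev h f (0 : V) = 0 := by simp [ev]
theorem ev_one (h : H) (v : V) : ev h 1 v = v := by simp [ev]
theorem ev_X (h : H) (v : V) : ev h X v = h • v := by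
  simp only [ev, aeval_X]; rfl
theorem ev_mono (h : H) (n : ℕ) (a : ℤ) (v : V) : ev h (monomial n a) v = a • h ^ n • v := by
  simp only [ev, aeval_monomial, ← map_pow, Module.End.mul_apply, Module.algebraMap_end_apply]
  rfl
theorem ev_conj {g h h' : H} (e : g * h = h' * g) (f : ℤ[X]) (v : V) :
    g • ev h f v = ev h' f (g • v) := by
  induction f using Polynomial.induction_on' with
  | add p q hp hq => rw [ev_add, ev_add, smul_add, hp, hq]
  | monomial n a =>
    rw [ev_mono, ev_mono, smul_comm g a, ← mul_smul, (SemiconjBy.pow_right e n).eq, mul_smul]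
theorem ev_comp (h : H) (n : ℕ) (f : ℤ[X]) (v : V) :
    ev h (f.comp (X ^ n)) v = ev (h ^ n) f v := by
  simp only [ev, aeval_comp, map_pow, aeval_X]
theorem ev_mem (h : H) (U : AddSubgroup V) (hU : ∀ u ∈ U, h • u ∈ U) (f : ℤ[X]) {u : V}
    (hu : u ∈ U) : ev h f u ∈ U := by
  induction f using Polynomial.induction_on' with
  | add p q hp hq => rw [ev_add]; exact add_mem hp hq
  | monomial n a =>
    rw [ev_mono]
    refine zsmul_mem ?_ _
    induction n with
    | zero => simpa using hu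
    | succ n ih => rw [pow_succ', mul_smul]; exact hU _ ih

/-- `f ↦ f(h) u` -/
noncomputable def evh (h : H) (u : V) : ℤ[X] →+ V :=
  AddMonoidHom.mk' (fun f => ev h f u) (fun f g => ev_add h f g u)

variable [FaithfulSMul H V] [Finite V] [Finite H] {C : AddSubgroup V}

namespace Mx

theorem exists_h (M : Mx H C) {h0 : H} (hK0 : h0 ∈ fxr H C) (h02 : h0 * h0 ≠ 1) :
    ∃ h ∈ fxr H C, h * h ≠ 1 ∧ ∀ l ∈ fxr H C, Commute l h → l ∈ Subgroup.zpowers h := by
  obtain ⟨h, hK, hmax⟩ := Set.exists_max_image (fxr H C : Set H) orderOf (Set.toFinite _)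
    ⟨h0, hK0⟩
  have h2 : h * h ≠ 1 := by
    intro e
    have e1 : orderOf h ≤ 2 := Nat.le_of_dvd two_pos (orderOf_dvd_of_pow_eq_one (by rw [pow_two, e]))
    have e2 := hmax h0 hK0
    have e3 := orderOf_pos h0
    apply h02
    rw [← pow_two, ← orderOf_dvd_iff_pow_eq_one]
    have : orderOf h0 = 1 ∨ orderOf h0 = 2 := by omega
    rcases this with e | e <;> rw [e] <;> norm_num
  refine ⟨h, hK, h2, fun l hl hc => ?_⟩
  let N := Subgroup.closure ({h, l} : Set H)
  haveI : IsMulCommutative N := Subgroup.isMulCommutative_closure (by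
    rintro a (rfl | rfl) b (rfl | rfl)
    exacts [rfl, hc.symm.eq, hc.eq, rfl])
  have hNK : N ≤ fxr H C := by
    rw [Subgroup.closure_le]; rintro a (rfl | rfl); exacts [hK, hl]
  have hhN : h ∈ N := Subgroup.subset_closure (Or.inl rfl)
  have hcom : ∀ m : N, Commute m.1 h := fun m =>
    congrArg Subtype.val (IsMulCommutative.is_comm.comm m ⟨h, hhN⟩)
  obtain ⟨u0, hu0, hu0'⟩ : ∃ u ∈ Cm V h, u ≠ 0 := by
    by_contra hc
    push Not at hc
    apply h2
    have : h = 1 := eq_one_of (V := V) fun v => sub_eq_zero.1 (hc _ (mem_Cm.2 ⟨v, rfl⟩))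
    rw [this, one_mul]
  letI : CommGroup N := { (inferInstance : Group N) with mul_comm := IsMulCommutative.is_comm.comm }
  have hcyc : IsCyclic N := cyc_of_semireg N.subtype (Cm V h) hu0 hu0'
    (fun m u hu => Cm_comm (hcom m) hu)
    (fun m u hu h0 e => Subtype.ext (M.c2 (hNK m.2) hK (hcom m) h2
      (fun hC => h0 (M.cm_disj hK h2 hu hC)) e))
  obtain ⟨z, hz⟩ := IsCyclic.exists_ofOrder_eq_natCard (α := N)
  have e1 := hmax z.1 (hNK z.2)
  rw [Subgroup.orderOf_coe, hz, ← Nat.card_zpowers] at e1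
  have e2 : Subgroup.zpowers h = N :=
    Subgroup.eq_of_le_of_card_ge (by rw [Subgroup.zpowers_le]; exact hhN) e1
  rw [e2]
  exact Subgroup.subset_closure (Or.inr rfl)

theorem irr (M : Mx H C) {h : H} (hK : h ∈ fxr H C) (h2 : h * h ≠ 1)
    (hL : ∀ l ∈ fxr H C, Commute l h → l ∈ Subgroup.zpowers h) {u0 u : V} (hu0 : u0 ∈ Cm V h)
    (h0 : u0 ≠ 0) (hu : u ∈ Cm V h) : ∃ f, ev h f u0 = u := by
  by_contra hne
  push Not at hne
  let W := (evh h u0).range
  have hWU : ∀ w ∈ W, w ∈ Cm V h := by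
    rintro _ ⟨f, rfl⟩
    exact ev_mem h _ (fun u hu => Cm_comm (Commute.refl h) hu) f hu0
  have huW : u ∉ W := fun ⟨f, hf⟩ => hne f hf
  have hhW : ∀ w ∈ W, h • w ∈ W := by
    rintro _ ⟨f, rfl⟩
    exact ⟨X * f, by simp only [evh, AddMonoidHom.mk'_apply]; rw [ev_mul, ev_X]⟩
  have hpW : ∀ n : ℕ, ∀ w ∈ W, h ^ n • w ∈ W := by
    intro n w hw
    induction n with
    | zero => simpa using hw
    | succ n ih => rw [pow_succ', mul_smul]; exact hhW _ ih
  have hzW : ∀ l ∈ Subgroup.zpowers h, ∀ w ∈ W, l • w ∈ W := by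
    intro l hl w hw
    obtain ⟨n, rfl⟩ := (mem_powers_iff_mem_zpowers.2 hl)
    exact hpW n w hw
  have hinvp : h⁻¹ = h ^ (orderOf h - 1) := by
    rw [inv_eq_iff_mul_eq_one, ← pow_succ', Nat.sub_add_cancel (orderOf_pos h), pow_orderOf_eq_one]
  have hcm : ∀ a b : H, a * h = h⁻¹ * a → b * h = h⁻¹ * b → Commute (a * b) h := by
    intro a b ha hb
    have : a * h⁻¹ = h * a := by
      rw [mul_inv_eq_iff_eq_mul, mul_assoc, ha, mul_inv_cancel_left]
    rw [Commute, SemiconjBy, mul_assoc, hb, ← mul_assoc, this, mul_assoc]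
  obtain ⟨s0, hs0, f0, q0, i0⟩ := M.inv hK h2 hu0 h0
  have hs0W : ∀ w ∈ W, s0 • w ∈ W := by
    rintro _ ⟨f, rfl⟩
    refine ⟨f.comp (X ^ (orderOf h - 1)), ?_⟩
    simp only [evh, AddMonoidHom.mk'_apply]
    rw [ev_comp, ← hinvp, ev_conj i0, f0]
  have hsW : ∀ s ∈ fxr H C, s * h = h⁻¹ * s → ∀ w ∈ W, s • w ∈ W := by
    intro s hs i w hw
    have := hzW _ (hL _ (mul_mem hs hs0) (hcm _ _ i i0)) _ (hs0W w hw)
    rwa [← mul_smul, mul_assoc, q0, mul_one] at this
  have hne0 : ∀ w ∈ W, u + w ≠ 0 := fun w hw e =>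
    huW (by rw [eq_neg_of_add_eq_zero_left e]; exact neg_mem hw)
  obtain ⟨s, hs, f1, q1, i1⟩ := M.inv hK h2 hu (by simpa using hne0 0 (zero_mem _))
  have key : ∀ w ∈ W, s • w = w := by
    intro w hw
    obtain ⟨t, ht, f2, q2, i2⟩ := M.inv hK h2 (add_mem hu (hWU w hw)) (hne0 w hw)
    have hl := hcm _ _ i1 i2
    have hlK := mul_mem hs ht
    have hlz := hL _ hlK hl
    have hd : (s * t) • u - u ∈ W := by
      have e : t • u = u + (w - t • w) := by
        rw [smul_add] at f2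
        rw [← add_sub_assoc, ← f2]; abel
      rw [mul_smul, e, smul_add, f1, add_sub_cancel_left]
      exact hsW s hs i1 _ (sub_mem hw (hsW t ht i2 w hw))
    have hl1 : s * t = 1 := by
      by_contra hl1
      let f : W → W := fun w => ⟨(s * t) • w.1 - w.1, sub_mem (hzW _ hlz _ w.2) w.2⟩
      have hinj : Function.Injective f := by
        intro a b hab
        have h' : (s * t) • a.1 - a.1 = (s * t) • b.1 - b.1 := congrArg Subtype.val hab
        by_contra hab'
        refine hl1 (M.c2 hlK hK hl h2 (a := a.1 - b.1) (fun hC => hab' (Subtype.ext (sub_eq_zero.1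
          (M.cm_disj hK h2 (hWU _ (sub_mem a.2 b.2)) hC)))) ?_)
        rw [smul_sub]
        have e : (s * t) • a.1 - (s * t) • b.1
          = ((s * t) • a.1 - a.1) - ((s * t) • b.1 - b.1) + (a.1 - b.1) := by abel
        rw [e, h']; abel
      obtain ⟨w', hw'⟩ := Finite.surjective_of_injective hinj ⟨_, hd⟩
      have h' : (s * t) • w'.1 - w'.1 = (s * t) • u - u := congrArg Subtype.val hw'
      refine hl1 (M.c2 hlK hK hl h2 (a := u + -w'.1) (fun hC => hne0 _ (neg_mem w'.2)
        (M.cm_disj hK h2 (add_mem hu (hWU _ (neg_mem w'.2))) hC)) ?_)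
      rw [smul_add, smul_neg]
      have e : (s * t) • u + -((s * t) • w'.1)
          = ((s * t) • u - u) - ((s * t) • w'.1 - w'.1) + (u + -w'.1) := by abel
      rw [e, h']; abel
    have hts : t = s := by
      rw [← inv_eq_of_mul_eq_one_right hl1, inv_eq_of_mul_eq_one_right q1]
    rw [hts, smul_add, f1] at f2
    exact add_left_cancel f2
  have hu0W : u0 ∈ W := ⟨1, ev_one h u0⟩
  have e1 := key _ (hhW _ hu0W)
  rw [← mul_smul, i1, mul_smul, key _ hu0W, inv_smul_eq_iff] at e1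
  exact h0 (M.cm_disj hK h2 hu0 (M.sq_fix hK h2 e1.symm))

end Mx

end Cfsg.Agent.H13.Bin
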