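import Cfsg.Agent.H13.Bin3

set_option autoImplicit false
set_option linter.unusedSectionVars false

namespace Cfsg.Agent.H13.Bin

open Polynomial

variable {H V : Type*} [Group H] [AddCommGroup V] [DistribMulAction H V]

/-- an anisotropic plane complementing `C` -/
structure PL (H : Type*) [Group H] [DistribMulAction H V] (C : AddSubgroup V)
    (E : Type) [Field E] where
  σ : E →+* E
  ι : E →+ V
  inj : Function.Injective ι
  dec : ∀ v, ∃ x, ∃ c ∈ C, v = ι x + c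
  disj : ∀ x, ι x ∈ C → x = 0
  σσ : ∀ x, σ (σ x) = x
  η : E
  hη : η * σ η = 1
  hη2 : σ η ≠ η
  refl : ∀ b : E, b ≠ 0 → ∃ r ∈ fxr H C, ∀ x, r • ι x = ι (b / σ b * σ x)

variable [FaithfulSMul H V] [Finite V] [Finite H] {C : AddSubgroup V}

theorem Mx.exists_PL (M : Mx H C) {h0 : H} (hK0 : h0 ∈ fxr H C) (h02 : h0 * h0 ≠ 1) :
    ∃ (E : Type) (_ : Field E), Nonempty (PL H C E) := by
  classical
  obtain ⟨h, hK, h2, hL⟩ := M.exists_h hK0 h02
  obtain ⟨u0, hu0, hu0'⟩ : ∃ u ∈ Cm V h, u ≠ 0 := by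
    by_contra hc
    push Not at hc
    apply h2
    have : h = 1 := eq_one_of (V := V) fun v => sub_eq_zero.1 (hc _ (mem_Cm.2 ⟨v, rfl⟩))
    rw [this, one_mul]
  let I : Ideal ℤ[X] :=
    { carrier := {f | ev h f u0 = 0}
      zero_mem' := by simp [ev]
      add_mem' := fun {a b} ha hb => by
        simp only [Set.mem_setOf_eq] at *
        rw [ev_add, ha, hb, add_zero]
      smul_mem' := fun c a ha => by
        simp only [Set.mem_setOf_eq] at *
        rw [smul_eq_mul, ev_mul, ha, ev_zero] }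
  have hI : ∀ f, f ∈ I ↔ ev h f u0 = 0 := fun f => Iff.rfl
  have hUm : ∀ f, ev h f u0 ∈ Cm V h := fun f =>
    ev_mem h _ (fun u hu => Cm_comm (Commute.refl h) hu) f hu0
  haveI hP : I.IsPrime := by
    refine ⟨fun e => hu0' ?_, fun {f g} hfg => ?_⟩
    · have : (1 : ℤ[X]) ∈ I := e ▸ Submodule.mem_top
      rwa [hI, ev_one] at this
    · by_contra hc
      push Not at hc
      obtain ⟨r, hr⟩ := M.irr hK h2 hL (hUm g) hc.2 hu0
      apply hc.1
      rw [hI, ← hr, ← ev_mul, mul_comm, ev_mul, ← ev_mul h f, (hI _).1 hfg, ev_zero]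
  let ι : (ℤ[X] ⧸ I) →+ V := QuotientAddGroup.lift I.toAddSubgroup (evh h u0) (fun f hf => hf)
  have hι : ∀ f, ι (Ideal.Quotient.mk I f) = ev h f u0 := fun f => rfl
  have hinj : Function.Injective ι := by
    rw [injective_iff_map_eq_zero]
    intro a ha
    obtain ⟨f, rfl⟩ := Ideal.Quotient.mk_surjective a
    exact Ideal.Quotient.eq_zero_iff_mem.2 ha
  have hιm : ∀ f x, ι (Ideal.Quotient.mk I f * x) = ev h f (ι x) := by
    intro f x
    obtain ⟨g, rfl⟩ := Ideal.Quotient.mk_surjective x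
    rw [← map_mul, hι, hι, ev_mul]
  haveI : Finite (ℤ[X] ⧸ I) := Finite.of_injective ι hinj
  have hinvp : h⁻¹ = h ^ (orderOf h - 1) := by
    rw [inv_eq_iff_mul_eq_one, ← pow_succ', Nat.sub_add_cancel (orderOf_pos h), pow_orderOf_eq_one]
  obtain ⟨s0, hs0, f0, q0, i0⟩ := M.inv hK h2 hu0 hu0'
  let σ : (ℤ[X] ⧸ I) →+* (ℤ[X] ⧸ I) := Ideal.Quotient.lift I
    ((Ideal.Quotient.mk I).comp (compRingHom (X ^ (orderOf h - 1)))) (by
      intro f hf
      apply Ideal.Quotient.eq_zero_iff_mem.2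
      rw [hI, coe_compRingHom_apply, ev_comp, ← hinvp, ← f0, ← ev_conj i0, (hI _).1 hf, smul_zero])
  have hσ : ∀ f, σ (Ideal.Quotient.mk I f) = Ideal.Quotient.mk I (f.comp (X ^ (orderOf h - 1))) :=
    fun f => rfl
  have hsemi : ∀ g : H, g * h = h⁻¹ * g → ∀ b, g • ι b = ι b → ∀ a, g • ι (a * b) = ι (σ a * b) := by
    intro g i b hb a
    obtain ⟨f, rfl⟩ := Ideal.Quotient.mk_surjective a
    rw [hσ, hιm, hιm, ev_conj i, hb, ev_comp, ← hinvp]
  have hι1 : ι 1 = u0 := by rw [← map_one (Ideal.Quotient.mk I), hι, ev_one]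
  have hs0x : ∀ a, s0 • ι a = ι (σ a) := fun a => by
    simpa using hsemi s0 i0 1 (by rw [hι1, f0]) a
  have hhx : ∀ a, h • ι a = ι (Ideal.Quotient.mk I X * a) := fun a => by rw [hιm, ev_X]
  have hιU : ∀ a, ι a ∈ Cm V h := fun a => by
    obtain ⟨f, rfl⟩ := Ideal.Quotient.mk_surjective a
    exact hUm f
  have hση : ι (σ (Ideal.Quotient.mk I X)) = h⁻¹ • u0 := by
    rw [← hs0x, hι, ev_X, ← mul_smul, i0, mul_smul, f0]
  letI : Field (ℤ[X] ⧸ I) := (Finite.isField_of_domain (ℤ[X] ⧸ I)).toField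
  refine ⟨ℤ[X] ⧸ I, inferInstance, ⟨⟨σ, ι, hinj, ?_, ?_, ?_, Ideal.Quotient.mk I X, ?_, ?_, ?_⟩⟩⟩
  · intro v
    obtain ⟨u, hu, c, hc, rfl⟩ := M.dec hK h2 v
    obtain ⟨f, hf⟩ := M.irr hK h2 hL hu0 hu0' hu
    exact ⟨Ideal.Quotient.mk I f, c, hc, by rw [hι, hf]⟩
  · intro x hx
    apply hinj
    rw [M.cm_disj hK h2 (hιU x) hx, map_zero]
  · intro x
    apply hinj
    rw [← hs0x, ← hs0x, ← mul_smul, q0, one_smul]
  · apply hinj
    rw [← hhx, hση, smul_inv_smul, hι1]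
  · intro e
    rw [e, hι, ev_X, eq_inv_smul_iff] at hση
    exact hu0' (M.cm_disj hK h2 hu0 (M.sq_fix hK h2 hση))
  · intro b hb
    obtain ⟨r, hr, f1, -, i1⟩ := M.inv hK h2 (hιU b) (fun e => hb (hinj (by rw [e, map_zero])))
    refine ⟨r, hr, fun x => ?_⟩
    have := hsemi r i1 b f1 (x / b)
    rw [div_mul_cancel₀ _ hb, map_div₀] at this
    rw [this]; congr 1; ring

namespace PL

variable {E : Type} [Field E] (P : PL H C E)

include P in
theorem finite : Finite E := Finite.of_injective P.ι P.inj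

theorem σ_ne {b : E} (hb : b ≠ 0) : P.σ b ≠ 0 := (map_ne_zero P.σ).2 hb

theorem ext {a b : H} (ha : a ∈ fxr H C) (hb : b ∈ fxr H C) (h : ∀ x, a • P.ι x = b • P.ι x) :
    a = b := by
  apply FaithfulSMul.eq_of_smul_eq_smul (α := V)
  intro v
  obtain ⟨x, c, hc, rfl⟩ := P.dec v
  rw [smul_add, smul_add, h, ha c hc, hb c hc]

theorem h90 {l : E} (hl : l * P.σ l = 1) : ∃ b, b ≠ 0 ∧ b / P.σ b = l := by
  have hl0 : l ≠ 0 := left_ne_zero_of_mul_eq_one hl
  by_cases e : 1 + l = 0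
  · have hd : P.η - P.σ P.η ≠ 0 := sub_ne_zero.2 P.hη2.symm
    refine ⟨_, hd, ?_⟩
    rw [map_sub, P.σσ, div_eq_iff (sub_ne_zero.2 P.hη2)]
    linear_combination (-(P.σ P.η - P.η)) * e
  · refine ⟨_, e, ?_⟩
    rw [div_eq_iff (P.σ_ne e), map_add, map_one]
    linear_combination -hl

theorem refl' {l : E} (hl : l * P.σ l = 1) : ∃ r ∈ fxr H C, ∀ x, r • P.ι x = P.ι (l * P.σ x) := by
  obtain ⟨b, hb, rfl⟩ := P.h90 hl
  exact P.refl b hb

theorem rot {l : E} (hl : l * P.σ l = 1) : ∃ r ∈ fxr H C, ∀ x, r • P.ι x = P.ι (l * x) := by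
  obtain ⟨r, hr, e⟩ := P.refl' hl
  obtain ⟨s, hs, e'⟩ := P.refl' (l := 1) (by simp)
  exact ⟨r * s, mul_mem hr hs, fun x => by rw [mul_smul, e', one_mul, e, P.σσ]⟩

theorem nrm_div (b : E) (hb : b ≠ 0) : b / P.σ b * P.σ (b / P.σ b) = 1 := by
  have := P.σ_ne hb
  rw [map_div₀, P.σσ]; field_simp

theorem rel_of_nrm {u v : E} (h : u * P.σ u = v * P.σ v) : ∃ k ∈ fxr H C, k • P.ι u = P.ι v := by
  by_cases hu : u = 0
  · subst hu
    have : v = 0 := by
      by_contra hv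
      exact mul_ne_zero hv (P.σ_ne hv) (by rw [← h, zero_mul])
    exact ⟨1, one_mem _, by rw [this, one_smul]⟩
  · have := P.σ_ne hu
    obtain ⟨r, hr, e⟩ := P.rot (l := v / u) (by rw [map_div₀]; field_simp; exact h.symm)
    exact ⟨r, hr, by rw [e, div_mul_cancel₀ _ hu]⟩

theorem sq_ne {k : H} {l : E} (hk : ∀ x, k • P.ι x = P.ι (l * x)) (hl : l * l ≠ 1) : k * k ≠ 1 := by
  intro e
  have := hk l
  rw [← mul_one l, ← hk, ← mul_smul, e, one_smul, mul_one] at this
  exact hl (P.inj this).symm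

theorem nrm_odd (M : Mx H C) (ho : ∀ v : V, v + v = 0 → v = 0) {k : H} (hk : k ∈ fxr H C)
    {u v : E} {c : V} (hc : c ∈ C) (e : k • P.ι u = P.ι v + c) : u * P.σ u = v * P.σ v := by
  have h2 : ∀ x : E, 2 * x = 0 → x = 0 := fun x hx => P.inj (by
    rw [map_zero]; apply ho; rw [← map_add, ← two_mul, hx, map_zero])
  obtain ⟨z, hz, ez⟩ := P.rot (l := -1) (by simp)
  simp only [neg_mul, one_mul, map_neg] at ez
  have pres : ∀ k ∈ fxr H C, ∀ u v c, c ∈ C → k • P.ι u = P.ι v + c → c = 0 := by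
    intro k hk u v c hc e
    obtain ⟨h, hK, hh⟩ := M.binK.shift (-(c + c))
    have e0 : k⁻¹ • (P.ι v + c) = P.ι u := by rw [← e, inv_smul_smul]
    have e1 : (k * z * k⁻¹) • (P.ι v + c) = -(P.ι v + c) := by
      rw [mul_smul, mul_smul, e0, ez, smul_neg, e]
    have a1 := hh (P.ι v + c) ⟨z * (k * z * k⁻¹), mul_mem hz (mul_mem (mul_mem hk hz) (inv_mem hk)),
      by rw [mul_smul, e1, smul_neg, smul_add, ez, hz c hc]; abel⟩
    have a2 := hh (-P.ι v + c) ⟨(k * z * k⁻¹) * z, mul_mem (mul_mem (mul_mem hk hz) (inv_mem hk)) hz,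
      by rw [mul_smul, smul_add z, smul_neg, ez, hz c hc, neg_neg, e1]; abel⟩
    have a3 := hK _ (add_mem hc hc)
    have e3 : c + c = (P.ι v + c) + (-P.ι v + c) := by abel
    rw [e3, smul_add, a1, a2] at a3
    apply ho; apply ho
    have e4 : c + c + (c + c) = (P.ι v + c + (-P.ι v + c)) -
      (P.ι v + c + -(c + c) + (-P.ι v + c + -(c + c))) := by abel
    rw [e4, a3, sub_self]
  have zc : ∀ k ∈ fxr H C, Commute k z := by
    intro k hk
    apply P.ext (mul_mem hk hz) (mul_mem hz hk)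
    intro x
    obtain ⟨y, c, hc, e⟩ := P.dec (k • P.ι x)
    have := pres k hk x y c hc e
    rw [mul_smul, mul_smul, ez, smul_neg, e, this, add_zero, ez]
  have := pres k hk u v c hc e
  subst this
  rw [add_zero] at e
  have key : ∀ u v : E, (∃ k ∈ fxr H C, k • P.ι u = P.ι v) → v * P.σ u ≠ P.σ v * u →
      u * P.σ u = v * P.σ v := by
    intro u v huv hnp
    by_contra hN
    obtain ⟨t, ht, t1, t2⟩ := M.binK.swap huv
    have hx : u + v ≠ 0 := by
      intro e; apply hN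
      rw [eq_neg_of_add_eq_zero_left e, map_neg]; ring
    have hy : u - v ≠ 0 := by
      intro e; apply hN
      rw [sub_eq_zero.1 e]
    have tx : t • P.ι (u + v) = P.ι (u + v) := by rw [map_add, smul_add, t1, t2, add_comm]
    have ty : (z * t) • P.ι (u - v) = P.ι (u - v) := by
      rw [mul_smul, map_sub, smul_sub t, t1, t2, smul_sub, ez, ez]; abel
    obtain ⟨rx, hrx, ex⟩ := P.refl _ hx
    obtain ⟨ry, hry, ey⟩ := P.refl _ hy
    have sx := P.σ_ne hx
    have sy := P.σ_ne hy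
    have c1 : Commute t rx := M.comm_of_fix ht hrx (fun h => hx (P.disj _ h)) tx
      (by rw [ex, div_mul_cancel₀ _ sx])
    have c2 : Commute (z * t) ry := M.comm_of_fix (mul_mem hz ht) hry (fun h => hy (P.disj _ h)) ty
      (by rw [ey, div_mul_cancel₀ _ sy])
    have c3 : Commute t ry := by
      have := (zc ry hry).symm.inv_left.mul_left c2
      rwa [inv_mul_cancel_left] at this
    have hsq : (rx * ry) * (rx * ry) ≠ 1 := by
      apply P.sq_ne (l := (u + v) / P.σ (u + v) * (P.σ (u - v) / (u - v)))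
      · intro x
        rw [mul_smul, ey, ex, map_mul P.σ, map_div₀ P.σ, P.σσ, P.σσ, mul_assoc]
      · intro e
        field_simp at e
        simp only [map_add, map_sub] at e
        have : (2 * (u * P.σ u - v * P.σ v)) * (2 * (v * P.σ u - P.σ v * u)) = 0 := by
          linear_combination e
        rcases mul_eq_zero.1 this with e | e
        · exact hN (sub_eq_zero.1 (h2 _ e))
        · exact hnp (sub_eq_zero.1 (h2 _ e))
    have := M.c2 ht (mul_mem hrx hry) (c1.mul_right c3) hsq (fun h => hx (P.disj _ h)) tx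
    rw [this, one_smul] at t1
    exact hN (by rw [P.inj t1])
  by_cases hp : v * P.σ u = P.σ v * u
  · by_cases hu : u = 0
    · subst hu
      rw [map_zero, smul_zero, eq_comm, ← map_zero P.ι] at e
      rw [P.inj e]
    by_cases hv : v = 0
    · subst hv
      rw [map_zero, smul_eq_zero_iff_eq, ← map_zero P.ι] at e
      exact absurd (P.inj e) hu
    obtain ⟨r, hr, er⟩ := P.rot P.hη
    rw [key u (P.η * v) ⟨r * k, mul_mem hr hk, by rw [mul_smul, e, er]⟩ ?_, map_mul]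
    · linear_combination (v * P.σ v) * P.hη
    · rw [map_mul, mul_assoc, hp, mul_assoc]
      intro e
      exact P.hη2 (mul_right_cancel₀ (mul_ne_zero (P.σ_ne hv) hu) e).symm
  · exact key u v ⟨k, hk, e⟩ hp

end PL

end Cfsg.Agent.H13.Bin
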