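import Cfsg.Agent.H13.Bin4

set_option autoImplicit false
set_option linter.unusedSectionVars false

namespace Cfsg.Agent.H13.Bin

variable {H V : Type*} [Group H] [AddCommGroup V] [DistribMulAction H V]
variable [FaithfulSMul H V] [Finite V] [Finite H] {C : AddSubgroup V}

namespace PL

variable {E : Type} [Field E] (P : PL H C E)

theorem uniq {a b : E} {c d : V} (hc : c ∈ C) (hd : d ∈ C) (e : P.ι a + c = P.ι b + d) : a = b := by
  apply sub_eq_zero.1
  apply P.disj
  rw [map_sub]
  have : P.ι a - P.ι b = (P.ι a + c) - (P.ι b + d) + (d - c) := by abel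
  rw [this, e, sub_self, zero_add]
  exact sub_mem hd hc

theorem exists_bar (k : H) : ∃ τ : E →+ E, ∀ x, ∃ c ∈ C, k • P.ι x = P.ι (τ x) + c := by
  choose f g hg e using fun x => P.dec (k • P.ι x)
  refine ⟨AddMonoidHom.mk' f fun a b => ?_, fun x => ⟨g x, hg x, e x⟩⟩
  apply P.uniq (hg (a + b)) (add_mem (hg a) (hg b))
  rw [← e, map_add, smul_add, e, e, map_add]; abel

include P in
theorem two (he : ∀ v : V, v + v = 0) : (2 : E) = 0 := by
  apply P.inj
  rw [← one_add_one_eq_two, map_add, he, map_zero]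

theorem even_line (M : Mx H C) (he : ∀ v : V, v + v = 0) {t : H} (ht : t ∈ fxr H C)
    (htt : t * t = 1) (h1 : t ≠ 1) {w w' : E} {c c' : V} (hc : c ∈ C) (hc' : c' ∈ C)
    (e : t • P.ι w = P.ι w + c) (e' : t • P.ι w' = P.ι w' + c') : w * P.σ w' = P.σ w * w' := by
  have A : ∀ w : E, w ≠ 0 → ∀ c ∈ C, t • P.ι w = P.ι w + c → ∀ r ∈ fxr H C,
      (∀ x, r • P.ι x = P.ι (w / P.σ w * P.σ x)) → Commute t r := by
    intro w hw c hc e r hr er
    have f1 : r • P.ι w = P.ι w := by rw [er, div_mul_cancel₀ _ (P.σ_ne hw)]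
    have hn : P.ι w ∉ C := fun h => hw (P.disj _ h)
    have hrr := M.el r hr _ hn f1
    have f2 : (t * r * t) • P.ι w = P.ι w := by
      rw [mul_smul, mul_smul, e, smul_add, f1, hr c hc, smul_add, e, ht c hc, add_assoc, he, add_zero]
    have hcm := M.comm_of_fix hr (mul_mem (mul_mem ht hr) ht) hn f1 f2
    refine comm_of_sq htt hrr (M.bin.no4 he ?_)
    calc t * r * (t * r) * (t * r * (t * r)) = ((t * r * t) * r) * ((t * r * t) * r) := by group
      _ = (r * (t * r * t)) * ((t * r * t) * r) := by rw [hcm.eq]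
      _ = r * (t * (r * (t * t) * r) * t) * r := by group
      _ = 1 := by rw [htt, mul_one, hrr, mul_one, htt, mul_one, hrr]
  by_cases hw : w = 0
  · simp [hw]
  by_cases hw' : w' = 0
  · simp [hw']
  by_contra hne
  obtain ⟨r, hr, er⟩ := P.refl _ hw
  obtain ⟨r', hr', er'⟩ := P.refl _ hw'
  have s1 := P.σ_ne hw
  have s2 := P.σ_ne hw'
  refine h1 (M.c2e he ht (mul_mem hr hr') ((A w hw c hc e r hr er).mul_right
    (A w' hw' c' hc' e' r' hr' er')) ?_ htt)
  apply P.sq_ne (l := w / P.σ w * (P.σ w' / w'))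
  · intro x
    rw [mul_smul, er', er, map_mul P.σ, map_div₀ P.σ, P.σσ, P.σσ, mul_assoc]
  · intro e
    field_simp at e
    apply hne
    apply sub_eq_zero.1
    apply pow_eq_zero_iff (two_ne_zero) |>.1
    linear_combination e + (P.σ w ^ 2 * w' ^ 2 - w * P.σ w' * P.σ w * w') * P.two he

theorem nrm_even (M : Mx H C) (he : ∀ v : V, v + v = 0) {k : H} (hk : k ∈ fxr H C)
    {u v : E} {c : V} (hc : c ∈ C) (e : k • P.ι u = P.ι v + c) : u * P.σ u = v * P.σ v := by
  haveI := P.finite
  have h2 := P.two he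
  by_cases hu : u = 0
  · subst hu
    rw [map_zero, smul_zero] at e
    rw [P.disj v (by rw [eq_neg_of_add_eq_zero_left e.symm]; exact neg_mem hc)]
  by_cases hv : v = 0
  · subst hv
    rw [map_zero, zero_add, smul_eq_iff_eq_inv_smul, inv_mem hk c hc] at e
    exact absurd (P.disj u (e ▸ hc)) hu
  by_contra hN
  have hinj : Function.Injective (fun x : E => x * x) := by
    intro a b h
    simp only at h
    apply sub_eq_zero.1
    apply pow_eq_zero_iff (two_ne_zero) |>.1
    linear_combination h + (b * b - a * b) * h2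
  have su := P.σ_ne hu
  obtain ⟨m, hm⟩ := Finite.surjective_of_injective hinj (v * P.σ v / (u * P.σ u))
  simp only at hm
  have hσm : P.σ m = m := by
    apply hinj
    simp only
    rw [← map_mul, hm, map_div₀, map_mul, map_mul, P.σσ, P.σσ, mul_comm (P.σ v), mul_comm (P.σ u)]
  obtain ⟨r, hr, er⟩ := P.rel_of_nrm (u := v) (v := m * u) (by
    rw [map_mul, hσm, mul_mul_mul_comm, hm, div_mul_cancel₀ _ (mul_ne_zero hu su)])
  obtain ⟨t, ht, t1, t2⟩ := M.binK.swap (u := P.ι u) (v := P.ι (m * u) + c)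
    ⟨r * k, mul_mem hr hk, by rw [mul_smul, e, smul_add, er, hr c hc]⟩
  have hm1 : m ≠ 1 := by
    rintro rfl
    rw [one_mul, eq_div_iff (mul_ne_zero hu su), one_mul] at hm
    exact hN hm
  have hw0 : (1 + m) * u ≠ 0 := mul_ne_zero (fun e => hm1 (by linear_combination e - h2)) hu
  have t3 : t • (P.ι ((1 + m) * u) + c) = P.ι ((1 + m) * u) + c := by
    rw [add_mul, one_mul, map_add, add_assoc, smul_add, t1, t2, add_comm]
  have htt := M.el t ht _ (fun h => hw0 (P.disj _ ((add_mem_cancel_right hc).1 h))) t3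
  have t4 : t • P.ι ((1 + m) * u) = P.ι ((1 + m) * u) + 0 := by
    rw [smul_add, ht c hc] at t3
    rw [add_right_cancel t3, add_zero]
  have ht1 : t ≠ 1 := by
    rintro rfl
    rw [one_smul, ← add_zero (P.ι u)] at t1
    have := P.uniq (zero_mem _) hc t1
    exact hm1 (mul_right_cancel₀ hu (by rw [← this, one_mul]))
  obtain ⟨τ, hτ⟩ := P.exists_bar t
  have fixl : ∀ x, τ x = x → x * P.σ u = P.σ x * u := by
    intro x hx
    obtain ⟨c', hc', e'⟩ := hτ x
    rw [hx] at e'
    have := P.even_line M he ht htt ht1 hc' (zero_mem _) e' t4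
    rw [map_mul, map_add, map_one, hσm] at this
    apply mul_left_cancel₀ (left_ne_zero_of_mul hw0)
    linear_combination this
  have ττ : ∀ x, τ (τ x) = x := by
    intro x
    obtain ⟨c1, hc1, e1⟩ := hτ x
    obtain ⟨c2, hc2, e2⟩ := hτ (τ x)
    apply P.uniq (add_mem hc2 hc1) (zero_mem C)
    rw [← add_assoc, ← e2, ← ht c1 hc1, ← smul_add, ← e1, ← mul_smul, htt, one_smul, add_zero]
  have fixd : ∀ x, τ (τ x - x) = τ x - x := fun x => by
    rw [map_sub, ττ]; linear_combination (x - τ x) * h2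
  let f : {x : E // x * P.σ u = P.σ x * u} → {x : E // x * P.σ u = P.σ x * u} :=
    fun x => ⟨τ (P.η * x.1) - P.η * x.1, fixl _ (fixd _)⟩
  have finj : Function.Injective f := by
    intro a b h
    have h' : τ (P.η * a.1) - P.η * a.1 = τ (P.η * b.1) - P.η * b.1 := congrArg Subtype.val h
    have := fixl (P.η * (a.1 - b.1)) (by rw [mul_sub, map_sub]; linear_combination h')
    rw [map_mul, map_sub] at this
    have e3 : (P.σ P.η - P.η) * ((a.1 - b.1) * P.σ u) = 0 := by
      linear_combination -this + P.σ P.η * (a.2 - b.2)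
    rcases mul_eq_zero.1 e3 with e3 | e3
    · exact absurd (sub_eq_zero.1 e3) P.hη2
    · exact Subtype.ext (sub_eq_zero.1 ((mul_eq_zero.1 e3).resolve_right su))
  obtain ⟨x, hx⟩ := Finite.surjective_of_injective finj ⟨u, mul_comm _ _⟩
  have hx' : τ (P.η * x.1) - P.η * x.1 = u := congrArg Subtype.val hx
  have hτu : τ u = u := by rw [← hx', fixd]
  obtain ⟨c', hc', e'⟩ := hτ u
  rw [t1, hτu] at e'
  exact hm1 (mul_right_cancel₀ hu (by rw [P.uniq hc hc' e', one_mul]))

theorem full (M : Mx H C) {k : H} (hk : k ∈ fxr H C) : ∃ l : E, l * P.σ l = 1 ∧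
    ((∀ x, k • P.ι x = P.ι (l * x)) ∨ (∀ x, k • P.ι x = P.ι (l * P.σ x))) := by
  obtain ⟨τ, hτ⟩ := P.exists_bar k
  have hN : ∀ x, x * P.σ x = τ x * P.σ (τ x) := by
    intro x
    obtain ⟨c, hc, e⟩ := hτ x
    rcases M.par with he | ho
    · exact P.nrm_even M he hk hc e
    · exact P.nrm_odd M ho hk hc e
  have hl : τ 1 * P.σ (τ 1) = 1 := by rw [← hN, map_one, mul_one]
  have hor : ∀ x, τ x = τ 1 * x ∨ τ x = τ 1 * P.σ x := by
    intro x
    have e1 := hN (x + 1)
    simp only [map_add, map_one] at e1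
    have e2 := hN x
    have : (τ x - τ 1 * x) * (τ x - τ 1 * P.σ x) = 0 := by
      linear_combination (-(τ x * τ 1)) * e1 + (τ x * τ 1 + τ 1 ^ 2) * e2
        - (τ x * τ 1 + τ x ^ 2) * hl
    rcases mul_eq_zero.1 this with e | e
    · exact Or.inl (sub_eq_zero.1 e)
    · exact Or.inr (sub_eq_zero.1 e)
  have hor' : (∀ x, τ x = τ 1 * x) ∨ (∀ x, τ x = τ 1 * P.σ x) := by
    by_contra hc
    push Not at hc
    obtain ⟨⟨a, ha⟩, ⟨b, hb⟩⟩ := hc
    have e1 := (hor a).resolve_left ha
    have e2 := (hor b).resolve_right hb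
    rcases hor (a + b) with e | e
    · rw [map_add] at e
      exact ha (by linear_combination e - e2)
    · rw [map_add, map_add] at e
      exact hb (by linear_combination e - e1)
  have fin : ∀ r ∈ fxr H C, (∀ x, r • P.ι x = P.ι (τ x)) → ∀ x, k • P.ι x = P.ι (τ x) := by
    intro r hr er
    have hs := mul_mem (inv_mem hr) hk
    have es : ∀ x, ∃ c ∈ C, (r⁻¹ * k) • P.ι x = P.ι x + c := by
      intro x
      obtain ⟨c, hc, e⟩ := hτ x
      exact ⟨c, hc, by rw [mul_smul, e, ← er, smul_add, inv_smul_smul, inv_mem hr c hc]⟩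
    have hss : (r⁻¹ * k) * (r⁻¹ * k) = 1 := by
      by_contra h
      obtain ⟨c, hc, e⟩ := es 1
      exact one_ne_zero (P.disj 1 (M.ss hs h (by rw [e, add_sub_cancel_left]; exact hc)))
    have h1 : r⁻¹ * k = 1 := by
      rcases M.par with he | ho
      · by_contra h1
        obtain ⟨c, hc, e⟩ := es 1
        obtain ⟨c', hc', e'⟩ := es P.η
        have := P.even_line M he hs hss h1 hc hc' e e'
        rw [map_one, one_mul, one_mul] at this
        exact P.hη2 this
      · apply P.ext hs (one_mem _)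
        intro x
        obtain ⟨c, hc, e⟩ := es x
        have e2 : ((r⁻¹ * k) * (r⁻¹ * k)) • P.ι x = P.ι x + (c + c) := by
          rw [mul_smul, e, smul_add, e, hs c hc, add_assoc]
        rw [hss, one_smul, left_eq_add] at e2
        rw [e, ho c e2, add_zero, one_smul]
    rw [inv_mul_eq_one] at h1
    rw [← h1]; exact er
  refine ⟨τ 1, hl, ?_⟩
  rcases hor' with e | e
  · obtain ⟨r, hr, er⟩ := P.rot hl
    exact Or.inl fun x => by rw [fin r hr (fun x => by rw [er, e x]) x, e x]
  · obtain ⟨r, hr, er⟩ := P.refl' hl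
    exact Or.inr fun x => by rw [fin r hr (fun x => by rw [er, e x]) x, e x]

end PL

end Cfsg.Agent.H13.Bin
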