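import Cfsg.Agent.H13.Bin5

set_option autoImplicit false
set_option linter.unusedSectionVars false

namespace Cfsg.Agent.H13.Bin

variable {H V : Type*} [Group H] [AddCommGroup V] [DistribMulAction H V]

theorem card_mul_le [Finite V] {A B T : AddSubgroup V} (hA : A ≤ T) (hB : B ≤ T)
    (hd : ∀ v ∈ A, v ∈ B → v = 0) : Nat.card A * Nat.card B ≤ Nat.card T ∧
    (Nat.card T ≤ Nat.card A * Nat.card B → ∀ w ∈ T, ∃ x ∈ A, ∃ y ∈ B, w = x + y) := by
  let f : A × B → T := fun p => ⟨p.1.1 + p.2.1, add_mem (hA p.1.2) (hB p.2.2)⟩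
  have hinj : Function.Injective f := by
    rintro ⟨a, b⟩ ⟨a', b'⟩ h
    have h' : a.1 + b.1 = a'.1 + b'.1 := congrArg Subtype.val h
    have e : a.1 - a'.1 = b'.1 - b.1 := by
      rw [sub_eq_sub_iff_add_eq_add, h', add_comm]
    have h0 := hd _ (sub_mem a.2 a'.2) (e ▸ sub_mem b'.2 b.2)
    have h1 := h0
    rw [e] at h1
    exact Prod.ext (Subtype.ext (sub_eq_zero.1 h0)) (Subtype.ext (sub_eq_zero.1 h1).symm)
  refine ⟨by rw [← Nat.card_prod]; exact Nat.card_le_card_of_injective f hinj, fun hle w hw => ?_⟩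
  obtain ⟨p, hp⟩ := (hinj.bijective_of_nat_card_le (by rwa [Nat.card_prod])).2 ⟨w, hw⟩
  exact ⟨_, p.1.2, _, p.2.2, (congrArg Subtype.val hp).symm⟩

/-- points: involutions with centre of order `q` -/
def Pt (V : Type*) [AddCommGroup V] [DistribMulAction H V] (q : ℕ) (a : H) : Prop :=
  a * a = 1 ∧ Nat.card (Cm V a) = q

/-- points on the line with axis `C` -/
def On (q : ℕ) (C : AddSubgroup V) (a : H) : Prop := a ∈ fxr H C ∧ Pt V q a

structure Ln (H : Type*) [Group H] [DistribMulAction H V] (q : ℕ) (W C : AddSubgroup V) : Prop where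
  dec : ∀ v, ∃ w ∈ W, ∃ c ∈ C, v = w + c
  disj : ∀ w ∈ W, w ∈ C → w = 0
  card : Nat.card W = q * q
  cover : ∀ w ∈ W, w ≠ 0 → ∃ a : H, On q C a ∧ w ∈ Cm V a
  sub : ∀ a : H, On q C a → Cm V a ≤ W
  shift : ∀ a : H, On q C a → ∀ D ∈ Cm V a, D ≠ 0 → ∀ A, (∃ k : H, k • A = A + D) → a • A = A + D
  fix2 : ∀ a b : H, On q C a → On q C b → a ≠ b → ∀ v : V, a • v = v → b • v = v → v ∈ C
  nc : ∀ a b : H, On q C a → On q C b → ¬ Commute a b → ∀ v ∈ Cm V a, b • v = v → v = 0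
  ev : (∀ v : V, v + v = 0) → ∀ a b : H, On q C a → On q C b → Commute a b → a = b
  od : (∀ v : V, v + v = 0 → v = 0) → ∀ a : H, On q C a → ∃ b : H, On q C b ∧ b ≠ a ∧ Commute a b
  ncx : ∀ a : H, On q C a → ∃ b : H, On q C b ∧ ¬ Commute a b

variable [FaithfulSMul H V] [Finite V] [Finite H] {C : AddSubgroup V}

namespace PL

variable {E : Type} [Field E] (P : PL H C E)

/-- order of the fixed field -/
noncomputable def q : ℕ := Nat.card {x : E // P.σ x = x}

theorem card_E : Nat.card E = P.q * P.q := by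
  have hd : P.η - P.σ P.η ≠ 0 := sub_ne_zero.2 P.hη2.symm
  have hd' : P.σ P.η - P.η ≠ 0 := sub_ne_zero.2 P.hη2
  rw [q, ← Nat.card_prod]
  symm
  refine Nat.card_eq_of_bijective (fun p => p.1.1 + p.2.1 * P.η) ⟨?_, ?_⟩
  · rintro ⟨⟨a, ha⟩, ⟨b, hb⟩⟩ ⟨⟨c, hc⟩, ⟨d, hd2⟩⟩ h
    simp only at h
    have h' := congrArg P.σ h
    simp only [map_add, map_mul, ha, hb, hc, hd2] at h'
    have e : b = d := by
      apply mul_right_cancel₀ hd
      linear_combination h - h'
    subst e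
    have e : a = c := by linear_combination h
    subst e
    rfl
  · intro x
    have hb : P.σ ((x - P.σ x) / (P.η - P.σ P.η)) = (x - P.σ x) / (P.η - P.σ P.η) := by
      rw [map_div₀, map_sub, map_sub, P.σσ, P.σσ, div_eq_div_iff hd' hd]; ring
    refine ⟨⟨⟨x - (x - P.σ x) / (P.η - P.σ P.η) * P.η, ?_⟩, ⟨_, hb⟩⟩, by simp⟩
    rw [map_sub, map_mul, hb]
    field_simp; ring

theorem two_le_q : 2 ≤ P.q := by
  haveI := P.finite
  haveI : Nontrivial {x : E // P.σ x = x} := ⟨⟨⟨0, map_zero _⟩, ⟨1, map_one _⟩, by simp⟩⟩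
  exact Finite.one_lt_card

theorem card_W : Nat.card P.ι.range = P.q * P.q := by
  rw [← P.card_E]
  exact (Nat.card_congr (AddMonoidHom.ofInjective P.inj).toEquiv).symm

theorem mem_refl {a : H} (ha : a ∈ fxr H C) {l : E} (e : ∀ x, a • P.ι x = P.ι (l * P.σ x)) {v : V} :
    v ∈ Cm V a ↔ ∃ x, v = P.ι (l * P.σ x - x) := by
  constructor
  · rintro ⟨w, rfl⟩
    obtain ⟨x, c, hc, rfl⟩ := P.dec w
    exact ⟨x, by rw [dm_apply, smul_add, e, ha c hc, map_sub]; abel⟩
  · rintro ⟨x, rfl⟩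
    exact ⟨P.ι x, by rw [dm_apply, e, map_sub]⟩

theorem on_refl {a : H} (ha : a ∈ fxr H C) {l : E} (hl : l * P.σ l = 1)
    (e : ∀ x, a • P.ι x = P.ι (l * P.σ x)) : On P.q C a := by
  haveI := P.finite
  refine ⟨ha, P.ext (mul_mem ha ha) (one_mem _) fun x => ?_, ?_⟩
  · rw [mul_smul, e, e, map_mul P.σ, P.σσ, ← mul_assoc, hl, one_mul, one_smul]
  · let g : E →+ E := AddMonoidHom.mk' (fun x => l * P.σ x - x) (fun a b => by rw [map_add]; ring)
    have e1 : Cm V a = g.range.map P.ι := by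
      ext v
      rw [P.mem_refl ha e]
      constructor
      · rintro ⟨x, rfl⟩; exact ⟨_, ⟨x, rfl⟩, rfl⟩
      · rintro ⟨_, ⟨x, rfl⟩, rfl⟩; exact ⟨x, rfl⟩
    have e2 : Nat.card g.ker * Nat.card g.range = P.q * P.q := by
      rw [← AddSubgroup.index_ker, AddSubgroup.card_mul_index, P.card_E]
    obtain ⟨b, hb, rfl⟩ := P.h90 hl
    have sb := P.σ_ne hb
    have e3 : Nat.card g.ker = P.q := by
      symm
      refine Nat.card_eq_of_bijective (fun x => ⟨x.1 * b, ?_⟩) ⟨?_, ?_⟩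
      · change b / P.σ b * P.σ (x.1 * b) - x.1 * b = 0
        rw [map_mul, x.2]; field_simp; ring
      · intro x y h
        exact Subtype.ext (mul_right_cancel₀ hb (congrArg Subtype.val h))
      · rintro ⟨y, hy⟩
        have hy' : b / P.σ b * P.σ y - y = 0 := hy
        refine ⟨⟨y / b, ?_⟩, Subtype.ext (div_mul_cancel₀ _ hb)⟩
        rw [map_div₀]; field_simp at hy' ⊢; linear_combination hy'
    rw [e1, AddSubgroup.card_map_of_injective P.inj]
    rw [e3] at e2
    exact Nat.eq_of_mul_eq_mul_left (by have := P.two_le_q; omega) e2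

theorem refl_of_on (M : Mx H C) {a : H} (ha : On P.q C a) :
    ∃ l : E, l * P.σ l = 1 ∧ ∀ x, a • P.ι x = P.ι (l * P.σ x) := by
  obtain ⟨l, hl, e | e⟩ := P.full M ha.1
  · exfalso
    have h2 := P.two_le_q
    by_cases h1 : l = 1
    · have : Cm V a = ⊥ := by
        rw [eq_bot_iff]
        rintro _ ⟨w, rfl⟩
        obtain ⟨x, c, hc, rfl⟩ := P.dec w
        rw [dm_apply, smul_add, e, ha.1 c hc, h1, one_mul, sub_self]
        exact zero_mem _
      have h3 := ha.2.2
      rw [this, AddSubgroup.card_bot] at h3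
      omega
    · have : P.ι.range ≤ Cm V a := by
        rintro _ ⟨x, rfl⟩
        refine ⟨P.ι (x / (l - 1)), ?_⟩
        rw [dm_apply, e, ← map_sub]
        congr 1
        have := sub_ne_zero.2 h1
        field_simp
      have h3 := AddSubgroup.card_le_of_le this
      rw [P.card_W, ha.2.2] at h3
      nlinarith
  · exact ⟨l, hl, e⟩

theorem comm_iff {a b : H} (ha : a ∈ fxr H C) (hb : b ∈ fxr H C) {l m : E}
    (e : ∀ x, a • P.ι x = P.ι (l * P.σ x)) (e' : ∀ x, b • P.ι x = P.ι (m * P.σ x)) :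
    Commute a b ↔ l * P.σ m = m * P.σ l := by
  constructor
  · intro h
    have := congrArg (fun g : H => g • P.ι 1) h.eq
    simp only [mul_smul, e, e', map_one, mul_one] at this
    exact P.inj this
  · intro h
    apply P.ext (mul_mem ha hb) (mul_mem hb ha)
    intro x
    rw [mul_smul, mul_smul, e, e', e, e', map_mul P.σ, map_mul P.σ, ← mul_assoc, ← mul_assoc, h]

theorem ln (M : Mx H C) : Ln H P.q P.ι.range C where
  dec v := by
    obtain ⟨x, c, hc, e⟩ := P.dec v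
    exact ⟨_, ⟨x, rfl⟩, c, hc, e⟩
  disj := by
    rintro _ ⟨x, rfl⟩ h
    rw [P.disj x h, map_zero]
  card := P.card_W
  cover := by
    rintro _ ⟨y, rfl⟩ h0
    have hy : y ≠ 0 := fun e => h0 (by rw [e, map_zero])
    have sy := P.σ_ne hy
    have hl : -(y / P.σ y) * P.σ (-(y / P.σ y)) = 1 := by
      rw [map_neg, neg_mul_neg, P.nrm_div y hy]
    obtain ⟨r, hr, e⟩ := P.refl' hl
    refine ⟨r, P.on_refl hr hl e, (P.mem_refl hr e).2 ⟨y * (-P.η / (P.η - P.σ P.η)), ?_⟩⟩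
    congr 1
    have hd : P.η - P.σ P.η ≠ 0 := sub_ne_zero.2 P.hη2.symm
    have hd' : P.σ P.η - P.η ≠ 0 := sub_ne_zero.2 P.hη2
    rw [map_mul, map_div₀, map_neg, map_sub, P.σσ]
    field_simp; ring
  sub := by
    intro a ha v hv
    obtain ⟨l, hl, e⟩ := P.refl_of_on M ha
    obtain ⟨x, rfl⟩ := (P.mem_refl ha.1 e).1 hv
    exact ⟨_, rfl⟩
  shift := by
    intro a ha D hD h0 A ⟨k, hk⟩
    obtain ⟨l, hl, e⟩ := P.refl_of_on M ha
    obtain ⟨x, rfl⟩ := (P.mem_refl ha.1 e).1 hD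
    obtain ⟨h, -, hh⟩ := M.bin.shift (P.ι (l * P.σ x - x))
    have f : ∀ v : V, a • v = v → h • v = v := by
      intro v hv
      have e1 := hh (P.ι x) ⟨a, trivial, by rw [e, map_sub]; abel⟩
      have e2 := hh (P.ι x + v) ⟨a, trivial, by rw [smul_add, hv, e, map_sub]; abel⟩
      rw [smul_add, e1, add_right_comm] at e2
      exact add_left_cancel (add_right_cancel e2 : P.ι x + h • v = P.ι x + v)
    have hK : h ∈ fxr H C := fun c hc => f c (ha.1 c hc)
    obtain ⟨b, hb, rfl⟩ := P.h90 hl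
    have sb := P.σ_ne hb
    have fb := f (P.ι b) (by rw [e, div_mul_cancel₀ _ sb])
    have : h = a := by
      obtain ⟨m, hm, e' | e'⟩ := P.full M hK
      · exfalso
        rw [e'] at fb
        have hm1 : m = 1 := mul_right_cancel₀ hb (by rw [P.inj fb, one_mul])
        have e1 := hh (P.ι x) ⟨a, trivial, by rw [e, map_sub]; abel⟩
        rw [e', hm1, one_mul, left_eq_add] at e1
        exact h0 e1
      · rw [e'] at fb
        have hm1 : m = b / P.σ b := by rw [eq_div_iff sb, P.inj fb]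
        exact P.ext hK ha.1 fun x => by rw [e, e', hm1]
    rw [← this]
    exact hh A ⟨k, trivial, hk⟩
  fix2 := by
    intro a b ha hb hab v h1 h2
    obtain ⟨l, hl, e⟩ := P.refl_of_on M ha
    obtain ⟨m, hm, e'⟩ := P.refl_of_on M hb
    obtain ⟨x, c, hc, rfl⟩ := P.dec v
    rw [smul_add, e, ha.1 c hc] at h1
    rw [smul_add, e', hb.1 c hc] at h2
    by_cases hx : x = 0
    · rw [hx, map_zero, zero_add]; exact hc
    · exfalso
      have : l = m := mul_right_cancel₀ (P.σ_ne hx) (by rw [P.uniq hc hc h1, P.uniq hc hc h2])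
      exact hab (P.ext ha.1 hb.1 fun x => by rw [e, e', this])
  nc := by
    intro a b ha hb hab v h1 h2
    obtain ⟨l, hl, e⟩ := P.refl_of_on M ha
    obtain ⟨m, hm, e'⟩ := P.refl_of_on M hb
    obtain ⟨x, rfl⟩ := (P.mem_refl ha.1 e).1 h1
    rw [e'] at h2
    by_contra h0
    have hd : l * P.σ x - x ≠ 0 := fun e => h0 (by rw [e, map_zero])
    have : m = -l := by
      apply mul_right_cancel₀ (P.σ_ne hd)
      rw [P.inj h2, map_sub, map_mul, P.σσ]
      linear_combination x * hl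
    exact hab ((P.comm_iff ha.1 hb.1 e e').2 (by rw [this, map_neg]; ring))
  ev := by
    intro he a b ha hb hab
    obtain ⟨l, hl, e⟩ := P.refl_of_on M ha
    obtain ⟨m, hm, e'⟩ := P.refl_of_on M hb
    have h := (P.comm_iff ha.1 hb.1 e e').1 hab
    have : l = m := by
      apply sub_eq_zero.1
      apply pow_eq_zero_iff (two_ne_zero) |>.1
      linear_combination (l * m) * h - l ^ 2 * hm + m ^ 2 * hl + (m ^ 2 - l * m) * P.two he
    exact P.ext ha.1 hb.1 fun x => by rw [e, e', this]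
  od := by
    intro ho a ha
    obtain ⟨l, hl, e⟩ := P.refl_of_on M ha
    have hl' : -l * P.σ (-l) = 1 := by rw [map_neg, neg_mul_neg, hl]
    obtain ⟨r, hr, e'⟩ := P.refl' hl'
    refine ⟨r, P.on_refl hr hl' e', ?_, (P.comm_iff ha.1 hr e e').2 (by rw [map_neg]; ring)⟩
    rintro rfl
    have h1 := e 1
    rw [e', map_one, mul_one, mul_one, map_neg, neg_eq_iff_add_eq_zero] at h1
    have := P.inj ((ho _ h1).trans (map_zero P.ι).symm)
    rw [this, zero_mul] at hl
    exact zero_ne_one hl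
  ncx := by
    intro a ha
    obtain ⟨l, hl, e⟩ := P.refl_of_on M ha
    have hl' : l * P.η * P.σ (l * P.η) = 1 := by
      rw [map_mul, mul_mul_mul_comm, hl, P.hη, one_mul]
    obtain ⟨r, hr, e'⟩ := P.refl' hl'
    refine ⟨r, P.on_refl hr hl' e', fun h => P.hη2 ?_⟩
    have := (P.comm_iff ha.1 hr e e').1 h
    rw [map_mul] at this
    linear_combination this - (P.σ P.η - P.η) * hl

end PL

theorem Ln.cardV {q : ℕ} {W : AddSubgroup V} (L : Ln H q W C) :
    Nat.card V = q * q * Nat.card C := by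
  let f : W × C → V := fun p => p.1.1 + p.2.1
  have h := (card_mul_le (A := W) (B := C) (T := ⊤) le_top le_top L.disj).1
  rw [AddSubgroup.card_top, L.card] at h
  refine le_antisymm ?_ h
  rw [← L.card, ← Nat.card_prod]
  refine Nat.card_le_card_of_surjective f fun v => ?_
  obtain ⟨w, hw, c, hc, e⟩ := L.dec v
  exact ⟨(⟨w, hw⟩, ⟨c, hc⟩), e.symm⟩

structure Geo (H V : Type*) [Group H] [AddCommGroup V] [DistribMulAction H V] (q : ℕ) : Prop where
  bin : Bin (⊤ : Subgroup H) V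
  two_le : 2 ≤ q
  line : ∀ a b : H, Pt V q a → Pt V q b → ¬ Commute a b →
    ∃ W C : AddSubgroup V, Ln H q W C ∧ On q C a ∧ On q C b

theorem mx_of_max (hb : Bin (⊤ : Subgroup H) V)
    (par : (∀ v : V, v + v = 0) ∨ (∀ v : V, v + v = 0 → v = 0)) {n : ℕ}
    (hmax : ∀ k : H, k * k ≠ 1 → Nat.card (Fx V k) ≤ n) (hC : n ≤ Nat.card C) : Mx H C := by
  refine ⟨hb, fun k hk v hv e => ?_, par⟩
  by_contra h
  have hle : C ≤ Fx V k := fun c hc => mem_Fx.2 (hk c hc)
  have := AddSubgroup.eq_of_le_of_card_ge hle ((hmax k h).trans hC)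
  exact hv (this ▸ mem_Fx.2 e)

theorem geo_of_max (hb : Bin (⊤ : Subgroup H) V)
    (par : (∀ v : V, v + v = 0) ∨ (∀ v : V, v + v = 0 → v = 0)) {n q : ℕ} (hq : 2 ≤ q)
    (hmax : ∀ k : H, k * k ≠ 1 → Nat.card (Fx V k) ≤ n) (hV : Nat.card V = q * q * n) :
    Geo H V q := by
  refine ⟨hb, hq, fun a b ha hb' hab => ?_⟩
  have h2 : (a * b) * (a * b) ≠ 1 := fun e => hab (comm_of_sq ha.1 hb'.1 e)
  let C := Fx V a ⊓ Fx V b
  have hCa : a ∈ fxr H C := fun c hc => mem_Fx.1 hc.1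
  have hCb : b ∈ fxr H C := fun c hc => mem_Fx.1 hc.2
  have hn : n ≤ Nat.card C := by
    have e1 := AddSubgroup.card_mul_index C
    have e2 : C.index ≤ q * q := by
      refine (AddSubgroup.index_inf_le).trans ?_
      rw [AddSubgroup.index_ker, AddSubgroup.index_ker, ha.2, hb'.2]
    rw [hV] at e1
    by_contra hlt
    push Not at hlt
    have : Nat.card C * C.index < n * (q * q) :=
      lt_of_le_of_lt (Nat.mul_le_mul_left _ e2) (Nat.mul_lt_mul_of_pos_right hlt (by positivity))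
    rw [e1] at this
    nlinarith
  have M : Mx H C := mx_of_max hb par hmax hn
  obtain ⟨E, _, ⟨P⟩⟩ := M.exists_PL (mul_mem hCa hCb) h2
  have L := P.ln M
  have hn' : Nat.card C ≤ n := by
    refine le_trans (AddSubgroup.card_le_of_le ?_) (hmax _ h2)
    intro c hc
    exact mem_Fx.2 (mul_mem hCa hCb c hc)
  have e := L.cardV
  rw [hV, le_antisymm hn' hn] at e
  have hn0 : 0 < n := by rw [← le_antisymm hn' hn]; exact Nat.card_pos
  have e' : q = P.q := Nat.mul_self_inj.1 (Nat.eq_of_mul_eq_mul_right hn0 e)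
  rw [← e'] at L
  exact ⟨_, C, L, ⟨hCa, ha⟩, ⟨hCb, hb'⟩⟩

end Cfsg.Agent.H13.Bin
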