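import Cfsg.Agent.H13.Bin6

set_option autoImplicit false
set_option linter.unusedSectionVars false

namespace Cfsg.Agent.H13.Bin

theorem friendship {X : Type*} [Finite X] [Nonempty X] (r : X → X → Prop) (p : ℕ) [Fact p.Prime]
    (hs : ∀ a b, r a b → r b a) (hi : ∀ a, ¬ r a a)
    (hd : ∀ a, ((Nat.card {c // r a c} : ℕ) : ZMod p) = 1)
    (hc : ∀ a b, a ≠ b → ∃! c, r a c ∧ r b c) : False := by
  classical
  haveI := Fintype.ofFinite X
  let A : Matrix X X (ZMod p) := fun a b => if r a b then 1 else 0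
  let J : Matrix X X (ZMod p) := fun _ _ => 1
  have hd' : ∀ a, ∑ c, A a c = 1 := by
    intro a
    rw [← hd a, Nat.card_eq_fintype_card, Fintype.card_subtype]
    simp [A]
  have hAA : A * A = J := by
    ext a b
    rw [Matrix.mul_apply]
    by_cases hab : a = b
    · subst hab
      rw [show J a a = 1 from rfl, ← hd' a]
      refine Finset.sum_congr rfl fun c _ => ?_
      by_cases h : r a c
      · simp [A, h, hs _ _ h]
      · simp [A, h]
    · obtain ⟨c, ⟨h1, h2⟩, hu⟩ := hc a b hab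
      rw [Finset.sum_eq_single c]
      · simp [A, J, h1, hs _ _ h2]
      · intro d _ hdc
        by_cases h : r a d
        · have : ¬ r d b := fun h' => hdc (hu d ⟨h, hs _ _ h'⟩)
          simp [A, this]
        · simp [A, h]
      · simp
  have hAJ : A * J = J := by
    ext a b
    rw [Matrix.mul_apply]
    simp only [J, mul_one, hd']
  have hpow : ∀ k, A ^ (k + 2) = J := by
    intro k
    induction k with
    | zero => rw [zero_add, pow_two, hAA]
    | succ k ih => rw [add_right_comm, pow_succ', ih, hAJ]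
  have hn : (Fintype.card X : ZMod p) = 1 := by
    have e : J * J = J := by
      have := hpow 2
      rwa [pow_add, pow_two, hAA] at this
    obtain ⟨a⟩ := ‹Nonempty X›
    have := congrFun (congrFun e a) a
    rw [Matrix.mul_apply] at this
    simpa [J] using this
  have hp := (Fact.out : p.Prime).two_le
  have e := ZMod.trace_pow_card A
  obtain ⟨k, rfl⟩ := Nat.exists_eq_add_of_le' hp
  have t0 : A.trace = 0 := Finset.sum_eq_zero fun a _ => if_neg (hi a)
  rw [hpow, t0, zero_pow (by omega)] at e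
  have : J.trace = Fintype.card X := by
    change ∑ _a : X, (1 : ZMod (k + 2)) = _
    simp
  rw [this, hn] at e
  exact one_ne_zero e

variable {H V : Type*} [Group H] [AddCommGroup V] [DistribMulAction H V]
variable [FaithfulSMul H V] [Finite V] [Finite H] {q : ℕ} {W C W' C' : AddSubgroup V}

theorem Pt.neg {a : H} (ha : Pt V q a) {v : V} (hv : v ∈ Cm V a) : a • v = -v := by
  obtain ⟨w, rfl⟩ := mem_Cm.1 hv
  rw [smul_sub, ← mul_smul, ha.1, one_smul, neg_sub]

theorem Pt.ne (hq : 2 ≤ q) {a : H} (ha : Pt V q a) : ∃ v ∈ Cm V a, v ≠ 0 := by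
  by_contra h
  push Not at h
  have : Cm V a = ⊥ := eq_bot_iff.2 fun v hv => h v hv
  have h2 := ha.2
  rw [this, AddSubgroup.card_bot] at h2
  omega

theorem mem_Cm_conj {a g : H} {v : V} (hv : v ∈ Cm V a) : g • v ∈ Cm V (g * a * g⁻¹) := by
  obtain ⟨w, rfl⟩ := mem_Cm.1 hv
  exact mem_Cm.2 ⟨g • w, by rw [mul_smul, inv_smul_smul, mul_smul, smul_sub]⟩

theorem Pt.conj {a : H} (ha : Pt V q a) (g : H) : Pt V q (g * a * g⁻¹) := by
  refine ⟨by rw [conj_mul, ha.1]; simp, ?_⟩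
  rw [← ha.2]
  symm
  refine Nat.card_eq_of_bijective (fun v => ⟨g • v.1, mem_Cm_conj v.2⟩) ⟨?_, ?_⟩
  · intro x y h
    exact Subtype.ext (smul_left_cancel g (congrArg Subtype.val h))
  · rintro ⟨y, hy⟩
    have := mem_Cm_conj (g := g⁻¹) hy
    rw [show g⁻¹ * (g * a * g⁻¹) * g⁻¹⁻¹ = a by group] at this
    exact ⟨⟨_, this⟩, Subtype.ext (smul_inv_smul g y)⟩

namespace Ln

theorem meet (L : Ln H q W C) (hq : 2 ≤ q) {a b : H} (ha : On q C a) (hb : Pt V q b) {D : V}
    (h1 : D ∈ Cm V a) (h2 : D ∈ Cm V b) (h0 : D ≠ 0) : b = a := by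
  obtain ⟨A, hA⟩ := mem_Cm.1 h2
  have e1 := L.shift a ha D h1 h0 A ⟨b, by rw [← hA]; abel⟩
  have hle : Fx V b ≤ Fx V a := by
    intro v hv
    have e2 := L.shift a ha D h1 h0 (A + v) ⟨b, by rw [smul_add, mem_Fx.1 hv, ← hA]; abel⟩
    rw [smul_add, e1, add_right_comm] at e2
    exact mem_Fx.2 (add_left_cancel (add_right_cancel e2 : A + a • v = A + v))
  have ca := card_Fx_Cm (V := V) a
  have cb := card_Fx_Cm (V := V) b
  rw [ha.2.2] at ca
  rw [hb.2, ← ca] at cb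
  have heq := AddSubgroup.eq_of_le_of_card_ge hle (Nat.eq_of_mul_eq_mul_right (by omega) cb).ge
  have hbK : b ∈ fxr H C := fun c hc => mem_Fx.1 (heq ▸ mem_Fx.2 (ha.1 c hc))
  by_contra hne
  have hle2 : Fx V a ≤ C := fun v hv =>
    L.fix2 b a ⟨hbK, hb⟩ ha hne v (mem_Fx.1 (heq ▸ hv)) (mem_Fx.1 hv)
  have := AddSubgroup.card_le_of_le hle2
  rw [L.cardV] at ca
  have hpos : 0 < Nat.card C := Nat.card_pos
  have h3 : q * Nat.card C = Nat.card (Fx V a) :=
    Nat.eq_of_mul_eq_mul_left (show 0 < q by omega) (by rw [← mul_assoc, ← ca, mul_comm])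
  nlinarith

theorem on_of_W (L : Ln H q W C) (hq : 2 ≤ q) {b : H} (hb : Pt V q b) {D : V} (h1 : D ∈ W)
    (h2 : D ∈ Cm V b) (h0 : D ≠ 0) : On q C b := by
  obtain ⟨a, ha, h⟩ := L.cover D h1 h0
  rw [L.meet hq ha hb h h2 h0]; exact ha

theorem span (L : Ln H q W C) (hq : 2 ≤ q) {a b : H} (ha : On q C a) (hb : On q C b) (hab : a ≠ b) :
    ∀ w ∈ W, ∃ x ∈ Cm V a, ∃ y ∈ Cm V b, w = x + y := by
  refine (card_mul_le (L.sub a ha) (L.sub b hb) fun v h1 h2 => ?_).2
    (by rw [L.card, ha.2.2, hb.2.2])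
  by_contra h0
  exact hab (L.meet hq ha hb.2 h1 h2 h0).symm

theorem le_of (L : Ln H q W C) (hq : 2 ≤ q) {a b : H} (ha : On q C a) (hb : On q C b) (hab : a ≠ b)
    {T : AddSubgroup V} (h1 : Cm V a ≤ T) (h2 : Cm V b ≤ T) : W ≤ T := by
  intro w hw
  obtain ⟨x, hx, y, hy, rfl⟩ := L.span hq ha hb hab w hw
  exact add_mem (h1 hx) (h2 hy)

theorem comm_fix (L : Ln H q W C) (hq : 2 ≤ q) {a b : H} (ha : On q C a) (hb : Pt V q b)
    (hab : b ≠ a) (hc : Commute a b) : (∀ v ∈ Cm V a, b • v = v) ∧ (∀ v ∈ Cm V b, a • v = v) := by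
  constructor
  · intro v hv
    by_contra h
    exact hab (L.meet hq ha hb (sub_mem (Cm_comm hc.symm hv) hv) (mem_Cm.2 ⟨v, rfl⟩)
      (sub_ne_zero.2 h))
  · intro v hv
    by_contra h
    exact hab (L.meet hq ha hb (mem_Cm.2 ⟨v, rfl⟩) (sub_mem (Cm_comm hc hv) hv) (sub_ne_zero.2 h))

theorem exists_fix (L : Ln H q W C) (hq : 2 ≤ q) {s : H} (hs : Pt V q s) :
    ∃ w ∈ W, w ≠ 0 ∧ s • w = w := by
  by_contra h
  push Not at h
  let f : W → Cm V s := fun w => ⟨s • w.1 - w.1, mem_Cm.2 ⟨_, rfl⟩⟩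
  have hinj : Function.Injective f := by
    intro a b e
    have h' : s • a.1 - a.1 = s • b.1 - b.1 := congrArg Subtype.val e
    by_contra hab
    refine h (a.1 - b.1) (sub_mem a.2 b.2) (fun e => hab (Subtype.ext (sub_eq_zero.1 e))) ?_
    rw [smul_sub]
    have e : s • a.1 - s • b.1 = (s • a.1 - a.1) - (s • b.1 - b.1) + (a.1 - b.1) := by abel
    rw [e, h']; abel
  have := Nat.card_le_card_of_injective f hinj
  rw [L.card, hs.2] at this
  nlinarith

theorem exists_on (L : Ln H q W C) (hq : 2 ≤ q) : ∃ a : H, On q C a := by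
  have : Nontrivial W := by
    rw [← Finite.one_lt_card_iff_nontrivial, L.card]; nlinarith
  obtain ⟨w, hw⟩ := exists_ne (0 : W)
  obtain ⟨a, ha, -⟩ := L.cover w.1 w.2 (fun e => hw (Subtype.ext e))
  exact ⟨a, ha⟩

theorem not_two (L : Ln H q W C) (L' : Ln H q W' C') (hq : 2 ≤ q) {a t t' : H} (ha : ¬ On q C a)
    (ha' : On q C' a) (ht : On q C t) (ht' : On q C t') (hne : t ≠ t') (h1 : Cm V t ≤ W')
    (h2 : Cm V t' ≤ W') : False := by
  have e := AddSubgroup.eq_of_le_of_card_ge (L.le_of hq ht ht' hne h1 h2)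
    (by rw [L.card, L'.card])
  obtain ⟨v, hv, h0⟩ := ha'.2.ne hq
  exact ha (L.on_of_W hq ha'.2 (e ▸ L'.sub a ha' hv) hv h0)

theorem cent (L : Ln H q W C) (hq : 2 ≤ q) {s a b : H} (hs : Pt V q s) (hn : ¬ On q C s)
    (ha : On q C a) (hb : On q C b) (hab : a ≠ b) (h1 : Commute a s) (h2 : Commute b s) :
    ∀ w ∈ W, s • w = w := by
  intro w hw
  obtain ⟨x, hx, y, hy, rfl⟩ := L.span hq ha hb hab w hw
  rw [smul_add, (L.comm_fix hq ha hs (fun e => hn (e ▸ ha)) h1).1 x hx,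
    (L.comm_fix hq hb hs (fun e => hn (e ▸ hb)) h2).1 y hy]

theorem cent2 (L : Ln H q W C) (hq : 2 ≤ q) {s : H} (hs : Pt V q s) (hn : ¬ On q C s)
    (h : ∀ c : H, On q C c → Commute c s) : Cm V s ≤ C := by
  obtain ⟨a, ha⟩ := L.exists_on hq
  obtain ⟨b, hb, hab⟩ := L.ncx a ha
  intro v hv
  exact L.fix2 a b ha hb (fun e => hab (e ▸ Commute.refl a)) v
    ((L.comm_fix hq ha hs (fun e => hn (e ▸ ha)) (h a ha)).2 v hv)
    ((L.comm_fix hq hb hs (fun e => hn (e ▸ hb)) (h b hb)).2 v hv)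

theorem card_on (L : Ln H q W C) (hq : 2 ≤ q) : Nat.card {a : H // On q C a} = q + 1 := by
  classical
  have hne : ∀ T : AddSubgroup V, Nat.card {v : T // v ≠ 0} = Nat.card T - 1 := by
    intro T
    haveI := Fintype.ofFinite T
    rw [Nat.card_eq_fintype_card, Nat.card_eq_fintype_card, Fintype.card_subtype_compl,
      Fintype.card_subtype_eq]
  let f : (Σ a : {a : H // On q C a}, {v : Cm V a.1 // v ≠ 0}) → {w : W // w ≠ 0} :=
    fun p => ⟨⟨p.2.1.1, L.sub _ p.1.2 p.2.1.2⟩, fun e => p.2.2 (Subtype.ext (congrArg (fun x : W => x.1) e))⟩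
  have hf : Function.Bijective f := by
    constructor
    · rintro ⟨⟨a, ha⟩, ⟨⟨v, hv⟩, h0⟩⟩ ⟨⟨b, hb⟩, ⟨⟨v', hv'⟩, h0'⟩⟩ e
      have e' : v = v' := congrArg (fun x => x.1.1) e
      subst e'
      have := L.meet hq ha hb.2 hv hv' (fun e => h0 (Subtype.ext e))
      subst this
      rfl
    · rintro ⟨⟨w, hw⟩, h0⟩
      obtain ⟨a, ha, h⟩ := L.cover w hw (fun e => h0 (Subtype.ext e))
      exact ⟨⟨⟨a, ha⟩, ⟨⟨w, h⟩, fun e => h0 (Subtype.ext (congrArg (fun x : Cm V a => x.1) e))⟩⟩, rfl⟩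
  have e := Nat.card_eq_of_bijective f hf
  haveI := Fintype.ofFinite {a : H // On q C a}
  rw [Nat.card_sigma, hne, L.card, Finset.sum_congr rfl (fun a _ => by rw [hne, a.2.2.2]),
    Finset.sum_const, Finset.card_univ, smul_eq_mul, ← Nat.card_eq_fintype_card] at e
  obtain ⟨k, rfl⟩ := Nat.exists_eq_add_of_le' hq
  have e2 : (k + 2) * (k + 2) - 1 = (k + 2 + 1) * (k + 2 - 1) := by
    rw [Nat.sub_eq_iff_eq_add (by nlinarith), show k + 2 - 1 = k + 1 from rfl]; ring
  rw [e2] at e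
  exact Nat.eq_of_mul_eq_mul_right (by omega) e

end Ln

namespace Geo

theorem nc (G : Geo H V q) {a b : H} (ha : Pt V q a) (hb : Pt V q b) {v : V} (hv : v ∈ Cm V a)
    (h : b • v = v) (h0 : v ≠ 0) : Commute a b := by
  by_contra hc
  obtain ⟨W, C, L, h1, h2⟩ := G.line a b ha hb hc
  exact h0 (L.nc a b h1 h2 hc v hv h)

theorem cent3 (G : Geo H V q) (L : Ln H q W C) {s : H} (hs : Pt V q s) (h : ∀ w ∈ W, s • w = w)
    (c : H) (hc : On q C c) : Commute c s := by
  obtain ⟨v, hv, h0⟩ := hc.2.ne G.two_le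
  exact G.nc hc.2 hs hv (h v (L.sub c hc hv)) h0

theorem n1 (G : Geo H V q) (L : Ln H q W C) {s : H} (hs : Pt V q s) :
    ∃ a : H, On q C a ∧ Commute a s := by
  obtain ⟨w, hw, h0, e⟩ := L.exists_fix G.two_le hs
  obtain ⟨a, ha, h⟩ := L.cover w hw h0
  exact ⟨a, ha, G.nc ha.2 hs h e h0⟩

theorem case2 (G : Geo H V q) (L : Ln H q W C)
    (hall : ∀ s : H, Pt V q s → ¬ On q C s → ∀ c : H, On q C c → Commute c s)
    (g : H) : ∀ w ∈ W, g • w ∈ W := by
  have hq := G.two_le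
  have dich : ∀ g : H, (∀ w ∈ W, g • w ∈ W) ∨ (∀ w ∈ W, g • w ∈ C) := by
    intro g
    by_cases h : ∃ a : H, On q C a ∧ On q C (g * a * g⁻¹)
    · left
      obtain ⟨a, ha, ha'⟩ := h
      obtain ⟨b, hb, hab⟩ := L.ncx a ha
      have hb' : On q C (g * b * g⁻¹) := by
        by_contra hn
        apply hab
        have := hall _ (hb.2.conj g) hn _ ha'
        exact (MulAut.conj g).injective (by simpa [MulAut.conj_apply, mul_assoc] using this.eq)
      intro w hw
      obtain ⟨x, hx, y, hy, rfl⟩ := L.span hq ha hb (fun e => hab (e ▸ Commute.refl a)) w hw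
      rw [smul_add]
      exact add_mem (L.sub _ ha' (mem_Cm_conj hx)) (L.sub _ hb' (mem_Cm_conj hy))
    · right
      push Not at h
      intro w hw
      by_cases h0 : w = 0
      · rw [h0, smul_zero]; exact zero_mem _
      obtain ⟨a, ha, hwa⟩ := L.cover w hw h0
      exact L.cent2 hq (ha.2.conj g) (h a ha) (hall _ (ha.2.conj g) (h a ha)) (mem_Cm_conj hwa)
  by_contra hg
  have g1 := (dich g).resolve_left hg
  have g2 : ∀ w ∈ W, g⁻¹ • w ∈ C := by
    refine (dich g⁻¹).resolve_left fun h => hg fun w hw => ?_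
    let f : W → W := fun w => ⟨g⁻¹ • w.1, h _ w.2⟩
    have hinj : Function.Injective f := fun a b e =>
      Subtype.ext (smul_left_cancel g⁻¹ (congrArg Subtype.val e))
    obtain ⟨w', hw'⟩ := Finite.surjective_of_injective hinj ⟨w, hw⟩
    have : g⁻¹ • w'.1 = w := congrArg Subtype.val hw'
    rw [← this, smul_inv_smul]; exact w'.2
  obtain ⟨a, ha⟩ := L.exists_on hq
  obtain ⟨x, hx, hx0⟩ := ha.2.ne hq
  have hxW := L.sub a ha hx
  obtain ⟨y, hy, hy0, hay⟩ := L.exists_fix hq ha.2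
  obtain ⟨A, hA⟩ := mem_Cm.1 hx
  obtain ⟨b, hb, c, hc, rfl⟩ := L.dec A
  have hab : a • b = b + x := by rw [← hA, smul_add, ha.1 c hc]; abel
  obtain ⟨h, -, hh⟩ := G.bin.shift (x - g • x)
  have e1 := hh (g • x) ⟨g⁻¹, trivial, by rw [inv_smul_smul]; abel⟩
  have e2 : ∀ b' ∈ W, a • b' = b' - x → h • (b + g • b') = b + g • b' + (x - g • x) := by
    intro b' hb' e
    refine hh _ ⟨a * (g * a * g⁻¹), trivial, ?_⟩
    rw [mul_smul, smul_add, mul_smul, mul_smul, mul_smul, mul_smul, ha.1 _ (g2 b hb), smul_inv_smul,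
      inv_smul_smul, e, smul_add, hab, ha.1 _ (g1 _ (sub_mem hb' hxW)), smul_sub]
    abel
  have e3 := e2 (-b) (neg_mem hb) (by rw [smul_neg, hab]; abel)
  have e4 := e2 (-b + y) (add_mem (neg_mem hb) hy) (by rw [smul_add, smul_neg, hab, hay]; abel)
  rw [smul_add g, ← add_assoc, smul_add h, e3, add_right_comm (b + g • -b) (g • y)] at e4
  have e5 : h • g • y = g • y := add_left_cancel e4
  rcases dich (g⁻¹ * h * g) with h1 | h1
  · have := h1 x hxW
    rw [mul_smul, mul_smul, e1, add_sub_cancel] at this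
    have h3 := L.disj _ this (g2 x hxW)
    rw [smul_eq_zero_iff_eq] at h3
    exact hx0 h3
  · have := h1 y hy
    rw [mul_smul, mul_smul, e5, inv_smul_smul] at this
    exact hy0 (L.disj y hy this)

end Geo

end Cfsg.Agent.H13.Bin
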