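import Cfsg.Agent.H13.Bin7

set_option autoImplicit false
set_option linter.unusedSectionVars false

namespace Cfsg.Agent.H13.Bin

variable {H V : Type*} [Group H] [AddCommGroup V] [DistribMulAction H V]
variable [FaithfulSMul H V] [Finite V] [Finite H] {q : ℕ} {W C W' C' : AddSubgroup V}

theorem card_le_mul {A B T : AddSubgroup V} (h : ∀ w ∈ T, ∃ x ∈ A, ∃ y ∈ B, w = x + y) :
    Nat.card T ≤ Nat.card A * Nat.card B := by
  choose f hf g hg e using h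
  rw [← Nat.card_prod]
  refine Nat.card_le_card_of_injective (fun w : T => ((⟨f w.1 w.2, hf _ _⟩ : A), (⟨g w.1 w.2, hg _ _⟩ : B)))
    fun a b hab => Subtype.ext ?_
  simp only [Prod.mk.injEq, Subtype.mk.injEq] at hab
  rw [e a.1 a.2, e b.1 b.2, hab.1, hab.2]

theorem Ln.exY (L : Ln H q W C) (hq : 2 ≤ q) {s : H} (hs : Pt V q s) (hn : ¬ On q C s) :
    ∃ Y : AddSubgroup V, W ≤ Y ∧ Cm V s ≤ Y ∧ Nat.card Y = q * q * q := by
  refine ⟨W ⊔ Cm V s, le_sup_left, le_sup_right, le_antisymm ?_ ?_⟩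
  · rw [← L.card, ← hs.2]
    refine card_le_mul fun w hw => ?_
    obtain ⟨x, hx, y, hy, e⟩ := AddSubgroup.mem_sup.1 hw
    exact ⟨x, hx, y, hy, e.symm⟩
  · rw [← L.card]
    nth_rewrite 1 [← hs.2]
    refine (card_mul_le le_sup_left le_sup_right fun v h1 h2 => ?_).1
    by_contra h0
    exact hn (L.on_of_W hq hs h1 h2 h0)

/-- points lying on some line -/
def OnL (V : Type*) [AddCommGroup V] [DistribMulAction H V] (q : ℕ) (a : H) : Prop :=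
  ∃ W C : AddSubgroup V, Ln H q W C ∧ On q C a

theorem OnL.pt {a : H} (h : OnL V q a) : Pt V q a := by
  obtain ⟨W, C, -, h⟩ := h; exact h.2

namespace Geo

theorem uniq_comm (G : Geo H V q) (L : Ln H q W C) {s t a b : H} (hs : Pt V q s) (hn : ¬ On q C s)
    (ht : On q C t) (hts : ¬ Commute t s) (ha : On q C a) (hb : On q C b) (h1 : Commute a s)
    (h2 : Commute b s) : a = b := by
  by_contra hab
  exact hts (G.cent3 L hs (L.cent G.two_le hs hn ha hb hab h1 h2) t ht)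

theorem two_nc (G : Geo H V q) (ho : ∀ v : V, v + v = 0 → v = 0) (L : Ln H q W C) {s t : H}
    (hs : Pt V q s) (hn : ¬ On q C s) (ht : On q C t) (hts : ¬ Commute t s) :
    ∃ a t1 t2 : H, On q C a ∧ On q C t1 ∧ On q C t2 ∧ Commute a s ∧ ¬ Commute t1 s ∧
      ¬ Commute t2 s ∧ t1 ≠ t2 := by
  obtain ⟨a, ha, has⟩ := G.n1 L hs
  obtain ⟨t1, ht1, h1⟩ := L.ncx a ha
  obtain ⟨t2, ht2, h2, h3⟩ := L.od ho t1 ht1
  refine ⟨a, t1, t2, ha, ht1, ht2, has, fun h => h1 ?_, fun h => h1 ?_, h2.symm⟩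
  · rw [G.uniq_comm L hs hn ht hts ha ht1 has h]
  · rw [G.uniq_comm L hs hn ht hts ha ht2 has h]; exact h3.symm

theorem odd_case (G : Geo H V q) (ho : ∀ v : V, v + v = 0 → v = 0) (L : Ln H q W C) {s t : H}
    (hs : Pt V q s) (hn : ¬ On q C s) (ht : On q C t) (hts : ¬ Commute t s) : False := by
  have hq := G.two_le
  obtain ⟨Y, hWY, hsY, hY⟩ := L.exY hq hs hn
  have hdis : ∀ a : H, Pt V q a → ∀ v ∈ Cm V a, a • v = v → v = 0 := by
    intro a ha v hv e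
    rw [ha.neg hv] at e
    exact ho v (by nth_rewrite 1 [← e]; abel)
  have hcard : ∀ a : H, Pt V q a → Cm V a ≤ Y → Nat.card (Fx V a ⊓ Y : AddSubgroup V) ≤ q * q := by
    intro a ha haY
    have := (card_mul_le (B := Fx V a ⊓ Y) haY inf_le_right
      fun v h1 h2 => hdis a ha v h1 (mem_Fx.1 h2.1)).1
    rw [ha.2, hY, mul_comm] at this
    exact Nat.le_of_mul_le_mul_right this (by omega)
  have H1 : ∀ a : H, ∃ W1 C1 : AddSubgroup V, Ln H q W1 C1 ∧ W1 ≤ Y ∧ ¬ On q C1 a := by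
    intro a
    by_cases ha : On q C a
    · obtain ⟨-, t1, t2, -, ht1, ht2, -, h1, h2, h12⟩ := G.two_nc ho L hs hn ht hts
      have : ∀ t' : H, On q C t' → ¬ Commute t' s → t' ≠ a →
          ∃ W1 C1 : AddSubgroup V, Ln H q W1 C1 ∧ W1 ≤ Y ∧ ¬ On q C1 a := by
        intro t' ht' h hne
        obtain ⟨W1, C1, L1, o1, o2⟩ := G.line t' s ht'.2 hs h
        exact ⟨W1, C1, L1, L1.le_of hq o1 o2 (fun e => hn (e ▸ ht')) ((L.sub _ ht').trans hWY) hsY,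
          fun o3 => L.not_two L1 hq hn o2 ht' ha hne (L1.sub _ o1) (L1.sub _ o3)⟩
      by_cases e : t1 = a
      · exact this t2 ht2 h2 (fun e' => h12 (e.trans e'.symm))
      · exact this t1 ht1 h1 e
    · exact ⟨W, C, L, hWY, ha⟩
  have three : ∀ a b1 b2 b3 : H, Pt V q a → Cm V a ≤ Y → OnL V q b1 → OnL V q b2 → OnL V q b3 →
      Cm V b1 ≤ Fx V a ⊓ Y → Cm V b2 ≤ Fx V a ⊓ Y → Cm V b3 ≤ Fx V a ⊓ Y → b1 ≠ b2 → b1 ≠ b3 →
      b2 ≠ b3 → ∃ W1 C1 : AddSubgroup V, Ln H q W1 C1 ∧ W1 ≤ Fx V a ⊓ Y := by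
    intro a b1 b2 b3 ha haY o1 o2 o3 l1 l2 l3 n12 n13 n23
    have pair : ∀ b b' : H, OnL V q b → OnL V q b' → Cm V b ≤ Fx V a ⊓ Y → Cm V b' ≤ Fx V a ⊓ Y →
        ¬ Commute b b' → ∃ W1 C1 : AddSubgroup V, Ln H q W1 C1 ∧ W1 ≤ Fx V a ⊓ Y := by
      intro b b' o o' l l' h
      obtain ⟨W1, C1, L1, p1, p2⟩ := G.line b b' o.pt o'.pt h
      exact ⟨W1, C1, L1, L1.le_of hq p1 p2 (fun e => h (e ▸ Commute.refl b)) l l'⟩
    by_cases c12 : Commute b1 b2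
    swap; · exact pair _ _ o1 o2 l1 l2 c12
    by_cases c13 : Commute b1 b3
    swap; · exact pair _ _ o1 o3 l1 l3 c13
    by_cases c23 : Commute b2 b3
    swap; · exact pair _ _ o2 o3 l2 l3 c23
    exfalso
    obtain ⟨W1, C1, L1, p1⟩ := id o1
    obtain ⟨W2, C2, L2, p2⟩ := id o2
    obtain ⟨v, hv, h0⟩ := o3.pt.ne hq
    obtain ⟨x, hx, y, hy, rfl⟩ := (card_mul_le l1 l2 (fun v h1 h2 => by
      by_contra h0
      exact n12 (L1.meet hq p1 o2.pt h1 h2 h0).symm)).2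
      (by rw [o1.pt.2, o2.pt.2]; exact hcard a ha haY) v (l3 hv)
    have f1 := (L1.comm_fix hq p1 o3.pt n13.symm c13).2 _ hv
    have f2 := (L2.comm_fix hq p2 o3.pt n23.symm c23).2 _ hv
    have f3 := L1.comm_fix hq p1 o2.pt n12.symm c12
    rw [smul_add, f3.2 y hy] at f1
    rw [smul_add, f3.1 x hx] at f2
    rw [hdis b1 o1.pt x hx (add_right_cancel f1), hdis b2 o2.pt y hy (add_left_cancel f2),
      add_zero] at h0
    exact h0 rfl
  have star : ∀ a : H, OnL V q a → Cm V a ≤ Y →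
      ∃ W1 C1 : AddSubgroup V, Ln H q W1 C1 ∧ W1 = Fx V a ⊓ Y := by
    intro a oa haY
    suffices h : ∃ W1 C1 : AddSubgroup V, Ln H q W1 C1 ∧ W1 ≤ Fx V a ⊓ Y by
      obtain ⟨W1, C1, L1, h⟩ := h
      exact ⟨W1, C1, L1, AddSubgroup.eq_of_le_of_card_ge h (by rw [L1.card]; exact hcard a oa.pt haY)⟩
    obtain ⟨W1, C1, L1, hY1, hn1⟩ := H1 a
    have cf : ∀ {W2 C2 : AddSubgroup V}, Ln H q W2 C2 → W2 ≤ Y → ∀ b : H, On q C2 b → a ≠ b →
        Commute b a → Cm V b ≤ Fx V a ⊓ Y := fun L2 h2 b hb hne hc v hv =>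
      ⟨mem_Fx.2 ((L2.comm_fix hq hb oa.pt hne hc).1 v hv), h2 (L2.sub b hb hv)⟩
    by_cases hall : ∀ c : H, On q C1 c → Commute c a
    · refine ⟨W1, C1, L1, fun w hw => ?_⟩
      by_cases h0 : w = 0
      · rw [h0]; exact zero_mem _
      obtain ⟨c, hc, hwc⟩ := L1.cover w hw h0
      exact cf L1 hY1 c hc (fun e => hn1 (e ▸ hc)) (hall c hc) hwc
    push Not at hall
    obtain ⟨t0, ht0, hc0⟩ := hall
    obtain ⟨s0, t1, t2, hs0, ht1, ht2, c0, c1, c2, h12⟩ := G.two_nc ho L1 oa.pt hn1 ht0 hc0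
    obtain ⟨W2, C2, L2, o21, o22⟩ := G.line t1 a ht1.2 oa.pt c1
    obtain ⟨W3, C3, L3, o31, o32⟩ := G.line t2 a ht2.2 oa.pt c2
    have hY2 : W2 ≤ Y := L2.le_of hq o21 o22 (fun e => hn1 (e ▸ ht1)) ((L1.sub _ ht1).trans hY1) haY
    have hY3 : W3 ≤ Y := L3.le_of hq o31 o32 (fun e => hn1 (e ▸ ht2)) ((L1.sub _ ht2).trans hY1) haY
    obtain ⟨a2, oa2, n2, d2⟩ := L2.od ho a o22
    obtain ⟨a3, oa3, n3, d3⟩ := L3.od ho a o32
    refine three a s0 a2 a3 oa.pt haY ⟨_, _, L1, hs0⟩ ⟨_, _, L2, oa2⟩ ⟨_, _, L3, oa3⟩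
      (cf L1 hY1 s0 hs0 (fun e => hn1 (e ▸ hs0)) c0) (cf L2 hY2 a2 oa2 n2.symm d2.symm)
      (cf L3 hY3 a3 oa3 n3.symm d3.symm) ?_ ?_ ?_
    · rintro rfl
      exact L1.not_two L2 hq hn1 o22 hs0 ht1 (fun e => c1 (e ▸ c0)) (L2.sub _ oa2) (L2.sub _ o21)
    · rintro rfl
      exact L1.not_two L3 hq hn1 o32 hs0 ht2 (fun e => c2 (e ▸ c0)) (L3.sub _ oa3) (L3.sub _ o31)
    · rintro rfl
      exact L1.not_two L2 hq hn1 o22 ht1 ht2 h12 (L2.sub _ o21)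
        ((L3.sub _ o31).trans (L3.le_of hq oa3 o32 n3 (L2.sub _ oa2) (L2.sub _ o22)))
  let X := {a : H // OnL V q a ∧ Cm V a ≤ Y}
  choose Wf Cf Lf hW using fun a : X => star a.1 a.2.1 a.2.2
  have hsub : ∀ a : X, ∀ b : H, On q (Cf a) b → Cm V b ≤ Fx V a.1 ⊓ Y := fun a b h =>
    hW a ▸ (Lf a).sub b h
  have hon : ∀ a : X, ∀ b : H, Pt V q b → ∀ v ∈ Cm V b, v ≠ 0 → v ∈ Fx V a.1 ⊓ Y → On q (Cf a) b :=
    fun a b hb v hv h0 h => (Lf a).on_of_W hq hb (hW a ▸ h) hv h0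
  haveI : Nonempty X := ⟨⟨t, ⟨W, C, L, ht⟩, (L.sub t ht).trans hWY⟩⟩
  haveI : Fact (Nat.minFac q).Prime := ⟨Nat.minFac_prime (by omega)⟩
  have hirr : ∀ a : X, ¬ On q (Cf a) a.1 := by
    intro a h
    obtain ⟨v, hv, h0⟩ := h.2.ne hq
    exact h0 (hdis _ h.2 v hv (mem_Fx.1 (hsub a _ h hv).1))
  have hsym : ∀ a b : X, On q (Cf a) b.1 → On q (Cf b) a.1 := by
    intro a b h
    obtain ⟨v, hv, h0⟩ := h.2.ne hq
    have hc := G.nc h.2 a.2.1.pt hv (mem_Fx.1 (hsub a _ h hv).1) h0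
    obtain ⟨v', hv', h0'⟩ := a.2.1.pt.ne hq
    have hne : a.1 ≠ b.1 := fun e => hirr a (e ▸ h)
    exact hon b _ a.2.1.pt v' hv' h0'
      ⟨mem_Fx.2 (((Lf a).comm_fix hq h a.2.1.pt hne hc).2 v' hv'), a.2.2 hv'⟩
  refine friendship (fun a b : X => On q (Cf a) b.1) (Nat.minFac q) hsym hirr ?_ ?_
  · intro a
    have : Nat.card {c : X // On q (Cf a) c.1} = Nat.card {c : H // On q (Cf a) c} := by
      refine Nat.card_eq_of_bijective (fun c => ⟨c.1.1, c.2⟩) ⟨?_, ?_⟩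
      · intro x y e
        exact Subtype.ext (Subtype.ext (congrArg (fun z : {c : H // On q (Cf a) c} => z.1) e))
      · rintro ⟨c, hc⟩
        exact ⟨⟨⟨c, ⟨_, _, Lf a, hc⟩, (hsub a c hc).trans inf_le_right⟩, hc⟩, rfl⟩
    rw [this, (Lf a).card_on hq, Nat.cast_add, Nat.cast_one,
      (ZMod.natCast_eq_zero_iff _ _).2 (Nat.minFac_dvd q), zero_add]
  · intro a b hab
    obtain ⟨w, hw1, hw2, h0⟩ : ∃ w ∈ Wf a, w ∈ Wf b ∧ w ≠ 0 := by
      by_contra hc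
      push Not at hc
      have := (card_mul_le (T := Y) (hW a ▸ inf_le_right) (hW b ▸ inf_le_right) hc).1
      rw [(Lf a).card, (Lf b).card, hY] at this
      have h1 := Nat.le_of_mul_le_mul_left this (by positivity)
      nlinarith
    obtain ⟨c, hc, hwc⟩ := (Lf a).cover w hw1 h0
    have hc' := (Lf b).on_of_W hq hc.2 hw2 hwc h0
    let cX : X := ⟨c, ⟨_, _, Lf a, hc⟩, (hsub a c hc).trans inf_le_right⟩
    refine ⟨cX, ⟨hc, hc'⟩, ?_⟩
    rintro d ⟨hd, hd'⟩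
    by_contra hne
    have hne' : d.1 ≠ c := fun e => hne (Subtype.ext e)
    have key : ∀ e : X, On q (Cf e) c → On q (Cf e) d.1 → Cm V e.1 ≤ Cf a ⊓ Y := by
      intro e h1 h2 v hv
      exact ⟨(Lf a).fix2 d.1 c hd hc hne' v (mem_Fx.1 (hsub d _ (hsym e d h2) hv).1)
        (mem_Fx.1 (hsub cX _ (hsym e cX h1) hv).1), e.2.2 hv⟩
    have hle : Nat.card (Cf a ⊓ Y : AddSubgroup V) ≤ q := by
      have := (card_mul_le (T := Y) (B := Cf a ⊓ Y) (hW a ▸ inf_le_right) inf_le_right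
        (fun v h1 h2 => (Lf a).disj v h1 h2.1)).1
      rw [(Lf a).card, hY] at this
      exact Nat.le_of_mul_le_mul_left this (by positivity)
    have e1 := AddSubgroup.eq_of_le_of_card_ge (key a hc hd) (by rw [a.2.1.pt.2]; exact hle)
    have e2 := AddSubgroup.eq_of_le_of_card_ge (key b hc' hd') (by rw [b.2.1.pt.2]; exact hle)
    obtain ⟨v, hv, h0⟩ := a.2.1.pt.ne hq
    obtain ⟨W1, C1, L1, o1⟩ := a.2.1
    exact hab (Subtype.ext (L1.meet hq o1 b.2.1.pt hv (by rw [e2, ← e1]; exact hv) h0).symm)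

end Geo

end Cfsg.Agent.H13.Bin
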