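import Cfsg.Agent.H13.Bin8

set_option autoImplicit false
set_option linter.unusedSectionVars false

namespace Cfsg.Agent.H13.Bin

variable {H V : Type*} [Group H] [AddCommGroup V] [DistribMulAction H V]
variable [FaithfulSMul H V] [Finite V] [Finite H] {q : ℕ} {W C W' C' : AddSubgroup V}

theorem card_not {α : Type*} [Finite α] (p : α → Prop) :
    Nat.card {x // ¬ p x} + Nat.card {x // p x} = Nat.card α := by
  classical
  rw [← Nat.card_sum]
  exact Nat.card_congr ((Equiv.sumComm _ _).trans (Equiv.sumCompl p))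

theorem card_ne {α : Type*} [Finite α] (a : α) : Nat.card {x // ¬ x = a} + 1 = Nat.card α := by
  rw [← card_not (fun x => x = a), Nat.card_unique (α := {x // x = a})]

theorem prime_two (he : ∀ v : V, v + v = 0) (A : AddSubgroup V) {r : ℕ} (hr : r.Prime)
    (h : r ∣ Nat.card A) : r = 2 := by
  haveI := Fact.mk hr
  obtain ⟨x, hx⟩ := exists_prime_addOrderOf_dvd_card' r h
  have : addOrderOf x ∣ 2 := addOrderOf_dvd_of_nsmul_eq_zero (Subtype.ext (by
    rw [two_nsmul]; exact he x.1))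
  rw [hx] at this
  exact (Nat.prime_dvd_prime_iff_eq hr Nat.prime_two).1 this

namespace Geo

theorem even_case (G : Geo H V q) (he : ∀ v : V, v + v = 0) (L : Ln H q W C) {s t : H}
    (hs : Pt V q s) (hn : ¬ On q C s) (ht : On q C t) (hts : ¬ Commute t s) : False := by
  classical
  have hq := G.two_le
  have hng : ∀ v : V, -v = v := fun v => neg_eq_iff_add_eq_zero.mpr (he v)
  have self : ∀ a : H, Pt V q a → ∀ v ∈ Cm V a, a • v = v := fun a ha v hv => by
    rw [ha.neg hv, hng]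
  obtain ⟨Y, hWY, hsY, hY⟩ := L.exY hq hs hn
  obtain ⟨s0, hs0, c0⟩ := G.n1 L hs
  have hR : q ≤ Nat.card (C ⊓ Y : AddSubgroup V) := by
    have := card_le_mul (A := W) (B := C ⊓ Y) (T := Y) fun v hv => by
      obtain ⟨w, hw, c, hc, rfl⟩ := L.dec v
      exact ⟨w, hw, c, ⟨hc, (add_mem_cancel_left (hWY hw)).1 hv⟩, rfl⟩
    rw [hY, L.card] at this
    exact Nat.le_of_mul_le_mul_left this (by positivity)
  have hR' : Nat.card (C ⊓ Y : AddSubgroup V) ≤ q := by
    have := (card_mul_le (T := Y) (B := C ⊓ Y) hWY inf_le_right (fun v h1 h2 => L.disj v h1 h2.1)).1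
    rw [L.card, hY] at this
    exact Nat.le_of_mul_le_mul_left this (by positivity)
  have main : ∀ s1 : H, On q C s1 → s1 ≠ s0 → ∀ x ∈ W, s1 • x ≠ x → ∀ ρ ∈ C ⊓ Y,
      ∃ k : H, k • x = x + ρ := by
    intro s1 hs1 n10 x hx hsx
    let Pl : AddSubgroup V := Fx V s1 ⊓ Y
    have hPl : Nat.card Pl ≤ q * q := by
      obtain ⟨b, hb, hc⟩ := L.ncx s1 hs1
      have := (card_mul_le (T := Y) (B := Pl) ((L.sub b hb).trans hWY) inf_le_right
        (fun v h1 h2 => L.nc b s1 hb hs1 (fun h => hc h.symm) v h1 (mem_Fx.1 h2.1))).1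
      rw [hb.2.2, hY, mul_comm] at this
      exact Nat.le_of_mul_le_mul_right this (by omega)
    have hRP : C ⊓ Y ≤ Pl := fun v hv => ⟨mem_Fx.2 (hs1.1 v hv.1), hv.2⟩
    let Z := {b : H // OnL V q b ∧ Cm V b ≤ Pl ∧ ∀ v ∈ Cm V b, v ∈ C → v = 0}
    have hs1P : Cm V s1 ≤ Pl := fun v hv => ⟨mem_Fx.2 (self _ hs1.2 v hv), hWY (L.sub _ hs1 hv)⟩
    let z1 : Z := ⟨s1, ⟨W, C, L, hs1⟩, hs1P, fun v hv => L.disj v (L.sub _ hs1 hv)⟩
    have hZc : ∀ b : Z, Commute b.1 s1 := by
      intro b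
      obtain ⟨v, hv, h0⟩ := b.2.1.pt.ne hq
      exact G.nc b.2.1.pt hs1.2 hv (mem_Fx.1 (b.2.2.1 hv).1) h0
    have hZ : q ≤ Nat.card Z := by
      have ex : ∀ τ : {τ : {a : H // On q C a} // ¬ τ = ⟨s0, hs0⟩}, ∃ b : Z, (τ.1.1 = s1 → b.1 = s1) ∧
          (τ.1.1 ≠ s1 → ¬ On q C b.1 ∧ b.1 ≠ s ∧ ∃ W' C' : AddSubgroup V, Ln H q W' C' ∧
            On q C' s ∧ On q C' τ.1.1 ∧ On q C' b.1) := by
        rintro ⟨⟨τ, hτ⟩, hne⟩
        by_cases e : τ = s1
        · exact ⟨z1, fun _ => rfl, fun h => absurd e h⟩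
        have hc : ¬ Commute τ s := fun h =>
          hne (Subtype.ext (G.uniq_comm L hs hn ht hts hτ hs0 h c0))
        obtain ⟨W', C', L', o1, o2⟩ := G.line τ s hτ.2 hs hc
        have hY' : W' ≤ Y := L'.le_of hq o1 o2 (fun e => hn (e ▸ hτ)) ((L.sub _ hτ).trans hWY) hsY
        have n1 : ¬ On q C' s1 := fun o3 => L.not_two L' hq hn o2 hτ hs1 e (L'.sub _ o1) (L'.sub _ o3)
        obtain ⟨b, ob, cb⟩ := G.n1 L' hs1.2
        have nb : s1 ≠ b := fun e => n1 (e ▸ ob)
        have nb2 : ¬ On q C b := fun h => nb (L.ev he _ _ h hs1 cb).symm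
        refine ⟨⟨b, ⟨_, _, L', ob⟩, fun v hv => ⟨mem_Fx.2 ((L'.comm_fix hq ob hs1.2 nb cb).1 v hv),
          hY' (L'.sub _ ob hv)⟩, fun v hv hC => ?_⟩, fun h => absurd h e, fun _ => ⟨nb2, ?_,
            W', C', L', o2, o1, ob⟩⟩
        · by_contra h0
          have := L'.ev he _ _ ob o1 (G.nc ob.2 hτ.2 hv (hτ.1 v hC) h0)
          exact nb2 (this ▸ hτ)
        · rintro rfl
          exact n10 (G.uniq_comm L hs hn ht hts hs1 hs0 cb.symm c0)
      choose f hf using ex
      have hinj : Function.Injective f := by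
        intro τ τ' e
        by_contra hne
        have hne' : τ.1.1 ≠ τ'.1.1 := fun h => hne (Subtype.ext (Subtype.ext h))
        by_cases e1 : τ.1.1 = s1
        · have := ((hf τ').2 (fun h => hne' (e1.trans h.symm))).1
          rw [← e, (hf τ).1 e1] at this
          exact this hs1
        by_cases e2 : τ'.1.1 = s1
        · have := ((hf τ).2 e1).1
          rw [e, (hf τ').1 e2] at this
          exact this hs1
        obtain ⟨-, n1, W1, C1, L1, a1, a2, a3⟩ := (hf τ).2 e1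
        obtain ⟨-, -, W2, C2, L2, b1, b2, b3⟩ := (hf τ').2 e2
        rw [← e] at b3
        exact L.not_two L1 hq hn a1 τ.1.2 τ'.1.2 hne' (L1.sub _ a2)
          ((L2.sub _ b2).trans (L2.le_of hq b3 b1 n1 (L1.sub _ a3) (L1.sub _ a1)))
      have h1 := Nat.card_le_card_of_injective f hinj
      have h2 := card_ne (⟨s0, hs0⟩ : {a : H // On q C a})
      rw [L.card_on hq] at h2
      omega
    have hmeet : ∀ b b' : Z, ∀ v ∈ Cm V b.1, v ∈ Cm V b'.1 → v ≠ 0 → b = b' := by
      intro b b' v h1 h2 h0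
      obtain ⟨W1, C1, L1, o1⟩ := b.2.1
      exact Subtype.ext (L1.meet hq o1 b'.2.1.pt h1 h2 h0).symm
    -- the centres of the points of `Z` cover `Pl \ C`
    let f : (Σ b : Z, {v : Cm V b.1 // ¬ v = 0}) → {v : Pl // ¬ v.1 ∈ C} :=
      fun p => ⟨⟨p.2.1.1, p.1.2.2.1 p.2.1.2⟩, fun h => p.2.2 (Subtype.ext (p.1.2.2.2 _ p.2.1.2 h))⟩
    have finj : Function.Injective f := by
      rintro ⟨b, ⟨⟨v, hv⟩, h0⟩⟩ ⟨b', ⟨⟨v', hv'⟩, h0'⟩⟩ e
      have e' : v = v' := congrArg (fun x => x.1.1) e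
      subst e'
      have := hmeet b b' v hv hv' (fun e => h0 (Subtype.ext e))
      subst this
      rfl
    have cL : Nat.card (Σ b : Z, {v : Cm V b.1 // ¬ v = 0}) = Nat.card Z * (q - 1) := by
      haveI := Fintype.ofFinite Z
      have : ∀ b : Z, Nat.card {v : Cm V b.1 // ¬ v = 0} = q - 1 := by
        intro b
        have := card_ne (0 : Cm V b.1)
        rw [b.2.1.pt.2] at this
        omega
      rw [Nat.card_sigma, Finset.sum_congr rfl (fun a _ => this a), Finset.sum_const,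
        Finset.card_univ, smul_eq_mul, ← Nat.card_eq_fintype_card]
    have cR : Nat.card {v : Pl // ¬ v.1 ∈ C} + q ≤ q * q := by
      have h1 := card_not (fun v : Pl => v.1 ∈ C)
      have h2 := Nat.card_le_card_of_injective
        (fun v : (C ⊓ Y : AddSubgroup V) => (⟨⟨v.1, hRP v.2⟩, v.2.1⟩ : {v : Pl // v.1 ∈ C}))
        (fun a b e => Subtype.ext (congrArg (fun x => x.1.1) e))
      omega
    obtain ⟨k, rfl⟩ := Nat.exists_eq_add_of_le' hq
    have hle := Nat.card_le_card_of_injective f finj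
    rw [cL, show k + 2 - 1 = k + 1 from rfl] at hle
    have hZ' : Nat.card Z = k + 2 := by
      refine le_antisymm (Nat.le_of_mul_le_mul_right (c := k + 1) ?_ (by omega)) hZ
      nlinarith
    have fsur := (finj.bijective_of_nat_card_le (by
      rw [cL, hZ', show k + 2 - 1 = k + 1 from rfl]; nlinarith)).2
    have cov : ∀ v ∈ Pl, v ∉ C → ∃ b : Z, v ∈ Cm V b.1 := by
      intro v hv hC
      obtain ⟨⟨b, ⟨⟨v', hv'⟩, h0⟩⟩, e⟩ := fsur ⟨⟨v, hv⟩, hC⟩
      have e' : v' = v := congrArg (fun x => x.1.1) e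
      exact ⟨b, e' ▸ hv'⟩
    have hcm : ∀ b b' : Z, Commute b.1 b'.1 := by
      intro b b'
      by_contra hc
      obtain ⟨W1, C1, L1, o1, o2⟩ := G.line _ _ b.2.1.pt b'.2.1.pt hc
      have e := AddSubgroup.eq_of_le_of_card_ge (L1.le_of hq o1 o2 (fun e => hc (e ▸ Commute.refl _))
        b.2.2.1 b'.2.2.1) (by rw [L1.card]; exact hPl)
      obtain ⟨v, hv, h0⟩ := hs1.2.ne hq
      have o3 := L1.on_of_W hq hs1.2 (e ▸ hs1P hv) hv h0
      exact hc (by rw [L1.ev he _ _ o1 o3 (hZc b), L1.ev he _ _ o2 o3 (hZc b')])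
    have hfix : ∀ b : Z, b.1 ∈ fxr H Pl := by
      have h1 : ∀ b : Z, ∀ v ∈ Pl, v ∉ C → b.1 • v = v := by
        intro b v hv hC
        obtain ⟨b', hb'⟩ := cov v hv hC
        by_cases e : b'.1 = b.1
        · exact self _ b.2.1.pt v (e ▸ hb')
        · obtain ⟨W1, C1, L1, o1⟩ := b.2.1
          exact (L1.comm_fix hq o1 b'.2.1.pt e (hcm b b')).2 v hb'
      intro b v hv
      by_cases hC : v ∈ C
      · obtain ⟨y, hy, h0⟩ := hs1.2.ne hq
        have hyC : y ∉ C := fun h => h0 (L.disj y (L.sub _ hs1 hy) h)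
        have e1 := h1 b y (hs1P hy) hyC
        have e2 := h1 b (v + y) (add_mem hv (hs1P hy)) (fun h => hyC ((add_mem_cancel_left hC).1 h))
        rw [smul_add, e1] at e2
        exact add_right_cancel e2
      · exact h1 b v hv hC
    let M : AddSubgroup V :=
      { carrier := {y | y ∈ Pl ∧ ∃ k ∈ fxr H Pl, k • x = x + y}
        zero_mem' := ⟨zero_mem _, 1, one_mem _, by simp⟩
        add_mem' := by
          rintro a b ⟨ha, k, hk, e⟩ ⟨hb, l, hl, e'⟩
          exact ⟨add_mem ha hb, k * l, mul_mem hk hl, by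
            rw [mul_smul, e', smul_add, e, hk b hb, add_assoc]⟩
        neg_mem' := by
          rintro a ha
          rw [hng]; exact ha }
    have hy0 : ∀ b : Z, b.1 • x - x ≠ 0 := by
      intro b h0
      rw [sub_eq_zero] at h0
      have hx0 : x ≠ 0 := fun e => hsx (by rw [e, smul_zero])
      obtain ⟨c, hc, hxc⟩ := L.cover x hx hx0
      have c1 := G.nc hc.2 b.2.1.pt hxc h0 hx0
      have nc1 : c ≠ s1 := fun e => hsx (self _ hs1.2 x (e ▸ hxc))
      by_cases hb : On (k + 2) C b.1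
      · exact hsx (by rw [← L.ev he _ _ hb hs1 (hZc b)]; exact h0)
      · have h2 := L.cent2 hq b.2.1.pt hb
          (G.cent3 L b.2.1.pt (L.cent hq b.2.1.pt hb hc hs1 nc1 c1 (hZc b).symm))
        obtain ⟨v, hv, h0⟩ := b.2.1.pt.ne hq
        exact h0 (b.2.2.2 v hv (h2 hv))
    have cM : Nat.card {y : M // ¬ y.1 ∈ C} = k + 2 := by
      rw [← hZ']
      symm
      refine Nat.card_eq_of_bijective (fun b => ⟨⟨b.1 • x - x, b.2.2.1 (mem_Cm.2 ⟨_, rfl⟩), b.1,
        hfix b, by abel⟩, fun h => hy0 b (b.2.2.2 _ (mem_Cm.2 ⟨_, rfl⟩) h)⟩) ⟨?_, ?_⟩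
      · intro b b' e
        have e' : b.1 • x - x = b'.1 • x - x := congrArg (fun x => x.1.1) e
        exact hmeet b b' _ (mem_Cm.2 ⟨_, rfl⟩) (mem_Cm.2 ⟨_, e'.symm⟩) (hy0 b)
      · rintro ⟨⟨y, hy, l, hl, e⟩, hC⟩
        obtain ⟨b, hb⟩ := cov y hy hC
        obtain ⟨W1, C1, L1, o1⟩ := b.2.1
        have := L1.shift _ o1 y hb (fun e => hC (by simp only [e]; exact zero_mem _)) x ⟨l, e⟩
        exact ⟨b, Subtype.ext (Subtype.ext (by simp only [this]; abel))⟩
    have c1 := card_not (fun y : M => y.1 ∈ C)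
    have c2 := AddSubgroup.card_mul_index (C.addSubgroupOf M)
    have c3 : Nat.card (C.addSubgroupOf M) = Nat.card {y : M // y.1 ∈ C} := rfl
    rw [cM, ← c3, ← c2] at c1
    set m0 := Nat.card (C.addSubgroupOf M) with hm0
    set i := (C.addSubgroupOf M).index with hi
    have hm : m0 = k + 2 := by
      obtain ⟨j, hj⟩ : ∃ j, i = j + 1 := Nat.exists_eq_succ_of_ne_zero AddSubgroup.index_ne_zero_of_finite
      have e : m0 * j = k + 2 := by rw [hj] at c1; nlinarith
      by_cases hj1 : j = 1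
      · rw [← e, hj1, mul_one]
      exfalso
      have d1 : 2 ∣ j := by
        rw [← prime_two he (Cm V s1) (Nat.minFac_prime hj1) (by
          rw [hs1.2.2, ← e]; exact (Nat.minFac_dvd j).mul_left _)]
        exact Nat.minFac_dvd j
      have hi1 : i ≠ 1 := by
        intro h
        have : j = 0 := by omega
        rw [this] at e; omega
      have d2 : 2 ∣ i := by
        rw [← prime_two he M (Nat.minFac_prime hi1) (by
          rw [← c2]; exact (Nat.minFac_dvd i).mul_left _)]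
        exact Nat.minFac_dvd i
      omega
    let g : C.addSubgroupOf M → (C ⊓ Y : AddSubgroup V) := fun y => ⟨y.1.1, y.2, y.1.2.1.2⟩
    have ginj : Function.Injective g := fun a b e =>
      Subtype.ext (Subtype.ext (congrArg (fun x : (C ⊓ Y : AddSubgroup V) => x.1) e))
    intro ρ hρ
    obtain ⟨y, hy⟩ := (ginj.bijective_of_nat_card_le (by rw [← hm0, hm]; exact hR')).2 ⟨ρ, hρ⟩
    obtain ⟨l, -, e⟩ := y.1.2.2
    exact ⟨l, by rw [e]; exact congrArg (fun z : (C ⊓ Y : AddSubgroup V) => x + z.1) hy⟩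
  -- two points different from `s0`
  obtain ⟨a, b, ha, hb, na, nb, hab⟩ : ∃ a b : H, On q C a ∧ On q C b ∧ a ≠ s0 ∧ b ≠ s0 ∧ a ≠ b := by
    have h2 := card_ne (⟨s0, hs0⟩ : {a : H // On q C a})
    rw [L.card_on hq] at h2
    obtain ⟨a, b, hab⟩ := (Finite.one_lt_card_iff_nontrivial
      (α := {τ : {a : H // On q C a} // ¬ τ = ⟨s0, hs0⟩})).1 (by omega)
    exact ⟨a.1.1, b.1.1, a.1.2, b.1.2, fun e => a.2 (Subtype.ext e), fun e => b.2 (Subtype.ext e),
      fun e => hab (Subtype.ext (Subtype.ext e))⟩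
  have all : ∀ x ∈ W, x ≠ 0 → ∀ ρ ∈ C ⊓ Y, ∃ k ∈ (⊤ : Subgroup H), k • x = x + ρ := by
    intro x hx h0 ρ hρ
    by_cases e : a • x = x
    · obtain ⟨k, hk⟩ := main b hb nb x hx
        (fun e' => h0 (L.disj x hx (L.fix2 a b ha hb hab x e e'))) ρ hρ
      exact ⟨k, trivial, hk⟩
    · obtain ⟨k, hk⟩ := main a ha na x hx e ρ hρ
      exact ⟨k, trivial, hk⟩
  obtain ⟨ρ, hρ⟩ := @exists_ne _ ((Finite.one_lt_card_iff_nontrivial
    (α := (C ⊓ Y : AddSubgroup V))).1 (by omega)) 0
  obtain ⟨x, hx, x0⟩ := ha.2.ne hq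
  obtain ⟨y, hy, y0⟩ := hb.2.ne hq
  refine hρ (Subtype.ext (G.bin.four (all x (L.sub a ha hx) x0 _ ρ.2) (all y (L.sub b hb hy) y0 _ ρ.2)
    (all (x + y) (add_mem (L.sub a ha hx) (L.sub b hb hy)) (fun e => hab ?_) _ ρ.2)))
  have : y = x := by rw [eq_neg_of_add_eq_zero_right e, hng]
  exact (L.meet hq ha hb.2 hx (this ▸ hy) x0).symm

end Geo

/-- classification of the irreducible binary linear groups -/
theorem main_lin [Nontrivial V] (hb : Bin (⊤ : Subgroup H) V)
    (irr : ∀ U : AddSubgroup V, (∀ g : H, ∀ u ∈ U, g • u ∈ U) → U = ⊥ ∨ U = ⊤) :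
    ((Nat.card V).Prime ∧ Nat.card H ≤ 2) ∨
      ∃ (E : Type) (_ : Field E), Nonempty (PL H (⊥ : AddSubgroup V) E) ∧ Mx H (⊥ : AddSubgroup V) := by
  classical
  by_cases hex : ∀ k : H, k * k = 1
  · left
    have hcm : ∀ a b : H, Commute a b := fun a b => comm_of_sq (hex a) (hex b) (hex _)
    have hneg : ∀ k : H, k ≠ 1 → ∀ v : V, k • v = -v := by
      intro k hk v
      rcases irr (Fx V k) (fun g u hu => mem_Fx.2 (by
        rw [← mul_smul, (hcm k g).eq, mul_smul, mem_Fx.1 hu])) with e | e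
      · have : k • v + v ∈ Fx V k := mem_Fx.2 (by rw [smul_add, ← mul_smul, hex, one_smul, add_comm])
        rw [e, AddSubgroup.mem_bot] at this
        exact eq_neg_of_add_eq_zero_left this
      · exact absurd (eq_one_of fun v => mem_Fx.1 (e ▸ AddSubgroup.mem_top v)) hk
    constructor
    · haveI : IsSimpleAddGroup V := ⟨fun U _ => irr U fun g u hu => by
        by_cases h : g = 1
        · rw [h, one_smul]; exact hu
        · rw [hneg g h]; exact neg_mem hu⟩
      exact IsSimpleAddGroup.prime_card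
    · have := Nat.card_le_card_of_injective (fun k : H => decide (k = 1)) (by
        intro a b e
        simp only [decide_eq_decide] at e
        by_cases h : a = 1
        · rw [h, e.1 h]
        · exact FaithfulSMul.eq_of_smul_eq_smul (α := V) fun v => by
            rw [hneg a h, hneg b (fun h' => h (e.2 h'))])
      simpa using this
  right
  push Not at hex
  have par : (∀ v : V, v + v = 0) ∨ (∀ v : V, v + v = 0 → v = 0) := by
    let U : AddSubgroup V :=
      { carrier := {v | v + v = 0}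
        zero_mem' := add_zero 0
        add_mem' := fun {a b} ha hb => by
          have : a + b + (a + b) = (a + a) + (b + b) := by abel
          simp only [Set.mem_setOf_eq] at *
          rw [this, ha, hb, add_zero]
        neg_mem' := fun {a} ha => by
          simp only [Set.mem_setOf_eq] at *
          rw [← neg_add, ha, neg_zero] }
    rcases irr U (fun g u hu => by
      change g • u + g • u = 0
      rw [← smul_add, show u + u = 0 from hu, smul_zero]) with e | e
    · exact Or.inr fun v hv => AddSubgroup.mem_bot.1 (e ▸ (hv : v ∈ U))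
    · exact Or.inl fun v => (e ▸ AddSubgroup.mem_top v : v ∈ U)
  obtain ⟨h, h2, hmax⟩ := Set.exists_max_image {k : H | k * k ≠ 1} (fun k => Nat.card (Fx V k))
    (Set.toFinite _) hex
  have M : Mx H (Fx V h) := mx_of_max hb par hmax le_rfl
  obtain ⟨E, _, ⟨P⟩⟩ := M.exists_PL (fun c hc => mem_Fx.1 hc) h2
  have L := P.ln M
  have G : Geo H V P.q := geo_of_max hb par P.two_le_q hmax L.cardV
  have hinv := G.case2 L (by
    intro s hs hn c hc
    by_contra hcs
    rcases par with he | ho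
    · exact G.even_case he L hs hn hc hcs
    · exact G.odd_case ho L hs hn hc hcs)
  have hC : Fx V h = ⊥ := by
    rcases irr _ hinv with e | e
    · have := L.card
      rw [e, AddSubgroup.card_bot] at this
      have := P.two_le_q
      nlinarith
    · rw [eq_bot_iff]
      intro c hc
      exact L.disj c (e ▸ AddSubgroup.mem_top c) hc
  rw [hC] at M P
  exact ⟨E, inferInstance, ⟨P⟩, M⟩

end Cfsg.Agent.H13.Bin
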