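import Mathlib
import Cfsg.Agent.H13.Jor
import Cfsg.Agent.H28.Unitary

/-!
Matrices of standard columns; explicit involutions in characteristic two.
-/

set_option autoImplicit false

namespace Cfsg.Agent.H13

open Matrix

variable {F : Type*} [Field F] {n l : Type*} [Fintype n] [DecidableEq n] [Fintype l] [DecidableEq l]

/-- The matrix whose columns are the standard vectors `e (f a)`. -/
def cols (F : Type*) [Field F] (f : l → n) : Matrix n l F := (1 : Matrix n n F).submatrix id f

omit [Fintype l] in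
theorem cols_transpose_mul_cols (f g : l → n) :
    (cols F f)ᵀ * cols F g = of fun a b => if f a = g b then 1 else 0 := by
  ext a b
  simp [cols, mul_apply, one_apply]

omit [Fintype l] in
theorem cols_transpose_mul_self {f : l → n} (hf : Function.Injective f) :
    (cols F f)ᵀ * cols F f = 1 := by
  rw [cols_transpose_mul_cols]; ext a b; simp [one_apply, hf.eq_iff]

omit [Fintype l] [DecidableEq l] in
theorem cols_transpose_mul_zero {f g : l → n} (h : ∀ a b, f a ≠ g b) :
    (cols F f)ᵀ * cols F g = 0 := by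
  classical
  rw [cols_transpose_mul_cols]; ext a b; simp [h]

omit [Fintype n] [DecidableEq l] in
theorem cols_mul_transpose_apply {f g : l → n} (hf : Function.Injective f) (i j : n) (p : Prop)
    [Decidable p] (h : p ↔ ∃ a, f a = i ∧ g a = j) :
    (cols F f * (cols F g)ᵀ) i j = if p then 1 else 0 := by
  simp only [cols, mul_apply, transpose_apply, submatrix_apply, id, one_apply]
  split_ifs with hp
  · obtain ⟨a, rfl, rfl⟩ := h.1 hp
    rw [Finset.sum_eq_single a (fun b _ hb => by simp [hf.eq_iff, hb.symm]) (by simp)]; simp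
  · refine Finset.sum_eq_zero fun a _ => ?_
    split_ifs with h1 h2
    · exact absurd (h.2 ⟨a, h1.symm, h2.symm⟩) hp
    all_goals simp

omit [DecidableEq n] in
theorem rank_mul_transpose_eq {X Y : Matrix n l F} {L L' : Matrix l n F} (h : L * X = 1)
    (h' : L' * Y = 1) : (X * Yᵀ).rank = Fintype.card l := by
  refine le_antisymm ((rank_mul_le_left _ _).trans (rank_le_card_width _)) ?_
  have : L * (X * Yᵀ) * L'ᵀ = 1 := by
    rw [← Matrix.mul_assoc, h, Matrix.one_mul, ← transpose_mul, h', transpose_one]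
  rw [← rank_one (R := F), ← this]
  exact (rank_mul_le_left _ _).trans (rank_mul_le_right _ _)

theorem exists_SL_of_sq [CharP F 2] {N : Matrix n n F} (h : N * N = 0) (h0 : 1 ≤ N.rank) :
    ∃ a : SpecialLinearGroup n F, (a : Matrix n n F) = 1 + N ∧ orderOf a = 2 := by
  refine ⟨⟨1 + N, det_of_isNilpotent ⟨2, by simp [pow_two, h]⟩⟩, rfl, orderOf_eq_prime ?_ ?_⟩
  · have h2 : N + N = 0 := by rw [← two_smul F, CharTwo.two_eq_zero, zero_smul]
    refine (pow_two _).trans (Subtype.ext (?_ : (1 + N) * (1 + N) = 1))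
    simp [add_mul, mul_add, h, add_assoc, h2]
  · intro h1
    have h2 : N = 0 := by simpa using congrArg Subtype.val h1
    simp [h2] at h0

theorem exists_pow_eq_iff_orderOf {C : Type*} [CommGroup C] [IsCyclic C] [Finite C] (x : C)
    (k : ℕ) : (∃ y, y ^ k = x) ↔ orderOf x ∣ Nat.card C / (Nat.card C).gcd k := by
  have h : (powMonoidHom k : C →* C).range =
      (powMonoidHom (Nat.card C / (Nat.card C).gcd k) : C →* C).ker := by
    refine Subgroup.eq_of_le_of_card_ge (fun y hy => ?_) ?_
    · have := pow_card_eq_one' (x := (⟨y, hy⟩ : (powMonoidHom k : C →* C).range))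
      rw [IsCyclic.card_powMonoidHom_range] at this
      exact congrArg Subtype.val this
    · rw [IsCyclic.card_powMonoidHom_range, IsCyclic.card_powMonoidHom_ker]
      exact Nat.le_of_dvd (Nat.div_pos (Nat.le_of_dvd Nat.card_pos (Nat.gcd_dvd_left _ _))
        (Nat.gcd_pos_of_pos_left _ Nat.card_pos)) (Nat.gcd_dvd_right _ _)
  rw [orderOf_dvd_iff_pow_eq_one]
  exact SetLike.ext_iff.1 h x

theorem padicValNat_gcd {p a b : ℕ} (hp : p.Prime) (ha : a ≠ 0) (hb : b ≠ 0) :
    padicValNat p (a.gcd b) = min (padicValNat p a) (padicValNat p b) := by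
  rw [← Nat.factorization_def _ hp, Nat.factorization_gcd ha hb, Finsupp.inf_apply,
    Nat.factorization_def _ hp, Nat.factorization_def _ hp]

/-- An element of prime power order `p ^ j` of a finite field is a `k`-th power iff ... -/
theorem exists_pow_eq_iff_padic [Finite F] {p j k : ℕ} [hp : Fact p.Prime] (hk : k ≠ 0) {x : F}
    (hx : orderOf x = p ^ j) : (∃ c : F, c ≠ 0 ∧ c ^ k * x = 1) ↔
      j + min (padicValNat p (Nat.card F - 1)) (padicValNat p k) ≤
        padicValNat p (Nat.card F - 1) := by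
  have hx0 : x ≠ 0 := by
    rintro rfl
    rw [orderOf_zero] at hx
    exact pow_ne_zero _ hp.out.ne_zero hx.symm
  have hN : Nat.card F - 1 ≠ 0 := by rw [← Nat.card_units]; exact Nat.card_pos.ne'
  have h := exists_pow_eq_iff_orderOf (Units.mk0 x hx0)⁻¹ k
  rw [orderOf_inv, ← orderOf_units, Units.val_mk0, hx, Nat.card_units, padicValNat_dvd_iff_le
    (Nat.div_pos (Nat.le_of_dvd (Nat.pos_of_ne_zero hN) (Nat.gcd_dvd_left _ _))
      (Nat.gcd_pos_of_pos_left _ (Nat.pos_of_ne_zero hN))).ne',
    padicValNat.div_of_dvd (Nat.gcd_dvd_left _ _), padicValNat_gcd hp.out hN hk] at h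
  rw [← Nat.le_sub_iff_add_le (min_le_left _ _), ← h]
  constructor
  · rintro ⟨c, h1, h2⟩
    exact ⟨Units.mk0 c h1, Units.ext (by simpa using eq_inv_of_mul_eq_one_left h2)⟩
  · rintro ⟨c, hc⟩
    exact ⟨c, c.ne_zero, by rw [← Units.val_pow_eq_pow_val, hc]; simp [hx0]⟩

end Cfsg.Agent.H13
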