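import Cfsg.Agent.H13.Wall3
import Cfsg.Agent.H13.Wall4
import Cfsg.Agent.H28.Elu8
import Cfsg.Agent.H12.MaxS
import Cfsg.Agent.H8.Oct1

/-!
Groups covered by the conjugates of two proper subgroups: generalities, `SL_n`, `G₂`, Dye's theorem.
-/

set_option autoImplicit false

namespace Cfsg.Agent.H13

open Module H28 Polynomial H12

section Gp
variable {G H : Type*} [Group G] [Group H]

/-- covered by the conjugates of two proper subgroups -/
def Cov (G : Type*) [Group G] : Prop := ∃ H K : Subgroup G, H ≠ ⊤ ∧ K ≠ ⊤ ∧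
  ∀ g : G, ∃ x : G, x * g * x⁻¹ ∈ H ∨ x * g * x⁻¹ ∈ K

/-- the elements satisfying `C` are conjugate into one proper subgroup -/
def Fam (C : G → Prop) : Prop := ∃ H : Subgroup G, H ≠ ⊤ ∧ ∀ g, C g → ∃ x, x * g * x⁻¹ ∈ H

theorem Fam.cov {C C' : G → Prop} (h : Fam C) (h' : Fam C') (H : ∀ g, C g ∨ C' g) : Cov G :=
  let ⟨A, a1, a2⟩ := h
  let ⟨B, b1, b2⟩ := h'
  ⟨A, B, a1, b1, fun g => (H g).elim (fun c => (a2 g c).imp fun _ => .inl)
    fun c => (b2 g c).imp fun _ => .inr⟩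

theorem Cov.map (h : Cov G) (f : G →* H) (hf : Function.Surjective f)
    (hA : ∀ A : Subgroup G, A.map f = ⊤ → A = ⊤) : Cov H := by
  obtain ⟨A, B, a, b, h⟩ := h
  refine ⟨A.map f, B.map f, fun e => a (hA A e), fun e => b (hA B e), fun g => ?_⟩
  obtain ⟨g, rfl⟩ := hf g
  obtain ⟨x, h⟩ := h g
  refine ⟨f x, ?_⟩
  rw [← map_inv, ← map_mul, ← map_mul]
  exact h.imp (Subgroup.mem_map_of_mem f) (Subgroup.mem_map_of_mem f)

theorem Cov.of_equiv (h : Cov G) (e : G ≃* H) : Cov H :=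
  h.map e e.surjective fun A hA => by
    rw [← Subgroup.comap_map_eq_self_of_injective (f := (e : G →* H)) e.injective A, hA,
      Subgroup.comap_top]

theorem Cov.quot (h : Cov G) (hp : commutator G = ⊤) : Cov (G ⧸ Subgroup.center G) :=
  h.map (QuotientGroup.mk' _) (QuotientGroup.mk'_surjective _) fun A hA => by
    have k (g : G) : ∃ a ∈ A, ∃ z ∈ Subgroup.center G, g = a * z := by
      obtain ⟨a, h1, h2⟩ : QuotientGroup.mk' _ g ∈ A.map (QuotientGroup.mk' _) :=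
        hA ▸ Subgroup.mem_top _
      exact ⟨a, h1, _, QuotientGroup.eq.1 h2, by simp⟩
    rw [eq_top_iff, ← hp, commutator, Subgroup.commutator_le]
    intro g _ g' _
    obtain ⟨a, h1, z, h2, rfl⟩ := k g
    obtain ⟨b, h3, w, h4, rfl⟩ := k g'
    rw [Subgroup.mem_center_iff] at h2 h4
    have : a * z * (b * w) * (a * z)⁻¹ * (b * w)⁻¹ = a * b * a⁻¹ * b⁻¹ := by
      rw [mul_assoc a z, ← h2 (b * w), mul_inv_rev, mul_inv_rev]
      simp only [mul_assoc, mul_inv_cancel_left]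
      rw [← mul_assoc w, ← h4 a⁻¹]
      simp only [mul_assoc, mul_inv_cancel_left]
    rw [commutatorElement_def]
    exact this ▸ A.mul_mem (A.mul_mem (A.mul_mem h1 h3) (A.inv_mem h1)) (A.inv_mem h3)

theorem fam_of [Finite G] [Nontrivial G] {Ω : Type*} (P : Ω → Prop) (R : Ω → G → Prop)
    (h1 : ∀ a, R a 1) (hm : ∀ a g h, R a g → R a h → R a (g * h)) (hp : ∀ a, P a → ∃ g, ¬ R a g)
    (ht : ∀ a b, P a → P b → ∃ x, ∀ g, R a g → R b (x * g * x⁻¹)) :
    Fam fun g => ∃ a, P a ∧ R a g := by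
  by_cases h : ∃ b, P b
  swap
  · exact ⟨⊥, bot_ne_top, fun g ⟨a, ha, _⟩ => absurd ⟨a, ha⟩ h⟩
  obtain ⟨b, hb⟩ := h
  let S : Submonoid G := ⟨⟨{g | R b g}, hm b _ _⟩, h1 b⟩
  refine ⟨⟨S, fun {g} hg => ?_⟩, fun e => ?_, fun g ⟨a, ha, hg⟩ => (ht a b ha hb).imp fun x hx => hx g hg⟩
  · have := S.pow_mem hg (orderOf g - 1)
    rwa [eq_inv_of_mul_eq_one_left (a := g ^ _) (b := g) (by
      rw [← pow_succ, Nat.sub_add_cancel (orderOf_pos g), pow_orderOf_eq_one])] at this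
  · obtain ⟨g, hg⟩ := hp b hb
    exact hg (show g ∈ (⟨S, _⟩ : Subgroup G) from e ▸ Subgroup.mem_top _)

variable {F V : Type*} [Field F] [AddCommGroup V] [Module F V] [Finite G] [Nontrivial G]

theorem fam_sub (ρ : G →* End F V) (P : Submodule F V → Prop)
    (hp : ∀ U, P U → ∃ g, ¬ Iv (ρ g) U) (ht : ∀ U U', P U → P U' → ∃ x, U.map (ρ x) = U') :
    Fam fun g => ∃ U, P U ∧ Iv (ρ g) U :=
  fam_of P _ (fun U u h => by simpa using h) (fun U g h a b u hu => by
    rw [map_mul]; exact a _ (b u hu)) hp fun U U' h h' => (ht U U' h h').imp fun x hx g hg v hv => by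
      subst hx
      obtain ⟨u, hu, rfl⟩ := hv
      refine ⟨_, hg u hu, ?_⟩
      rw [← End.mul_apply, ← End.mul_apply, ← map_mul, ← map_mul, inv_mul_cancel_right]

theorem fam_op (ρ : G →* End F V) (A : AddSubmonoid F) (P : End F V → Prop)
    (hp : ∀ J, P J → ∃ g, ∀ c ∈ A, ρ g * J ≠ (J + c • 1) * ρ g)
    (ht : ∀ J J', P J → P J' → ∃ x, ρ x * J = J' * ρ x) :
    Fam fun g => ∃ J, P J ∧ ∃ c ∈ A, ρ g * J = (J + c • 1) * ρ g :=
  fam_of P _ (fun J => ⟨0, A.zero_mem, by simp⟩) (fun J g h ⟨c, h1, h2⟩ ⟨d, h3, h4⟩ =>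
    ⟨c + d, A.add_mem h1 h3, by
      rw [map_mul, mul_assoc, h4, ← mul_assoc, mul_add, h2, ← mul_assoc]
      simp [add_mul, add_smul, add_assoc]⟩) (by simpa using hp) fun J J' h h' =>
    (ht J J' h h').imp fun x hx g ⟨c, h1, h2⟩ => ⟨c, h1, by
      have e : ρ x⁻¹ * J' = J * ρ x⁻¹ := by
        rw [← mul_one (_ * J'), ← map_one ρ, ← mul_inv_cancel x, map_mul, mul_assoc, ← mul_assoc J',
          ← hx, ← mul_assoc, ← mul_assoc, ← map_mul]; simp
      simp only [map_mul, mul_assoc, e]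
      rw [← mul_assoc (ρ g), h2]
      simp [add_mul, mul_add, ← mul_assoc, hx]⟩

end Gp

variable {F V : Type*} [Field F] [AddCommGroup V] [Module F V]

theorem exists_comp_dvd [Fintype F] {μ : F[X]} (hμ : Irreducible μ) (m : F[X]) : m ≠ 0 →
    (∀ f, Irreducible f → f ∣ m → μ.natDegree ∣ f.natDegree) → ∃ P, m ∣ μ.comp P := by
  refine UniqueFactorizationMonoid.induction_on_coprime m (fun h => absurd rfl h)
    (fun h _ _ => ⟨0, h.dvd⟩) (fun {p} i hp _ h => ?_) fun {x y} h h1 h2 h0 h3 => ?_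
  · rcases i with _ | i
    · exact ⟨0, by simp⟩
    haveI := Fact.mk hμ
    haveI := Fact.mk hp.irreducible
    haveI := finite_adjoinRoot hp.ne_zero
    haveI := Module.finite_of_finite F (M := AdjoinRoot p)
    obtain ⟨φ⟩ := (FiniteField.nonempty_algHom_iff_finrank_dvd (F := F) (K := AdjoinRoot μ)
      (L := AdjoinRoot p)).2 (by
        simpa [finrank_adjoinRoot] using h p hp.irreducible (dvd_pow_self _ i.succ_ne_zero))
    obtain ⟨P, hP⟩ := AdjoinRoot.mk_surjective (φ (AdjoinRoot.root μ))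
    have h1 : p ∣ aeval P μ := by
      rw [← AdjoinRoot.mk_eq_zero, ← AdjoinRoot.aeval_eq, ← aeval_algHom_apply, AdjoinRoot.aeval_eq, hP,
        aeval_algHom_apply]
      simp
    refine ⟨((FiniteField.frobeniusAlgHom F _) ^ (i + 1)) P, ?_⟩
    rw [comp_eq_aeval, aeval_algHom_apply, AlgHom.coe_pow, FiniteField.coe_frobeniusAlgHom, pow_iterate]
    exact pow_dvd_pow_of_dvd_of_le h1 (Nat.lt_pow_self Fintype.one_lt_card).le
  · obtain ⟨P, hP⟩ := h1 (left_ne_zero_of_mul h0) fun f a b => h3 f a (b.mul_right _)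
    obtain ⟨Q, hQ⟩ := h2 (right_ne_zero_of_mul h0) fun f a b => h3 f a (b.mul_left _)
    obtain ⟨u, v, e⟩ := h.isCoprime
    have k (a b : F[X]) : a - b ∣ μ.comp a - μ.comp b := by
      simpa only [eval_map, Polynomial.comp] using sub_dvd_eval_sub a b (μ.map C)
    refine ⟨v * y * P + u * x * Q, h.mul_dvd ((dvd_sub_left hP).1 (.trans ?_ (k _ _)))
      ((dvd_sub_left hQ).1 (.trans ?_ (k _ _)))⟩
    · exact ⟨u * (Q - P), by linear_combination P * e⟩
    · exact ⟨v * (P - Q), by linear_combination Q * e⟩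

theorem exists_irred [Finite F] (r : ℕ) [NeZero r] :
    ∃ μ : F[X], μ.Monic ∧ Irreducible μ ∧ μ.natDegree = r := by
  obtain ⟨p, _⟩ := CharP.exists F
  haveI := Fact.mk (CharP.char_is_prime F p)
  let b := Field.powerBasisOfFiniteOfSeparable F (FiniteField.Extension F p r)
  exact ⟨_, minpoly.monic b.isIntegral_gen, minpoly.irreducible b.isIntegral_gen, by
    rw [b.natDegree_minpoly, ← b.finrank, FiniteField.finrank_extension]⟩

variable [FiniteDimensional F V]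

theorem exists_aeval_root [Fintype F] {μ : F[X]} (hμ : Irreducible μ) (a : End F V)
    (h : ∀ x ∈ ed a, μ.natDegree ∣ x.f.natDegree) : ∃ P : F[X], aeval (aeval a P) μ = 0 := by
  classical
  obtain ⟨P, Q, hP⟩ := exists_comp_dvd hμ a.charpoly a.charpoly_monic.ne_zero fun f h1 h2 => by
    obtain ⟨x, h3, h4⟩ := (irreducible_dvd_charpoly_iff a (monic_normalize h1.ne_zero)
      ((associated_normalize f).irreducible h1)).1 ((normalize_associated f).dvd.trans h2)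
    simpa [h4, natDegree_eq_of_degree_eq (degree_normalize (p := f))] using h x h3
  exact ⟨P, by rw [aeval_algHom_apply, ← comp_eq_aeval, hP, map_mul, a.aeval_self_charpoly, zero_mul]⟩

theorem ed_of_aeval {x : PP F} {a : End F V} (hk : x.k = 1) (h : aeval a x.f = 0) :
    ed a = .replicate (finrank F V / x.f.natDegree) x := by
  have h1 : ∀ y ∈ ed a, y = x := fun y hy => by
    have h2 := (aeval_eq_zero_iff_ed a _).1 h y hy
    have h3 := eq_of_monic_of_associated y.monic x.monic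
      (y.irred.associated_of_dvd x.irred (y.f_dvd_poly.trans h2))
    have h4 := natDegree_le_of_dvd h2 x.irred.ne_zero
    rw [PP.natDegree_poly, h3] at h4
    have := y.pos
    have := x.natDegree_f_pos
    exact PP.ext h3 (by nlinarith)
  rw [Multiset.eq_replicate, ← tdg_ed a, tdg_of_const (c := x.f.natDegree) fun y hy => by
    rw [h1 y hy, PP.dg, hk, one_mul], Nat.mul_div_cancel _ x.natDegree_f_pos]
  exact ⟨rfl, h1⟩

theorem exists_eig_of_ed {a : End F V} {x : PP F} (hx : x ∈ ed a) (h : x.f.natDegree = 1) :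
    ∃ (c : F) (v : V), v ≠ 0 ∧ a v = c • v := by
  obtain ⟨c, hc⟩ := exists_root_of_degree_eq_one ((degree_eq_iff_natDegree_eq_of_pos one_pos).2 h)
  obtain ⟨v, hv⟩ := ((a.hasEigenvalue_iff_isRoot_charpoly c).2
    (hc.dvd ((irreducible_dvd_charpoly_iff a x.monic x.irred).2 ⟨x, hx, rfl⟩))).exists_hasEigenvector
  exact ⟨c, v, hv.2, hv.apply_eq_smul⟩

theorem eig_or_dvd (a : End F V) {r : ℕ}
    (h : ∀ k d T, 0 < k → 2 ≤ d → T ≠ 1 → k * d + T = finrank F V → r ∣ d) :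
    (∃ (c : F) (v : V), v ≠ 0 ∧ a v = c • v) ∨ ∀ x ∈ ed a, r ∣ x.f.natDegree := by
  by_cases H : ∃ x ∈ ed a, x.f.natDegree = 1
  · exact .inl (H.elim fun x hx => exists_eig_of_ed hx.1 hx.2)
  have H' : ∀ x ∈ ed a, 2 ≤ x.f.natDegree := fun x hx => by
    have := x.natDegree_f_pos
    have : x.f.natDegree ≠ 1 := fun e => H ⟨x, hx, e⟩
    omega
  refine .inr fun x hx => ?_
  obtain ⟨M, hM⟩ := Multiset.exists_cons_of_mem hx
  refine h x.k _ (tdg M) x.pos (H' x hx) (fun e => ?_) (by simpa [hM, tdg_cons] using tdg_ed a)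
  obtain ⟨y, hy⟩ := Multiset.exists_mem_of_ne_zero (s := M) (by rintro rfl; simp [tdg_zero] at e)
  obtain ⟨N, rfl⟩ := Multiset.exists_cons_of_mem hy
  have := H' y (by simp [hM])
  have := y.pos
  rw [tdg_cons, PP.dg] at e
  nlinarith

omit [FiniteDimensional F V] in
theorem no_eig {μ : F[X]} (hμ : Irreducible μ) (h1 : μ.natDegree ≠ 1) {a : End F V} (h : aeval a μ = 0)
    {c : F} {v : V} (hv : a v = c • v) : v = 0 := by_contra fun h0 => by
  have := End.aeval_apply_of_hasEigenvector (p := μ) ⟨End.mem_eigenspace_iff.2 hv, h0⟩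
  rw [h, LinearMap.zero_apply, eq_comm, smul_eq_zero_iff_left h0] at this
  exact hμ.not_isRoot_of_natDegree_ne_one h1 this

theorem commute_aeval {A : Type*} [Ring A] [Algebra F A] {a b : A} (h : Commute a b) (P : F[X]) :
    Commute a (aeval b P) := by
  induction P using Polynomial.induction_on' with
  | add p q hp hq => rw [map_add]; exact hp.add_right hq
  | monomial n c => rw [aeval_monomial]; exact (Algebra.commute_algebraMap_right c a).mul_right (h.pow_right n)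

open scoped LinearAlgebra.Projectivization in
theorem cov_SL [Fintype F] {n r : ℕ} (hn : 2 ≤ n) (hr : 2 ≤ r)
    (h : ∀ k d T, 0 < k → 2 ≤ d → T ≠ 1 → k * d + T = n → r ∣ d) :
    Cov (Matrix.SpecialLinearGroup (Fin n) F) := by
  classical
  haveI := NeZero.mk (show r ≠ 0 by omega)
  obtain ⟨μ, h1, h2, h3⟩ := exists_irred (F := F) r
  obtain ⟨n, rfl⟩ := Nat.exists_eq_add_of_le' hn
  let ρ : Matrix.SpecialLinearGroup (Fin (n + 2)) F →* End F (Fin (n + 2) → F) :=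
    (tl _ F).comp (slToMat _ F)
  let T := Matrix.SpecialLinearGroup.transvection (zero_ne_one (α := Fin (n + 2))) (1 : F)
  have hT (v) : ρ T v = v + v 1 • Pi.single 0 1 := by
    change (Matrix.transvection _ _ _).mulVec v = _
    ext i
    simp [Matrix.transvection, Matrix.add_mulVec, Matrix.single_mulVec, Function.update, Pi.single]
  have h0 : (Pi.single 0 1 : Fin (n + 2) → F) ≠ 0 := by simp
  haveI : Nontrivial (Matrix.SpecialLinearGroup (Fin (n + 2)) F) := ⟨T, 1, fun e => h0 (by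
    simpa [e] using hT (Pi.single 1 1))⟩
  refine (fam_of (fun _ => True) (fun (x : ℙ F (Fin (n + 2) → F)) g => g • x = x) (one_smul _)
    (fun a g h e1 e2 => by rw [mul_smul, e2, e1]) (fun a _ => ?_) fun a b _ _ =>
      (MulAction.exists_smul_eq _ a b).imp fun x hx g hg => by
        rw [← hx, mul_smul, mul_smul, inv_smul_smul, hg]).cov
    (fam_op ρ ⊥ (aeval · μ = 0) (fun J hJ => ⟨T, fun c hc e => h0 (no_eig h2 (by omega) hJ
      (c := J (Pi.single 1 1) 1) ?_)⟩) fun J J' e e' => ?_) fun g => ?_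
  · haveI : Nontrivial (ℙ F (Fin (n + 2) → F)) := ⟨.mk F _ h0, .mk F (Pi.single 1 1) (by simp), fun e => by
      obtain ⟨c, hc⟩ := (Projectivization.mk_eq_mk_iff' ..).1 e
      simpa using congrFun hc 0⟩
    obtain ⟨b, hb⟩ := exists_ne a
    exact (MulAction.exists_smul_eq _ a b).imp fun g hg e => hb (hg.symm.trans e)
  · have := LinearMap.congr_fun e (Pi.single 1 1)
    rw [AddSubmonoid.mem_bot.1 hc] at this
    simpa [hT] using this.symm
  · let x : PP F := ⟨μ, 1, h1, h2, one_pos⟩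
    have e1 := ed_of_aeval (x := x) rfl e
    obtain ⟨φ, hφ⟩ := sim_iff_ed.2 (e1.trans (ed_of_aeval (x := x) rfl e').symm)
    obtain ⟨b, b1, b2⟩ := exists_commute_det_eq J (x := x) (by
      by_contra h
      have := tdg_ed J
      rw [e1, Multiset.mem_replicate] at h
      rw [e1, not_not.1 fun e => h ⟨e, rfl⟩] at this
      simp [tdg_zero] at this) rfl (LinearMap.det φ.toLinearMap)⁻¹
    refine ⟨⟨LinearMap.toMatrix' (φ.toLinearMap * b), by
      rw [LinearMap.det_toMatrix', map_mul, b2, mul_inv_cancel₀ φ.isUnit_det'.ne_zero]⟩, ?_⟩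
    change Matrix.toLin' (LinearMap.toMatrix' (φ.toLinearMap * b)) * J =
      J' * Matrix.toLin' (LinearMap.toMatrix' (φ.toLinearMap * b))
    rw [Matrix.toLin'_toMatrix', mul_assoc, ← b1, ← mul_assoc, ← mul_assoc]
    congr 1
    exact LinearMap.ext hφ
  obtain ⟨c, v, h4, h5⟩ | H := eig_or_dvd (ρ g) (by simpa using h)
  · exact .inl ⟨.mk F v h4, trivial, (Projectivization.mk_eq_mk_iff' ..).2 ⟨c, h5.symm⟩⟩
  obtain ⟨P, hP⟩ := exists_aeval_root h2 (ρ g) (h3 ▸ H)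
  exact .inr ⟨_, hP, 0, zero_mem _, by simpa using (commute_aeval (.refl _) P).eq⟩

theorem _root_.Cfsg.Agent.H12.SD.exists_of_perp {σ : F →+* F} {B : V →ₛₗ[σ] V →ₗ[F] F} (D : SD B)
    {N N' : End F V} (h : ∀ x y, B (N' x) y = B x (N y)) (U : Submodule F V) {w : V}
    (hw : ∀ x, (∀ u ∈ U, B u (N x) = 0) → B x w = 0) : ∃ u ∈ U, N' u = w := by
  change w ∈ U.map N'
  rw [← D.sperp_sperp (U.map N')]
  exact fun x hx => hw x fun u hu => by rw [← h]; exact hx _ ⟨u, hu, rfl⟩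

section Two
variable [Finite F] [CharP F 2]

theorem exists_wp : ∃ δ : F, (∀ c, c ^ 2 + c ≠ δ) ∧ ∀ a, ∃ c, c ^ 2 + c = a ∨ c ^ 2 + c = a + δ := by
  let f : F →+ F := ⟨⟨fun c => c ^ 2 + c, by simp⟩, fun a b => by simp only [CharTwo.add_sq]; ring⟩
  have h : f.range.index = 2 := by
    rw [AddSubgroup.index_range, Nat.card_eq_two_iff' 0]
    refine ⟨⟨1, by simp [f, CharTwo.add_self_eq_zero]⟩, by simp [Subtype.ext_iff], fun ⟨y, hy⟩ h => ?_⟩
    have : y * (y + 1) = 0 := by rw [← show y ^ 2 + y = 0 from hy]; ring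
    exact Subtype.ext (CharTwo.add_eq_zero.1 ((mul_eq_zero.1 this).resolve_left (by simpa using h)))
  obtain ⟨δ, hδ⟩ := AddSubgroup.index_eq_two_iff.1 h
  refine ⟨δ, fun c hc => ?_, fun a => ?_⟩
  · simpa [show δ ∈ f.range from ⟨c, hc⟩] using hδ 0
  · rcases (hδ a).or with ⟨c, hc⟩ | ⟨c, hc⟩
    exacts [⟨c, .inr hc⟩, ⟨c, .inl hc⟩]

open H8

omit [Finite F] [CharP F 2] in
theorem exists_aut {P : Type*} [InvolutiveNeg P] (f : P → (Fin 8 → F) → (Fin 8 → F))
    (h : ∀ p x y (c : F), f p (x + y) = f p x + f p y ∧ f p (c • x) = c • f p x ∧ f (-p) (f p x) = x ∧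
      f p (zM x y) = zM (f p x) (f p y)) : ∀ p, ∃ g : AutO F, ∀ x, g.1 x = f p x := fun p =>
  ⟨⟨⟨⟨⟨f p, fun x y => (h p x y 0).1⟩, fun c x => (h p x 0 c).2.1⟩, f (-p), fun x => (h p x 0 0).2.2.1,
    fun x => by simpa using (h (-p) x 0 0).2.2.1⟩, fun x y => (h p x y 0).2.2.2⟩, fun _ => rfl⟩

omit [Finite F] [CharP F 2] in
theorem aut_U : ∀ p : F × F, ∃ g : AutO F, ∀ x, g.1 x = ![x 0, x 1 + p.1 * x 2 + p.2 * x 3, x 2, x 3, x 4,
    x 5 - p.1 * x 4, x 6 - p.2 * x 4, x 7] := by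
  refine exists_aut _ fun p x y c => ⟨?_, ?_, ?_, ?_⟩ <;> ext i <;> fin_cases i <;>
    simp [zM_apply, zornMul_eq] <;> ring

omit [Finite F] [CharP F 2] in
theorem aut_L : ∀ p : F × F, ∃ g : AutO F, ∀ x, g.1 x = ![x 0, x 1, x 2 + p.1 * x 1, x 3 + p.2 * x 1,
    x 4 - p.1 * x 5 - p.2 * x 6, x 5, x 6, x 7] := by
  refine exists_aut _ fun p x y c => ⟨?_, ?_, ?_, ?_⟩ <;> ext i <;> fin_cases i <;>
    simp [zM_apply, zornMul_eq] <;> ring

omit [Finite F] [CharP F 2] in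
theorem aut_A : ∀ t : F, ∃ g : AutO F, ∀ x, g.1 x = ![x 0 - t * x 4, x 1 + (x 0 - x 7 - t * x 4) * t,
    x 2, x 3, x 4, x 5 - t * x 3, x 6 + t * x 2, x 7 + t * x 4] := by
  refine exists_aut _ fun p x y c => ⟨?_, ?_, ?_, ?_⟩ <;> ext i <;> fin_cases i <;>
    simp [zM_apply, zornMul_eq] <;> ring

omit [Finite F] [CharP F 2] in
theorem aut_B : ∀ p : F × F × F, ∃ g : AutO F, ∀ x, g.1 x =
    ![x 0 + (x 1 * p.1 + x 2 * p.2.1 + x 3 * p.2.2), x 1 + (x 5 * p.2.2 - x 6 * p.2.1),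
    x 2 + (x 6 * p.1 - x 4 * p.2.2), x 3 + (x 4 * p.2.1 - x 5 * p.1),
    x 4 + (x 7 - x 0 - (x 1 * p.1 + x 2 * p.2.1 + x 3 * p.2.2)) * p.1,
    x 5 + (x 7 - x 0 - (x 1 * p.1 + x 2 * p.2.1 + x 3 * p.2.2)) * p.2.1,
    x 6 + (x 7 - x 0 - (x 1 * p.1 + x 2 * p.2.1 + x 3 * p.2.2)) * p.2.2,
    x 7 - (x 1 * p.1 + x 2 * p.2.1 + x 3 * p.2.2)] := by
  refine exists_aut _ fun p x y c => ⟨?_, ?_, ?_, ?_⟩ <;> ext i <;> fin_cases i <;>
    simp [zM_apply, zornMul_eq] <;> ring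

omit [Finite F] in
theorem oct_nf {t : F} (t0 : t ≠ 0) (t1 : t ≠ 1) (x : Fin 8 → F) (hx : x 0 + x 7 = 1) :
    ∃ g : AutO F, g.1 x = ![0, 1, 0, 0, -zN F x, 0, 0, 1] := by
  let S (x : Fin 8 → F) := ∃ g : AutO F, g.1 x = ![0, 1, 0, 0, -zN F x, 0, 0, 1]
  have k {f : (Fin 8 → F) → _} (h : ∃ g : AutO F, ∀ x, g.1 x = f x) {x} (H : S (f x)) : S x := by
    obtain ⟨g, hg⟩ := h
    obtain ⟨g', h⟩ := H
    exact ⟨g' * g, by rw [← hg, AutO_le g.2] at h; exact h⟩
  have s5 x (h0 : x 0 = 0) (h7 : x 7 = 1) (h1 : x 1 = 1) (h5 : x 5 = 0) (h6 : x 6 = 0) : S x :=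
    k (aut_L (-x 2, -x 3)) ⟨1, by ext i; fin_cases i <;> simp [zN_apply, *]⟩
  have s4 x (h0 : x 0 = 0) (h7 : x 7 = 1) (h1 : x 1 = 1) (h2 : x 2 = 0) (h3 : x 3 = 0) : S x :=
    k (aut_B (0, -x 5, -x 6)) (by apply s5 <;> simp [*, mul_comm])
  have s3 x (h0 : x 0 = 0) (h7 : x 7 = 1) (h1 : x 1 = 1) : S x :=
    k (aut_L (-x 2, -x 3)) (by apply s4 <;> simp [*])
  have s2 x (h0 : x 0 = 0) (h7 : x 7 = 1) (h1 : x 1 ≠ 0) : S x :=
    k (aut_L ((1 - x 2) / x 1, 0)) (k (aut_U (1 - x 1, 0)) (by apply s3 <;> simp [*]))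
  have s1 x (h0 : x 0 + x 7 = 1) (h1 : x 1 ≠ 0) : S x :=
    k (aut_B (-x 0 / x 1, 0, 0)) (by apply s2 <;> simp [← h0, mul_div_cancel₀, h1, add_comm])
  by_cases h1 : x 1 = 0
  swap
  · exact s1 x hx h1
  by_cases h2 : x 2 = 0
  swap
  · exact k (aut_U (1, 0)) (by apply s1 <;> simp [*])
  by_cases h3 : x 3 = 0
  swap
  · exact k (aut_U (0, 1)) (by apply s1 <;> simp [*])
  by_cases h4 : x 4 = 1
  · exact k (aut_A t) (s1 _ (by simpa using hx) (by
      simp [*, CharTwo.sub_eq_add, CharTwo.add_eq_zero, t1.symm]))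
  · exact k (aut_A 1) (s1 _ (by simpa using hx) (by
      simp [*, CharTwo.sub_eq_add, CharTwo.add_eq_zero, Ne.symm h4]))

theorem cov_G2 {t : F} (t0 : t ≠ 0) (t1 : t ≠ 1) : Cov (Lie.G2 F) := by
  refine Cov.of_equiv ?_ (g2Equiv F).symm
  haveI : Finite (AutO F) := Finite.of_injective (fun g : AutO F => ⇑g.1) fun _ _ h =>
    Subtype.ext (DFunLike.ext' h)
  obtain ⟨L, hL⟩ := aut_L (F := F) (1, 0)
  haveI : Nontrivial (AutO F) := ⟨L, 1, fun h => by simpa [h] using congrFun (hL (Pi.single 1 1)) 2⟩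
  have k (n : F) := fam_of (fun x : Fin 8 → F => x 0 + x 7 = 1 ∧ zN F x = n)
    (fun x (g : AutO F) => ∃ c : F, g.1 x = x + c • zO F) (fun _ => ⟨0, by simp⟩)
    (fun x g h ⟨c, hc⟩ ⟨d, hd⟩ => ⟨c + d, by
      change g.1 (h.1 x) = _
      rw [hd, map_add, map_smul, AutO_one, hc, add_smul, add_assoc]⟩) (fun x hx => by
      obtain ⟨g, hg⟩ := oct_nf t0 t1 x hx.1
      refine ⟨g⁻¹ * L * g, fun ⟨c, hc⟩ => ?_⟩
      have := congrArg g.1 hc
      change g.1 (g.1.symm (L.1 (g.1 x))) = _ at this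
      rw [g.1.apply_symm_apply, map_add, map_smul, AutO_one, hg, hL] at this
      simpa [zO] using congrFun this 2) fun x y hx hy => by
      obtain ⟨g, hg⟩ := oct_nf t0 t1 x hx.1
      obtain ⟨g', hg'⟩ := oct_nf t0 t1 y hy.1
      have : (g'⁻¹ * g).1 x = y := g'.1.symm_apply_eq.2 (by rw [hg', hy.2, ← hx.2]; exact hg)
      refine ⟨g'⁻¹ * g, fun a ⟨c, hc⟩ => ⟨c, ?_⟩⟩
      rw [← this]
      generalize g'⁻¹ * g = b
      change b.1 (a.1 (b.1.symm (b.1 x))) = _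
      rw [b.1.symm_apply_apply, hc, map_add, map_smul, AutO_one]
  obtain ⟨δ, -, hδ⟩ := exists_wp (F := F)
  refine (k 0).cov (k δ) fun g => ?_
  have D : SD (σ := .id F) (zN F).polarBilin := ⟨fun _ => rfl, fun x y => by
    simp [QuadraticMap.polar_comm, CharTwo.neg_eq], nd_zN, fun x => ⟨0, by
      simp [QuadraticMap.polar_self, CharTwo.two_eq_zero]⟩⟩
  obtain ⟨x, ⟨c, hc⟩, h⟩ : ∃ x, (∃ c : F, c • zO F = g.1 x - x) ∧ x 0 + x 7 ≠ 0 := by
    by_contra! H
    obtain ⟨u, h1, h2⟩ := D.exists_of_perp (N := g.1.toLinearMap - 1) (N' := g.1.symm.toLinearMap - 1)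
      (fun x y => by
        have := polar_map (a := g.1.toLinearMap) (AutO_le g.2) (g.1.symm x) y
        simp_all) (sperp (zN F).polarBilin (F ∙ zO F)) (w := zO F) fun x hx => by
        simpa [polar_zN, zO] using H x (Submodule.mem_span_singleton.1
          (D.mem_span_of_perp fun y hy => D.comm0 (hx y (mem_sperp_singleton.2 hy))))
    have h3 := AutO_le g⁻¹.2 u
    rw [show g⁻¹.1 u = zO F + u from sub_eq_iff_eq_add.1 h2, QuadraticMap.map_add (zN F),
      show QuadraticMap.polar _ _ _ = _ from mem_sperp_singleton.1 h1] at h3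
    simp [zN_apply, zO] at h3
  obtain ⟨d, hd⟩ := hδ (zN F ((x 0 + x 7)⁻¹ • x))
  have (n) (e : d ^ 2 + d = zN F ((x 0 + x 7)⁻¹ • x) + n) : ∃ a : Fin 8 → F, (a 0 + a 7 = 1 ∧ zN F a = n) ∧
      ∃ c : F, g.1 a = a + c • zO F := by
    refine ⟨(x 0 + x 7)⁻¹ • x + d • zO F, ⟨?_, ?_⟩, (x 0 + x 7)⁻¹ * c, ?_⟩
    · simp [zO]
      linear_combination inv_mul_cancel₀ h + CharTwo.add_self_eq_zero d
    · rw [← CharTwo.add_cancel_left (zN F ((x 0 + x 7)⁻¹ • x)) n, ← e]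
      simp only [zN_apply, Pi.add_apply, Pi.smul_apply]
      simp [zO]
      linear_combination d * inv_mul_cancel₀ h
    · rw [map_add, map_smul, map_smul, AutO_one, sub_eq_iff_eq_add.1 (show g.1 x - x = c • zO F from hc.symm)]
      module
  exact hd.imp (fun e => this 0 (by simpa using e)) (this δ)

theorem cov_dye {B : V →ₛₗ[RingHom.id F] V →ₗ[F] F} (D : SD B) {Q : V → F}
    (hQ : (∀ x y, Q (x + y) = Q x + Q y + B x y) ∧ ∀ (c : F) x, Q (c • x) = c ^ 2 * Q x)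
    {e f : V} (h0 : LinearIndependent F ![e, f]) (h1 : B e f = 0) : Cov (UG B) := by
  haveI := Module.finite_of_finite F (M := V)
  haveI : Finite (UG B) := Finite.of_injective (fun g : UG B => ⇑g.1) fun _ _ h =>
    Subtype.ext (DFunLike.ext' h)
  obtain ⟨δ, h2, h3⟩ := exists_wp (F := F)
  have h5 (x y) : B y x = B x y := by rw [D.skew, CharTwo.neg_eq]; rfl
  have h6 (x) : B x x = 0 := by simpa using (D.trace x).choose_spec.symm
  let P (R : V → F) := (∀ x y, R (x + y) = R x + R y + B x y) ∧ ∀ (c : F) x, R (c • x) = c ^ 2 * R x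
  have hv (R) (hR : P R) (v) : P fun x => R x + B v x ^ 2 :=
    ⟨fun x y => by simp only [hR.1, map_add, CharTwo.add_sq]; ring, fun c x => by simp [hR.2]; ring⟩
  have hd (R R') (hR : P R) (hR' : P R') : ∃ v, ∀ x, R' x = R x + B v x ^ 2 := by
    let φ := (frobeniusEquiv F 2).symm
    have e (a) : φ a ^ 2 = a := (frobeniusEquiv F 2).apply_symm_apply a
    obtain ⟨v, hv⟩ := D.exists_repr ⟨⟨fun x => φ (R' x - R x), fun x y => by
      rw [← map_add, hR.1, hR'.1]; congr 1; ring⟩, fun c x => (frobeniusEquiv F 2).injective (by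
      simp [hR.2, hR'.2, φ, frobenius_def, mul_sub])⟩
    exact ⟨v, fun x => by rw [hv]; exact (add_eq_of_eq_sub' (e _)).symm⟩
  have ht (R) (hR : P R) (v) (c) (hc : c ^ 2 + c = R v) : ∃ g : UG B, ∀ x, R (g.1 x) = R x + B v x ^ 2 := by
    obtain ⟨d, hd⟩ : ∃ d, d ^ 2 * R v + d = 1 := by
      by_cases h : R v = 0
      exacts [⟨1, by simp [h]⟩, ⟨c / R v, by field_simp; linear_combination hc⟩]
    exact ⟨tv B v d, fun x => by
      rw [tv_apply D (h6 v) rfl, hR.1, hR.2, map_smul, h5 v x, smul_eq_mul]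
      linear_combination B v x ^ 2 * hd⟩
  have hp (R) (hR : P R) : ∃ g : UG B, ¬ ∀ x, R (g.1 x) = R x := by
    obtain ⟨v, c, h7, h8⟩ : ∃ v c, v ≠ 0 ∧ c ^ 2 + c = R v := by
      obtain ⟨c, hc | hc⟩ := h3 (R e)
      · exact ⟨e, c, h0.ne_zero 0, hc⟩
      obtain ⟨d, hd | hd⟩ := h3 (R f)
      · exact ⟨f, d, h0.ne_zero 1, hd⟩
      refine ⟨e + f, c + d, fun h => by simpa [h] using LinearIndependent.pair_iff.1 h0 1 1, ?_⟩
      rw [hR.1, h1, CharTwo.add_sq]
      linear_combination hc + hd + CharTwo.add_self_eq_zero δ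
    obtain ⟨g, hg⟩ := ht R hR v c h8
    exact ⟨g, fun h => h7 (D.sep v fun x => by simpa [h] using hg x)⟩
  haveI : Nontrivial (UG B) := (hp Q hQ).elim fun g h => ⟨g, 1, by rintro rfl; exact h fun _ => rfl⟩
  have k (n : F) := fam_of (fun v => ∃ c, c ^ 2 + c = Q v + n)
    (fun v (g : UG B) => ∀ x, Q (g.1 x) + B v (g.1 x) ^ 2 = Q x + B v x ^ 2) (fun _ _ => rfl)
    (fun v g h a b x => (a _).trans (b x)) (fun v _ => hp (fun x => Q x + B v x ^ 2) (hv Q hQ v))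
    fun v w ⟨c, hc⟩ ⟨d, hd⟩ => by
      obtain ⟨g, hg⟩ := ht (fun x => Q x + B w x ^ 2) (hv Q hQ w) (w + v) (c + d + B w v) (by
        simp only [hQ.1, map_add, h6, CharTwo.add_sq]
        linear_combination hc + hd + CharTwo.add_self_eq_zero n)
      have : ∀ x, Q (g.1 x) + B w (g.1 x) ^ 2 = Q x + B v x ^ 2 := fun x => by
        simp only [hg, map_add, LinearMap.add_apply, CharTwo.add_sq]
        linear_combination CharTwo.add_self_eq_zero (B w x ^ 2)
      refine ⟨g, fun a ha x => ?_⟩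
      rw [UG_mul_apply, UG_mul_apply, this, ha, ← this, UG_apply_inv]
  refine (k 0).cov (k δ) fun g => ?_
  obtain ⟨w, hw⟩ := hd Q (fun x => Q (g.1 x)) hQ ⟨fun x y => by simp [hQ.1, UG_map], fun c x => by simp [hQ.2]⟩
  obtain ⟨v, -, hv⟩ := D.exists_of_perp (N := g.1.toLinearMap - 1) (N' := g⁻¹.1.toLinearMap - 1)
    (fun x y => by simp [UG_map_right]) ⊤ (w := w) fun x hx => by
      have := hw x
      rw [show g.1 x = x from sub_eq_zero.1 (D.ext_right fun z => by simpa using hx z trivial)] at this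
      simpa [h5 x] using this
  obtain ⟨c, hc⟩ := h3 (Q v)
  have : ∀ x, Q (g.1 x) + B v (g.1 x) ^ 2 = Q x + B v x ^ 2 := fun x => by
    rw [hw, ← hv, UG_map_right]
    simp only [LinearMap.sub_apply, map_sub, CharTwo.sub_eq_add, CharTwo.add_sq, End.one_apply]
    linear_combination CharTwo.add_self_eq_zero (B (g⁻¹.1 v) x ^ 2)
  exact hc.imp (fun e => ⟨v, ⟨c, by simpa using e⟩, this⟩) fun e => ⟨v, ⟨c, e⟩, this⟩

theorem cov_Sp_two {m : ℕ} (hm : 2 ≤ m) : Cov (Matrix.symplecticGroup (Fin m) F) := by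
  obtain ⟨m, rfl⟩ := Nat.exists_eq_add_of_le' hm
  refine (cov_dye sd_spB (Q := fun x => ∑ i, x (.inl i) * x (.inr i)) ⟨fun x y => ?_, fun c x => ?_⟩
    (e := Pi.single (.inl 0) 1) (f := Pi.single (.inl 1) 1) (LinearIndependent.pair_iff.2 fun s t h =>
      ⟨by simpa using congrFun h (.inl 0), by simpa using congrFun h (.inl 1)⟩)
    (by simp [spB_single_inl])).of_equiv (spEquiv _ F).symm
  · simp only [spB_apply', ← Finset.sum_add_distrib, CharTwo.sub_eq_add, Pi.add_apply]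
    exact Finset.sum_congr rfl fun i _ => by ring
  · simp only [Finset.mul_sum, Pi.smul_apply, smul_eq_mul]
    exact Finset.sum_congr rfl fun i _ => by ring

end Two

end Cfsg.Agent.H13
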