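import Cfsg.Agent.H13.Cov
import Cfsg.Agent.H28.Unitary

/-!
Coverings of `SU₄`, and of `SU₃` and `Sp₆` in characteristic 3.
-/

set_option autoImplicit false

namespace Cfsg.Agent.H13

open Module H28 Polynomial H12

variable {F V : Type*} [Field F] [AddCommGroup V] [Module F V] {σ : F →+* F}
  {B : V →ₛₗ[σ] V →ₗ[F] F} {a w : End F V}

theorem dvd_of_kill {f p : F[X]} (hf : Irreducible f) {x : V} (h1 : aeval a f x = 0)
    (h2 : aeval a p x = 0) (hx : x ≠ 0) : f ∣ p := by_contra fun h => by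
  obtain ⟨u, v, e⟩ := hf.coprime_iff_not_dvd.2 h
  have := LinearMap.congr_fun (congrArg (aeval a) e) x
  simp [h1, h2, hx.symm] at this

theorem form_aeval {k : End F V} (h : ∀ x y, B (a x) y = B x (k y)) (P : F[X]) (x y : V) :
    B (aeval a P x) y = B x (aeval k (P.map σ) y) := by
  induction P using Polynomial.induction_on generalizing y with
  | C c => simp
  | add p q hp hq => simp [hp, hq]
  | monomial n c ih => 
    have := ih (k y)
    rw [← h] at this
    simpa [pow_succ' a, pow_succ k, mul_smul_comm] using this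

theorem tis_ker [Fintype F] {q : ℕ} {hF : Fintype.card F = q ^ 2}
    {B : V →ₛₗ[frobq hF] V →ₗ[F] F} (ha : Pres B a) {m : ℕ} (hm : a ^ (m + 2) = 1) {f : F[X]}
    (hf : Irreducible f) (he : Even f.natDegree) : TIs B (LinearMap.ker (aeval a f)) := by
  intro x hx y hy
  by_contra h
  have h1 := form_aeval (B := B) (a := a) (k := aeval a (X ^ (m + 1) : F[X])) (fun x y => by
    rw [← ha x, map_pow, aeval_X, ← End.mul_apply, ← pow_succ', hm, End.one_apply]) f x
  simp only [aeval_algHom_apply, show aeval a f x = 0 from hx, map_zero, LinearMap.zero_apply] at h1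
  by_cases h2 : f ∣ aeval (X ^ (m + 1) : F[X]) (f.map (frobq hF))
  swap
  · obtain ⟨u, v, e⟩ := hf.coprime_iff_not_dvd.2 h2
    have := LinearMap.congr_fun (congrArg (aeval a) (mul_comm v _ ▸ e)) y
    rw [map_add, map_mul, map_mul, LinearMap.add_apply, End.mul_apply, show aeval a f y = 0 from hy] at this
    exact h (by rw [h1 (aeval a v y)]; congr 1; simpa using this.symm)
  haveI := Fact.mk hf
  haveI := finite_adjoinRoot hf.ne_zero
  haveI := Module.finite_of_finite F (M := AdjoinRoot f)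
  letI := Fintype.ofFinite (AdjoinRoot f)
  have h3 : AdjoinRoot.root f ^ (m + 2) = 1 := by
    have := AdjoinRoot.mk_eq_zero.2 (dvd_of_kill (p := X ^ (m + 2) - 1) hf hx (by simp [hm])
      (by rintro rfl; simp at h))
    simpa [sub_eq_zero] using this
  have h7 : f.eval₂ ((AdjoinRoot.of f).comp (frobq hF)) (AdjoinRoot.root f ^ (m + 1)) = 0 := by
    have := AdjoinRoot.mk_eq_zero.2 h2
    rwa [← AdjoinRoot.aeval_eq, ← aeval_algHom_apply, map_pow, aeval_X, aeval_def, eval₂_map] at this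
  let τ := AdjoinRoot.lift _ _ h7
  have h4 : τ.comp τ = .id _ := AdjoinRoot.ringHom_ext (by ext c; simp [τ, frobq_frobq]) (by
    simp only [τ, RingHom.comp_apply, AdjoinRoot.lift_root, map_pow, RingHom.id_apply]
    rw [← pow_mul, show (m + 1) * (m + 1) = (m + 2) * m + 1 by ring, pow_succ, pow_mul, h3]; simp)
  have h5 (c) : RingEquiv.ofRingHom τ τ h4 h4 (AdjoinRoot.of f c) = AdjoinRoot.of f (frobq hF c) := by
    simp [τ]
  refine frobq_ne_id hF (RingHom.ext fun c => (AdjoinRoot.of f).injective ?_)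
  by_cases h6 : RingEquiv.ofRingHom τ τ h4 h4 = 1
  · rw [← h5, h6]; rfl
  obtain ⟨d, hd⟩ := he
  rw [← h5, apply_eq_pow_of_orderOf_two (q := q ^ f.natDegree) (by
    rw [Module.card_eq_pow_finrank (K := F), hF, finrank_adjoinRoot]; ring)
    (orderOf_eq_prime (RingEquiv.ext (RingHom.congr_fun h4)) h6), ← map_pow, hd, ← two_mul, pow_mul, ← hF,
    FiniteField.pow_card_pow]
  rfl

theorem finrank_pair {x y : V} (hx : x ≠ 0) (hy : y ∉ F ∙ x) : finrank F (Submodule.span F {x, y}) = 2 := by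
  have := finrank_span_eq_card (li_pair_of_notMem hx hy)
  rwa [Matrix.range_cons_cons_empty] at this

variable [FiniteDimensional F V]

theorem su4_fix [Fintype F] {q : ℕ} {hF : Fintype.card F = q ^ 2} {B : V →ₛₗ[frobq hF] V →ₗ[F] F}
    (D : SD B) (h4 : finrank F V = 4) (ha : Pres B a) {m : ℕ} (hm : a ^ (m + 2) = 1) :
    (∃ U : Submodule F V, (finrank F U = 1 ∧ NDs B U) ∧ Iv a U) ∨
      ∃ U : Submodule F V, (finrank F U = 2 ∧ TIs B U) ∧ Iv a U := by
  by_contra! H
  have k1 (c : F) (v) (h : a v = c • v) : B v v = 0 := by_contra fun h0 => H.1 (F ∙ v)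
    ⟨finrank_span_singleton (by rintro rfl; simp at h0), (nds_iff D).2 fun u hu h1 => by
      obtain ⟨c, rfl⟩ := Submodule.mem_span_singleton.1 hu
      exact ⟨v, Submodule.mem_span_singleton_self v, by simp [h0, left_ne_zero_of_smul h1]⟩⟩
    (iv_iff.1 (by simp [Submodule.map_span, h, Submodule.smul_mem]))
  have k2 (f : F[X]) (h1 : Irreducible f) (h2 : Even f.natDegree) (x) (hx : aeval a f x = 0) : x = 0 := by
    by_contra h0
    have h3 := tis_ker ha hm h1 h2
    have h5 := D.two_mul_finrank_le h3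
    have h6 : Iv a (LinearMap.ker (aeval a f)) := fun y hy => by
      rw [LinearMap.mem_ker, ← End.mul_apply, ← (commute_aeval (.refl a) f).eq, End.mul_apply, hy, map_zero]
    refine H.2 _ ⟨le_antisymm (by omega) (not_lt.1 fun h => h0 ?_), h3⟩ h6
    obtain ⟨c, hc⟩ := (finrank_eq_one_iff_of_nonzero' (K := F) (⟨x, hx⟩ : LinearMap.ker (aeval a f))
      (fun e => h0 (congrArg Subtype.val e))).1 (le_antisymm (by omega) (finrank_pos_iff_exists_ne_zero.2
        ⟨⟨x, hx⟩, fun e => h0 (congrArg Subtype.val e)⟩)) ⟨_, h6 x hx⟩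
    exact congrArg Subtype.val <| no_eig (a := a.restrict h6) h1 (by rintro e; simp [e] at h2) (LinearMap.ext fun y => by
      have := intertwine_aeval (a := a.restrict h6) (Submodule.subtype _) (fun _ => rfl) f y
      exact Subtype.ext (this.trans y.2)) (v := ⟨x, hx⟩) hc.symm
  obtain ⟨l, e, h0, he⟩ | h := eig_or_dvd a (r := 2) fun k d T h1 h2 h3 h5 => by
    have : d ≤ 4 := by nlinarith
    have : k ≤ 2 := by nlinarith
    interval_cases d <;> interval_cases k <;> omega
  swap
  · obtain ⟨x, hx⟩ := Multiset.exists_mem_of_ne_zero (s := ed a) fun h => by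
      simpa [h, h4, tdg_zero] using tdg_ed a
    have := finrank_ker_aeval_pow a x.monic x.irred 1
    rw [pow_one, LinearMap.ker_eq_bot'.2 (k2 _ x.irred (even_iff_two_dvd.2 (h x hx))), finrank_bot, eq_comm,
      Multiset.sum_eq_zero_iff] at this
    simpa [x.pos.ne', x.natDegree_f_pos.ne'] using this _ (Multiset.mem_map_of_mem _ hx)
  have hee := k1 l e he
  have hl : Iv a (F ∙ e) := iv_iff.1 (by simp [Submodule.map_span, he, Submodule.smul_mem])
  have k3 (u) (h1 : B e u = 0) (h2 : u ∉ F ∙ e) (c : F) (h3 : a u - c • u ∈ F ∙ e) : B u u ≠ 0 := fun h5 => by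
    refine H.2 (.span F {e, u}) ⟨finrank_pair h0 h2,
      fun x hx y hy => ?_⟩ (iv_iff.1 ?_)
    · obtain ⟨s, t, rfl⟩ := Submodule.mem_span_pair.1 hx
      obtain ⟨s', t', rfl⟩ := Submodule.mem_span_pair.1 hy
      simp [hee, h1, h5, D.comm0 h1]
    · obtain ⟨d, hd⟩ := Submodule.mem_span_singleton.1 h3
      simp only [Submodule.map_span, Set.image_pair, Submodule.span_le, Set.pair_subset_iff]
      exact ⟨Submodule.mem_span_pair.2 ⟨l, 0, by simp [he]⟩, Submodule.mem_span_pair.2 ⟨d, c, by simp [hd]⟩⟩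
  have k4 (u) (h1 : B e u = 0) (h2 : u ∉ F ∙ e) (c : F) (h3 : a u - c • u ∈ F ∙ e) : c = l := by
    by_contra h5
    obtain ⟨d, hd⟩ := Submodule.mem_span_singleton.1 h3
    have := k1 c (u + (d / (c - l)) • e) (by
      rw [map_add, map_smul, he, eq_add_of_sub_eq hd.symm]
      have := sub_ne_zero.2 h5
      match_scalars <;> field_simp <;> ring)
    simp [hee, h1, D.comm0 h1, k3 u h1 h2 c h3] at this
  have k5 (U : Submodule F V) (h : 1 < finrank F U) : ∃ u ∈ U, u ∉ F ∙ e := by
    by_contra! h1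
    have := Submodule.finrank_mono (show U ≤ F ∙ e from h1)
    rw [finrank_span_singleton h0] at this
    omega
  obtain ⟨u, h1, h2, c, h3⟩ : ∃ u ∈ sperp B (F ∙ e), u ∉ F ∙ e ∧ ∃ c : F, a u - c • u ∈ F ∙ e := by
    have h5 := hl.sperp D ha
    have h6 := D.finrank_sperp (F ∙ e)
    rw [finrank_span_singleton h0] at h6
    obtain ⟨x, h7, h8⟩ := k5 (sperp B (F ∙ e)) (by omega)
    obtain ⟨P, hP⟩ := dvd_iff_isRoot.2 ((End.hasEigenvalue_iff_isRoot_charpoly (a.restrict h5) l).1
      (End.hasEigenvalue_of_hasEigenvector (x := ⟨e, mem_sperp_singleton.2 hee⟩)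
        ⟨End.mem_eigenspace_iff.2 (Subtype.ext he), by simpa using h0⟩))
    have h9 : aeval a ((X - C l) * P) x = 0 := by
      rw [← hP, ← show _ = aeval a _ x from intertwine_aeval (a := a.restrict h5) (Submodule.subtype _)
        (fun _ => rfl) _ ⟨x, h7⟩, LinearMap.aeval_self_charpoly]; rfl
    have hP1 : P.Monic := (monic_X_sub_C l).of_mul_monic_left (hP ▸ LinearMap.charpoly_monic _)
    have hP2 : P.natDegree = 2 := by
      have := congrArg natDegree hP
      rw [LinearMap.charpoly_natDegree, (monic_X_sub_C l).natDegree_mul hP1, natDegree_X_sub_C] at this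
      omega
    by_cases h : Irreducible P
    · refine ⟨x, h7, h8, l, ?_⟩
      rw [k2 P h (by simp [hP2]) (a x - l • x) (by simpa [mul_comm _ P] using h9)]
      exact zero_mem _
    · have h' : P.Splits := by
        rw [hP1.irreducible_iff_roots_eq_zero_of_degree_le_three (by omega) (by omega)] at h
        obtain ⟨r, hr⟩ := Multiset.exists_mem_of_ne_zero h
        exact .of_natDegree_eq_two hP2 (isRoot_of_mem_roots hr)
      obtain ⟨u, a1, a2, c, -, a3⟩ := exists_eigen_mod h5 (l ::ₘ P.roots) h7 h8 (by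
        rw [Multiset.map_cons, Multiset.prod_cons, ← h'.eq_prod_roots_of_monic hP1, h9]
        exact zero_mem _)
      exact ⟨u, a1, a2, c, a3⟩
  rw [mem_sperp_singleton] at h1
  obtain rfl := k4 u h1 h2 c h3
  have h5 := D.finrank_sperp (.span F {e, u})
  rw [finrank_pair h0 h2] at h5
  obtain ⟨v, h6, h7⟩ := k5 (sperp B (.span F {e, u})) (by omega)
  obtain ⟨s, t, h8⟩ : ∃ s t : F, s • e + t • v = a v := by
    rw [← Submodule.mem_span_pair, Submodule.eq_of_le_of_finrank_eq (S₁ := .span F {e, v})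
      (S₂ := sperp B (.span F {e, u})) (Submodule.span_le.2 (Set.pair_subset_iff.2
        ⟨mem_sperp_pair.2 ⟨hee, D.comm0 h1⟩, h6⟩)) (by rw [finrank_pair h0 h7]; omega)]
    obtain ⟨d, hd⟩ := Submodule.mem_span_singleton.1 h3
    rw [mem_sperp_pair] at h6 ⊢
    have hc : c ≠ 0 := fun h => h0 (D.sep e fun y => by simpa [he, h] using (ha e y).symm)
    have h9 : B e (a v) = 0 := by simpa [he, hc, h6.1] using ha e v
    exact ⟨h9, by simpa [eq_add_of_sub_eq hd.symm, h9, hc, h6.2] using ha u v⟩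
  rw [mem_sperp_pair] at h6
  have h9 : a v - t • v ∈ F ∙ e := Submodule.mem_span_singleton.2 ⟨s, by simp [← h8]⟩
  obtain rfl := k4 v h6.1 h7 t h9
  have h10 := k3 v h6.1 h7 t h9
  obtain ⟨r, hr⟩ := (D.ns.resolve_left (frobq_ne_id hF)) (-B u u / B v v) (by simp [D.σ_map, div_neg, neg_div])
  refine k3 (u + r • v) (by simp [h1, h6.1]) (fun h => ?_) t (by
    convert add_mem h3 (Submodule.smul_mem _ r h9) using 1
    simp only [map_add, map_smul]; module) ?_
  · obtain ⟨d, hd⟩ := Submodule.mem_span_singleton.1 h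
    exact k3 u h1 h2 t h3 (by simpa [D.comm0 h1, h6.2] using (congrArg (B u) hd).symm)
  · simp [h6.2, D.comm0 h6.2]
    linear_combination B v v * hr + div_mul_cancel₀ (-B u u) h10

variable (B) in
/-- the special isometry group as endomorphisms -/
noncomputable def rs : SUG B →* End F V := (leq (UG B)).comp (SUG B).subtype

theorem exists_rs (D : SD B) (ha : Pres B a) (h : LinearMap.det a = 1) : ∃ g, rs B g = a :=
  let e := LinearEquiv.ofInjectiveEndo a (inj_of_det (h ▸ one_ne_zero))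
  ⟨⟨⟨e, ha⟩, mem_SUG.2 h⟩, rfl⟩

variable [Finite F]

instance finite_SUG : Finite (SUG B) :=
  haveI := Module.finite_of_finite F (M := V)
  Finite.of_injective (fun g : SUG B => ⇑g.1.1) fun _ _ h => Subtype.ext (Subtype.ext (DFunLike.ext' h))

theorem not_iv (D : SD B) (h : 3 ≤ finrank F V) {U : Submodule F V} (h0 : 0 < finrank F U)
    (h1 : finrank F U < finrank F V) : ∃ g, ¬ Iv (rs B g) U := by
  by_contra! H
  obtain ⟨u, hu⟩ := finrank_pos_iff_exists_ne_zero.1 h0
  rw [D.eq_top_of_invariant D.ns (.inr h) (fun k hk => H ⟨k, hk⟩) u.2 (by simpa using hu), finrank_top] at h1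
  omega

theorem nontriv (D : SD B) (h : 3 ≤ finrank F V) : Nontrivial (SUG B) := by
  obtain ⟨U, -, hU⟩ := exists_le_finrank (F := F) (V := V) (U := ⊤) (m := 1) (by simp; omega)
  obtain ⟨g, hg⟩ := not_iv D h (U := U) (by omega) (by omega)
  exact ⟨g, 1, by rintro rfl; exact hg fun _ h => h⟩

open scoped Pointwise in
theorem fam_nd (D : SD B) {d : ℕ} (h0 : 0 < d) (h : 2 * d < finrank F V) :
    Fam fun g => ∃ U : Submodule F V, (finrank F U = d ∧ NDs B U) ∧ Iv (rs B g) U := by
  haveI := nontriv D (by omega)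
  refine fam_sub _ _ (fun U hU => not_iv D (by omega) (by omega) (by omega)) fun U U' h1 h2 => ?_
  obtain ⟨φ, hφ⟩ := (D.restrict h1.2).exists_isometry (D.restrict h2.2) (h1.1.trans h2.1.symm)
  obtain ⟨g, hg⟩ := exists_smul_eq D φ hφ
  obtain ⟨k, h3, h4⟩ := D.exists_fix_det g (S := U') (or_iff_not_imp_left.2 fun hσ =>
    (D.exists_aniso_perp hσ U' (by omega)))
  exact ⟨⟨_, h3⟩, show (k * g) • U = U' by rw [mul_smul, hg, smul_eq_of_fix h4]⟩

theorem fam_ti (D : SD B) (h : finrank F V = 4) :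
    Fam fun g => ∃ U : Submodule F V, (finrank F U = 2 ∧ TIs B U) ∧ Iv (rs B g) U := by
  haveI := nontriv D (by omega)
  refine fam_sub _ _ (fun U hU => not_iv D (by omega) (by omega) (by omega)) fun U U' h1 h2 => ?_
  obtain ⟨e, he⟩ := finrank_pos_iff_exists_ne_zero.1 (show 0 < finrank F U by omega)
  obtain ⟨f, hf⟩ := finrank_pos_iff_exists_ne_zero.1 (show 0 < finrank F U' by omega)
  have hf' : f.1 ≠ 0 := by simpa using hf
  obtain ⟨g, h3, h4⟩ := D.witt_SUG (ι := Unit) (e := fun _ => e.1) (f := fun _ => f.1)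
    (linearIndependent_unique_iff.2 (by simpa using he)) (linearIndependent_unique_iff.2 hf')
    (fun _ _ => by rw [h1.2 _ e.2 _ e.2, h2.2 _ f.2 _ f.2]) (.inr (by simp [h]))
  have h5 : finrank F (U.map (rs B ⟨g, h3⟩)) = 2 := (LinearEquiv.finrank_map_eq g.1 U).trans h1.1
  have h6 : TIs B (U.map (rs B ⟨g, h3⟩)) := h1.2.map g.2
  have h7 : f.1 ∈ U.map (rs B ⟨g, h3⟩) := ⟨e, e.2, h4 ()⟩
  suffices ∃ t, (U.map (rs B ⟨g, h3⟩)).map (rs B t) ≤ U' from this.elim fun t ht => ⟨t * ⟨g, h3⟩,
    Submodule.eq_of_le_of_finrank_eq (by rwa [map_mul, End.mul_eq_comp, Submodule.map_comp])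
      ((LinearEquiv.finrank_map_eq _ U).trans (h1.1.trans h2.1.symm))⟩
  generalize U.map (rs B ⟨g, h3⟩) = W at *
  by_cases h8 : ∀ x ∈ W, ∀ y ∈ U', B x y = 0
  · have := D.finrank_sperp U'
    refine ⟨1, fun x ⟨y, hy, e⟩ => ?_⟩
    rw [Submodule.eq_of_le_of_finrank_eq (show U' ≤ sperp B U' from fun x hx y hy => h2.2 y hy x hx) (by omega)]
    exact fun z hz => e ▸ D.comm0 (h8 y hy z hz)
  push Not at h8
  obtain ⟨x, hx, y, hy, h8⟩ := h8
  obtain ⟨y, hy, h8⟩ : ∃ y ∈ U', B x y = 1 := ⟨(B x y)⁻¹ • y, U'.smul_mem _ hy, by simp [h8]⟩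
  have h9 : B y x = -1 := by rw [D.skew, h8, map_one]
  have h10 : B (y - x) (y - x) = 0 := by simp [h8, h9, h6 x hx x hx, h2.2 y hy y hy]
  rw [← Submodule.eq_of_le_of_finrank_eq (S₁ := .span F {f.1, x}) (Submodule.span_le.2
    (Set.pair_subset_iff.2 ⟨h7, hx⟩)) (by
      rw [h5, finrank_pair hf' fun h => by simpa [h8] using h2.2 x ((U'.span_singleton_le_iff_mem _).2 f.2 h) y hy])]
  refine ⟨⟨tv B (y - x) (-1), tv_mem_SUG D _ _⟩, ?_⟩
  simp only [Submodule.map_span, Set.image_pair, Submodule.span_le, Set.pair_subset_iff]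
  change (tv B _ _).1 _ ∈ U' ∧ (tv B _ _).1 _ ∈ U'
  simp [tv_apply D h10 (c := -1) (by simp), h9, h6 x hx x hx, hy, h6 x hx _ h7, h2.2 y hy _ f.2]

theorem cov_SU4 [Fintype F] {q : ℕ} (hF : Fintype.card F = q ^ 2) : Cov (SU 4 F q) :=
  (((fam_nd (sd_uB hF 4) one_pos (by simp)).cov (fam_ti (sd_uB hF 4) (by simp))) fun g =>
    su4_fix (sd_uB hF 4) (by simp) g.1.2 (m := 2 * orderOf g - 2) (by
      rw [← map_pow, Nat.sub_add_cancel (by have := orderOf_pos g; omega), mul_comm, pow_mul,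
        pow_orderOf_eq_one, one_pow, map_one])).of_equiv (suEquiv hF 4).symm

section Three

omit [Finite F] in
theorem trace_adj (D : SD B) (a : End F V) :
    LinearMap.trace F V (D.wittData.nds.adj a) = σ (LinearMap.trace F V a) := by
  let b := finBasis F V
  choose u hu using fun i => D.exists_repr (b.coord i)
  have h1 : a = ∑ i, (B (u i)).smulRight (a (b i)) := b.ext fun j => by
    simp [hu, Finsupp.single_apply, LinearMap.sum_apply]
  have h2 : D.wittData.nds.adj a = ∑ i, (-B (a (b i))).smulRight (u i) := NDS.adj_eq _ fun x y => by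
    conv_rhs => rw [h1]
    simp [LinearMap.sum_apply, D.σ_map, mul_comm]
  rw [h2]
  conv_rhs => rw [h1]
  simp [D.σ_map]

omit [Finite F] in
theorem exists_ad (h : ∀ b, Commute a b → LinearMap.trace F V b = 0) : ∃ d, d * a - a * d = a := by
  by_contra! H
  obtain ⟨φ, h1, h2⟩ := (LinearMap.range (LinearMap.mulRight F a - LinearMap.mulLeft F a)
    ).exists_dual_map_eq_bot_of_notMem (x := a) (fun ⟨d, hd⟩ => H d hd) inferInstance
  have k (x : End F V) (hx : ∀ y, LinearMap.trace F V (x * y) = 0) : x = 0 := LinearMap.ext fun v =>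
    (forall_dual_apply_eq_zero_iff F _).1 fun ψ => by
      rw [← hx (ψ.smulRight v), show x * ψ.smulRight v = ψ.smulRight (x v) by ext; simp]; simp
  obtain ⟨b, hb⟩ := exists_repr_dual (σ := .id F) (fun _ => rfl)
    ((LinearMap.mul F (End F V)).compr₂ (LinearMap.trace F V)) k φ
  have h3 : Commute a b := sub_eq_zero.1 (k _ fun y => by
    have : φ (y * a - a * y) = 0 := (Submodule.mem_bot F).1 (h2 ▸ ⟨_, ⟨y, rfl⟩, rfl⟩)
    simpa [← hb, sub_mul, mul_assoc, LinearMap.trace_mul_comm F a, mul_sub] using this)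
  exact h1 (by simpa [← hb] using h _ (h3.mul_right (.refl a)))

theorem cube_add {A : Type*} [Ring A] (h3 : (3 : A) = 0) {a s d : A} (h : a * s = s * a + d)
    (h' : d * s = s * d) : (a + s) ^ 3 = a ^ 3 + s ^ 3 + (a * d - d * a) := by
  have e1 : a * (s * s) = s * (s * a) + 2 * (s * d) := by
    rw [← mul_assoc, h, add_mul, mul_assoc, h, h']; noncomm_ring
  have e2 : s * (a * s) = s * (s * a) + s * d := by rw [h, mul_add]
  have : (a + s) ^ 3 = a ^ 3 + s ^ 3 + (a * (a * s - s * a) - (a * s - s * a) * a) + 3 * (a * (s * a)) +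
    (a * (s * s) + s * (a * s) + s * (s * a)) := by noncomm_ring
  rw [this, e1, e2, h, add_sub_cancel_left]
  linear_combination (norm := noncomm_ring) h3 * (a * (s * a) + s * (s * a) + s * d)

/-- self-adjoint -/
def SA (B : V →ₛₗ[σ] V →ₗ[F] F) (w : End F V) : Prop := ∀ x y, B (w x) y = B x (w y)

omit [Finite F] [FiniteDimensional F V] in
theorem SA.mul {v : End F V} (h : SA B v) (h' : SA B w) (e : Commute v w) : SA B (v * w) := fun x y => by
  rw [End.mul_apply, h, h', e.eq]; rfl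

omit [Finite F] [FiniteDimensional F V] in
theorem SA.pow (h : SA B w) (k : ℕ) : SA B (w ^ k) := by
  induction k with
  | zero => exact fun _ _ => rfl
  | succ k ih => rw [pow_succ]; exact ih.mul h (.pow_self ..)

omit [Finite F] in
theorem sa_add_adj (D : SD B) (a : End F V) : SA B (a + D.wittData.nds.adj a) := fun x y => by
  have := NDS.adj_apply D.wittData.nds (D.wittData.nds.adj a) x y
  rw [NDS.adj_adj (ε := -1) _ (by simp [D.σ_map])] at this
  simp [NDS.adj_apply, this, add_comm]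

omit [Finite F] in
theorem commute_adj (D : SD B) (ha : Pres B a) {b : End F V} (h : Commute a b) :
    Commute a (D.wittData.nds.adj b) := LinearMap.ext fun x => D.ext_left fun z => by
  obtain ⟨z, rfl⟩ := D.wittData.nds.surj ha z
  rw [End.mul_apply, End.mul_apply, ha, NDS.adj_apply, NDS.adj_apply, ← End.mul_apply b, ← h.eq, End.mul_apply, ha]

omit [Finite F] in
theorem fitting (D : SD B) (H : ∀ U, NDs B U → Iv a U → U = ⊥ ∨ U = ⊤) (hw : SA B w) (h : Commute a w)
    {v : V} (h0 : v ≠ 0) (hv : w v = 0) : IsNilpotent w := by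
  obtain ⟨n, hn⟩ := Filter.eventually_atTop.1 w.eventually_isCompl_ker_pow_range_pow
  refine ⟨n + 1, LinearMap.range_eq_bot.1 ((H _ ((hn _ n.le_succ).disjoint.symm.mono_right fun x hx =>
    D.ext_right fun z => ?_) ?_).resolve_right fun e => h0 ?_)⟩
  · rw [← hw.pow, hx _ ⟨z, rfl⟩, map_zero]
  · rintro _ ⟨x, rfl⟩
    exact ⟨a x, LinearMap.congr_fun (h.pow_right (n + 1)).eq.symm x⟩
  · exact (LinearMap.injective_iff_surjective.2 (LinearMap.range_eq_top.1 e)) (by simp [pow_succ, hv])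

omit [Finite F] in
theorem sa_three (D : SD B) (h3 : finrank F V = 3) (H : ∀ U, NDs B U → Iv a U → U = ⊥ ∨ U = ⊤)
    (hw : SA B w) (h : Commute a w) :
    (∃ c, σ c = c ∧ IsNilpotent (w - c • 1)) ∨ ∀ x ∈ ed w, 3 ∣ x.f.natDegree := by
  refine (eig_or_dvd w fun k d T h1 h2 h4 h5 => ?_).imp_left fun ⟨c, v, h0, hv⟩ => ?_
  · have : d ≤ 3 := by nlinarith
    have : k ≤ 1 := by nlinarith
    interval_cases d <;> interval_cases k <;> omega
  have e (c d : F) : Commute (w - c • 1) (w - d • 1) := by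
    simp [Commute, SemiconjBy, sub_mul, mul_sub, smul_sub, smul_smul, mul_comm c]; abel
  have k (c x y) : B ((w - c • 1) x) y = B x ((w - σ c • 1) y) := by simp [hw x y]
  have e' (c : F) : Commute a (w - c • 1) := h.sub_right ((Commute.one_right a).smul_right c)
  obtain ⟨m, hm⟩ := fitting D H (w := (w - σ c • 1) * (w - c • 1)) (fun x y => by
    rw [End.mul_apply, k, k, D.invol]; rfl) ((e' _).mul_right (e' _)) h0 (by simp [hv])
  by_cases hc : σ c = c
  · exact ⟨c, hc, 2 * m, by rw [hc] at hm; rwa [pow_mul, sq]⟩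
  have k' (c) (hm : ((w - σ c • 1) * (w - c • 1)) ^ m = 0) :
      finrank F (LinearMap.range ((w - c • 1) ^ m)) ≤ 1 := by
    have := D.two_mul_finrank_le (W := LinearMap.range ((w - c • 1) ^ m)) (by
      rintro _ ⟨x, rfl⟩ _ ⟨y, rfl⟩
      have := form_aeval (k c) (X ^ m) x (((w - c • 1) ^ m) y)
      rw [(e _ _).mul_pow] at hm
      simpa [← End.mul_apply, hm] using this)
    omega
  have h1 := k' c hm
  have h2 := k' (σ c) (by rwa [D.invol, (e _ _).eq])
  have h4 := Submodule.finrank_add_le_finrank_add_finrank (LinearMap.range ((w - c • 1) ^ m))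
    (LinearMap.range ((w - σ c • 1) ^ m))
  obtain ⟨p, q, h5⟩ := (isCoprime_X_sub_C_of_isUnit_sub (sub_ne_zero.2 hc).isUnit).pow (m := m) (n := m)
  rw [show LinearMap.range ((w - c • 1) ^ m) ⊔ LinearMap.range ((w - σ c • 1) ^ m) = ⊤ from
    eq_top_iff.2 fun x _ => Submodule.mem_sup.2 ⟨_, ⟨aeval w q x, rfl⟩, _, ⟨aeval w p x, rfl⟩, by
    simpa [mul_comm p, mul_comm q, Algebra.algebraMap_eq_smul_one, add_comm] using
      LinearMap.congr_fun (congrArg (aeval w) h5) x⟩, finrank_top] at h4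
  omega

omit [Finite F] in
theorem sa_six {B : V →ₛₗ[RingHom.id F] V →ₗ[F] F} (D : SD B) (h2 : (2 : F) ≠ 0) (h6 : finrank F V = 6)
    (H : ∀ U, NDs B U → Iv a U → U = ⊥ ∨ U = ⊤) (hw : SA B w) (h : Commute a w) :
    (∃ c : F, c = c ∧ IsNilpotent (w - c • 1)) ∨ ∀ x ∈ ed w, 3 ∣ x.f.natDegree := by
  obtain ⟨W, ⟨h1, h3⟩, h4⟩ := exists_maximal_of_wellFoundedGT (fun W : Submodule F V => TIs B W ∧ Iv w W)
    ⟨⊥, by simp [TIs], iv_bot _⟩
  have h5 : sperp B W ≤ W := fun z hz => by
    let φ : F[X] →ₐ[F] End F V := aeval w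
    refine h4 (y := W ⊔ LinearMap.range (LinearMap.applyₗ z ∘ₗ φ.toLinearMap))
      ⟨fun x hx y hy => ?_, h3.sup ?_⟩ le_sup_left (Submodule.mem_sup_right ⟨1, by simp [φ]⟩)
    · obtain ⟨x, hx', _, ⟨p, rfl⟩, rfl⟩ := Submodule.mem_sup.1 hx
      obtain ⟨y, hy', _, ⟨q, rfl⟩, rfl⟩ := Submodule.mem_sup.1 hy
      have k (p : F[X]) (u) (hu : u ∈ W) : B u (aeval w p z) = 0 := by
        simpa [hz _ (h3.aeval p u hu)] using (form_aeval hw p u z).symm
      have e1 := form_aeval hw (p * q) z z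
      have e2 := form_aeval hw p z (aeval w q z)
      rw [D.skew, map_id] at e1
      simp [φ, h1 x hx' y hy', k q x hx', D.comm0 (k p y hy'), e2]
      exact (mul_eq_zero.1 (by simp at e1; linear_combination -e1)).resolve_left h2
    · rintro _ ⟨p, rfl⟩
      exact ⟨X * p, by simp [φ]⟩
  have h7 := D.two_mul_finrank_le h1
  have h8 := D.finrank_sperp W
  have h9 := Submodule.finrank_mono h5
  rw [or_iff_not_imp_left]
  intro h10 x hx
  obtain ⟨v, h11, h12⟩ := (Submodule.ne_bot_iff (LinearMap.ker (aeval w x.f))).1 fun e => by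
    have := finrank_ker_aeval_pow w x.monic x.irred 1
    rw [pow_one, e, finrank_bot, eq_comm, Multiset.sum_eq_zero_iff] at this
    simpa [x.pos.ne', x.natDegree_f_pos.ne'] using this _ (Multiset.mem_map_of_mem _ hx)
  obtain ⟨m, hm⟩ := fitting D H (w := aeval w x.f) (fun u v => by simpa using form_aeval hw x.f u v)
    (commute_aeval h _) h12 h11
  have h13 : x.f.natDegree ∣ 3 := by
    rw [← show finrank F W = 3 by omega, finrank_eq_sum_ed (w.restrict h3)]
    refine Multiset.dvd_sum fun _ hy => ?_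
    obtain ⟨y, hy', rfl⟩ := Multiset.mem_map.1 hy
    have := (aeval_eq_zero_iff_ed (w.restrict h3) (x.f ^ m)).1 (LinearMap.ext fun u => Subtype.ext (by
      simpa [hm] using intertwine_aeval (a := w.restrict h3) W.subtype (fun _ => rfl) (x.f ^ m) u)) y hy'
    rw [eq_of_monic_of_associated y.monic x.monic (y.irred.associated_of_dvd x.irred
      (y.irred.prime.dvd_of_dvd_pow (y.f_dvd_poly.trans this)))]
    exact dvd_mul_left _ _
  refine ((Nat.dvd_prime Nat.prime_three).1 h13).elim (fun e => (h10 ⟨-x.f.coeff 0, rfl, m, ?_⟩).elim)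
    fun e => e.symm.dvd
  rw [x.monic.eq_X_add_C e] at hm
  simpa [Algebra.algebraMap_eq_smul_one] using hm

variable [CharP F 3]

theorem exists_as [Nontrivial V] (D : SD B) (ha : Pres B a) (h3 : 3 ∣ finrank F V)
    (H : ∀ w, SA B w → Commute a w → ∃ c, σ c = c ∧ IsNilpotent (w - c • 1)) {t : F} (ht : σ t = t) :
    ∃ J, (SA B J ∧ J ^ 3 - J = t • 1) ∧ ∃ c ∈ (⊤ : AddSubmonoid F), a * J = (J + c • 1) * a := by
  haveI := Fact.mk Nat.prime_three
  have h0 : (3 : F) = 0 := CharP.cast_eq_zero F 3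
  have h0' : (3 : End F V) = 0 := by rw [← map_ofNat (algebraMap F _), h0, map_zero]
  obtain ⟨d, hd⟩ := exists_ad (a := a) fun b hb => by_contra fun h => by
    have hb' := hb.smul_right (LinearMap.trace F V b)⁻¹
    obtain ⟨c, -, hc⟩ := H _ (sa_add_adj D _) (hb'.add_right (commute_adj D ha hb'))
    have := (LinearMap.isNilpotent_trace_of_isNilpotent hc).eq_zero
    rw [map_sub, map_add, trace_adj D] at this
    simp [h, (CharP.cast_eq_zero_iff F 3 _).2 h3] at this
    exact one_ne_zero (α := F) (by linear_combination h0 - this)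
  let N := D.wittData.nds
  obtain ⟨J, h1, h2⟩ : ∃ J, SA B J ∧ J * a = a * J + a := by
    refine ⟨-(d + N.adj d), fun x y => by
      rw [LinearMap.neg_apply, map_neg, LinearMap.neg_apply, sa_add_adj D, LinearMap.neg_apply, map_neg], ?_⟩
    have : N.adj d * a = a * N.adj d + a := by
      have := congrArg (fun x => a * N.adj x * a) (eq_add_of_sub_eq hd)
      simp only [N.adj_add, N.adj_mul, mul_add, add_mul, ← mul_assoc, N.self_mul_adj ha] at this
      simpa [mul_assoc, N.adj_mul_self ha, add_comm] using this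
    linear_combination (norm := noncomm_ring) -this - hd - h0' * a
  obtain ⟨k, e1, e2, h4⟩ : ∃ k, a * k = 1 ∧ k * a = 1 ∧ SA B (a + k) :=
    ⟨_, N.self_mul_adj ha, N.adj_mul_self ha, sa_add_adj D a⟩
  have h5 : J * k = k * J - k := by
    linear_combination (norm := noncomm_ring) -k * h2 * k - e2 * (J * k) + k * J * e1 - k * e1
  have h6 : a * (J ^ 3 - J) = (J ^ 3 - J) * a := by
    have : J ^ 3 * a = a * (J + 1) ^ 3 := (SemiconjBy.pow_right (a := a) (x := J + 1) (y := J)
      (by simp [SemiconjBy, h2, mul_add]) 3).symm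
    linear_combination (norm := noncomm_ring) h2 - this - a * h0' * (J * J + J)
  obtain ⟨c, h7, h8⟩ := H _ (fun x y => by simp [h1 x y, h1.pow 3 x y]) h6
  have e3 : Commute a k := e1.trans e2.symm
  have e4 : Commute a (a + k) := (Commute.refl a).add_right e3
  obtain ⟨b, h9, h10⟩ := H _ h4 e4
  obtain ⟨s, hs⟩ : ∃ s, s = (t - c) • ((a + k) * (a + k - b • 1)) := ⟨_, rfl⟩
  have e5 (x) (hx : Commute a x) : Commute x s := by
    have : Commute x (a + k) := hx.symm.add_right (show x * k = k * x by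
      rw [← one_mul (x * k), ← e2, mul_assoc, ← mul_assoc a, hx.eq, mul_assoc, e1, mul_one])
    exact hs ▸ (this.mul_right (this.sub_right ((Commute.one_right x).smul_right b))).smul_right _
  have e6 : SA B s := fun x y => by
    have := h4.mul (w := a + k - b • 1) (fun x y => by simp [h4 x y, h9, -LinearMap.add_apply])
      ((Commute.refl _).sub_right ((Commute.one_right _).smul_right b)) x y
    simp [hs, this, ht, h7, -End.mul_apply]
  have e7 : IsNilpotent (s ^ 3) := IsNilpotent.pow_succ 2 (hs ▸ (Commute.isNilpotent_mul_left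
    ((Commute.refl _).sub_right ((Commute.one_right _).smul_right b)) h10).smul _)
  have e8 : (J + s) ^ 3 - (J + s) = t • 1 + (J ^ 3 - J - c • 1 + s ^ 3) := by
    have q1 : J * (a * a) = a * a * J + 2 • (a * a) := by
      rw [← mul_assoc, h2, add_mul, mul_assoc, h2]; noncomm_ring
    have q2 : J * (k * k) = k * k * J - 2 • (k * k) := by
      rw [← mul_assoc, h5, sub_mul, mul_assoc, h5]; noncomm_ring
    have q3 : s = (t - c) • (a * a + k * k + 2 • 1 - b • a - b • k) := by
      simp only [hs, mul_add, add_mul, mul_sub, e1, e2, mul_smul_comm, mul_one]; module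
    rw [cube_add h0' (d := (t - c) • (2 • (a * a) - 2 • (k * k) - b • a + b • k)) (by
      simp only [q3, mul_add, add_mul, mul_sub, sub_mul, mul_smul_comm, smul_mul_assoc, q1, q2, h2, h5, mul_one,
        one_mul]
      module) (e5 _ (((((Commute.refl a).mul_right (.refl a)).smul_right 2).sub_right ((e3.mul_right e3
        ).smul_right 2)).sub_right ((Commute.refl a).smul_right b) |>.add_right (e3.smul_right b) |>.smul_right _))]
    generalize s ^ 3 = r
    simp only [q3, mul_add, add_mul, mul_sub, sub_mul, mul_smul_comm, smul_mul_assoc, q1, q2, h2, h5]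
    linear_combination (norm := module) ((t - c) * h0) • (a * a + k * k - 1)
  have e9 : Commute a (J ^ 3 - J - c • 1) := Commute.sub_right h6 ((Commute.one_right _).smul_right c)
  obtain ⟨m, hm⟩ := ((e5 _ e9).pow_right 3).isNilpotent_add h8 e7
  letI := Fintype.ofFinite F
  obtain ⟨e, -, he⟩ := FiniteField.card F 3
  haveI := charP_of_injective_algebraMap (algebraMap F (End F V)).injective 3
  refine ⟨(J + s) ^ 3 ^ (e * m), ⟨SA.pow (fun x y => by simp [h1 x y, e6 x y]) _, ?_⟩, -1, trivial, ?_⟩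
  · rw [← pow_mul, mul_comm, pow_mul, ← sub_pow_char_pow_of_commute _ _ (.pow_self ..), e8,
      add_pow_char_pow_of_commute _ _ ((Commute.one_left _).smul_left t), pow_eq_zero_of_le (show m ≤ _ by
        rw [pow_mul, ← he]; exact (Nat.lt_pow_self Fintype.one_lt_card).le) hm, _root_.smul_pow, pow_mul, ← he,
      FiniteField.pow_card_pow, one_pow, add_zero]
  · have := SemiconjBy.pow_right (a := a) (x := J + s) (y := J + s - 1) (by
      simp [SemiconjBy, mul_add, add_mul, sub_mul, h2, (e5 a (.refl a)).eq, add_right_comm _ a]) (3 ^ (e * m))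
    rw [sub_pow_char_pow_of_commute _ _ (.one_right _)] at this
    simpa [sub_eq_add_neg] using this.eq

theorem exists_as' [Nontrivial V] (D : SD B) (ha : Pres B a) (h3 : 3 ∣ finrank F V)
    (H : ∀ w, SA B w → Commute a w → (∃ c, σ c = c ∧ IsNilpotent (w - c • 1)) ∨
      ∀ x ∈ ed w, 3 ∣ x.f.natDegree) {t : F} (ht : σ t = t) (hμ : Irreducible (X ^ 3 - X - C t)) :
    ∃ J, (SA B J ∧ J ^ 3 - J = t • 1) ∧ ∃ c ∈ (⊤ : AddSubmonoid F), a * J = (J + c • 1) * a := by
  by_cases h : ∀ w, SA B w → Commute a w → ∃ c, σ c = c ∧ IsNilpotent (w - c • 1)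
  · exact exists_as D ha h3 h ht
  simp only [not_forall] at h
  obtain ⟨w, h1, h2, h⟩ := h
  letI := Fintype.ofFinite F
  obtain ⟨P, hP⟩ := exists_aeval_root hμ w (by
    rw [show natDegree (X ^ 3 - X - C t) = 3 by compute_degree!]; exact (H w h1 h2).resolve_left h)
  have h0 : (3 : F) = 0 := CharP.cast_eq_zero F 3
  have h4 : (aeval w P) ^ 3 - aeval w P = t • 1 := by
    simpa [sub_eq_zero, Algebra.algebraMap_eq_smul_one] using hP
  have h5 (P : F[X]) (x y) : B (aeval w (P.map σ) x) y = B x (aeval w P y) := by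
    rw [form_aeval h1, map_map, show σ.comp σ = .id F from RingHom.ext D.invol, map_id]
  have h6 : (aeval w (P.map σ)) ^ 3 - aeval w (P.map σ) = t • 1 := LinearMap.ext fun x => D.ext_left fun z => by
    have := h5 (P ^ 3 - P) x z
    rw [show aeval w (P ^ 3 - P) = t • 1 by rw [map_sub, map_pow, h4]] at this
    simpa [ht] using this
  haveI := Fact.mk Nat.prime_three
  haveI := charP_of_injective_algebraMap (algebraMap F (End F V)).injective 3
  refine ⟨-(aeval w P + aeval w (P.map σ)), ⟨fun x y => by simp [h5, form_aeval h1, add_comm], ?_⟩, 0, trivial, by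
    simpa using ((commute_aeval h2 P).add_right (commute_aeval h2 _)).neg_right.eq⟩
  rw [Odd.neg_pow (by decide), add_pow_char_of_commute _ ((Commute.all _ _).map (aeval w : F[X] →ₐ[F] _))]
  linear_combination (norm := module) -h4 - h6 - (t * h0) • (1 : End F V)

omit [CharP F 3] in
theorem fam_as (D : SD B) (h3 : 3 ≤ finrank F V) {t : F} (hμ : Irreducible (X ^ 3 - X - C t))
    (ht : ∀ J J', SA B J ∧ J ^ 3 - J = t • 1 → SA B J' ∧ J' ^ 3 - J' = t • 1 →
      ∃ x, rs B x * J = J' * rs B x) :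
    Fam fun g => ∃ J, (SA B J ∧ J ^ 3 - J = t • 1) ∧ ∃ c ∈ (⊤ : AddSubmonoid F),
      rs B g * J = (J + c • 1) * rs B g := by
  haveI := nontriv D h3
  refine fam_op _ _ _ (fun J hJ => ?_) ht
  obtain ⟨v, h0, hv⟩ := D.exists_iso D.ns (show 2 ≤ _ by omega)
  refine ⟨⟨tv B v 1, tv_mem_SUG D _ _⟩, fun c _ e => h0 ?_⟩
  have k (x) : c • x = B v (J x) • v - B v x • (J v + c • v) := by
    have : (tv B v 1).1 (J x) = (J + c • 1 : End F V) ((tv B v 1).1 x) := LinearMap.congr_fun e x
    simp only [tv_apply D hv (map_one σ), LinearMap.add_apply, map_add, map_smul, LinearMap.smul_apply,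
      End.one_apply] at this
    linear_combination (norm := module) -this
  obtain rfl : c = 0 := by_contra fun hc => by
    have := finrank_span_pair_le (F := F) v (J v + c • v)
    rw [show Submodule.span F {v, J v + c • v} = ⊤ from eq_top_iff.2 fun x _ => Submodule.mem_span_pair.2
      ⟨c⁻¹ * B v (J x), -c⁻¹ * B v x, by
      refine .trans ?_ (inv_smul_smul₀ hc x); rw [k x]; module⟩, finrank_top] at this
    omega
  obtain ⟨x, hx⟩ := D.exists_ne h0
  exact no_eig hμ (by rw [show natDegree (X ^ 3 - X - C t) = 3 by compute_degree!]; decide) (a := J)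
    (by simpa [sub_eq_zero, Algebra.algebraMap_eq_smul_one] using hJ.2) (c := (B v x)⁻¹ * B v (J x)) (by
      rw [← inv_smul_smul₀ hx (J v)]; linear_combination (norm := module) (B v x)⁻¹ • k x)

theorem exists_as_irred (hσ : ∀ a, σ (σ a) = a) : ∃ t, σ t = t ∧ Irreducible (X ^ 3 - X - C t) := by
  have h0 : (3 : F) = 0 := CharP.cast_eq_zero F 3
  obtain ⟨t, ht⟩ : ∃ t : {x // σ x = x}, ∀ x : {x // σ x = x}, x.1 ^ 3 - x.1 ≠ t.1 := by
    by_contra! h
    simpa using (Finite.injective_iff_surjective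
      (f := fun x : {x // σ x = x} => (⟨x.1 ^ 3 - x.1, by simp [x.2]⟩ : {x // σ x = x}))).2
      (fun t => (h t).imp fun _ => Subtype.ext) (a₁ := ⟨0, by simp⟩) (a₂ := ⟨1, by simp⟩) (by simp)
  have h1 : natDegree (X ^ 3 - X - C t.1) = 3 := by compute_degree!
  refine ⟨t, t.2, (irreducible_iff_roots_eq_zero_of_degree_le_three (by omega) h1.le).2
    (Multiset.eq_zero_of_forall_notMem fun x hx => ?_)⟩
  have h2 : x ^ 3 - x = t := by simpa [sub_eq_zero] using isRoot_of_mem_roots hx
  have h3 : σ x ^ 3 - σ x = t := by simpa [t.2] using congrArg σ h2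
  have h4 : (σ x - x) * ((σ x - x - 1) * (σ x - x + 1)) = 0 := by
    linear_combination h3 - h2 - (σ x ^ 2 * x - σ x * x ^ 2) * h0
  refine ht ⟨x, ?_⟩ h2
  rcases mul_eq_zero.1 h4 with h | h
  · exact sub_eq_zero.1 h
  · rcases mul_eq_zero.1 h with h | h <;> have := congrArg σ h <;>
      simp only [map_sub, map_add, hσ, map_one, map_zero] at this
    · exact absurd (by linear_combination h0 + h + this) (one_ne_zero (α := F))
    · exact absurd (by linear_combination h0 - h - this) (one_ne_zero (α := F))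

theorem cov_three (D : SD B) {d : ℕ} (h0 : 0 < d) (h3 : finrank F V = 3 * d)
    (hd : ∀ U : Submodule F V, NDs B U → d ∣ finrank F U)
    (H : ∀ a w, (∀ U, NDs B U → Iv a U → U = ⊥ ∨ U = ⊤) → SA B w → Commute a w →
      (∃ c, σ c = c ∧ IsNilpotent (w - c • 1)) ∨ ∀ x ∈ ed w, 3 ∣ x.f.natDegree)
    (ht : ∀ (t : F) J J', Irreducible (X ^ 3 - X - C t) → SA B J ∧ J ^ 3 - J = t • 1 →
      SA B J' ∧ J' ^ 3 - J' = t • 1 → ∃ x, rs B x * J = J' * rs B x) : Cov (SUG B) := by
  obtain ⟨t, h1, h2⟩ := exists_as_irred D.invol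
  haveI := nontrivial_of_finrank_pos (R := F) (M := V) (by omega)
  refine (fam_nd D h0 (by omega)).cov (fam_as D (by omega) h2 fun J J' => ht t J J' h2) fun g =>
    or_iff_not_imp_left.2 fun h => exists_as' D g.1.2 (by omega) (fun w => H _ w fun U h4 h5 => ?_) h1 h2
  obtain ⟨k, hk⟩ := hd U h4
  have h6 := D.finrank_sperp U
  obtain rfl | rfl | rfl | rfl : k = 0 ∨ k = 1 ∨ k = 2 ∨ k = 3 := by
    have : k ≤ 3 := by nlinarith
    omega
  · exact .inl (Submodule.finrank_eq_zero.1 hk)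
  · exact absurd ⟨U, ⟨by omega, h4⟩, h5⟩ h
  · exact absurd ⟨_, ⟨by omega, D.disjoint_sperp h4⟩, h5.sperp D g.1.2⟩ h
  · exact .inr (Submodule.eq_top_of_finrank_eq (by omega))

theorem as_trans_u (D : SD B) (hσ : σ ≠ .id F) (h3 : finrank F V = 3) (t : F) (J J' : End F V)
    (hμ : Irreducible (X ^ 3 - X - C t)) (h : SA B J ∧ J ^ 3 - J = t • 1) (h' : SA B J' ∧ J' ^ 3 - J' = t • 1) :
    ∃ x, rs B x * J = J' * rs B x := by
  have h0 : (3 : F) = 0 := CharP.cast_eq_zero F 3
  have hd : natDegree (X ^ 3 - X - C t) = 3 := by compute_degree!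
  obtain ⟨θ, h1, h2⟩ : ∃ θ, θ ≠ 0 ∧ σ θ = -θ := by
    obtain ⟨c, hc⟩ := DFunLike.ne_iff.1 hσ
    exact ⟨σ c - c, sub_ne_zero.2 hc, by simp [D.invol]⟩
  obtain ⟨R, S, e⟩ := (hμ.coprime_iff_not_dvd (n := X + C θ)).2 fun e => by
    simpa [hd] using natDegree_le_of_dvd e (X_add_C_ne_zero θ)
  have k (J : End F V) (h : SA B J ∧ J ^ 3 - J = t • 1) : aeval J (X ^ 3 - X - C t) = 0 ∧
      ∀ u, u = aeval J ((X - C θ) * S) → Pres B u ∧ (∀ v, u v = v → v = 0) ∧
        ∀ v, u (J v + θ • v) = J v - θ • v := by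
    have h4 : aeval J (X ^ 3 - X - C t) = 0 := by
      simpa [sub_eq_zero, Algebra.algebraMap_eq_smul_one] using h.2
    have h5 (v) : aeval J S (J v + θ • v) = v := by
      simpa [h4] using LinearMap.congr_fun (congrArg (aeval J) e) v
    have h6 (v) : J (aeval J S v) + θ • aeval J S v = v := by
      simpa [h4, mul_comm S] using LinearMap.congr_fun (congrArg (aeval J) e) v
    refine ⟨h4, fun u hu => ?_⟩
    have h7 (v) : u v = J (aeval J S v) - θ • aeval J S v := by simp [hu]
    refine ⟨fun x y => ?_, fun v hv => ?_, fun v => by rw [h7, h5]⟩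
    · rw [h7, h7]
      conv_rhs => rw [← h6 x, ← h6 y]
      simp [h.1 _ (aeval J S y), h2]
      ring
    · have : (2 * θ) • aeval J S v = 0 := by linear_combination (norm := module) h6 v - hv + h7 v
      rw [← h6 v, (smul_eq_zero.1 this).resolve_left (mul_ne_zero (fun e => one_ne_zero (α := F)
        (by linear_combination h0 - e)) h1)]
      simp
  obtain ⟨a1, a2, -, a3⟩ := (k J h).imp_right (· _ rfl)
  obtain ⟨b1, b2, b3, b4⟩ := (k J' h').imp_right (· _ rfl)
  let x : PP F := ⟨_, 1, by monicity!, hμ, one_pos⟩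
  obtain ⟨γ, c1, c2⟩ := wall_core (ε := -1) D.wittData.nds D.wittData.nds (by simp [D.σ_map])
    (by simp [D.σ_map]) a2 b2 ((sim_iff_ed.2 ((ed_of_aeval (x := x) rfl a1).trans
      (ed_of_aeval (x := x) rfl b1).symm)).aeval _) (.inl hσ)
  haveI := Fact.mk Nat.prime_three
  obtain ⟨l, hl⟩ := surjective_frobenius F 3 (LinearMap.det γ.toLinearMap)⁻¹
  rw [frobenius_def] at hl
  have c3 := γ.isUnit_det'.ne_zero
  obtain ⟨g, hg⟩ := exists_rs D (Pres.smul (a := γ.toLinearMap) c1 (w := l) (frobenius_inj F 3 (by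
    have := congrArg LinearMap.det (D.wittData.nds.adj_mul_self (a := γ.toLinearMap) c1)
    rw [map_mul, NDS.det_adj, map_one] at this
    rw [frobenius_def, mul_pow, ← map_pow, hl, map_one, map_inv₀, ← mul_inv, this, inv_one]))) (by
    rw [LinearMap.det_smul, h3, hl, inv_mul_cancel₀ c3])
  refine ⟨g, LinearMap.ext fun y => ?_⟩
  have := b3 (γ (J y) - J' (γ y)) (by
    have := c2 (J y + θ • y)
    rw [a3, map_sub, map_add, map_smul] at this
    linear_combination (norm := skip) -this - b4 (γ y)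
    simp only [map_add, map_sub]; module)
  simp [hg, sub_eq_zero.1 this]

omit [CharP F 3] in
theorem as_trans_sp {B : V →ₛₗ[RingHom.id F] V →ₗ[F] F} (D : SD B) (h2 : (2 : F) ≠ 0) (h6 : finrank F V = 6)
    (t : F) (J J' : End F V) (hμ : Irreducible (X ^ 3 - X - C t)) (h : SA B J ∧ J ^ 3 - J = t • 1)
    (h' : SA B J' ∧ J' ^ 3 - J' = t • 1) : ∃ x, rs B x * J = J' * rs B x := by
  have k (J : End F V) (h : SA B J ∧ J ^ 3 - J = t • 1) : ∃ b : Fin 6 → V, LinearIndependent F b ∧
      (∀ i j, B (b i) (b j) = !![0, 0, 0, 0, 0, 1; 0, 0, 0, 0, 1, 0; 0, 0, 0, 1, 0, 1;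
        0, 0, -1, 0, 0, 0; 0, -1, 0, 0, 0, 0; -1, 0, -1, 0, 0, 0] i j) ∧
      ∀ i, J (b i) = ![b 1, b 2, b 1 + t • b 0, b 4, b 5, b 4 + t • b 3] i := by
    have h3 (v) : J (J (J v)) = J v + t • v := by
      simpa [pow_three, sub_eq_iff_eq_add'] using LinearMap.congr_fun h.2 v
    obtain ⟨x, hx⟩ := finrank_pos_iff_exists_ne_zero.1 (show 0 < finrank F V by omega)
    obtain ⟨y, hy⟩ := D.exists_eq_family (e := ![x, J x, J (J x)]) (Fintype.linearIndependent_iff.2 fun c hc => by
      have := eq_zero_of_dvd_of_natDegree_lt (dvd_of_kill (a := J) (p := C (c 0) + C (c 1) * X + C (c 2) * X ^ 2)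
        hμ (by simp [pow_three, h3]) (by simpa [Fin.sum_univ_three, sq] using hc) hx) (by
          rw [show natDegree (X ^ 3 - X - C t) = 3 by compute_degree!]; compute_degree!)
      intro i
      fin_cases i
      exacts [by simpa using congrArg (coeff · 0) this, by simpa using congrArg (coeff · 1) this,
        by simpa using congrArg (coeff · 2) this]) ![0, 0, 1]
    have e0 (v) : B v v = 0 := by simpa using (D.trace v).choose_spec.symm
    have e1 (v) : B v (J v) = 0 := (mul_eq_zero.1 (show 2 * B v (J v) = 0 by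
      have := D.skew v (J v); rw [h.1] at this; simp at this; linear_combination this)).resolve_left h2
    have e2 (v) : B v (J (J v)) = 0 := by rw [← h.1, e0]
    have y0 : B x y = 0 := hy 0
    have y1 : B x (J y) = 0 := (h.1 x y).symm.trans (hy 1)
    have y2 : B x (J (J y)) = 1 := by rw [← h.1, ← h.1]; exact hy 2
    have z0 : B y x = 0 := D.comm0 y0
    have z1 : B y (J x) = 0 := by rw [← h.1]; exact D.comm0 y1
    have z2 : B y (J (J x)) = -1 := by rw [← h.1, ← h.1, D.skew, y2]; rfl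
    have e : ∀ i j, B (![x, J x, J (J x), y, J y, J (J y)] i) (![x, J x, J (J x), y, J y, J (J y)] j) =
        !![0, 0, 0, 0, 0, 1; 0, 0, 0, 0, 1, 0; 0, 0, 0, 1, 0, 1;
        0, 0, -1, 0, 0, 0; 0, -1, 0, 0, 0, 0; -1, 0, -1, 0, 0, 0] i j := fun i j => by
      fin_cases i <;> fin_cases j <;> simp [h.1 _, *]
    refine ⟨_, Fintype.linearIndependent_iff.2 fun c hc => ?_, e, fun i => by fin_cases i <;> simp [h3]⟩
    have k (j) := congrArg (B · (![x, J x, J (J x), y, J y, J (J y)] j)) hc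
    simp only [map_sum, LinearMap.sum_apply, map_smul, LinearMap.smul_apply, e] at k
    simp [Fin.sum_univ_six, Fin.forall_fin_succ] at k ⊢
    obtain ⟨k1, k2, k3, k4, k5, k6⟩ := k
    exact ⟨by linear_combination k6 - k4, k5, k4, by linear_combination -k1 - k3, k2, k1⟩
  obtain ⟨b, a1, a2, a3⟩ := k J h
  obtain ⟨b', b1, b2, b3⟩ := k J' h'
  obtain ⟨g, h1, h3⟩ := D.witt_SUG a1 b1 (fun i j => by rw [a2, b2]) (.inl rfl)
  refine ⟨⟨g, h1⟩, (basisOfLinearIndependentOfCardEqFinrank a1 (by simp [h6])).ext fun i => ?_⟩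
  rw [coe_basisOfLinearIndependentOfCardEqFinrank]
  change g.1 (J _) = J' (g.1 _)
  rw [a3, h3, b3]
  fin_cases i <;> simp [h3]

theorem cov_SU3 {F : Type*} [Field F] [CharP F 3] [Fintype F] {q : ℕ} (hF : Fintype.card F = q ^ 2) :
    Cov (SU 3 F q) :=
  (cov_three (sd_uB hF 3) one_pos (by simp) (fun _ _ => one_dvd _) (fun _ _ => sa_three (sd_uB hF 3) (by simp))
    (as_trans_u (sd_uB hF 3) (frobq_ne_id hF) (by simp))).of_equiv (suEquiv hF 3).symm

theorem cov_Sp6 : Cov (Matrix.symplecticGroup (Fin 3) F) :=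
  have h2 : (2 : F) ≠ 0 := fun e => one_ne_zero (α := F) (by
    linear_combination (CharP.cast_eq_zero F 3 : (3 : F) = 0) - e)
  (cov_three sd_spB two_pos (by simp) (fun _ h => (sd_spB.restrict h).even_finrank.two_dvd)
    (fun _ _ => sa_six sd_spB h2 (by simp)) (as_trans_sp sd_spB h2 (by simp))).of_equiv (spEquivS _ F).symm

end Three

end Cfsg.Agent.H13
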