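import Cfsg.Agent.H2.Perm3
import Cfsg.Agent.H2.Basic

/-! Groups of prime degree, and a Schur ring argument over a group of order `p ^ 2`. -/

set_option autoImplicit false

namespace Cfsg.Agent.H13.Dp

open MulAction Subgroup MonoidAlgebra
open scoped Pointwise

theorem burn0 {Γ Λ : Type*} [Group Γ] [Finite Γ] [MulAction Γ Λ] [Finite Λ] [FaithfulSMul Γ Λ]
    [IsPretransitive Γ Λ] {p : ℕ} [hp : Fact p.Prime] (hΛ : Nat.card Λ = p)
    (hs : Group.IsSolvable Γ) {g h : Γ} {k : ℕ} (hg : g ^ p ^ k = 1) (hh : h ^ p ^ k = 1)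
    (h1 : h ≠ 1) : g ∈ zpowers h := by
  classical
  have : Nontrivial Γ := ⟨h, 1, h1⟩
  obtain ⟨M, hM, -, q, hq, hqM⟩ := H2.exists_isMinNormal_of_isSolvable (G := Γ)
  have := hM.normal
  have := Fact.mk hq
  have hpr : IsPreprimitive Γ Λ := IsPreprimitive.of_prime_card (hΛ ▸ hp.out)
  have : IsPretransitive M Λ := hpr.isQuasiPreprimitive.isPretransitive_of_normal fun e =>
    hM.ne_bot ((eq_bot_iff_forall M).2 fun x hx => FaithfulSMul.eq_of_smul_eq_smul (α := Λ)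
      fun l => by rw [one_smul]; exact (e ▸ Set.mem_univ l : l ∈ fixedPoints M Λ) ⟨x, hx⟩)
  have : Nonempty Λ := (Nat.card_pos_iff.1 (hΛ ▸ hp.out.pos)).1
  have hd : p ∣ Nat.card M := hΛ ▸ H2.Pm.card_dvd_of_trans
  obtain ⟨n, hn⟩ := hqM.exists_card_eq
  obtain rfl : p = q := (Nat.prime_dvd_prime_iff_eq hp.out hq).1 (hp.out.dvd_of_dvd_pow (hn ▸ hd))
  have le : ∀ T : Subgroup Γ, IsPGroup p T → Nat.card T ≤ p := fun T hT => by
    obtain ⟨j, hj⟩ := hT.exists_card_eq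
    have h2 : Nat.card T ∣ p.factorial := by
      rw [← hΛ, ← Nat.card_perm]
      exact T.card_subgroup_dvd_card.trans (card_dvd_of_injective (toPermHom Γ Λ)
        toPerm_injective)
    rw [hj] at h2 ⊢
    have : j ≤ 1 := by
      by_contra! hj
      have h3 := (pow_dvd_pow p hj).trans h2
      rw [← Nat.mul_factorial_pred hp.out.ne_zero, sq, Nat.mul_dvd_mul_iff_left hp.out.pos,
        hp.out.dvd_factorial] at h3
      have := hp.out.pos
      omega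
    exact (Nat.pow_le_pow_right hp.out.pos this).trans (pow_one p).le
  have mem : ∀ x : Γ, x ^ p ^ k = 1 → x ∈ M := fun x hx => by
    have h2 : IsPGroup p (zpowers x) := by
      rintro ⟨_, i, rfl⟩
      refine ⟨k, Subtype.ext ?_⟩
      show (x ^ i) ^ p ^ k = 1
      rw [← zpow_natCast, ← zpow_mul, mul_comm i, zpow_mul, zpow_natCast, hx, one_zpow]
    rw [eq_of_le_of_card_ge (le_sup_right : M ≤ zpowers x ⊔ M)
      ((le _ (h2.to_sup_of_normal_right hqM)).trans (Nat.le_of_dvd Nat.card_pos hd))]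
    exact mem_sup_left (mem_zpowers x)
  have hz : zpowers h ≤ M := zpowers_le_of_mem (mem h hh)
  obtain ⟨j, -, hj⟩ := (Nat.dvd_prime_pow hp.out).1 (orderOf_dvd_of_pow_eq_one hh)
  rw [eq_of_le_of_card_ge hz ((le M hqM).trans (by
    rw [Nat.card_zpowers, hj]
    refine Nat.le_self_pow (fun e => h1 (orderOf_eq_one_iff.1 (by rw [hj, e, pow_zero]))) p))]
  exact mem g hg

theorem burn {G : Type*} [Group G] [Finite G] {p : ℕ} [hp : Fact p.Prime] {X Y : Subgroup G}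
    (hi : Y.relIndex X = p) :
    (∀ x ∈ X, ∀ x' ∈ X, x ∉ Y → x' ∉ Y → ∃ y ∈ X, y ∈ Y ∧ x'⁻¹ * y * x ∈ Y) ∨
    ∀ g ∈ X, ∀ h ∈ X, ∀ k : ℕ, g ^ p ^ k = 1 → h ^ p ^ k = 1 → h ∉ Y →
      ∃ n : ℤ, ∀ x ∈ X, x⁻¹ * ((h ^ n)⁻¹ * g) * x ∈ Y := by
  let φ := toPermHom X (X ⧸ Y.subgroupOf X)
  have : IsPretransitive φ.range (X ⧸ Y.subgroupOf X) := ⟨fun a b => by
    obtain ⟨g, hg⟩ := exists_smul_eq X a b
    exact ⟨⟨φ g, g, rfl⟩, hg⟩⟩
  have one : ∀ x : X, (x : X ⧸ Y.subgroupOf X) = (1 : X) ↔ (x : G) ∈ Y := fun x => by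
    rw [eq_comm, QuotientGroup.eq, inv_one, one_mul, mem_subgroupOf]
  by_cases hs : Group.IsSolvable φ.range
  · refine Or.inr fun g hg h hh k g1 h1 h2 => ?_
    obtain ⟨n, hn⟩ := burn0 (Γ := φ.range) (Λ := X ⧸ Y.subgroupOf X) hi hs
      (g := φ.rangeRestrict ⟨g, hg⟩) (h := φ.rangeRestrict ⟨h, hh⟩) (k := k)
      (by rw [← map_pow, show (⟨g, hg⟩ : X) ^ p ^ k = 1 from Subtype.ext g1, map_one])
      (by rw [← map_pow, show (⟨h, hh⟩ : X) ^ p ^ k = 1 from Subtype.ext h1, map_one])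
      (fun e => h2 ((one ⟨h, hh⟩).1 (by
        simpa [φ] using congrArg (fun s : φ.range => s.1 ((1 : X) : X ⧸ Y.subgroupOf X)) e)))
    refine ⟨n, fun x hx => ?_⟩
    have e := congrArg (fun s : φ.range => s.1 ((⟨x, hx⟩ : X) : X ⧸ Y.subgroupOf X)) hn
    simp only [← map_zpow] at e
    have e' : ((⟨h, hh⟩ ^ n * ⟨x, hx⟩ : X) : X ⧸ Y.subgroupOf X) = (⟨g, hg⟩ * ⟨x, hx⟩ : X) := e
    rw [QuotientGroup.eq, mem_subgroupOf] at e'
    simpa [mul_assoc] using e'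
  · refine Or.inl fun x hx x' hx' h1 h2 => ?_
    have h3 := H2.Pm.two_trans_of_prime (G := φ.range) (Ω := X ⧸ Y.subgroupOf X) hi hs
    rw [is_two_pretransitive_iff] at h3
    obtain ⟨⟨_, y, rfl⟩, y1, y2⟩ := h3
      (a := ((1 : X) : X ⧸ Y.subgroupOf X)) (b := (⟨x, hx⟩ : X)) (c := (1 : X)) (d := (⟨x', hx'⟩ : X))
      (fun e => h1 ((one _).1 e.symm)) (fun e => h2 ((one _).1 e.symm))
    have e1 : ((y * 1 : X) : X ⧸ Y.subgroupOf X) = (1 : X) := y1
    have e2 : ((y * ⟨x, hx⟩ : X) : X ⧸ Y.subgroupOf X) = (⟨x', hx'⟩ : X) := y2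
    rw [eq_comm, QuotientGroup.eq, mem_subgroupOf] at e2
    exact ⟨y, y.2, by simpa using (one _).1 e1, by simpa [mul_assoc] using e2⟩

section schur
variable {S : Type*} [CommGroup S] [Fintype S] [DecidableEq S] {F : Type*} [CommRing F]

theorem coeff_mul' (f g : MonoidAlgebra F S) (s : S) :
    (f * g).coeff s = ∑ x, f.coeff x * g.coeff (x⁻¹ * s) := by
  rw [coeff_mul_apply_left, Finsupp.sum_fintype _ _ (by simp)]

/-- indicator of a subset -/
noncomputable def ind (F : Type*) [CommRing F] (O : Finset S) : MonoidAlgebra F S :=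
  ∑ x ∈ O, single x 1

omit [Fintype S] in
theorem coeff_ind (O : Finset S) (s : S) : (ind F O).coeff s = if s ∈ O then 1 else 0 := by
  simp [ind, coeff_sum, Finsupp.finset_sum_apply, Finsupp.single_apply]

variable {𝓐 : Set (S ≃ S)} {P : Subgroup S}

/-- invariant elements supported on the coset of `c` -/
def Good (𝓐 : Set (S ≃ S)) (P : Subgroup S) (c : S) (f : MonoidAlgebra F S) : Prop :=
  (∀ σ ∈ 𝓐, ∀ s, f.coeff (σ s) = f.coeff s) ∧ ∀ s, c⁻¹ * s ∉ P → f.coeff s = 0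

theorem Good.mul (hA : ∀ σ ∈ 𝓐, ∀ x, ∃ σ' ∈ 𝓐, ∀ s, σ' (x⁻¹ * s) = (σ x)⁻¹ * σ s) {c d : S}
    {f g : MonoidAlgebra F S} (hf : Good 𝓐 P c f) (hg : Good 𝓐 P d g) :
    Good 𝓐 P (c * d) (f * g) := by
  refine ⟨fun σ hσ s => ?_, fun s hs => ?_⟩
  · rw [coeff_mul', coeff_mul', ← Equiv.sum_comp σ]
    refine Finset.sum_congr rfl fun x _ => ?_
    obtain ⟨σ', h1, h2⟩ := hA σ hσ x
    rw [hf.1 σ hσ, ← h2, hg.1 σ' h1]
  · rw [coeff_mul']
    refine Finset.sum_eq_zero fun x _ => ?_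
    by_cases h : c⁻¹ * x ∈ P
    · rw [hg.2 _ fun h' => hs (by 
        have := mul_mem h h'
        rwa [mul_mul_mul_comm, mul_inv_cancel_left, ← mul_inv] at this),
        mul_zero]
    · rw [hf.2 _ h, zero_mul]

theorem Good.pow (hA : ∀ σ ∈ 𝓐, ∀ x, ∃ σ' ∈ 𝓐, ∀ s, σ' (x⁻¹ * s) = (σ x)⁻¹ * σ s) {c : S}
    {f : MonoidAlgebra F S} (hf : Good 𝓐 P c f) (n : ℕ) : Good 𝓐 P (c ^ (n + 1)) (f ^ (n + 1)) := by
  induction n with
  | zero => simpa using hf
  | succ n ih => rw [pow_succ, pow_succ f]; exact ih.mul hA hf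

omit [Fintype S] in
theorem Good.mul_w (h2 : ∀ u ∈ P, ∀ u' ∈ P, u ≠ 1 → u' ≠ 1 → ∃ σ ∈ 𝓐, σ u = u') {c : S}
    (hc : c ∈ P) {f : MonoidAlgebra F S} (hf : Good 𝓐 P c f) {u : S} (hu : u ∈ P) (h1 : u ≠ 1) :
    f * (1 - single u 1) = (f.coeff 1 - f.coeff u) • (1 - single u 1) := by
  have e : ∀ s ∈ P, s ≠ 1 → f.coeff s = f.coeff u := fun s hs h => by
    obtain ⟨σ, a, rfl⟩ := h2 u hu s hs h1 h
    exact hf.1 σ a u
  ext s
  simp only [mul_sub, mul_one, coeff_sub, Finsupp.sub_apply, coeff_mul_single_apply, coeff_smul,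
    Finsupp.smul_apply, one_def, coeff_single_apply, smul_eq_mul, inv_one]
  by_cases hs : s ∈ P
  · by_cases a : s = 1
    · rw [a, one_mul u⁻¹, e _ (inv_mem hu) (inv_ne_one.2 h1)]; simp [h1]
    by_cases b : s = u
    · simp [b, h1.symm]
    rw [e s hs a, e _ (mul_mem hs (inv_mem hu)) (mul_inv_eq_one.not.2 b)]
    simp [Ne.symm a, Ne.symm b]
  · rw [hf.2 s fun h => hs (by simpa using mul_mem hc h),
      hf.2 _ fun h => hs (by simpa using mul_mem (mul_mem hc h) hu), if_neg (by rintro rfl; simp at hs),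
      if_neg (by rintro rfl; exact hs hu)]
    simp

theorem schur {p : ℕ} [hp : Fact p.Prime] (hS : Nat.card S = p ^ 2) (hP : Nat.card P = p)
    (hA : ∀ σ ∈ 𝓐, ∀ x, ∃ σ' ∈ 𝓐, ∀ s, σ' (x⁻¹ * s) = (σ x)⁻¹ * σ s) (hA1 : ∀ σ ∈ 𝓐, σ 1 = 1)
    (h2 : ∀ u ∈ P, ∀ u' ∈ P, u ≠ 1 → u' ≠ 1 → ∃ σ ∈ 𝓐, σ u = u') {O : Finset S} {c : S}
    (hO : ∀ σ ∈ 𝓐, ∀ s, σ s ∈ O ↔ s ∈ O) (hc : ∀ s ∈ O, c⁻¹ * s ∈ P) (hlt : O.card < p)
    {u : S} (hu : u ∈ P) (h1 : u ≠ 1) {x : S} (x1 : x ∈ O) (x2 : x * u ∉ O) {y : S} (y1 : y ∈ O)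
    (y2 : y * u⁻¹ ∉ O) : O.card = 1 ∨ O.card + 1 = p := by
  classical
  have g1 : ∀ (F : Type) [CommRing F], Good 𝓐 P c (ind F O) := fun F _ =>
    ⟨fun σ hσ s => by simp [coeff_ind, hO σ hσ], fun s hs => by
      rw [coeff_ind, if_neg fun h => hs (hc s h)]⟩
  have g2 : ∀ (F : Type) [CommRing F], Good 𝓐 P c⁻¹ (ind F (O⁻¹)) := fun F _ =>
    ⟨fun σ hσ s => by
      obtain ⟨σ', a, b⟩ := hA σ hσ s
      have := b 1
      rw [mul_one, hA1 σ hσ, mul_one] at this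
      simp [coeff_ind, ← this, hO σ' a], fun s hs => by
      rw [coeff_ind, if_neg fun h => hs (by
        simpa [mul_comm] using inv_mem (hc s⁻¹ (by simpa using h)))]⟩
  have cf : ∀ (F : Type) [CommRing F] (s : S), (ind F O * ind F (O⁻¹)).coeff s =
      (O.filter fun x => s⁻¹ * x ∈ O).card := fun F _ s => by
    simp [coeff_mul', coeff_ind, ← ite_and, and_comm, Finset.filter_and, Finset.filter_mem_eq_inter,
      Finset.inter_comm, Finset.filter_inter]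
    congr 2
    ext; simp
  obtain ⟨l, hl⟩ : ∃ l, l = (O.filter fun x => u⁻¹ * x ∈ O).card := ⟨_, rfl⟩
  have hle : l ≤ O.card := hl ▸ Finset.card_filter_le _ _
  by_cases hn : O.card - l = 1
  · have e : ∀ s ∈ P, s ≠ 1 → (O.filter fun x => s⁻¹ * x ∈ O).card = l := fun s hs h => by
      obtain ⟨σ, a, rfl⟩ := h2 u hu s hs h1 h
      have := ((g1 ℤ).mul hA (g2 ℤ)).1 σ a u
      rw [cf, cf] at this
      exact_mod_cast hl ▸ this
    have s1 : ∑ s ∈ Finset.univ.filter (· ∈ P), (O.filter fun x => s⁻¹ * x ∈ O).card =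
        O.card * O.card := by
      simp only [Finset.card_filter]
      rw [Finset.sum_comm, Finset.sum_const_nat fun x hx => ?_]
      rw [← Finset.card_filter]
      refine Finset.card_bij' (fun s _ => s⁻¹ * x) (fun z _ => x * z⁻¹) (by simp) (fun z hz => ?_)
        (fun s _ => by simp [mul_comm]) (fun s _ => by simp [mul_comm])
      simp only [Finset.mem_filter, Finset.mem_univ, true_and]
      refine ⟨?_, by simpa [mul_comm]⟩
      have := mul_mem (hc x hx) (inv_mem (hc z hz))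
      rwa [mul_inv, mul_mul_mul_comm, mul_inv_cancel, one_mul] at this
    have hP' : (Finset.univ.filter (· ∈ P)).card = p := by
      rw [← hP, Nat.card_eq_fintype_card, Fintype.card_subtype]
    rw [← Finset.add_sum_erase _ _ (a := 1) (by simp), Finset.sum_const_nat (m := l) fun s hs => e s
      (by simpa using (Finset.mem_erase.1 hs).2) (Finset.mem_erase.1 hs).1,
      Finset.card_erase_of_mem (by simp), hP'] at s1
    simp only [inv_one, one_mul, Finset.filter_mem_eq_inter, Finset.inter_self] at s1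
    obtain ⟨q, rfl⟩ : ∃ q, p = q + 1 := ⟨p - 1, by omega⟩
    rw [show O.card = l + 1 by omega] at s1 ⊢
    rcases Nat.eq_zero_or_pos l with rfl | h
    · simp
    · right
      have : q = l + 1 := Nat.eq_of_mul_eq_mul_right h (by simp at s1; nlinarith)
      omega
  obtain ⟨r, hr, r1, r2⟩ : ∃ r, r.Prime ∧ r ∣ O.card - l ∧ r ≠ p := by
    rcases Nat.eq_zero_or_pos (O.card - l) with h | h
    · obtain ⟨r, a, b⟩ := Nat.exists_infinite_primes (p + 1)
      exact ⟨r, b, by simp [h], by omega⟩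
    · obtain ⟨r, a, b⟩ := Nat.exists_prime_and_dvd hn
      exact ⟨r, a, b, fun e => by have := Nat.le_of_dvd h b; omega⟩
  have := Fact.mk hr
  have : NeZero (Nat.card S : ZMod r) := ⟨by
    rw [hS, Ne, ZMod.natCast_eq_zero_iff]
    exact fun h => r2 ((Nat.prime_dvd_prime_iff_eq hr hp.out).1 (hr.dvd_of_dvd_pow h))⟩
  obtain ⟨q, rfl⟩ : ∃ q, p = q + 1 := ⟨p - 1, by have := hp.out.pos; omega⟩
  have hi : P.index = q + 1 := Nat.eq_of_mul_eq_mul_left (Nat.succ_pos q) (by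
    rw [← sq, ← hS, ← P.card_mul_index, hP])
  have e0 := ((g1 (ZMod r)).mul hA (g2 (ZMod r))).mul_w h2 (by simp) hu h1
  have e1 := ((g1 (ZMod r)).pow hA q).mul_w h2 (hi ▸ P.pow_index_mem c) hu h1
  have e2 := ((g2 (ZMod r)).pow hA q).mul_w h2 (hi ▸ P.pow_index_mem c⁻¹) hu h1
  rw [cf, cf, ← hl] at e0
  simp only [inv_one, one_mul, Finset.filter_mem_eq_inter, Finset.inter_self] at e0
  rw [← Nat.cast_sub hle, (ZMod.natCast_eq_zero_iff _ _).2 r1, zero_smul] at e0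
  obtain ⟨a, e1⟩ : ∃ a : ZMod r, ind (ZMod r) O ^ (q + 1) * (1 - single u 1) =
    a • (1 - single u 1) := ⟨_, e1⟩
  obtain ⟨b, e2⟩ : ∃ b : ZMod r, ind (ZMod r) O⁻¹ ^ (q + 1) * (1 - single u 1) =
    b • (1 - single u 1) := ⟨_, e2⟩
  have e3 : (b * a) • (1 - single u 1 : MonoidAlgebra (ZMod r) S) = 0 := by
    rw [mul_smul, ← e1, ← mul_smul_comm, ← e2, ← mul_assoc, ← mul_pow, pow_succ, mul_assoc, e0,
      mul_zero]
  have nil : ∀ f : MonoidAlgebra (ZMod r) S, f ^ (q + 1) * (1 - single u 1) = 0 →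
      ∀ s, f.coeff s = f.coeff (s * u⁻¹) := fun f hf s => by
    have : f * (1 - single u 1) = 0 := IsNilpotent.eq_zero ⟨q + 1, by
      rw [mul_pow, pow_succ' (1 - single u 1 : MonoidAlgebra (ZMod r) S), ← mul_assoc, hf, zero_mul]⟩
    simpa [mul_sub, sub_eq_zero] using congrArg (fun g => g.coeff s) this
  have e4 : b * a = 0 := by
    simpa [one_def, coeff_single_apply, h1] using congrArg (fun g => g.coeff 1) e3
  rcases mul_eq_zero.1 e4 with h | h
  · have := nil _ (by rw [e2, h, zero_smul]) x⁻¹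
    simp [coeff_ind, x1, x2, mul_comm u] at this
  · have := nil _ (by rw [e1, h, zero_smul]) y
    simp [coeff_ind, y1, y2] at this

end schur

end Cfsg.Agent.H13.Dp
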