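import Cfsg.Agent.H13.Dp1

/-! Doubly transitive groups of degree `p ^ 2 + 1`: lines and Sylow subgroups. -/

set_option autoImplicit false

namespace Cfsg.Agent.H13.Dp

open MulAction Subgroup
open scoped Pointwise

variable {G Ω : Type*} [Group G] [Finite G] [Fintype Ω] [DecidableEq Ω] [MulAction G Ω]
  {p : ℕ} [hp : Fact p.Prime]

open Classical in
/-- the orbit of a point under a subgroup -/
noncomputable def ob (M : Subgroup G) (x : Ω) : Finset Ω := Finset.univ.filter (∃ g ∈ M, g • x = ·)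

omit [Finite G] [DecidableEq Ω] in
theorem mem_ob {M : Subgroup G} {x y : Ω} : y ∈ ob M x ↔ ∃ g ∈ M, g • x = y := by simp [ob]

omit [Finite G] [DecidableEq Ω] in
theorem card_ob (M : Subgroup G) (x : Ω) :
    (ob M x).card * Nat.card ↥(M ⊓ stabilizer G x) = Nat.card M := by
  rw [← (stabilizer M x).index_mul_card, index_stabilizer, ← Set.ncard_coe_finset]
  congr 1
  · congr 1; ext y; simp [mem_ob, mem_orbit_iff, Subgroup.smul_def]
  · rw [← Nat.card_congr (subgroupOfEquivOfLe (inf_le_left : M ⊓ stabilizer G x ≤ M)).toEquiv,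
      inf_subgroupOf_left]; rfl

omit [Finite G] [DecidableEq Ω] in
theorem ob_dvd (M : Subgroup G) (x : Ω) : (ob M x).card ∣ Nat.card M := ⟨_, (card_ob M x).symm⟩

open Classical in
/-- the fixed points of a subgroup -/
noncomputable def fx (Ω : Type*) [Fintype Ω] [MulAction G Ω] (M : Subgroup G) : Finset Ω :=
  Finset.univ.filter fun x => ∀ g ∈ M, g • x = x

omit [Finite G] [DecidableEq Ω] in
theorem mem_fx {M : Subgroup G} {x : Ω} : x ∈ fx Ω M ↔ ∀ g ∈ M, g • x = x := by simp [fx]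

/-- double transitivity -/
def T2 (G Ω : Type*) [Group G] [MulAction G Ω] : Prop :=
  ∀ x y x' y' : Ω, x ≠ y → x' ≠ y' → ∃ g : G, g • x = x' ∧ g • y = y'

omit [Finite G] hp in
theorem T2.card2 (h : T2 G Ω) (hn : Fintype.card Ω = p ^ 2 + 1) {a b : Ω} (hab : a ≠ b) :
    p ^ 2 * Nat.card ↥(stabilizer G a ⊓ stabilizer G b) = Nat.card (stabilizer G a) := by
  rw [← card_ob (stabilizer G a) b, show ob (stabilizer G a) b = Finset.univ.erase a from ?_,
    Finset.card_erase_of_mem (Finset.mem_univ a), Finset.card_univ, hn, Nat.add_sub_cancel]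
  ext x
  simp only [mem_ob, mem_stabilizer_iff, Finset.mem_erase, Finset.mem_univ, and_true]
  exact ⟨fun ⟨g, g1, g2⟩ e => hab (smul_left_cancel g (by rw [g1, g2, e])),
    fun e => h a b a x hab e.symm⟩

omit [Finite G] hp in
theorem T2.card1 (h : T2 G Ω) (hn : Fintype.card Ω = p ^ 2 + 1) {a b : Ω} (hab : a ≠ b) :
    (p ^ 2 + 1) * Nat.card (stabilizer G a) = Nat.card G := by
  rw [← card_top (G := G), ← card_ob ⊤ a, top_inf_eq, show ob ⊤ a = Finset.univ from ?_,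
    Finset.card_univ, hn]
  refine Finset.eq_univ_of_forall fun x => mem_ob.2 ?_
  by_cases e : x = a
  · exact ⟨1, trivial, by simp [e]⟩
  · obtain ⟨g, g1, -⟩ := h a b x a hab e
    exact ⟨g, trivial, g1⟩

theorem T2.line (h : T2 G Ω) (hn : Fintype.card Ω = p ^ 2 + 1) {a b : Ω} (hab : a ≠ b)
    {L : Finset Ω} (hL : L.card = p + 1) (ha : a ∈ L) (hb : b ∈ L)
    (h1 : ∀ g : G, g • a = a → g • b = b → ∀ x ∈ L, g • x ∈ L)
    (h2 : ∀ x ∈ L, x ≠ a → ∃ g : G, (∀ y ∈ L, g • y ∈ L) ∧ g • a = a ∧ g • b = x)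
    (h3 : ∃ g : G, (∀ y ∈ L, g • y ∈ L) ∧ g • a ≠ a) : False := by
  have m : ∀ {g : G}, g ∈ stabilizer G L ↔ ∀ y ∈ L, g • y ∈ L := mem_stabilizer_finset'
  have e1 := card_ob (stabilizer G L) a
  have e2 := card_ob (stabilizer G L ⊓ stabilizer G a) b
  obtain ⟨g, g1, g2⟩ := h3
  obtain ⟨g', g1', g2', g3'⟩ := h2 _ (g1 a ha) g2
  rw [show ob (stabilizer G L) a = L from ?_, hL] at e1
  rw [show ob (stabilizer G L ⊓ stabilizer G a) b = L.erase a from ?_, Finset.card_erase_of_mem ha,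
    hL, Nat.add_sub_cancel, inf_assoc, inf_eq_right.2 fun x hx => m.2 (h1 x hx.1 hx.2)] at e2
  · have e3 := (stabilizer G L).card_subgroup_dvd_card
    rw [← e1, ← e2, ← h.card1 hn hab, ← h.card2 hn hab, ← mul_assoc, ← mul_assoc,
      Nat.mul_dvd_mul_iff_right Nat.card_pos, sq, ← mul_assoc,
      Nat.mul_dvd_mul_iff_right hp.out.pos] at e3
    have e4 : p + 1 ∣ (p * p + 1) * p + 2 := ⟨p * p + 2 - p, by
      have : p ≤ p * p := Nat.le_mul_self p
      zify [show p ≤ p * p + 2 by omega]; ring⟩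
    have := Nat.le_of_dvd two_pos ((Nat.dvd_add_right e3).1 e4)
    have := hp.out.two_le
    omega
  · ext x
    simp only [mem_ob, Finset.mem_erase]
    refine ⟨fun ⟨y, y1, y2⟩ => ⟨fun e => hab (smul_left_cancel y (by rw [y1.2, y2, e])),
      y2 ▸ m.1 y1.1 b hb⟩, fun ⟨x1, x2⟩ => ?_⟩
    obtain ⟨y, y1, y2, y3⟩ := h2 x x2 x1
    exact ⟨y, ⟨m.2 y1, y2⟩, y3⟩
  · ext x
    simp only [mem_ob]
    refine ⟨fun ⟨y, y1, y2⟩ => y2 ▸ m.1 y1 a ha, fun hx => ?_⟩
    by_cases e : x = a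
    · exact ⟨1, one_mem _, by simp [e]⟩
    obtain ⟨y, y1, y2, y3⟩ := h2 x hx e
    exact ⟨y * g'⁻¹ * g, mul_mem (mul_mem (m.2 y1) (inv_mem (m.2 g1'))) (m.2 g1), by
      rw [mul_smul, ← g3', mul_smul, inv_smul_smul, y3]⟩

theorem sylow_conj {D A B : Subgroup G} (hA : A ≤ D) (hB : B ≤ D) (hB' : IsPGroup p B)
    (hc : Nat.card A = p ^ (Nat.card D).factorization p) : ∃ d ∈ D, ∀ y ∈ B, d * y * d⁻¹ ∈ A := by
  obtain ⟨Q, hQ⟩ := (hB'.comap_subtype (K := D)).exists_le_sylow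
  obtain ⟨d, hd⟩ := exists_smul_eq D Q (Sylow.ofCard (A.subgroupOf D)
    (by rw [Nat.card_congr (subgroupOfEquivOfLe hA).toEquiv, hc]))
  refine ⟨d, d.2, fun y hy => ?_⟩
  have : (d * ⟨y, hB hy⟩ * d⁻¹ : D) ∈ ((d • Q : Sylow p D) : Subgroup D) :=
    smul_mem_pointwise_smul _ (MulAut.conj d) _ (hQ (show (⟨y, hB hy⟩ : D) ∈ _ from hy))
  rw [hd] at this
  exact this

omit [Finite G] [DecidableEq Ω] in
theorem fix_of_small {A : Subgroup G} {e : ℕ} (hA : Nat.card A = p ^ e) {x : Ω}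
    (h : (ob A x).card < p) {g : G} (hg : g ∈ A) : g • x = x := by
  obtain ⟨j, -, hj⟩ := (Nat.dvd_prime_pow hp.out).1 (hA ▸ ob_dvd A x)
  have : j = 0 := by
    by_contra e
    exact h.not_ge (hj ▸ Nat.le_self_pow e p)
  rw [this, pow_zero] at hj
  exact Finset.card_le_one.1 hj.le _ (mem_ob.2 ⟨g, hg, rfl⟩) _ (mem_ob.2 ⟨1, one_mem _, by simp⟩)

theorem T2.step1 [FaithfulSMul G Ω] (h : T2 G Ω) (hn : Fintype.card Ω = p ^ 2 + 1) {a b : Ω}
    {Δ : Finset Ω} (ha : a ∉ Δ) (hb : b ∈ Δ) (hc : Δ.card = p)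
    (hB : ∀ g : G, g • a = a → ∀ x ∈ Δ, g • x ∈ Δ → ∀ y ∈ Δ, g • y ∈ Δ) :
    ¬ p ∣ Nat.card ↥(stabilizer G a ⊓ stabilizer G b) ∧
      ∃ S ≤ stabilizer G a, Nat.card S = p ^ 2 ∧ ∀ x ≠ a, ∃ s ∈ S, s • b = x := by
  have hab : a ≠ b := fun e => ha (e ▸ hb)
  obtain ⟨e, he⟩ : ∃ e, e = (Nat.card ↥(stabilizer G a ⊓ stabilizer G b)).factorization p := ⟨_, rfl⟩
  obtain ⟨S, S1, S2⟩ : ∃ S ≤ stabilizer G a, Nat.card S = p ^ 2 * p ^ e := by
    obtain ⟨Q⟩ : Nonempty (Sylow p (stabilizer G a)) := inferInstance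
    refine ⟨(Q : Subgroup _).map (stabilizer G a).subtype, map_subtype_le _, ?_⟩
    rw [card_subtype, Q.card_eq_multiplicity, ← h.card2 hn hab, Nat.factorization_mul
      (pow_pos hp.out.pos 2).ne' Nat.card_pos.ne', ← pow_add, he]
    simp [hp.out.factorization_self]
  have key : ∀ x ≠ a, ob S x = Finset.univ.erase a ∧ Nat.card ↥(S ⊓ stabilizer G x) = p ^ e :=
    fun x hx => by
      have e1 := card_ob S x
      obtain ⟨j, -, hj⟩ := (Nat.dvd_prime_pow hp.out).1 (by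
        rw [pow_add, ← S2]; exact card_dvd_of_le inf_le_left :
          Nat.card ↥(S ⊓ stabilizer G x) ∣ p ^ (2 + e))
      have e2 : p ^ j ∣ Nat.card ↥(stabilizer G a ⊓ stabilizer G b) := by
        rw [← hj, Nat.eq_of_mul_eq_mul_left (pow_pos hp.out.pos 2)
          ((h.card2 hn hab).trans (h.card2 hn hx.symm).symm)]
        exact card_dvd_of_le (inf_le_inf_right _ S1)
      have e3 := Nat.pow_le_pow_right hp.out.pos
        (he ▸ (hp.out.pow_dvd_iff_le_factorization Nat.card_pos.ne').1 e2)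
      have e4 : ob S x ⊆ Finset.univ.erase a := fun y hy => by
        obtain ⟨g, g1, rfl⟩ := mem_ob.1 hy
        exact Finset.mem_erase.2 ⟨fun e => hx (smul_left_cancel g (e.trans (S1 g1).symm)), by simp⟩
      have e5 : (Finset.univ.erase a).card = p ^ 2 := by simp [hn]
      have e6 : p ^ 2 ≤ (ob S x).card := Nat.le_of_mul_le_mul_right (by
        rw [← S2, ← e1, hj]; exact Nat.mul_le_mul_left _ e3) (pow_pos hp.out.pos e)
      have e7 := Finset.eq_of_subset_of_card_le e4 (e5 ▸ e6)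
      rw [e7, e5, S2] at e1
      exact ⟨e7, Nat.eq_of_mul_eq_mul_left (pow_pos hp.out.pos 2) e1⟩
  have tr : ∀ x ≠ a, ∃ s ∈ S, s • b = x := fun x hx => mem_ob.1 (by simp [(key b hab.symm).1, hx])
  suffices e = 0 by
    rw [this, pow_zero, mul_one] at S2
    refine ⟨fun hd => ?_, S, S1, S2, tr⟩
    have := (hp.out.dvd_iff_one_le_factorization Nat.card_pos.ne').1 hd
    omega
  by_contra e0
  obtain ⟨A, hA⟩ : ∃ A, A = S ⊓ stabilizer G b := ⟨_, rfl⟩
  have cA : Nat.card A = p ^ e := hA ▸ (key b hab.symm).2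
  have Aa : ∀ g ∈ A, g • a = a := fun g hg => S1 (hA ▸ hg).1
  have Ab : ∀ g ∈ A, g • b = b := fun g hg => (hA ▸ hg).2
  have o1 : ob (S ⊓ normalizer A) b = (fx Ω A).erase a := by
    ext x
    simp only [mem_ob, Finset.mem_erase, mem_fx]
    refine ⟨fun ⟨s, s1, s2⟩ => ⟨fun e => hab (smul_left_cancel s (by rw [s2, e, S1 s1.1])),
      fun g hg => ?_⟩, fun ⟨x1, x2⟩ => ?_⟩
    · rw [← s2, ← mul_smul, show g * s = s * (s⁻¹ * g * s) by group, mul_smul,
        Ab _ ((mem_normalizer_iff''.1 s1.2 g).1 hg)]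
    · obtain ⟨s, s1, rfl⟩ := tr x x1
      refine ⟨s, ⟨s1, mem_normalizer_fintype fun g hg => ?_⟩, rfl⟩
      rw [show (A : Set G) = (S ⊓ stabilizer G (s • b) : Subgroup G) from congrArg _
        (eq_of_le_of_card_ge (fun y hy => ⟨(hA ▸ hy).1, x2 y hy⟩) (by rw [cA, (key _ x1).2]))]
      exact ⟨S.mul_mem (S.mul_mem s1 (hA ▸ hg).1) (S.inv_mem s1), by simp [mul_smul, Ab g hg]⟩
  have o2 : Δ ⊆ (fx Ω A).erase a := fun x hx => Finset.mem_erase.2 ⟨fun e => ha (e ▸ hx),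
    mem_fx.2 fun g hg => by
      by_cases e : x = b
      · rw [e, Ab g hg]
      refine fix_of_small cA (lt_of_le_of_lt (Finset.card_le_card (t := Δ.erase b) fun y hy => ?_)
        (hc ▸ Finset.card_erase_lt_of_mem hb)) hg
      obtain ⟨y, y1, rfl⟩ := mem_ob.1 hy
      exact Finset.mem_erase.2 ⟨fun e' => e (smul_left_cancel y (e'.trans (Ab y y1).symm)),
        hB y (Aa y y1) b hb (by rwa [Ab y y1]) x hx⟩⟩
  obtain ⟨j, -, hj⟩ := (Nat.dvd_prime_pow hp.out).1 ((ob_dvd (S ⊓ normalizer A) b).trans (by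
    rw [pow_add, ← S2]; exact card_dvd_of_le inf_le_left) : _ ∣ p ^ (2 + e))
  rw [o1] at hj
  have o3 : ((fx Ω A).erase a).card < p ^ 2 := by
    refine lt_of_lt_of_eq (Finset.card_lt_card (t := Finset.univ.erase a) ⟨Finset.erase_subset_erase _
      (Finset.subset_univ _), fun hs => e0 ?_⟩) (by simp [hn])
    have : A = ⊥ := (eq_bot_iff_forall A).2 fun g hg => FaithfulSMul.eq_of_smul_eq_smul (α := Ω)
      fun x => by
        rw [one_smul]
        by_cases e : x = a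
        · rw [e, Aa g hg]
        · exact mem_fx.1 (Finset.mem_erase.1 (hs (by simp [e]))).2 g hg
    rw [this, card_bot] at cA
    exact (Nat.pow_eq_one.1 cA.symm).resolve_left hp.out.ne_one
  have o4 : Δ = (fx Ω A).erase a := Finset.eq_of_subset_of_card_le o2 (by
    rw [hj] at o3 ⊢
    have := (Nat.pow_lt_pow_iff_right hp.out.one_lt).1 o3
    exact hc ▸ (Nat.pow_le_pow_right hp.out.pos (by omega : j ≤ 1)).trans (pow_one p).le)
  have o5 : insert a Δ = fx Ω A := by rw [o4, Finset.insert_erase (mem_fx.2 Aa)]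
  have pres : ∀ g : G, g • a = a → g • b ∈ Δ → ∀ x ∈ insert a Δ, g • x ∈ insert a Δ :=
    fun g g1 g2 x hx => by
      rcases Finset.mem_insert.1 hx with rfl | hx
      · simp [g1]
      · exact Finset.mem_insert_of_mem (hB g g1 b hb g2 x hx)
  refine h.line hn hab (L := insert a Δ) (by rw [Finset.card_insert_of_notMem ha, hc]) (by simp)
    (by simp [hb]) (fun g g1 g2 => pres g g1 (by rwa [g2])) (fun x hx x1 => ?_) ?_
  · obtain ⟨s, s1, rfl⟩ := tr x x1
    exact ⟨s, pres s (S1 s1) ((Finset.mem_insert.1 hx).resolve_left x1), S1 s1, rfl⟩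
  obtain ⟨t, t1, t2⟩ := h a b b a hab hab.symm
  obtain ⟨d, d1, d2⟩ := sylow_conj (D := stabilizer G a ⊓ stabilizer G b) (A := A)
    (B := A.map (MulAut.conj t⁻¹).toMonoidHom) (fun g hg => ⟨Aa g hg, Ab g hg⟩) (by
      rintro _ ⟨g, hg, rfl⟩
      exact ⟨by simp [mul_smul, t1, Ab g hg, inv_smul_eq_iff],
        by simp [mul_smul, t2, Aa g hg, inv_smul_eq_iff]⟩)
    ((IsPGroup.of_card cA).map _) (he ▸ cA)
  refine ⟨t * d⁻¹, fun y hy => ?_, by
    rw [mul_smul, (inv_mem d1).1, t1]; exact hab.symm⟩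
  rw [o5, mem_fx] at hy ⊢
  intro g hg
  have := hy _ (d2 _ ⟨g, hg, rfl⟩)
  rw [← mul_smul, show g * (t * d⁻¹) = t * d⁻¹ * (d * (t⁻¹ * g * t⁻¹⁻¹) * d⁻¹) by group, mul_smul]
  exact congrArg _ this

end Cfsg.Agent.H13.Dp
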