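import Cfsg.Agent.H13.Dp2

/-! Doubly transitive groups of degree `p ^ 2 + 1`: the imprimitive configuration. -/

set_option autoImplicit false

namespace Cfsg.Agent.H13.Dp

open MulAction Subgroup
open scoped Pointwise

variable {G Ω : Type*} [Group G] [Finite G] [Fintype Ω] [DecidableEq Ω] [MulAction G Ω]
  {p : ℕ} [hp : Fact p.Prime]

/-- the configuration: `S` regular on the points other than `a`, blocks the orbits of `P` -/
structure Cx (p : ℕ) (a b : Ω) (S P : Subgroup G) : Prop where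
  T : T2 G Ω
  n : Fintype.card Ω = p ^ 2 + 1
  ab : a ≠ b
  Sa : ∀ s ∈ S, s • a = a
  cS : Nat.card S = p ^ 2
  tr : ∀ x ≠ a, ∃ s ∈ S, s • b = x
  PS : P ≤ S
  cP : Nat.card P = p
  nd : ¬ p ∣ Nat.card ↥(stabilizer G a ⊓ stabilizer G b)
  comm : ∀ s ∈ S, ∀ s' ∈ S, s * s' = s' * s
  reg : ∀ s ∈ S, ∀ s' ∈ S, ∀ x ≠ a, s • x = s' • x → s = s'
  R : ∀ h : G, h • a = a → ∀ x ≠ a, ∀ u ∈ P, ∃ u' ∈ P, h • u • x = u' • h • x

omit [Finite G] [Fintype Ω] [DecidableEq Ω] in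
theorem ne_of_fix {g : G} {a x : Ω} (hg : g • a = a) (hx : x ≠ a) : g • x ≠ a :=
  fun e => hx (smul_left_cancel g (e.trans hg.symm))

omit [Finite G] in
theorem ob_eq_erase {M : Subgroup G} {a b : Ω} (hab : a ≠ b) (h1 : ∀ g ∈ M, g • a = a)
    (h2 : ∀ x ≠ a, ∃ s ∈ M, s • b = x) : ob M b = Finset.univ.erase a := by
  ext x
  simp only [mem_ob, Finset.mem_erase, Finset.mem_univ, and_true]
  exact ⟨fun ⟨g, g1, g2⟩ => g2 ▸ ne_of_fix (h1 g g1) hab.symm, h2 x⟩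

omit [Finite G] [DecidableEq Ω] in
theorem card_ob_of {M : Subgroup G} {x : Ω} (h : ∀ g ∈ M, g • x = x → g = 1) :
    (ob M x).card = Nat.card M := by
  rw [← card_ob M x, (eq_bot_iff_forall (M ⊓ stabilizer G x)).2 fun g hg => h g hg.1 hg.2,
    card_bot, mul_one]

omit [Finite G] [DecidableEq Ω] in
theorem relIndex_ob (M : Subgroup G) (x : Ω) : (stabilizer G x).relIndex M = (ob M x).card := by
  rw [relIndex, show (stabilizer G x).subgroupOf M = stabilizer M x from rfl, index_stabilizer,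
    ← Set.ncard_coe_finset]
  congr 1; ext y; simp [mem_ob, mem_orbit_iff, Subgroup.smul_def]

theorem T2.cx [FaithfulSMul G Ω] (h : T2 G Ω) (hn : Fintype.card Ω = p ^ 2 + 1) {a b : Ω}
    {Δ : Finset Ω} (ha : a ∉ Δ) (hb : b ∈ Δ) (hc : Δ.card = p)
    (hB : ∀ g : G, g • a = a → ∀ x ∈ Δ, g • x ∈ Δ → ∀ y ∈ Δ, g • y ∈ Δ) :
    ∃ S P : Subgroup G, Cx p a b S P := by
  obtain ⟨nd, S, S1, S2, tr⟩ := h.step1 hn ha hb hc hB
  have hab : a ≠ b := fun e => ha (e ▸ hb)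
  have comm : ∀ s ∈ S, ∀ s' ∈ S, s * s' = s' * s := fun s hs s' hs' => by
    have := IsPGroup.isMulCommutative_of_card_eq_prime_sq (G := S) S2
    exact congrArg Subtype.val (mul_comm' (⟨s, hs⟩ : S) ⟨s', hs'⟩)
  have r0 : S ⊓ stabilizer G b = ⊥ := by
    have e := card_ob S b
    rw [ob_eq_erase hab S1 tr, S2, show (Finset.univ.erase a).card = p ^ 2 by simp [hn],
      Nat.mul_eq_left (pow_pos hp.out.pos 2).ne'] at e
    exact eq_bot_of_card_eq _ e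
  have reg : ∀ s ∈ S, ∀ s' ∈ S, ∀ x ≠ a, s • x = s' • x → s = s' := fun s hs s' hs' x hx e => by
    obtain ⟨c, hc, rfl⟩ := tr x hx
    have : s'⁻¹ * s ∈ S ⊓ stabilizer G b := ⟨S.mul_mem (S.inv_mem hs') hs, smul_left_cancel c (by
      rw [← mul_smul, comm c hc _ (mul_mem (inv_mem hs') hs), mul_smul, mul_smul, e,
        inv_smul_smul])⟩
    rw [r0, mem_bot, inv_mul_eq_one] at this
    exact this.symm
  have m : ∀ {g : G}, g ∈ stabilizer G Δ ↔ ∀ y ∈ Δ, g • y ∈ Δ := mem_stabilizer_finset'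
  have mP : ∀ x ∈ Δ, ∃ u ∈ S ⊓ stabilizer G Δ, u • b = x := fun x hx => by
    obtain ⟨s, s1, rfl⟩ := tr x fun e => ha (e ▸ hx)
    exact ⟨s, ⟨s1, m.2 (hB s (S1 s1) b hb hx)⟩, rfl⟩
  refine ⟨S, S ⊓ stabilizer G Δ, h, hn, hab, S1, S2, tr, inf_le_left, ?_, nd, comm, reg,
    fun g g1 x hx u hu => ?_⟩
  · rw [← card_ob_of (M := S ⊓ stabilizer G Δ) (x := b) fun g hg e =>
      reg g hg.1 1 (one_mem _) b hab.symm (by simpa), ← hc]
    congr 1
    ext x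
    exact mem_ob.trans ⟨fun ⟨u, u1, u2⟩ => u2 ▸ m.1 u1.2 b hb, mP x⟩
  · obtain ⟨s, s1, rfl⟩ := tr x hx
    obtain ⟨s', s2, e⟩ := tr _ (ne_of_fix g1 hx)
    obtain ⟨u', u1, u2⟩ := mP _ (hB (s'⁻¹ * g * s) (by
      rw [mul_smul, mul_smul, S1 s1, g1, S1 (inv_mem s2)]) b hb (by
        rwa [mul_smul, mul_smul, ← e, inv_smul_smul]) _ (m.1 hu.2 b hb))
    refine ⟨u', u1, ?_⟩
    rw [← e, ← mul_smul u', comm _ u1.1 _ s2, mul_smul s', u2, ← mul_smul u, comm _ hu.1 _ s1]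
    simp [mul_smul]

omit [Finite G] in
theorem gen {Q : Subgroup G} (hQ : Nat.card Q = p) {u v : G} (hu : u ∈ Q) (h1 : u ≠ 1)
    (hv : v ∈ Q) : ∃ n : ℕ, u ^ n = v := by
  obtain ⟨n, hn⟩ := mem_powers_of_prime_card (G := Q) hQ (g := ⟨u, hu⟩) (g' := ⟨v, hv⟩)
    fun e => h1 (congrArg Subtype.val e)
  exact ⟨n, congrArg Subtype.val hn⟩

namespace Cx

variable {a b : Ω} {S P : Subgroup G}

omit [Finite G] hp in
theorem cardob (c : Cx p a b S P) {Q : Subgroup G} (hQ : Q ≤ S) {x : Ω} (hx : x ≠ a) :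
    (ob Q x).card = Nat.card Q :=
  card_ob_of fun g hg e => c.reg g (hQ hg) 1 (one_mem _) x hx (by simpa)

omit [Finite G] [DecidableEq Ω] hp in
theorem sw (c : Cx p a b S P) {s s' : G} (h : s ∈ S) (h' : s' ∈ S) (x : Ω) :
    s • s' • x = s' • s • x := by rw [← mul_smul, c.comm s h s' h', mul_smul]

omit [DecidableEq Ω] in
theorem genS (c : Cx p a b S P) {s s' : G} (hs : s ∈ S) (h1 : s ∉ P) (hs' : s' ∈ S) :
    ∃ n : ℕ, ∃ u ∈ P, s' = s ^ n * u := by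
  have : (P.subgroupOf S).Normal := ⟨fun u hu g => by
    rwa [show g * u = u * g from Subtype.ext (c.comm _ g.2 _ u.2), mul_inv_cancel_right]⟩
  have e := (P.subgroupOf S).card_mul_index
  rw [Nat.card_congr (subgroupOfEquivOfLe c.PS).toEquiv, c.cP, c.cS, sq,
    Nat.mul_left_cancel_iff hp.out.pos] at e
  obtain ⟨n, hn⟩ := mem_powers_of_prime_card (G := S ⧸ P.subgroupOf S) e (g := (⟨s, hs⟩ : S))
    (g' := (⟨s', hs'⟩ : S)) fun e => h1 ((QuotientGroup.eq_one_iff (⟨s, hs⟩ : S)).1 e)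
  simp only [← QuotientGroup.mk_pow, QuotientGroup.eq] at hn
  exact ⟨n, _, hn, by simp⟩

omit [DecidableEq Ω] in
theorem cardQ (c : Cx p a b S P) {Q : Subgroup G} (hQ : Q ≤ S) {s s' : G} (h1 : s ∈ Q)
    (h2 : s ≠ 1) (h3 : s' ∈ S) (h4 : s' ∉ Q) : Nat.card Q = p := by
  obtain ⟨j, j1, j2⟩ := (Nat.dvd_prime_pow hp.out).1 (c.cS ▸ card_dvd_of_le hQ)
  interval_cases j
  · rw [eq_bot_of_card_eq _ j2] at h1
    exact absurd h1 h2
  · simpa using j2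
  · exact absurd (eq_of_le_of_card_ge hQ (by rw [j2, c.cS]) ▸ h3) h4

theorem line (c : Cx p a b S P) {Q : Subgroup G} (hQ : Q ≤ S) (cQ : Nat.card Q = p)
    (h1 : ∀ g : G, g • a = a → g • b = b → ∀ x ∈ insert a (ob Q b), g • x ∈ insert a (ob Q b))
    {g : G} (h3 : ∀ y ∈ insert a (ob Q b), g • y ∈ insert a (ob Q b)) (h4 : g • a ≠ a) : False := by
  have na : a ∉ ob Q b := fun h => by
    obtain ⟨q, q1, q2⟩ := mem_ob.1 h
    exact ne_of_fix (c.Sa q (hQ q1)) c.ab.symm q2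
  refine c.T.line c.n c.ab (by rw [Finset.card_insert_of_notMem na, c.cardob hQ c.ab.symm, cQ])
    (by simp) (Finset.mem_insert_of_mem (mem_ob.2 ⟨1, one_mem _, by simp⟩)) h1
    (fun x hx x1 => ?_) ⟨g, h3, h4⟩
  obtain ⟨q, q1, rfl⟩ := mem_ob.1 ((Finset.mem_insert.1 hx).resolve_left x1)
  refine ⟨q, fun y hy => ?_, c.Sa q (hQ q1), rfl⟩
  rcases Finset.mem_insert.1 hy with rfl | hy
  · simp [c.Sa q (hQ q1)]
  · obtain ⟨q', q2, rfl⟩ := mem_ob.1 hy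
    exact Finset.mem_insert_of_mem (mem_ob.2 ⟨q * q', mul_mem q1 q2, mul_smul ..⟩)

omit [Finite G] hp in
theorem lineP (c : Cx p a b S P) (g : G) (g1 : g • a = a) (g2 : g • b = b) :
    ∀ x ∈ insert a (ob P b), g • x ∈ insert a (ob P b) := fun x hx => by
  rcases Finset.mem_insert.1 hx with rfl | hx
  · simp [g1]
  · obtain ⟨u, u1, rfl⟩ := mem_ob.1 hx
    obtain ⟨u', u2, e⟩ := c.R g g1 b c.ab.symm u u1
    exact Finset.mem_insert_of_mem (mem_ob.2 ⟨u', u2, by rw [e, g2]⟩)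

omit [Finite G] in
theorem last (c : Cx p a b S P) {x : Ω} (hx : x ≠ a) {T : Finset Ω} (hT : T ⊆ ob P x)
    (cT : T.card + 1 = p) {g : G} (g1 : g • a = a) (g2 : ∀ y ∈ T, g • y ∈ T) {z : Ω}
    (z1 : z ∈ ob P x) (z2 : z ∉ T) : g • z = z := by
  obtain ⟨y, hy⟩ : T.Nonempty := Finset.card_pos.1 (by have := hp.out.two_le; omega)
  obtain ⟨u, u1, rfl⟩ := mem_ob.1 (hT hy)
  obtain ⟨v, v1, v2⟩ := mem_ob.1 (hT (g2 _ hy))
  obtain ⟨w, w1, rfl⟩ := mem_ob.1 z1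
  obtain ⟨w', w2, e⟩ := c.R g g1 _ (ne_of_fix (c.Sa u (c.PS u1)) hx) (w * u⁻¹)
    (mul_mem w1 (inv_mem u1))
  rw [mul_smul, inv_smul_smul, ← v2, ← mul_smul w'] at e
  refine Finset.card_le_one.1 (le_of_eq (?_ : (ob P x \ T).card = 1)) _ (Finset.mem_sdiff.2
    ⟨mem_ob.2 ⟨_, mul_mem w2 v1, e.symm⟩, fun h => z2 ?_⟩) _ (Finset.mem_sdiff.2 ⟨z1, z2⟩)
  · rw [Finset.card_sdiff_of_subset hT, c.cardob c.PS hx, c.cP]; omega
  · have := mem_stabilizer_finset'.2 g2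
    exact (mem_stabilizer_finset.1 this _).1 h

end Cx

end Cfsg.Agent.H13.Dp
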