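import Cfsg.Agent.H13.Dp3

/-! Doubly transitive groups of degree `p ^ 2 + 1`: the kernel on the blocks. -/

set_option autoImplicit false

namespace Cfsg.Agent.H13.Dp.Cx

open MulAction Subgroup
open scoped Pointwise

variable {G Ω : Type*} [Group G] [Finite G] [Fintype Ω] [DecidableEq Ω] [MulAction G Ω]
  {p : ℕ} [hp : Fact p.Prime] {a b : Ω} {S P : Subgroup G}

/-- the kernel of the action on the blocks -/
def K (c : Cx p a b S P) : Subgroup G where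
  carrier := {g | g • a = a ∧ ∀ x ≠ a, ∃ u ∈ P, g • x = u • x}
  mul_mem' := fun {g g'} ⟨g1, g2⟩ ⟨h1, h2⟩ => ⟨by rw [mul_smul, h1, g1], fun x hx => by
    obtain ⟨u', u1, e⟩ := h2 x hx
    obtain ⟨u'', u2, e'⟩ := c.R g g1 x hx u' u1
    obtain ⟨u, u3, e''⟩ := g2 x hx
    exact ⟨u'' * u, mul_mem u2 u3, by rw [mul_smul, e, e', e'', mul_smul]⟩⟩
  one_mem' := ⟨one_smul .., fun _ _ => ⟨1, one_mem _, rfl⟩⟩
  inv_mem' := fun {g} ⟨g1, g2⟩ => ⟨inv_smul_eq_iff.2 g1.symm, fun x hx => by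
    obtain ⟨u, u1, e⟩ := g2 (g⁻¹ • x) (ne_of_fix (inv_smul_eq_iff.2 g1.symm) hx)
    exact ⟨u⁻¹, inv_mem u1, by rw [eq_inv_smul_iff, ← e, smul_inv_smul]⟩⟩

omit [Finite G] [DecidableEq Ω] hp in
theorem K_conj (c : Cx p a b S P) {h g : G} (h1 : h • a = a) (hg : g ∈ c.K) :
    h⁻¹ * g * h ∈ c.K := by
  have h2 := inv_smul_eq_iff.2 h1.symm
  refine ⟨by rw [mul_smul, mul_smul, h1, hg.1, h2], fun x hx => ?_⟩
  obtain ⟨u, u1, e⟩ := hg.2 _ (ne_of_fix h1 hx)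
  obtain ⟨u', u2, e'⟩ := c.R _ h2 _ (ne_of_fix h1 hx) u u1
  exact ⟨u', u2, by rw [mul_smul, mul_smul, e, e', inv_smul_smul]⟩

omit [Finite G] [DecidableEq Ω] hp in
theorem PK (c : Cx p a b S P) : P ≤ c.K := fun u hu => ⟨c.Sa u (c.PS hu), fun _ _ => ⟨u, hu, rfl⟩⟩

omit [Finite G] [DecidableEq Ω] hp in
theorem obK (c : Cx p a b S P) {M : Subgroup G} (hM : M ≤ c.K) {x : Ω} (hx : x ≠ a) :
    ob M x ⊆ ob P x := fun y hy => by
  obtain ⟨g, g1, rfl⟩ := mem_ob.1 hy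
  obtain ⟨u, u1, e⟩ := (hM g1).2 x hx
  exact mem_ob.2 ⟨u, u1, e.symm⟩

theorem faith [FaithfulSMul G Ω] (c : Cx p a b S P) {r : G} (hr : r ∈ c.K)
    (h : ∀ u ∈ P, r • u • b = u • b) : r = 1 := by
  refine FaithfulSMul.eq_of_smul_eq_smul (α := Ω) fun x => ?_
  rw [one_smul]
  by_cases hx : x = a
  · rw [hx, hr.1]
  by_contra e
  obtain ⟨u, u1, u2⟩ := hr.2 x hx
  let M := c.K ⊓ ⨅ v ∈ P, stabilizer G (v • b)
  have m : ∀ g, g ∈ M ↔ g ∈ c.K ∧ ∀ v ∈ P, g • v • b = v • b := fun g => by simp [M, mem_iInf]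
  have : ob M x = ob P x := (c.obK inf_le_left hx).antisymm fun y hy => by
    obtain ⟨v, v1, rfl⟩ := mem_ob.1 hy
    obtain ⟨n, rfl⟩ := gen c.cP u1 (fun h => e (by rw [u2, h, one_smul])) v1
    clear v1 hy
    induction n with
    | zero => exact mem_ob.2 ⟨1, one_mem _, by simp⟩
    | succ n ih =>
      obtain ⟨g, g1, g2⟩ := mem_ob.1 ih
      refine mem_ob.2 ⟨u⁻¹⁻¹ * g * u⁻¹ * r, mul_mem ((m _).2 ⟨c.K_conj (c.Sa _ (c.PS (inv_mem u1)))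
        g1.1, fun v hv => ?_⟩) ((m r).2 ⟨hr, h⟩), by simp [mul_smul, u2, g2, pow_succ']⟩
      rw [mul_smul, mul_smul, ← mul_smul u⁻¹, ((m g).1 g1).2 _ (mul_mem (inv_mem u1) hv)]
      simp [mul_smul]
  refine c.nd (dvd_trans ?_ (card_dvd_of_le (H := M) fun g hg => ⟨hg.1.1, by
    simpa using ((m g).1 hg).2 1 (one_mem _)⟩))
  rw [← c.cP, ← c.cardob c.PS hx, ← this]
  exact ob_dvd M x

omit [DecidableEq Ω] in
theorem exP (c : Cx p a b S P) : ∃ u ∈ P, u ≠ 1 := by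
  have : Nontrivial P := Finite.one_lt_card_iff_nontrivial.1 (c.cP ▸ hp.out.one_lt)
  exact (nontrivial_iff_exists_ne_one P).1 this

omit [DecidableEq Ω] in
theorem exS (c : Cx p a b S P) : ∃ s ∈ S, s ∉ P := by
  by_contra! h
  have := card_le_of_le (H := S) h
  rw [c.cS, c.cP] at this
  have := hp.out.one_lt
  nlinarith

omit [Finite G] [DecidableEq Ω] in
theorem root (c : Cx p a b S P) (p2 : p ≠ 2) {s : G} (hs : s ∈ S) {Z : Subgroup G}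
    (h : s * s ∈ Z) : s ∈ Z := by
  obtain ⟨k, hk⟩ := (hp.out.odd_of_ne_two p2).pow (n := 2)
  have : s ^ (2 * k + 1) = 1 := by
    rw [← hk, ← c.cS]; exact congrArg Subtype.val (pow_card_eq_one' (x := (⟨s, hs⟩ : S)))
  rw [pow_succ, pow_mul, mul_eq_one_iff_inv_eq, sq] at this
  exact this ▸ inv_mem (pow_mem h k)

omit [DecidableEq Ω] in
theorem orb (c : Cx p a b S P)
    (hT : ∀ u ∈ P, ∀ u' ∈ P, u ≠ 1 → u' ≠ 1 → ∃ y ∈ c.K ⊓ stabilizer G b, y • u • b = u' • b)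
    {x : Ω} (hx : x ≠ a) : (ob (c.K ⊓ stabilizer G b) x).card = 1 ∨
      (ob (c.K ⊓ stabilizer G b) x).card + 1 = p := by
  classical
  letI : CommGroup S := { (inferInstance : Group S) with
    mul_comm := fun s s' => Subtype.ext (c.comm _ s.2 _ s'.2) }
  have := Fintype.ofFinite S
  have inj : ∀ s s' : S, (s : G) • b = (s' : G) • b → s = s' := fun s s' e =>
    Subtype.ext (c.reg _ s.2 _ s'.2 b c.ab.symm e)
  have ex : ∀ y : G, y • a = a → ∃ σ : S ≃ S, ∀ s : S, y • (s : G) • b = (σ s : G) • b :=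
    fun y hy => by
      choose f f1 f2 using fun s : S => c.tr (y • (s : G) • b)
        (ne_of_fix hy (ne_of_fix (c.Sa _ s.2) c.ab.symm))
      refine ⟨Equiv.ofBijective (fun s => ⟨f s, f1 s⟩) (Finite.injective_iff_bijective.1
        fun s s' e => inj _ _ (smul_left_cancel y ?_)), fun s => (f2 s).symm⟩
      rw [← f2, ← f2, show f s = f s' from congrArg Subtype.val e]
  obtain ⟨s0, h0, rfl⟩ := c.tr x hx
  obtain ⟨A, hA⟩ : ∃ A, A = c.K ⊓ stabilizer G b := ⟨_, rfl⟩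
  have mA : ∀ {g}, g ∈ A ↔ g ∈ c.K ∧ g • b = b := by simp [hA]
  rw [← hA] at hT ⊢
  obtain ⟨O, hO⟩ : ∃ O : Finset S, ∀ s : S, s ∈ O ↔ (s : G) • b ∈ ob A (s0 • b) :=
    ⟨Finset.univ.filter fun s : S => (s : G) • b ∈ ob A (s0 • b), by simp⟩
  have cO : O.card = (ob A (s0 • b)).card := Finset.card_bij (fun s _ => (s : G) • b)
    (fun s hs => (hO s).1 hs) (fun s _ s' _ => inj s s') fun y hy => by
      obtain ⟨g, g1, rfl⟩ := mem_ob.1 hy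
      obtain ⟨s, s1, e⟩ := c.tr _ (ne_of_fix (mA.1 g1).1.1 hx)
      exact ⟨⟨s, s1⟩, (hO _).2 (e ▸ hy), e⟩
  have sub := c.obK (M := A) (fun g hg => (mA.1 hg).1) hx
  have cP := (c.cardob c.PS hx).trans c.cP
  have hlt : O.card < p := by
    rw [cO]
    exact lt_of_le_of_ne (cP ▸ Finset.card_le_card sub) fun e => c.nd (e ▸ (ob_dvd A _).trans
      (card_dvd_of_le fun g hg => ⟨(mA.1 hg).1.1, (mA.1 hg).2⟩))
  have nc : ∀ v : S, (v : G) ∈ P → v ≠ 1 → ∃ x ∈ O, x * v ∉ O := fun v hv v1 => by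
    by_contra! h
    refine hlt.not_ge (cO ▸ cP ▸ Finset.card_le_card fun y hy => ?_)
    obtain ⟨w, w1, rfl⟩ := mem_ob.1 hy
    obtain ⟨n, rfl⟩ := gen c.cP hv (fun e => v1 (Subtype.ext e)) w1
    have : ∀ n : ℕ, ⟨s0, h0⟩ * v ^ n ∈ O := fun n => by
      induction n with
      | zero => exact (hO _).2 (mem_ob.2 ⟨1, one_mem _, by simp⟩)
      | succ n ih => rw [pow_succ, ← mul_assoc]; exact h _ ih
    simpa [mul_smul, c.sw h0 (c.PS w1)] using (hO _).1 (this n)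
  obtain ⟨u, u1, u2⟩ := c.exP
  have u3 : (⟨u, c.PS u1⟩ : S) ≠ 1 := fun e => u2 (congrArg Subtype.val e)
  obtain ⟨x, x1, x2⟩ := nc ⟨u, c.PS u1⟩ u1 u3
  obtain ⟨y, y1, y2⟩ := nc (⟨u, c.PS u1⟩ : S)⁻¹ (inv_mem u1) (inv_ne_one.2 u3)
  rw [← cO]
  refine schur (S := S) (𝓐 := {σ : S ≃ S | ∃ y ∈ A, ∀ s : S, y • (s : G) • b = (σ s : G) • b})
    (P := P.subgroupOf S) (c := ⟨s0, h0⟩) c.cS
    ((Nat.card_congr (subgroupOfEquivOfLe c.PS).toEquiv).trans c.cP) ?_ ?_ ?_ ?_ ?_ hlt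
    (u := ⟨u, c.PS u1⟩) u1 u3 x1 x2 y1 y2
  · rintro σ ⟨y, y1, y2⟩ x
    obtain ⟨v, v1, e⟩ := (mA.1 y1).1.2 _ (ne_of_fix (c.Sa _ x.2) c.ab.symm)
    have e' : (σ x : G) = x * v := c.reg _ (σ x).2 _ (mul_mem x.2 (c.PS v1)) b c.ab.symm (by
      rw [← y2, e, mul_smul, c.sw x.2 (c.PS v1)])
    have k : ((σ x : G))⁻¹ * y * x ∈ c.K := by
      rw [e', mul_inv_rev, mul_assoc, mul_assoc, ← mul_assoc _ y]
      exact mul_mem (c.PK (inv_mem v1)) (c.K_conj (c.Sa _ x.2) (mA.1 y1).1)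
    obtain ⟨σ', h⟩ := ex _ k.1
    refine ⟨σ', ⟨_, mA.2 ⟨k, by simp [mul_smul, y2]⟩, h⟩, fun s => inj _ _ ?_⟩
    rw [← h]; simp [mul_smul, y2]
  · rintro σ ⟨y, y1, y2⟩
    exact inj _ _ (by rw [← y2]; simpa using (mA.1 y1).2)
  · intro v v1 v' v2 v3 v4
    obtain ⟨y, y1, y2⟩ := hT v v1 v' v2 (fun e => v3 (Subtype.ext e)) fun e => v4 (Subtype.ext e)
    obtain ⟨σ, h⟩ := ex y (mA.1 y1).1.1
    exact ⟨σ, ⟨y, y1, h⟩, inj _ _ (by rw [← h, y2])⟩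
  · rintro σ ⟨y, y1, y2⟩ s
    rw [hO, hO, ← y2, mem_ob, mem_ob]
    exact ⟨fun ⟨g, g1, g2⟩ => ⟨y⁻¹ * g, mul_mem (inv_mem y1) g1, by simp [mul_smul, g2]⟩,
      fun ⟨g, g1, g2⟩ => ⟨y * g, mul_mem y1 g1, by simp [mul_smul, g2]⟩⟩
  · intro s hs
    obtain ⟨v, v1, e⟩ := mem_ob.1 (sub ((hO s).1 hs))
    rw [c.sw (c.PS v1) h0, ← mul_smul] at e
    rw [mem_subgroupOf]
    simpa [← c.reg _ (mul_mem h0 (c.PS v1)) _ s.2 b c.ab.symm e] using v1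

end Cfsg.Agent.H13.Dp.Cx
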