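import Cfsg.Agent.H13.Dp4

/-! Doubly transitive groups of degree `p ^ 2 + 1`: `P` and `S` are normal in the stabiliser. -/

set_option autoImplicit false

namespace Cfsg.Agent.H13.Dp.Cx

open MulAction Subgroup
open scoped Pointwise

variable {G Ω : Type*} [Group G] [Finite G] [Fintype Ω] [DecidableEq Ω] [MulAction G Ω]
  {p : ℕ} [hp : Fact p.Prime] {a b : Ω} {S P : Subgroup G}

theorem notT (c : Cx p a b S P) (p2 : p ≠ 2)
    (hT : ∀ u ∈ P, ∀ u' ∈ P, u ≠ 1 → u' ≠ 1 → ∃ y ∈ c.K ⊓ stabilizer G b, y • u • b = u' • b) :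
    False := by
  have orb := @c.orb _ _ _ _ _ _ _ _ _ _ _ _ hT
  obtain ⟨A, hA⟩ : ∃ A, A = c.K ⊓ stabilizer G b := ⟨_, rfl⟩
  have mA : ∀ {g}, g ∈ A ↔ g ∈ c.K ∧ g • b = b := by simp [hA]
  have AK : A ≤ c.K := fun g hg => (mA.1 hg).1
  rw [← hA] at hT orb
  have aF : a ∈ fx Ω A := mem_fx.2 fun g hg => (AK hg).1
  have eF : insert a (ob (S ⊓ normalizer A) b) = fx Ω A := by
    ext x
    rw [Finset.mem_insert, mem_ob]
    refine ⟨?_, fun h => or_iff_not_imp_left.2 fun x1 => ?_⟩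
    · rintro (rfl | ⟨s, s1, rfl⟩)
      · exact aF
      · refine mem_fx.2 fun g hg => ?_
        rw [← mul_smul, show g * s = s * (s⁻¹ * g * s) by group, mul_smul,
          (mA.1 ((mem_normalizer_iff''.1 s1.2 g).1 hg)).2]
    · obtain ⟨s, s1, rfl⟩ := c.tr x x1
      refine ⟨s, ⟨s1, (normalizer (A : Set G)).inv_mem_iff.1 (mem_normalizer_fintype
        fun g hg => ?_)⟩, rfl⟩
      rw [inv_inv]
      exact mA.2 ⟨c.K_conj (c.Sa s s1) (AK hg), by simp [mul_smul, mem_fx.1 h g hg]⟩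
  have f1 : ∀ x : Ω, (ob A x).card = 1 → x ∈ fx Ω A := fun x h => mem_fx.2 fun g hg =>
    Finset.card_le_one.1 h.le _ (mem_ob.2 ⟨g, hg, rfl⟩) _ (mem_ob.2 ⟨1, one_mem _, by simp⟩)
  have f2 : ∀ x : Ω, ∀ g ∈ A, ∀ y ∈ ob A x, g • y ∈ ob A x := fun x g hg y hy => by
    obtain ⟨g', g1, rfl⟩ := mem_ob.1 hy
    exact mem_ob.2 ⟨g * g', mul_mem hg g1, mul_smul ..⟩
  obtain ⟨q, q1, q2⟩ : ∃ q ∈ S ⊓ normalizer A, q ≠ 1 := by
    obtain ⟨s, s1, s2⟩ := c.exS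
    have hx := ne_of_fix (c.Sa s s1) c.ab.symm
    obtain ⟨z, z1, z2⟩ : ∃ z ∈ ob P (s • b), z ∈ fx Ω A := by
      rcases orb hx with h | h
      · exact ⟨_, mem_ob.2 ⟨1, one_mem _, one_smul ..⟩, f1 _ h⟩
      · obtain ⟨z, z1, z2⟩ := Finset.exists_mem_notMem_of_card_lt_card (s := ob A (s • b))
          (t := ob P (s • b)) (by rw [c.cardob c.PS hx, c.cP]; omega)
        exact ⟨z, z1, mem_fx.2 fun g hg => c.last hx (c.obK AK hx) h (AK hg).1 (f2 _ g hg) z1 z2⟩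
    obtain ⟨u, u1, rfl⟩ := mem_ob.1 z1
    obtain ⟨q, q1, q2⟩ := mem_ob.1 ((Finset.mem_insert.1 (eF ▸ z2)).resolve_left
      (ne_of_fix (c.Sa u (c.PS u1)) hx))
    refine ⟨q, q1, fun e => s2 ?_⟩
    rw [e, ← mul_smul] at q2
    rw [← mul_mem_cancel_left u1, ← c.reg _ (one_mem _) _ (mul_mem (c.PS u1) s1) b c.ab.symm q2]
    exact one_mem _
  have cQ : Nat.card ↥(S ⊓ normalizer A) = p := by
    obtain ⟨u, u1, u2⟩ := c.exP
    refine c.cardQ inf_le_left q1 q2 (c.PS u1) fun h => u2 ?_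
    obtain ⟨y, y1, y2⟩ := hT u u1 u⁻¹ (inv_mem u1) u2 (inv_ne_one.2 u2)
    rw [mem_fx.1 (eF ▸ Finset.mem_insert_of_mem (mem_ob.2 ⟨u, h, rfl⟩)) y y1] at y2
    exact c.root p2 (c.PS u1) (Z := ⊥) (mul_eq_one_iff_eq_inv.2
      (c.reg _ (c.PS u1) _ (inv_mem (c.PS u1)) b c.ab.symm y2))
  have Dinv : ∀ d : G, d • a = a → d • b = b → ∀ y ∈ fx Ω A, d • y ∈ fx Ω A :=
    fun d d1 d2 y hy => mem_fx.2 fun g hg => by
      rw [← mul_smul, show g * d = d * (d⁻¹ * g * d) by group, mul_smul, mem_fx.1 hy _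
        (mA.2 ⟨c.K_conj d1 (AK hg), by simp [mul_smul, d2, (mA.1 hg).2, inv_smul_eq_iff]⟩)]
  obtain ⟨t, t1, t2⟩ := c.T a b b a c.ab c.ab.symm
  have t3 : t⁻¹ • a = b := inv_smul_eq_iff.2 t2.symm
  have t4 : t⁻¹ • b = a := inv_smul_eq_iff.2 t1.symm
  by_cases h : ∀ y ∈ fx Ω A, t • y ∈ fx Ω A
  · exact c.line inf_le_left cQ (eF ▸ Dinv) (g := t) (eF ▸ h) (t1 ▸ c.ab.symm)
  push Not at h
  obtain ⟨y, y1, y2⟩ := h
  have hx : t • y ≠ a := fun e => y2 (e ▸ aF)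
  have h := (orb hx).resolve_left fun h => y2 (f1 _ h)
  have f3 : ∀ z ∈ ob A (t • y), t⁻¹ • z ∈ fx Ω A := fun z hz => by
    obtain ⟨g, g1, rfl⟩ := mem_ob.1 hz
    simpa [mul_smul] using Dinv (t⁻¹ * g * t) (by simp [mul_smul, t1, (mA.1 g1).2, t4])
      (by simp [mul_smul, t2, (AK g1).1, t3]) y y1
  have f4 : insert a (ob P (t • y)) = t • fx Ω A := by
    refine Finset.eq_of_subset_of_card_le (fun z hz => Finset.inv_smul_mem_iff.1 ?_) ?_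
    · rcases Finset.mem_insert.1 hz with rfl | hz
      · exact mem_fx.2 fun g hg => by rw [t3, (mA.1 hg).2]
      by_cases e : z ∈ ob A (t • y)
      · exact f3 z e
      refine mem_fx.2 fun g hg => ?_
      have := c.last hx (c.obK AK hx) h (g := t * g * t⁻¹) (by simp [mul_smul, t3, t2, (mA.1 hg).2])
        (fun w hw => by simpa [mul_smul, mem_fx.1 (f3 w hw) g hg] using hw) hz e
      rwa [mul_smul, mul_smul, ← eq_inv_smul_iff] at this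
    · rw [Finset.card_smul_finset, ← eF, Finset.card_insert_of_notMem (s := ob P _) fun h => ?_,
        c.cardob c.PS hx, c.cP, ← cQ, ← c.cardob inf_le_left c.ab.symm]
      · exact Finset.card_insert_le _ _
      · obtain ⟨u, u1, u2⟩ := mem_ob.1 h
        exact ne_of_fix (c.Sa u (c.PS u1)) hx u2
  obtain ⟨v, v1, v2⟩ := mem_ob.1 ((Finset.mem_insert.1 (f4 ▸ Finset.inv_smul_mem_iff.1
    (t4 ▸ aF))).resolve_left c.ab.symm)
  rw [show ob P (t • y) = ob P b from Finset.ext fun z => by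
    simp only [mem_ob, ← v2]
    exact ⟨fun ⟨u, u1, u2⟩ => ⟨u * v⁻¹, mul_mem u1 (inv_mem v1), by simp [mul_smul, u2]⟩,
      fun ⟨u, u1, u2⟩ => ⟨u * v, mul_mem u1 v1, by simp [mul_smul, u2]⟩⟩] at f4
  refine c.line c.PS c.cP c.lineP (g := t * q * t⁻¹) (fun z hz => ?_) fun e => q2 ?_
  · rw [f4, ← Finset.inv_smul_mem_iff] at hz ⊢
    refine mem_fx.2 fun g hg => ?_
    have := mem_fx.1 hz _ ((mem_normalizer_iff''.1 q1.2 g).1 hg)
    simp only [mul_smul, inv_smul_smul, inv_smul_eq_iff] at this ⊢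
    exact this
  · rw [mul_smul, mul_smul, t3, ← t2, smul_left_cancel_iff] at e
    exact c.reg _ q1.1 _ (one_mem _) b c.ab.symm (by simpa)

theorem normP [FaithfulSMul G Ω] (c : Cx p a b S P) (p2 : p ≠ 2) {h u : G} (h1 : h • a = a)
    (hu : u ∈ P) : h⁻¹ * u * h ∈ P := by
  have hi : (stabilizer G b).relIndex c.K = p := by
    rw [relIndex_ob, (c.obK le_rfl c.ab.symm).antisymm fun x hx => ?_, c.cardob c.PS c.ab.symm, c.cP]
    obtain ⟨u, u1, u2⟩ := mem_ob.1 hx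
    exact mem_ob.2 ⟨u, c.PK u1, u2⟩
  have nb : ∀ u ∈ P, u ≠ 1 → u ∉ stabilizer G b := fun u u1 u2 e =>
    u2 (c.reg _ (c.PS u1) _ (one_mem _) b c.ab.symm (by simpa))
  have pw : ∀ u ∈ P, u ^ p ^ 1 = 1 := fun u hu => by
    rw [pow_one, ← c.cP]; exact congrArg Subtype.val (pow_card_eq_one' (x := (⟨u, hu⟩ : P)))
  rcases burn hi with h2 | h2
  · refine (c.notT p2 fun u u1 u' u2 u3 u4 => ?_).elim
    obtain ⟨y, y1, y2, y3⟩ := h2 u (c.PK u1) u' (c.PK u2) (nb u u1 u3) (nb u' u2 u4)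
    exact ⟨y, ⟨y1, y2⟩, by simpa [mul_smul, inv_smul_eq_iff] using y3⟩
  obtain ⟨v, v1, v2⟩ := c.exP
  have k := c.K_conj h1 (c.PK hu)
  obtain ⟨n, hn⟩ := h2 _ k v (c.PK v1) 1 (by
    rw [show h⁻¹ * u * h = MulAut.conj h⁻¹ u by simp, ← map_pow, pw u hu, map_one]) (pw v v1) (nb v v1 v2)
  rw [← inv_mul_eq_one.1 (c.faith (mul_mem (inv_mem (zpow_mem (c.PK v1) n)) k) fun w w1 => by
    simpa only [mem_stabilizer_iff, mul_smul w⁻¹, mul_smul _ w, inv_smul_eq_iff]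
      using hn w (c.PK w1))]
  exact zpow_mem v1 n

theorem cenK [FaithfulSMul G Ω] (c : Cx p a b S P) {g : G} (hg : g ∈ c.K)
    (h : ∀ u ∈ P, u * g = g * u) : g ∈ P := by
  obtain ⟨u, u1, e⟩ := hg.2 b c.ab.symm
  rw [← inv_mul_eq_one.1 (c.faith (mul_mem (c.PK (inv_mem u1)) hg) fun v hv => by
    rw [mul_smul, ← mul_smul g, ← h v hv, mul_smul, e, c.sw (c.PS hv) (c.PS u1), inv_smul_smul])]
  exact u1

theorem cenP [FaithfulSMul G Ω] (c : Cx p a b S P) (p2 : p ≠ 2) {g u : G} (g1 : g • a = a)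
    (g2 : g • b = b) (u1 : u ∈ P) (u2 : u ≠ 1) (e : g • u • b = u • b) :
    ∀ v ∈ P, v * g = g * v := fun v hv => by
  obtain ⟨n, rfl⟩ := gen c.cP u1 u2 hv
  have := c.reg _ (c.PS (c.normP p2 g1 u1)) _ (c.PS u1) b c.ab.symm (by
    rw [mul_smul, mul_smul, g2, inv_smul_eq_iff, e])
  exact Commute.pow_left (by rwa [mul_assoc, inv_mul_eq_iff_eq_mul] at this) n

/-- the stabiliser of the block through `b` -/
def Y (c : Cx p a b S P) : Subgroup G where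
  carrier := {g | g • a = a ∧ ∃ u ∈ P, g • b = u • b}
  mul_mem' := fun {g g'} ⟨g1, u, u1, g2⟩ ⟨h1, v, v1, h2⟩ => ⟨by rw [mul_smul, h1, g1], by
    obtain ⟨w, w1, e⟩ := c.R g g1 b c.ab.symm v v1
    exact ⟨w * u, mul_mem w1 u1, by rw [mul_smul, h2, e, g2, mul_smul]⟩⟩
  one_mem' := ⟨one_smul .., 1, one_mem _, rfl⟩
  inv_mem' := fun {g} ⟨g1, u, u1, g2⟩ => ⟨inv_smul_eq_iff.2 g1.symm, by
    obtain ⟨w, w1, e⟩ := c.R g⁻¹ (inv_smul_eq_iff.2 g1.symm) b c.ab.symm u u1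
    exact ⟨w⁻¹, inv_mem w1, by rw [eq_inv_smul_iff, ← e, ← g2, inv_smul_smul]⟩⟩

theorem normS [FaithfulSMul G Ω] (c : Cx p a b S P) (p2 : p ≠ 2) {h s : G} (h1 : h • a = a)
    (hs : s ∈ S) : h⁻¹ * s * h ∈ S := by
  obtain ⟨C, hC⟩ : ∃ C, C = stabilizer G a ⊓ centralizer (P : Set G) := ⟨_, rfl⟩
  have mC : ∀ {g}, g ∈ C ↔ g • a = a ∧ ∀ u ∈ P, u * g = g * u := by simp [hC, mem_centralizer_iff]
  have SC : S ≤ C := fun s hs => mC.2 ⟨c.Sa s hs, fun u hu => c.comm _ (c.PS hu) _ hs⟩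
  have SY : ∀ s ∈ S, s ∉ P → s ∉ c.Y := fun s s1 s2 ⟨_, u, u1, e⟩ =>
    s2 (c.reg _ s1 _ (c.PS u1) b c.ab.symm e ▸ u1)
  have cP := (c.cardob c.PS c.ab.symm).trans c.cP
  have cE : (Finset.univ.erase a).card = p ^ 2 := by simp [c.n]
  have hi : c.Y.relIndex C = p := by
    have e := relIndex_inf_mul_relIndex (stabilizer G b) c.Y C
    rw [← inf_relIndex_right (_ ⊓ _), show stabilizer G b ⊓ c.Y ⊓ C = stabilizer G b ⊓ C from
      le_antisymm (inf_le_inf_right _ inf_le_left) fun g hg =>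
        ⟨⟨hg.1, (mC.1 hg.2).1, 1, one_mem _, by simpa using hg.1⟩, hg.2⟩, inf_relIndex_right,
      relIndex_ob, relIndex_ob, ob_eq_erase c.ab (fun g hg => (mC.1 hg).1) fun x hx =>
        (c.tr x hx).imp fun s hs => ⟨SC hs.1, hs.2⟩, cE,
      show ob (c.Y ⊓ C) b = ob P b from Finset.ext fun x => by
        simp only [mem_ob]
        exact ⟨fun ⟨g, ⟨⟨_, u, u1, e⟩, _⟩, g2⟩ => ⟨u, u1, e ▸ g2⟩, fun ⟨u, u1, e⟩ =>
          ⟨u, ⟨⟨c.Sa u (c.PS u1), u, u1, rfl⟩, SC (c.PS u1)⟩, e⟩⟩, cP, sq] at e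
    exact Nat.eq_of_mul_eq_mul_left hp.out.pos e
  rcases burn hi with h2 | h2
  swap
  · have pw : ∀ u ∈ S, u ^ p ^ 2 = 1 := fun u hu => by
      rw [← c.cS]; exact congrArg Subtype.val (pow_card_eq_one' (x := (⟨u, hu⟩ : S)))
    obtain ⟨v, v1, v2⟩ := c.exS
    have k : h⁻¹ * s * h ∈ C := mC.2 ⟨by simp [mul_smul, h1, c.Sa s hs, inv_smul_eq_iff],
      fun u hu => by
        have := c.comm _ (c.PS (c.normP p2 (inv_smul_eq_iff.2 h1.symm) hu)) _ hs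
        rw [show u * (h⁻¹ * s * h) = h⁻¹ * (h⁻¹⁻¹ * u * h⁻¹ * s) * h by group, this]; group⟩
    obtain ⟨n, hn⟩ := h2 _ k v (SC v1) 2 (by
      rw [show h⁻¹ * s * h = MulAut.conj h⁻¹ s by simp, ← map_pow, pw s hs, map_one])
      (pw v v1) (SY v v1 v2)
    have k2 := mC.1 (mul_mem (inv_mem (zpow_mem (SC v1) n)) k)
    refine (mul_mem_cancel_left (inv_mem (zpow_mem v1 n))).1 (c.PS (c.cenK ⟨k2.1, fun x hx => ?_⟩
      k2.2))
    obtain ⟨w, w1, rfl⟩ := c.tr x hx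
    obtain ⟨-, u, u1, e⟩ := hn w (SC w1)
    exact ⟨u, u1, by rwa [mul_smul, mul_smul, inv_smul_eq_iff, c.sw w1 (c.PS u1)] at e⟩
  exfalso
  obtain ⟨A, hA⟩ : ∃ A, A = C ⊓ stabilizer G b := ⟨_, rfl⟩
  have mA : ∀ {g}, g ∈ A ↔ g ∈ C ∧ g • b = b := by simp [hA]
  have tr : ∀ s ∈ S, ∀ s' ∈ S, s ∉ P → s' ∉ P → ∃ y ∈ A, ∃ u ∈ P, y • s • b = u • s' • b :=
    fun s s1 s' s2 s3 s4 => by
      obtain ⟨y, y1, ⟨-, v, v1, y2⟩, -, w, w1, y3⟩ := h2 s (SC s1) s' (SC s2) (SY s s1 s3) (SY s' s2 s4)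
      rw [mul_smul, mul_smul, inv_smul_eq_iff, c.sw s2 (c.PS w1)] at y3
      exact ⟨v⁻¹ * y, mA.2 ⟨mul_mem (SC (c.PS (inv_mem v1))) y1, by simp [mul_smul, y2]⟩, v⁻¹ * w,
        mul_mem (inv_mem v1) w1, by simp [mul_smul, y3]⟩
  have fA : ∀ g ∈ A, ∀ x ∈ insert a (ob P b), g • x = x := fun g hg x hx => by
    rcases Finset.mem_insert.1 hx with rfl | hx
    · exact (mC.1 (mA.1 hg).1).1
    · obtain ⟨u, u1, rfl⟩ := mem_ob.1 hx
      rw [← mul_smul, ← (mC.1 (mA.1 hg).1).2 u u1, mul_smul, (mA.1 hg).2]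
  obtain ⟨t, t1, t2⟩ := c.T a b b a c.ab c.ab.symm
  have t3 : t⁻¹ • a = b := inv_smul_eq_iff.2 t2.symm
  have t4 : t⁻¹ • b = a := inv_smul_eq_iff.2 t1.symm
  by_cases h : ∀ y ∈ insert a (ob P b), t • y ∈ insert a (ob P b)
  · exact c.line c.PS c.cP c.lineP h (t1 ▸ c.ab.symm)
  push Not at h
  obtain ⟨y, y1, y2⟩ := h
  obtain ⟨s, s1, e⟩ := c.tr (t • y) fun e => y2 (by simp [e])
  have s2 : s ∉ P := fun h => y2 (Finset.mem_insert_of_mem (mem_ob.2 ⟨s, h, e⟩))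
  have BK : A.map (MulAut.conj t).toMonoidHom ≤ c.K ⊓ stabilizer G b := by
    rintro _ ⟨g, hg, rfl⟩
    have g1 : (t * g * t⁻¹) • a = a := by simp [mul_smul, t3, t2, (mA.1 hg).2]
    refine ⟨⟨g1, fun x hx => ?_⟩, by simp [mul_smul, t4, t1, (mC.1 (mA.1 hg).1).1]⟩
    obtain ⟨u, u1, u2⟩ : ∃ u ∈ P, t⁻¹ • u • x ∈ insert a (ob P b) := by
      obtain ⟨w, w1, rfl⟩ := c.tr x hx
      by_cases w2 : w ∈ P
      · exact ⟨w⁻¹, inv_mem w2, by simp [t4]⟩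
      obtain ⟨d, d1, u, u1, d2⟩ := tr s s1 w w1 s2 w2
      refine ⟨u, u1, ?_⟩
      simpa [mul_smul, ← e, d2] using c.lineP (t⁻¹ * d * t) (by simp [mul_smul, t1, (mA.1 d1).2, t4])
        (by simp [mul_smul, t2, (mC.1 (mA.1 d1).1).1, t3]) y y1
    obtain ⟨w, w1, e⟩ := c.R _ g1 _ (ne_of_fix (c.Sa u (c.PS u1)) hx) u⁻¹ (inv_mem u1)
    exact ⟨w * u, mul_mem w1 u1, by simpa [mul_smul, fA g hg _ u2] using e⟩
  have e1 : (Finset.univ.erase a \ ob P b).card ≤ (ob A (s • b)).card * p :=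
    (Finset.card_le_card fun x hx => by
      obtain ⟨x1, x2⟩ := Finset.mem_sdiff.1 hx
      obtain ⟨w, w1, rfl⟩ := c.tr x (Finset.mem_erase.1 x1).1
      obtain ⟨d, d1, u, u1, d2⟩ := tr s s1 w w1 s2 fun h => x2 (mem_ob.2 ⟨w, h, rfl⟩)
      exact Finset.mem_biUnion.2 ⟨_, mem_ob.2 ⟨d, d1, rfl⟩, mem_ob.2 ⟨u⁻¹, inv_mem u1, by
        simp [d2]⟩⟩).trans (Finset.card_biUnion_le_card_mul _ (ob P) _ fun x _ =>
          c.cP ▸ Nat.le_of_dvd Nat.card_pos (ob_dvd P x))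
  have e2 := Finset.le_card_sdiff (ob P b) (Finset.univ.erase a)
  have e3 := Nat.le_of_dvd Nat.card_pos (ob_dvd A (s • b))
  rw [cE, cP] at e2
  refine c.notT p2 fun u u1 u' u2 u3 u4 => ?_
  have nb : ∀ u ∈ P, u • b = b → u = 1 := fun u u1 e =>
    c.reg _ (c.PS u1) _ (one_mem _) b c.ab.symm (by simpa)
  have e4 : ob (A.map (MulAut.conj t).toMonoidHom) (u • b) = (ob P b).erase b := by
    refine Finset.eq_of_subset_of_card_le (fun x hx => ?_) ?_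
    · obtain ⟨g, g1, rfl⟩ := mem_ob.1 hx
      obtain ⟨v, v1, e⟩ := (BK g1).1.2 _ (ne_of_fix (c.Sa u (c.PS u1)) c.ab.symm)
      exact Finset.mem_erase.2 ⟨fun h => u3 (nb u u1 (smul_left_cancel g (h.trans (BK g1).2.symm))),
        mem_ob.2 ⟨v * u, mul_mem v1 u1, by rw [e, mul_smul]⟩⟩
    · rw [card_ob_of fun g g1 g2 => nb g (c.cenK (BK g1).1 (c.cenP p2 (BK g1).1.1 (BK g1).2 u1 u3 g2))
        (BK g1).2, card_map_of_injective (MulAut.conj t).injective,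
        Finset.card_erase_of_mem (mem_ob.2 ⟨1, one_mem _, one_smul ..⟩), cP]
      refine le_trans (Nat.le_of_mul_le_mul_right ?_ hp.out.pos) e3
      rw [Nat.sub_one_mul, ← sq]
      exact e2.trans e1
  obtain ⟨g, g1, g2⟩ := mem_ob.1 (e4 ▸ Finset.mem_erase.2 ⟨fun h => u4 (nb u' u2 h),
    mem_ob.2 ⟨u', u2, rfl⟩⟩)
  exact ⟨g, BK g1, g2⟩

end Cfsg.Agent.H13.Dp.Cx
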