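import Cfsg.Agent.H13.Dp5

/-! Doubly transitive groups of degree `p ^ 2 + 1`: the end of the argument. -/

set_option autoImplicit false

namespace Cfsg.Agent.H13.Dp.Cx

open MulAction Subgroup
open scoped Pointwise

variable {G Ω : Type*} [Group G] [Finite G] [Fintype Ω] [DecidableEq Ω] [MulAction G Ω]
  {p : ℕ} [hp : Fact p.Prime] {a b : Ω} {S P : Subgroup G}

omit [Finite G] [DecidableEq Ω] hp in
theorem cmt (c : Cx p a b S P) {Z : Subgroup G} (hZ : Z ≤ S)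
    (hn : ∀ h : G, h • a = a → ∀ z ∈ Z, h⁻¹ * z * h ∈ Z) {x : G} (hx : x ∈ S)
    (h : ∀ h : G, h • a = a → ∃ m : ℕ, ∃ z ∈ Z, h⁻¹ * x * h = x ^ m * z) {d d' : G}
    (d1 : d • a = a) (d2 : d' • a = a) :
    ∃ z ∈ Z, (d * d' * (d' * d)⁻¹)⁻¹ * x * (d * d' * (d' * d)⁻¹) = x * z := by
  have k : ∀ {d d' : G} {m m' : ℕ} {z z' : G}, d' • a = a → z ∈ Z → z' ∈ Z →
      d⁻¹ * x * d = x ^ m * z → d'⁻¹ * x * d' = x ^ m' * z' →
      ∃ w ∈ Z, (d * d')⁻¹ * x * (d * d') = x ^ (m' * m) * w := fun {d d' m m' z z'} d2 z1 z2 e e' =>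
    ⟨z' ^ m * (d'⁻¹ * z * d'), mul_mem (pow_mem z2 m) (hn d' d2 z z1), by
      rw [← mul_assoc (x ^ _), pow_mul, ← Commute.mul_pow (c.comm _ (pow_mem hx _) _ (hZ z2)), ← e',
        show d'⁻¹ * x * d' = d'⁻¹ * x * d'⁻¹⁻¹ by simp, conj_pow,
        show (d * d')⁻¹ * x * (d * d') = d'⁻¹ * (d⁻¹ * x * d) * d' by group, e]; group⟩
  obtain ⟨m, z, z1, e⟩ := h d d1
  obtain ⟨m', z', z2, e'⟩ := h d' d2
  obtain ⟨w, w1, f⟩ := k d2 z1 z2 e e'
  obtain ⟨w', w2, f'⟩ := k d1 z2 z1 e' e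
  refine ⟨_, hn (d' * d)⁻¹ (inv_smul_eq_iff.2 (by rw [mul_smul, d1, d2])) _
    (mul_mem (inv_mem w2) w1), ?_⟩
  rw [show (d * d' * (d' * d)⁻¹)⁻¹ * x * (d * d' * (d' * d)⁻¹) =
    (d' * d) * ((d * d')⁻¹ * x * (d * d')) * (d' * d)⁻¹ by group, f, mul_comm m',
    eq_mul_inv_iff_mul_eq.2 f'.symm]
  group

theorem abD [FaithfulSMul G Ω] (c : Cx p a b S P) (p2 : p ≠ 2) {d d' : G} (d1 : d • a = a)
    (d2 : d • b = b) (d3 : d' • a = a) (d4 : d' • b = b) : d * d' = d' * d := by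
  obtain ⟨r, hr⟩ : ∃ r, r = d * d' * (d' * d)⁻¹ := ⟨_, rfl⟩
  have r1 : r • a = a := by simp [hr, mul_smul, d1, d3, inv_smul_eq_iff.2 d1.symm,
    inv_smul_eq_iff.2 d3.symm]
  have r2 : r • b = b := by simp [hr, mul_smul, d2, d4, inv_smul_eq_iff.2 d2.symm,
    inv_smul_eq_iff.2 d4.symm]
  have r3 : ∀ u ∈ P, u * r = r * u := fun u hu => by
    by_cases e : u = 1
    · simp [e]
    obtain ⟨z, z1, z2⟩ := c.cmt (Z := ⊥) bot_le (fun h _ z hz => by simp [mem_bot.1 hz]) (c.PS hu)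
      (fun h h1 => (gen c.cP hu e (c.normP p2 h1 hu)).imp fun m hm => ⟨1, one_mem _, by simp [hm]⟩)
      d1 d3
    rwa [← hr, mem_bot.1 z1, mul_one, mul_assoc, inv_mul_eq_iff_eq_mul] at z2
  have r4 : r⁻¹ ∈ c.K := ⟨inv_smul_eq_iff.2 r1.symm, fun x hx => by
    obtain ⟨s, s1, rfl⟩ := c.tr x hx
    by_cases e : s ∈ P
    · exact ⟨1, one_mem _, by rw [one_smul, inv_smul_eq_iff, ← mul_smul, ← r3 s e, mul_smul, r2]⟩
    obtain ⟨z, z1, z2⟩ := c.cmt c.PS (fun h h1 z hz => c.normP p2 h1 hz) s1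
      (fun h h1 => c.genS s1 e (c.normS p2 h1 s1)) d1 d3
    exact ⟨z, z1, by rw [c.sw (c.PS z1) s1, ← mul_smul s, ← z2, ← hr, mul_smul, mul_smul, r2]⟩⟩
  exact mul_inv_eq_one.1 (hr ▸ c.reg _ (c.PS (c.cenK (inv_mem_iff.1 r4) r3)) _ (one_mem _) b
    c.ab.symm (by simpa))

theorem cen [FaithfulSMul G Ω] (c : Cx p a b S P) (p2 : p ≠ 2) {h s : G} (h1 : h • a = a)
    (h2 : h • b = b) (hs : s ∈ S) (e : h • s • b = s • b) : s * h = h * s := by
  have := c.reg _ (c.normS p2 h1 hs) _ hs b c.ab.symm (by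
    rw [mul_smul, mul_smul, h2, inv_smul_eq_iff, e])
  rwa [mul_assoc, inv_mul_eq_iff_eq_mul] at this

theorem two [FaithfulSMul G Ω] (c : Cx p a b S P) (p2 : p ≠ 2) {h : G} (h1 : h • a = a)
    (h2 : h • b = b) {x : Ω} (x1 : x ≠ a) (x2 : x ≠ b) (h3 : h • x = x) : h = 1 := by
  by_contra e
  have eF : ∀ y, y ∈ insert a (ob (S ⊓ centralizer {h}) b) ↔ h • y = y := fun y => by
    rw [Finset.mem_insert, mem_ob]
    refine ⟨?_, fun hy => or_iff_not_imp_left.2 fun y1 => ?_⟩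
    · rintro (rfl | ⟨s, s1, rfl⟩)
      · exact h1
      · rw [← mul_smul, s1.2 h rfl, mul_smul, h2]
    · obtain ⟨s, s1, rfl⟩ := c.tr y y1
      exact ⟨s, ⟨s1, mem_centralizer_singleton_iff.2 (c.cen p2 h1 h2 s1 hy)⟩, rfl⟩
  have pr : ∀ g : G, g * h = h * g → ∀ y ∈ insert a (ob (S ⊓ centralizer {h}) b),
      g • y ∈ insert a (ob (S ⊓ centralizer {h}) b) := fun g hg y hy => by
    rw [eF] at hy ⊢
    rw [← mul_smul, ← hg, mul_smul, hy]
  obtain ⟨s, s1, s2⟩ : ∃ s ∈ S, s ∉ S ⊓ centralizer {h} := by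
    by_contra! k
    refine e (FaithfulSMul.eq_of_smul_eq_smul (α := Ω) fun y => ?_)
    rw [one_smul, ← eF, Finset.mem_insert, or_iff_not_imp_left, mem_ob]
    exact fun y1 => (c.tr y y1).imp fun s hs => ⟨k s hs.1, hs.2⟩
  obtain ⟨q, q1, q2⟩ := mem_ob.1 ((Finset.mem_insert.1 ((eF x).2 h3)).resolve_left x1)
  obtain ⟨t, t1, t2⟩ := c.T a b b a c.ab c.ab.symm
  obtain ⟨w, w1, w2⟩ := c.tr (t • x) fun e => x2 (smul_left_cancel t (e.trans t2.symm))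
  have := c.cen p2 (h := t * h * t⁻¹) (by simp [mul_smul, inv_smul_eq_iff.2 t2.symm, h2, t2])
    (by simp [mul_smul, inv_smul_eq_iff.2 t1.symm, h1, t1]) w1 (by simp [mul_smul, w2, h3])
  refine c.line inf_le_left (c.cardQ inf_le_left q1 (fun e => x2 (by simp [← q2, e])) s1 s2)
    (fun g g1 g2 => pr g (c.abD p2 g1 g2 h1 h2)) (pr (t⁻¹ * w * t) ?_)
    (by simpa [mul_smul, t1, w2] using x1)
  rw [show t⁻¹ * w * t * h = t⁻¹ * (w * (t * h * t⁻¹)) * t by group, this]; group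

theorem three [FaithfulSMul G Ω] (c : Cx p a b S P) (p2 : p ≠ 2) {g : G} {x y z : Ω} (h1 : x ≠ y)
    (h2 : x ≠ z) (h3 : y ≠ z) (g1 : g • x = x) (g2 : g • y = y) (g3 : g • z = z) : g = 1 := by
  obtain ⟨w, w1, w2⟩ := c.T x y a b h1 c.ab
  simpa using c.two p2 (h := w * g * w⁻¹) (by simp [← w1, mul_smul, g1]) (by simp [← w2, mul_smul, g2])
    (x := w • z) (by simp [← w1, h2.symm]) (by simp [← w2, h3.symm]) (by simp [mul_smul, g3])

theorem even [FaithfulSMul G Ω] (c : Cx p a b S P) (p2 : p ≠ 2) :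
    ¬ 2 ∣ Nat.card ↥(stabilizer G a ⊓ stabilizer G b) := fun hd => by
  obtain ⟨⟨h, h1, h2⟩, h3⟩ := exists_prime_orderOf_dvd_card' 2 hd
  rw [← orderOf_coe] at h3
  have h4 : h⁻¹ = h := inv_eq_of_mul_eq_one_left (by rw [← sq, ← h3]; exact pow_orderOf_eq_one _)
  have h5 : h ≠ 1 := fun e => by simp [e] at h3
  have iv : ∀ s ∈ S, h • s • b = s⁻¹ • b := fun s hs => by
    have k := c.normS p2 h1 hs
    have k2 : (h⁻¹ * s * h) • b = h • s • b := by rw [h4, mul_smul, mul_smul, h2]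
    rw [← k2, eq_inv_smul_iff]
    by_contra e
    refine h5 (c.two p2 h1 h2 (ne_of_fix (c.Sa s hs) (ne_of_fix (c.Sa _ k) c.ab.symm)) e ?_)
    rw [k2]
    conv_rhs => rw [← k2, c.sw hs k, h4, mul_smul, mul_smul]
  have dle : Nat.card ↥(stabilizer G a ⊓ stabilizer G b) ≤ p - 1 := by
    obtain ⟨u, u1, u2⟩ := c.exP
    have ub : u • b ≠ b := fun e => u2 (c.reg _ (c.PS u1) _ (one_mem _) b c.ab.symm (by simpa))
    rw [← card_ob_of (M := stabilizer G a ⊓ stabilizer G b) fun g hg =>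
        c.two p2 hg.1 hg.2 (ne_of_fix (c.Sa u (c.PS u1)) c.ab.symm) ub,
      ← c.cP, ← c.cardob c.PS c.ab.symm,
      ← Finset.card_erase_of_mem (mem_ob.2 ⟨1, one_mem _, one_smul _ b⟩)]
    refine Finset.card_le_card fun x hx => ?_
    obtain ⟨g, g1, rfl⟩ := mem_ob.1 hx
    obtain ⟨v, v1, e⟩ := c.R g g1.1 b c.ab.symm u u1
    exact Finset.mem_erase.2 ⟨ne_of_fix g1.2 ub, mem_ob.2 ⟨v, v1, by rw [e, g1.2]⟩⟩
  obtain ⟨t, t1, t2⟩ := c.T a b b a c.ab c.ab.symm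
  have := Fintype.ofFinite ↥(stabilizer G a ⊓ stabilizer G b)
  have e1 : ((Finset.univ.erase a).erase b).card ≤ _ * 2 := (Finset.card_le_card fun x hx => by
    obtain ⟨x1, x2⟩ := Finset.mem_erase.1 hx
    have x2 := (Finset.mem_erase.1 x2).1
    obtain ⟨w, w1, -⟩ := c.T x a a b x2 c.ab
    obtain ⟨s, s1, s2⟩ := c.tr (w • a) fun e => x2 (smul_left_cancel w (w1.trans e.symm))
    obtain ⟨s', s3, s4⟩ := c.tr (w • b) fun e => x1 (smul_left_cancel w (w1.trans e.symm))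
    refine Finset.mem_biUnion.2 ⟨⟨t⁻¹ * (w⁻¹ * (s * s' * h) * w), ?_, ?_⟩, Finset.mem_univ _, by
      simp [mul_smul, w1, show h • a = a from h1, c.Sa s s1, c.Sa s' s3, inv_smul_eq_iff]⟩
    · simp [mul_smul, inv_smul_eq_iff, t1, ← s2, ← s4, iv s s1, c.sw s1 s3]
    · simp [mul_smul, inv_smul_eq_iff, t2, ← s2, ← s4, iv s' s3]).trans
    (Finset.card_biUnion_le_card_mul Finset.univ (fun d : ↥(stabilizer G a ⊓ stabilizer G b) =>
      Finset.univ.filter fun x : Ω => (t * d) • x = x) 2 fun d _ => by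
      by_contra! k
      obtain ⟨x, y, z, x1, y1, z1, k1, k2, k3⟩ := Finset.two_lt_card_iff.1 k
      have := c.three p2 k1 k2 k3 (Finset.mem_filter.1 x1).2 (Finset.mem_filter.1 y1).2
        (Finset.mem_filter.1 z1).2
      exact c.ab (by rw [← t1, ← d.2.1, ← mul_smul, this, one_smul, d.2.1]))
  rw [Finset.card_univ, ← Nat.card_eq_fintype_card, Finset.card_erase_of_mem (by simp [c.ab.symm]),
    Finset.card_erase_of_mem (by simp), Finset.card_univ, c.n] at e1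
  obtain ⟨k, rfl⟩ := Nat.exists_eq_add_of_le' hp.out.two_le
  have : (k + 2) ^ 2 = k * k + 4 * k + 4 := by ring
  omega

theorem odd [FaithfulSMul G Ω] (c : Cx p a b S P) (p2 : p ≠ 2) : False := by
  obtain ⟨k, hk⟩ := Nat.not_even_iff_odd.1 (mt even_iff_two_dvd.1 (c.even p2))
  obtain ⟨j, hj⟩ := hp.out.odd_of_ne_two p2
  have ho : Odd (Nat.card (stabilizer G a)) := by
    rw [← c.T.card2 c.n c.ab]
    exact (Odd.pow ⟨j, hj⟩).mul ⟨k, hk⟩
  have pw : ∀ (x : Ω) (g : G), g • x = x → g ^ Nat.card (stabilizer G a) = 1 := fun x g hg => by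
    have : Nontrivial Ω := ⟨a, b, c.ab⟩
    obtain ⟨y, hy⟩ := exists_ne x
    rw [Nat.eq_of_mul_eq_mul_left (Nat.succ_pos _) ((c.T.card1 c.n c.ab).trans
      (c.T.card1 c.n hy.symm).symm)]
    exact congrArg Subtype.val (pow_card_eq_one' (x := (⟨g, hg⟩ : stabilizer G x)))
  let φ := Equiv.Perm.sign.comp (toPermHom G Ω)
  have ev : ∀ (x : Ω) (g : G), g • x = x → φ g = 1 := fun x g hg =>
    (Int.units_eq_one_or _).resolve_right fun e => by
      have := congrArg φ (pw x g hg)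
      rw [map_pow, e, ho.neg_one_pow, map_one] at this
      exact absurd this (by decide)
  obtain ⟨t, t1, t2⟩ := c.T a b b a c.ab c.ab.symm
  have t3 : t ^ 2 ∈ stabilizer G a ⊓ stabilizer G b := by simp [sq, mul_smul, t1, t2]
  have u1 : (t ^ (2 * k + 1)) ^ 2 = 1 := by
    rw [← pow_mul, mul_comm _ 2, pow_mul, ← hk]
    exact congrArg Subtype.val (pow_card_eq_one' (x := (⟨_, t3⟩ : ↥(stabilizer G a ⊓ stabilizer G b))))
  have u2 : t ^ (2 * k + 1) • a = b := by rw [pow_succ', pow_mul, mul_smul, (pow_mem t3 k).1, t1]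
  generalize t ^ (2 * k + 1) = u at u1 u2
  have u3 : φ u = -1 := by
    have : IsEmpty (Function.fixedPoints (toPermHom G Ω u)) := ⟨fun x => c.ab (by
      obtain ⟨i, hi⟩ := ho
      have := pw x u x.2
      rw [hi, pow_succ, pow_mul, u1, one_pow, one_mul] at this
      rw [← u2, this, one_smul])⟩
    rw [MonoidHom.comp_apply, Equiv.Perm.sign_of_pow_two_eq_one (by rw [← map_pow, u1, map_one]),
      c.n, Fintype.card_eq_zero, show (p ^ 2 + 1 - 0) / 2 = 2 * (j * j + j) + 1 by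
        rw [hj, show (2 * j + 1) ^ 2 = 4 * (j * j) + 4 * j + 1 by ring]; omega]
    exact Odd.neg_one_pow ⟨_, rfl⟩
  obtain ⟨v, v1, v2⟩ := c.exP
  obtain ⟨g, g1, g2⟩ := c.T (v • b) a (v • b) b (ne_of_fix (c.Sa v (c.PS v1)) c.ab.symm)
    fun e => v2 (c.reg _ (c.PS v1) _ (one_mem _) b c.ab.symm (by simpa))
  have := ev a (g⁻¹ * u) (by rw [mul_smul, u2, inv_smul_eq_iff, g2])
  rw [map_mul, map_inv, ev _ g g1, u3] at this
  exact absurd this (by decide)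

theorem twenty [FaithfulSMul G Ω] (c : Cx 2 a b S P) : Nat.card G = 20 := by
  rw [← c.T.card1 c.n c.ab, ← c.T.card2 c.n c.ab, (eq_bot_iff_forall (stabilizer G a ⊓
    stabilizer G b)).2 fun g hg => FaithfulSMul.eq_of_smul_eq_smul (α := Ω) fun x => ?_, card_bot]
  · rfl
  rw [one_smul]
  by_cases e : x = a
  · rw [e, hg.1]
  obtain ⟨T, T1, T2⟩ : ∃ T : Finset Ω, T.card ≤ 2 ∧ ob (stabilizer G a ⊓ stabilizer G b) x ⊆ T := by
    have cP := (c.cardob c.PS c.ab.symm).trans c.cP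
    have k : ∀ d ∈ stabilizer G a ⊓ stabilizer G b, ∀ y ∈ ob P b, d • y ∈ ob P b := fun d hd y hy => by
      obtain ⟨u, u1, rfl⟩ := mem_ob.1 hy
      obtain ⟨v, v1, e⟩ := c.R d hd.1 b c.ab.symm u u1
      exact mem_ob.2 ⟨v, v1, by rw [e, hd.2]⟩
    by_cases h : x ∈ ob P b
    · refine ⟨_, cP.le, fun y hy => ?_⟩
      obtain ⟨d, d1, rfl⟩ := mem_ob.1 hy
      exact k d d1 x h
    · refine ⟨Finset.univ.erase a \ ob P b, ?_, fun y hy => ?_⟩
      · rw [Finset.card_sdiff_of_subset fun y hy => ?_, cP]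
        · simp [c.n]
        · obtain ⟨u, u1, rfl⟩ := mem_ob.1 hy
          simp [ne_of_fix (c.Sa u (c.PS u1)) c.ab.symm]
      · obtain ⟨d, d1, rfl⟩ := mem_ob.1 hy
        exact Finset.mem_sdiff.2 ⟨by simp [ne_of_fix d1.1 e], fun h' => h (by
          simpa using k _ (inv_mem d1) _ h')⟩
  refine Finset.card_le_one.1 (?_ : (ob (stabilizer G a ⊓ stabilizer G b) x).card ≤ 1) _
    (mem_ob.2 ⟨g, hg, rfl⟩) _ (mem_ob.2 ⟨1, one_mem _, one_smul ..⟩)
  exact Nat.le_of_lt_succ (lt_of_le_of_ne ((Finset.card_le_card T2).trans T1)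
    fun e => c.nd ((show _ = 2 from e) ▸ ob_dvd _ x))

end Cfsg.Agent.H13.Dp.Cx
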