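import Mathlib
import Cfsg.Agent.H13.Inv2

/-!
Involutions of the matrix symplectic group in characteristic two.
-/

set_option autoImplicit false

namespace Cfsg.Agent.H13

open Module Matrix

theorem two_mul_tri (s : ℕ) : 2 * (s * (s - 1) / 2) + s = s ^ 2 := by
  rw [Nat.mul_div_cancel' (Nat.even_mul_pred_self s).two_dvd]
  cases s with
  | zero => rfl
  | succ s => rw [Nat.add_sub_cancel]; ring

theorem spOrd_eq (q m : ℕ) :
    H12.spOrd q m = q ^ (m ^ 2) * ∏ i : Fin m, (q ^ (2 * ((i : ℕ) + 1)) - 1) := by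
  rw [H12.spOrd, Finset.prod_range]

variable {F : Type*} [Field F] {m : ℕ}

theorem rk1_sp (A : symplecticGroup (Fin m) F) :
    rk1 (H12.spEquiv _ F A) = ((A : Matrix (Fin m ⊕ Fin m) (Fin m ⊕ Fin m) F) - 1).rank :=
  rk1_eq_rank (H12.spEquiv_apply A)

theorem spB_self (y : Fin m ⊕ Fin m → F) : H12.spB (Fin m) F y y = 0 := by
  obtain ⟨d, hd⟩ := (H12.sd_spB (F := F) (l := Fin m)).trace y
  rw [← hd]; exact sub_self _

theorem spB_sub1 (A : symplecticGroup (Fin m) F) (v : Fin m ⊕ Fin m → F) :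
    H12.spB (Fin m) F v (sub1 (H12.spEquiv _ F A) v) =
      sympForm m F v ((A : Matrix (Fin m ⊕ Fin m) (Fin m ⊕ Fin m) F) *ᵥ v) := by
  rw [sub1_apply, map_sub, spB_self, sub_zero, H12.spEquiv_apply, H12.spB_eq]

theorem alt_sp (A : symplecticGroup (Fin m) F) :
    Alt (H12.spB (Fin m) F) (H12.spEquiv _ F A) ↔
      ∀ v, sympForm m F v ((A : Matrix (Fin m ⊕ Fin m) (Fin m ⊕ Fin m) F) *ᵥ v) = 0 := by
  simp only [Alt, spB_sub1]

theorem finrank_sp' : finrank F (Fin m ⊕ Fin m → F) = 2 * m := by simp; omega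

theorem sq_sp {A : symplecticGroup (Fin m) F} (h : A ^ 2 = 1) : H12.spEquiv _ F A ^ 2 = 1 := by
  rw [← map_pow, h, map_one]

theorem sd_sub1_sub1_of_rk1 {V : Type*} [AddCommGroup V] [Module F V] {B : V →ₗ[F] V →ₗ[F] F}
    (D : H12.SD (σ := RingHom.id F) B) {x : H12.UG (σ := RingHom.id F) B} (h : rk1 x = 1) (v : V) :
    sub1 x (sub1 x v) = 0 := by
  have h0 : ∀ y, B y y = 0 := fun y => by
    obtain ⟨d, hd⟩ := D.trace y
    rw [← hd]; exact sub_self _
  obtain ⟨u, -, hu⟩ := finrank_eq_one_iff'.1 h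
  have h1 : ∀ v w, B (sub1 x v) (sub1 x w) = 0 := fun v w => by
    obtain ⟨a, ha⟩ := hu ⟨_, v, rfl⟩
    obtain ⟨b, hb⟩ := hu ⟨_, w, rfl⟩
    rw [← show a • (u : V) = sub1 x v from congrArg Subtype.val ha,
      ← show b • (u : V) = sub1 x w from congrArg Subtype.val hb]
    simp [h0]
  refine D.sep _ fun w => ?_
  have h2 := H12.UG_map x (sub1 x v) w
  rw [← add_sub1, ← add_sub1 x w] at h2
  simp only [map_add, LinearMap.add_apply, h1] at h2
  linear_combination h2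

variable [Fintype F] [CharP F 2]

theorem card_sp_fix {A : symplecticGroup (Fin m) F} (h : A ^ 2 = 1) {s : ℕ}
    (hs : ((A : Matrix (Fin m ⊕ Fin m) (Fin m ⊕ Fin m) F) - 1).rank = s) :
    s ≤ m ∧ Nat.card (fixW (H12.UG (H12.spB (Fin m) F))
      (LinearMap.range (sub1 (H12.spEquiv _ F A)))) =
      Fintype.card F ^ (2 * m * s - (3 * s ^ 2 - s) / 2) * H12.spOrd (Fintype.card F) (m - s) := by
  have h1 := sd_two_mul_rk1_le H12.sd_spB (sq_sp h)
  rw [rk1_sp, hs, finrank_sp'] at h1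
  refine ⟨by omega, ?_⟩
  rw [sd_card_fixW H12.sd_spB finrank_sp' (sq_sp h), rk1_sp, hs, Nat.card_eq_fintype_card]
  obtain ⟨r, rfl⟩ : ∃ r, m = s + r := ⟨m - s, by omega⟩
  congr 2
  have h2 := two_mul_tri s
  have h3 : 2 * (s + r) * s = 2 * s ^ 2 + s * (2 * r) := by ring
  rw [Nat.add_sub_cancel_left]
  omega

end Cfsg.Agent.H13
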