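import Mathlib
import Cfsg.Agent.H13.Inv2Sp

/-!
Involutions of orthogonal groups in characteristic two.
-/

set_option autoImplicit false

namespace Cfsg.Agent.H13

open Module QuadraticMap

universe u v

variable {F : Type u} {V : Type v} [Field F] [AddCommGroup V] [Module F V] {Q : QuadraticForm F V}

/-- Type `a` involutions. -/
abbrev AltO (x : OG Q) : Prop := Alt (σ := RingHom.id F) (polarBilin Q) x

theorem altO_iff {x : OG Q} : AltO x ↔ ∀ u ∈ LinearMap.range (sub1 x), Q u = 0 := by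
  have h : ∀ v, polarBilin Q v (sub1 x v) = 0 ↔ Q (sub1 x v) = 0 := fun v => by
    have := OG_map x v
    rw [← add_sub1, Q_add] at this
    rw [polarBilin_apply_apply]
    exact ⟨fun h => by linear_combination this - h, fun h => by linear_combination this - h⟩
  simp only [AltO, Alt, h]
  exact ⟨by rintro h _ ⟨v, rfl⟩; exact h v, fun h v => h _ ⟨v, rfl⟩⟩

theorem altO_iff' {x : OG Q} : AltO x ↔ ∀ v, Q (sub1 x v) = 0 :=
  altO_iff.trans ⟨fun h v => h _ ⟨v, rfl⟩, by rintro h _ ⟨v, rfl⟩; exact h v⟩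

theorem isConj_subgroup_iff {G : Type*} [Group G] {H : Subgroup G} {x y : H} :
    IsConj x y ↔ ∃ g ∈ H, g * x * g⁻¹ = y := by
  rw [isConj_iff]
  exact ⟨fun ⟨g, hg⟩ => ⟨g, g.2, congrArg Subtype.val hg⟩,
    fun ⟨g, hg, h⟩ => ⟨⟨g, hg⟩, Subtype.ext h⟩⟩

variable [FiniteDimensional F V]

theorem exists_singular_le {W : Submodule F V} (hW : ∀ w ∈ W, Q w = 0) {s : ℕ}
    (hs : s ≤ finrank F W) : ∃ U : Submodule F V, finrank F U = s ∧ ∀ u ∈ U, Q u = 0 := by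
  obtain ⟨b, hb⟩ := exists_linearIndependent_of_le_finrank hs
  refine ⟨(Submodule.span F (Set.range b)).map W.subtype, ?_, ?_⟩
  · rw [Submodule.finrank_map_subtype_eq, finrank_span_eq_card hb, Fintype.card_fin]
  · rintro _ ⟨w, -, rfl⟩; exact hW _ w.2

theorem IsPlus.exists_singular_sub (hP : IsPlus Q) {s : ℕ} (hs : 2 * s ≤ finrank F V) :
    ∃ U : Submodule F V, finrank F U = s ∧ ∀ u ∈ U, Q u = 0 := by
  obtain ⟨W, h1, h2⟩ := hP
  exact exists_singular_le h2 (by omega)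

theorem ND.exists_singular_sub [Finite F] (hQ : ND Q) {s : ℕ} (hs : 2 * s + 1 ≤ finrank F V) :
    ∃ U : Submodule F V, finrank F U + 1 = s + 1 ∧ (∀ u ∈ U, Q u = 0) ∨
      finrank F V = 2 * s + 1 := by
  by_cases h : finrank F V = 2 * s + 1
  · exact ⟨⊥, .inr h⟩
  obtain ⟨k, e, f, h1, h2⟩ := hQ.exists_hypFam_anisotropic
  have h3 := finrank_le_two_of_anisotropic h2
  have h4 := h1.finrank_eq
  rw [Fintype.card_fin] at h4
  obtain ⟨U, h5, h6⟩ := exists_singular_le (Q := Q) (W := Submodule.span F (Set.range e)) (s := s)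
    (fun w hw => Q_eq_zero_of_mem_span (by rintro _ ⟨i, rfl⟩; exact h1.Qe i)
      (by rintro _ ⟨i, rfl⟩ _ ⟨j, rfl⟩; exact h1.ee i j) hw)
    (by rw [finrank_span_eq_card h1.li, Fintype.card_fin]; omega)
  exact ⟨U, .inl ⟨by rw [h5], h6⟩⟩

theorem ND.exists_singular_sub' [Finite F] (hQ : ND Q) {s : ℕ} (hs : 2 * s + 2 ≤ finrank F V) :
    ∃ U : Submodule F V, finrank F U = s ∧ ∀ u ∈ U, Q u = 0 := by
  obtain ⟨U, ⟨h1, h2⟩ | h⟩ := hQ.exists_singular_sub (s := s) (by omega)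
  · exact ⟨U, by omega, h2⟩
  · omega

variable [CharP F 2]

omit [FiniteDimensional F V] in
theorem qe_O {x : OG Q} (hx : x ^ 2 = 1) : QE (σ := RingHom.id F) (polarBilin Q) (sub1 x) :=
  (isIsom_OG Q).qe_two hx

theorem ND.two_mul_rk1_le (hQ : ND Q) {x : OG Q} (hx : x ^ 2 = 1) : 2 * rk1 x ≤ finrank F V :=
  hQ.sd.two_mul_finrank_le (qe_O hx).ti

theorem ND.even_of_altO (hQ : ND Q) {x : OG Q} (hx : x ^ 2 = 1) (ha : AltO x) : Even (rk1 x) :=
  (isIsom_OG Q).even_of_alt (wittData_quad Q hQ) hx ha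

theorem ND.isConj_of_polar (hQ : ND Q) {x y : OG Q} (hx : x ^ 2 = 1) (hy : y ^ 2 = 1)
    (g : V ≃ₗ[F] V) (hg : ∀ u v, polar Q (g u) (g v) = polar Q u v)
    (h : ∀ v, g (x.1 v) = y.1 (g v)) : IsConj x y := by
  obtain ⟨φ, h1, -⟩ := (qe_O hx).exists_equiv_of_intertwine (qe_O hy) g hg fun v => by
    rw [sub1_apply, sub1_apply, map_sub, h]
  exact ((isIsom_OG Q).isConj_iff (wittData_quad Q hQ) (qe_O hx).sq (qe_O hy).sq).2 ⟨φ, h1⟩

theorem ND.exists_refl_fix (hQ : ND Q) {x : OG Q} (hx : x ^ 2 = 1)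
    (h : ¬ (AltO x ∧ 2 * rk1 x = finrank F V)) :
    ∃ w, Q w ≠ 0 ∧ refl Q w ∈ Subgroup.centralizer {x} := by
  obtain ⟨w, h1, h2⟩ : ∃ w ∈ perp Q (LinearMap.range (sub1 x)), Q w ≠ 0 := by
    by_cases ha : AltO x
    · exact hQ.exists_nonsingular_perp _
        (lt_of_le_of_ne (hQ.two_mul_rk1_le hx) fun h' => h ⟨ha, h'⟩)
    · rw [altO_iff] at ha
      push Not at ha
      obtain ⟨w, h1, h2⟩ := ha
      exact ⟨w, mem_perp.2 fun u hu => (qe_O hx).ti u hu w h1, h2⟩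
  exact ⟨w, h2, (isIsom_OG Q).fixW_le (wittData_quad Q hQ) (qe_O hx).sq fun u hu =>
    refl_apply_of_perp (by rw [polar_comm]; exact mem_perp.1 h1 u hu)⟩

variable [Finite F]

theorem ND.exists_unit_family (hQ : ND Q) {s : ℕ} (hs : 2 * s ≤ finrank F V) :
    ∃ b : Fin s → V, LinearIndependent F b ∧ (∀ i j, polar Q (b i) (b j) = 0) ∧ ∀ i, Q (b i) = 1 := by
  cases s with
  | zero => exact ⟨Fin.elim0, linearIndependent_empty_type, fun i => i.elim0, fun i => i.elim0⟩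
  | succ s =>
  obtain ⟨U, h1, h2⟩ := hQ.exists_singular_sub' (s := s) (by omega)
  let b := finBasisOfFinrankEq F U h1
  obtain ⟨f, h⟩ := hQ.exists_hypFam_basis h2 b
  have h3 := h.finrank_eq
  rw [Fintype.card_fin] at h3
  obtain ⟨z, hz⟩ := (h.nd_restrict hQ).exists_eq (by omega) 1
  obtain ⟨z', hz'⟩ := (h.nd_restrict hQ).exists_polar_eq (ι := Unit) (e := fun _ => z)
    (linearIndependent_unique_iff.2 (by rintro rfl; simp at hz)) 1
  have h4 := mem_hypPerp.1 z.2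
  have h5 := mem_hypPerp.1 z'.2
  have h6 : polar Q (z' : V) z = 1 := (polar_restrict _ _ _).symm.trans (hz' ())
  have h7 : ∀ i, polar Q (z : V) (b i) = 0 ∧ polar Q (z : V) (f i) = 0 := fun i =>
    ⟨(polar_comm _ _ _).trans (h4.1 i), (polar_comm _ _ _).trans (h4.2 i)⟩
  have h8 : ∀ i, polar Q (z' : V) (b i) = 0 ∧ polar Q (z' : V) (f i) = 0 := fun i =>
    ⟨(polar_comm _ _ _).trans (h5.1 i), (polar_comm _ _ _).trans (h5.2 i)⟩
  refine ⟨Fin.cons z fun i => b i + f i, linearIndependent_of_dual_family (σ := RingHom.id F)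
    (polarBilin Q) _ (Fin.cons z' f) fun i j => ?_, fun i j => ?_, fun i => ?_⟩
  · refine Fin.cases ?_ (fun i => ?_) i <;> refine Fin.cases ?_ (fun j => ?_) j <;>
      simp [h6, h8, h4.2, h.fe, h.ff, (Fin.succ_ne_zero _).symm]
  · refine Fin.cases ?_ (fun i => ?_) i <;> refine Fin.cases ?_ (fun j => ?_) j <;>
      simp [h7, h4.1, h4.2, h.fe, h.ff, h.ee, h.ef, CharTwo.two_eq_zero, CharTwo.add_self_eq_zero]
  · refine Fin.cases hz (fun i => ?_) i
    simp [Q_add, h.Qe, h.Qf, h.ef]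

theorem ND.isConj_iff_two (hQ : ND Q) {x y : OG Q} (hx : x ^ 2 = 1) (hy : y ^ 2 = 1) :
    IsConj x y ↔ rk1 x = rk1 y ∧ (AltO x ↔ AltO y) :=
  (isIsom_OG Q).isConj_iff_two (wittData_quad Q hQ) hx hy

theorem ND.exists_nonalt_iff (hQ : ND Q) {m : ℕ} (hm : finrank F V = 2 * m) (s : ℕ) :
    1 ≤ s ∧ s ≤ m ↔ ∃ x : OG Q, orderOf x = 2 ∧ rk1 x = s ∧ ¬ AltO x := by
  constructor
  · intro hs
    obtain ⟨b, h1, h2, h3⟩ := hQ.exists_unit_family (s := s) (by omega)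
    obtain ⟨x, h3, h4, h5⟩ := (isIsom_OG Q).exists_nonalt (wittData_quad Q hQ) hs.1 h1 h2 h3
    exact ⟨x, orderOf_eq_two_iff_rk1.2 ⟨h3, by omega⟩, h4, h5⟩
  · rintro ⟨x, h1, rfl, -⟩
    obtain ⟨h2, h3⟩ := orderOf_eq_two_iff_rk1.1 h1
    exact ⟨h3, by have := hQ.two_mul_rk1_le h2; omega⟩

omit [Finite F] in
theorem ND.exists_altO (hQ : ND Q) {U : Submodule F V} (hU : ∀ u ∈ U, Q u = 0)
    (he : Even (finrank F U)) (h1 : 1 ≤ finrank F U) :
    ∃ x : OG Q, orderOf x = 2 ∧ LinearMap.range (sub1 x) = U ∧ AltO x := by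
  obtain ⟨x, h3, h4, h5⟩ := (isIsom_OG Q).exists_alt (wittData_quad Q hQ)
    (fun u hu v hv => mem_perp.1 (le_perp_of_singular hU hv) u hu) hU he
  exact ⟨x, orderOf_eq_two_iff_rk1.2 ⟨h3, by rwa [rk1, h4]⟩, h4, h5⟩

omit [Finite F] in
theorem ND.exists_alt_iff_plus (hQ : ND Q) (hP : IsPlus Q) {m : ℕ} (hm : finrank F V = 2 * m)
    (s : ℕ) : Even s ∧ 1 ≤ s ∧ s ≤ m ↔ ∃ x : OG Q, orderOf x = 2 ∧ rk1 x = s ∧ AltO x := by
  constructor
  · intro hs
    obtain ⟨U, rfl, h2⟩ := hP.exists_singular_sub (s := s) (by omega)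
    obtain ⟨x, h3, h4, h5⟩ := hQ.exists_altO h2 hs.1 hs.2.1
    exact ⟨x, h3, by rw [rk1, h4], h5⟩
  · rintro ⟨x, h1, rfl, h4⟩
    obtain ⟨h2, h3⟩ := orderOf_eq_two_iff_rk1.1 h1
    exact ⟨hQ.even_of_altO h2 h4, h3, by have := hQ.two_mul_rk1_le h2; omega⟩

omit [Finite F] [CharP F 2] [FiniteDimensional F V] in
theorem not_max_of_not_isPlus (hP : ¬ IsPlus Q) (x : OG Q) :
    ¬ (AltO x ∧ 2 * rk1 x = finrank F V) := fun h => hP ⟨_, h.2, altO_iff.1 h.1⟩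

theorem ND.exists_alt_iff_minus (hQ : ND Q) (hP : ¬ IsPlus Q) {m : ℕ} (hm : finrank F V = 2 * m)
    (s : ℕ) : Even s ∧ 1 ≤ s ∧ s ≤ m - 1 ↔ ∃ x : OG Q, orderOf x = 2 ∧ rk1 x = s ∧ AltO x := by
  constructor
  · intro hs
    obtain ⟨U, rfl, h2⟩ := hQ.exists_singular_sub' (s := s) (by omega)
    obtain ⟨x, h3, h4, h5⟩ := hQ.exists_altO h2 hs.1 hs.2.1
    exact ⟨x, h3, by rw [rk1, h4], h5⟩
  · rintro ⟨x, h1, rfl, h4⟩
    obtain ⟨h2, h3⟩ := orderOf_eq_two_iff_rk1.1 h1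
    have := hQ.two_mul_rk1_le h2
    have := not_and.1 (not_max_of_not_isPlus hP x) h4
    exact ⟨hQ.even_of_altO h2 h4, h3, by omega⟩

omit [Finite F] [CharP F 2] [FiniteDimensional F V] in
theorem finite_Icc_one (m : ℕ) : Finite {s : ℕ // 1 ≤ s ∧ s ≤ m} := (Set.finite_Icc 1 m).to_subtype

omit [Finite F] [CharP F 2] [FiniteDimensional F V] in
theorem finite_even_Icc (m : ℕ) : Finite {s : ℕ // Even s ∧ 1 ≤ s ∧ s ≤ m} :=
  ((Set.finite_Icc 1 m).subset fun _ h => h.2).to_subtype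

theorem ND.card_classes_plus (hQ : ND Q) (hP : IsPlus Q) {m : ℕ} (hm : finrank F V = 2 * m) :
    Nat.card {c : ConjClasses (OG Q) // ∃ g, ConjClasses.mk g = c ∧ orderOf g = 2} =
      m + m / 2 := by
  have := finite_Icc_one m
  have := finite_even_Icc m
  rw [(isIsom_OG Q).card_classes_two (wittData_quad Q hQ) _ _ (hQ.exists_nonalt_iff hm)
    (hQ.exists_alt_iff_plus hP hm), card_Icc_one, card_even_Icc]

theorem ND.card_classes_minus (hQ : ND Q) (hP : ¬ IsPlus Q) {m : ℕ} (hm : finrank F V = 2 * m) :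
    Nat.card {c : ConjClasses (OG Q) // ∃ g, ConjClasses.mk g = c ∧ orderOf g = 2} =
      m + (m - 1) / 2 := by
  have := finite_Icc_one m
  have := finite_even_Icc (m - 1)
  rw [(isIsom_OG Q).card_classes_two (wittData_quad Q hQ) _ _ (hQ.exists_nonalt_iff hm)
    (hQ.exists_alt_iff_minus hP hm), card_Icc_one, card_even_Icc]

theorem ND.mem_Om_iff_two (hQ : ND Q) (hG : Good Q) {g : OG Q} : g ∈ Om Q ↔ Even (rk1 g) :=
  hQ.mem_commutator_iff_two hG CharTwo.two_eq_zero g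

theorem ND.refl_notMem_Om (hQ : ND Q) (hG : Good Q) {w : V} (hw : Q w ≠ 0) : refl Q w ∉ Om Q := by
  rw [hQ.mem_Om_iff_two hG, rk1_eq_rk, hQ.rk_refl hw]; decide

theorem ND.exists_Om_conj (hQ : ND Q) (hG : Good Q) {x y : OG Q} (hx : x ^ 2 = 1)
    (h : ¬ (AltO x ∧ 2 * rk1 x = finrank F V)) (hxy : IsConj x y) :
    ∃ g ∈ Om Q, g * x * g⁻¹ = y := by
  obtain ⟨g, rfl⟩ := isConj_iff.1 hxy
  obtain ⟨w, h1, h2⟩ := hQ.exists_refl_fix hx h
  by_cases hg : g ∈ Om Q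
  · exact ⟨g, hg, rfl⟩
  refine ⟨g * refl Q w, ?_, ?_⟩
  · rw [Om, hQ.commutator_eq_two hG CharTwo.two_eq_zero, MonoidHom.mem_ker] at hg ⊢
    rw [map_mul, dickson_refl hQ hG h1, (Int.units_eq_one_or _).resolve_left hg]; rfl
  · rw [Subgroup.mem_centralizer_singleton_iff] at h2
    rw [mul_assoc g, h2]; group

theorem ND.mem_Om_iff_of_max (hQ : ND Q) (hG : Good Q) {x y g : OG Q} (hx : x ^ 2 = 1)
    (ha : AltO x) (hm : 2 * rk1 x = finrank F V) (h : g * x * g⁻¹ = y) : g ∈ Om Q ↔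
      Even (finrank F ↥(LinearMap.range (sub1 x) ⊓ LinearMap.range (sub1 y))) := by
  rw [Om, hQ.commutator_eq_two hG CharTwo.two_eq_zero, MonoidHom.mem_ker,
    ← hQ.even_inf_map_iff hG hm.symm rfl (altO_iff.1 ha), map_range_sub1 h, Nat.even_add]
  simp [hQ.even_of_altO hx ha]

theorem ND.exists_Om_conj_iff_of_max (hQ : ND Q) (hG : Good Q) {x y : OG Q} (hx : x ^ 2 = 1)
    (ha : AltO x) (hm : 2 * rk1 x = finrank F V) (hxy : IsConj x y) :
    (∃ g ∈ Om Q, g * x * g⁻¹ = y) ↔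
      Even (finrank F ↥(LinearMap.range (sub1 x) ⊓ LinearMap.range (sub1 y))) := by
  refine ⟨fun ⟨g, h1, h2⟩ => (hQ.mem_Om_iff_of_max hG hx ha hm h2).1 h1, fun h => ?_⟩
  obtain ⟨g, hg⟩ := isConj_iff.1 hxy
  exact ⟨g, (hQ.mem_Om_iff_of_max hG hx ha hm hg).2 h, hg⟩

theorem ND.card_Om_classes_minus (hQ : ND Q) (hG : Good Q) (hP : ¬ IsPlus Q) {m : ℕ}
    (hm : finrank F V = 2 * m) :
    Nat.card {c : ConjClasses (Om Q) // ∃ g, ConjClasses.mk g = c ∧ orderOf g = 2} =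
      m / 2 + (m - 1) / 2 := by
  have := finite_even_Icc m
  have := finite_even_Icc (m - 1)
  rw [← card_even_Icc, ← card_even_Icc, ← Nat.card_sum]
  refine (H28.card_conjClasses_eq' (fun g : Om Q => inv2 (polarBilin Q) g.1) _
    (Sum.elim (fun s => Even s ∧ 1 ≤ s ∧ s ≤ m) (fun s => Even s ∧ 1 ≤ s ∧ s ≤ m - 1))
    (fun g h hg hh => ?_) (fun g hg => ?_) ?_).trans (Nat.card_congr Equiv.subtypeSum)
  · rw [← Subgroup.orderOf_coe] at hg hh
    have h1 := (orderOf_eq_two_iff_rk1.1 hg).1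
    rw [inv2_eq_iff, ← hQ.isConj_iff_two h1 (orderOf_eq_two_iff_rk1.1 hh).1]
    exact ⟨(Om Q).subtype.map_isConj, fun H => isConj_subgroup_iff.2
      (hQ.exists_Om_conj hG h1 (not_max_of_not_isPlus hP _) H)⟩
  · rw [← Subgroup.orderOf_coe] at hg
    unfold inv2
    split_ifs with h
    · exact (hQ.exists_alt_iff_minus hP hm _).2 ⟨g, hg, rfl, h⟩
    · exact ⟨(hQ.mem_Om_iff_two hG).1 g.2, (hQ.exists_nonalt_iff hm _).2 ⟨g, hg, rfl, h⟩⟩
  · rintro (s | s) hs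
    · obtain ⟨x, h3, rfl, h4⟩ := (hQ.exists_nonalt_iff hm s).1 hs.2
      exact ⟨⟨x, (hQ.mem_Om_iff_two hG).2 hs.1⟩, (Subgroup.orderOf_mk _ _).trans h3, if_neg h4⟩
    · obtain ⟨x, h3, rfl, h4⟩ := (hQ.exists_alt_iff_minus hP hm s).1 hs
      exact ⟨⟨x, (hQ.mem_Om_iff_two hG).2 hs.1⟩, (Subgroup.orderOf_mk _ _).trans h3, if_pos h4⟩

theorem ND.card_Om_classes_plus (hQ : ND Q) (hG : Good Q) (hP : IsPlus Q) {m : ℕ} (h1 : 1 ≤ m)
    (hm : finrank F V = 2 * m) :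
    Nat.card {c : ConjClasses (Om Q) // ∃ g, ConjClasses.mk g = c ∧ orderOf g = 2} =
      2 * (m / 2) + if Even m then 1 else 0 := by
  classical
  have := finite_even_Icc m
  obtain ⟨U, hU, hU0⟩ := hP.exists_singular_sub (s := m) hm.ge
  let par : OG Q → Prop := fun x =>
    AltO x ∧ rk1 x = m ∧ Odd (finrank F ↥(U ⊓ LinearMap.range (sub1 x)))
  let φ : OG Q → (ℕ ⊕ ℕ) ⊕ Unit := fun x => if par x then .inr () else .inl (inv2 (polarBilin Q) x)
  have hφ : ∀ x y, φ x = φ y ↔ inv2 (polarBilin Q) x = inv2 (polarBilin Q) y ∧ (par x ↔ par y) :=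
    fun x y => by
      simp only [φ]
      split_ifs with h2 h3 h3
      · simp [inv2_eq_iff, h2, h3, h2.1, h3.1, h2.2.1, h3.2.1]
      all_goals simp [h2, h3]
  have hpar : ∀ {x y : OG Q}, x ^ 2 = 1 → AltO x → rk1 x = m → AltO y → rk1 y = m →
      (Even (finrank F ↥(LinearMap.range (sub1 x) ⊓ LinearMap.range (sub1 y))) ↔
        (par x ↔ par y)) := fun {x y} hx h2 h3 h4 h5 => by
    have h6 := hQ.even_parity hm hU hU0 h3 (altO_iff.1 h2) h5 (altO_iff.1 h4)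
    have h7 := h3 ▸ hQ.even_of_altO hx h2
    simp only [par, h2, h3, h4, h5, true_and, Nat.odd_iff, Nat.even_iff] at h6 h7 ⊢
    omega
  have hc : Nat.card {_u : Unit // Even m} = if Even m then 1 else 0 := by
    split_ifs with h <;> simp [h]
  rw [two_mul, ← card_even_Icc, ← Nat.card_sum, ← hc, ← Nat.card_sum]
  refine (H28.card_conjClasses_eq' (fun g : Om Q => φ g.1) _
    (Sum.elim (Sum.elim (fun s => Even s ∧ 1 ≤ s ∧ s ≤ m) (fun s => Even s ∧ 1 ≤ s ∧ s ≤ m))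
      fun _ => Even m)
    (fun g h hg hh => ?_) (fun g hg => ?_) ?_).trans (Nat.card_congr (Equiv.subtypeSum.trans
      (Equiv.subtypeSum.sumCongr (Equiv.refl _))))
  · rw [← Subgroup.orderOf_coe] at hg hh
    have h2 := (orderOf_eq_two_iff_rk1.1 hg).1
    have h3 := hQ.isConj_iff_two h2 (orderOf_eq_two_iff_rk1.1 hh).1
    rw [hφ, inv2_eq_iff, ← h3]
    by_cases h4 : AltO g.1 ∧ rk1 g.1 = m
    · refine ⟨fun H => ⟨(Om Q).subtype.map_isConj H, ?_⟩, fun H => ?_⟩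
      · have h5 := h3.1 ((Om Q).subtype.map_isConj H)
        rw [← hpar h2 h4.1 h4.2 (h5.2.1 h4.1) (h5.1 ▸ h4.2), ← hQ.exists_Om_conj_iff_of_max (y := h.1) hG h2
          h4.1 (by omega) ((Om Q).subtype.map_isConj H)]
        exact isConj_subgroup_iff.1 H
      · have h5 := h3.1 H.1
        rw [isConj_subgroup_iff, hQ.exists_Om_conj_iff_of_max hG h2 h4.1 (by omega) H.1,
          hpar h2 h4.1 h4.2 (h5.2.1 h4.1) (h5.1 ▸ h4.2)]
        exact H.2
    · refine ⟨fun H => ⟨(Om Q).subtype.map_isConj H, ?_⟩, fun H => isConj_subgroup_iff.2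
        (hQ.exists_Om_conj hG h2 (fun h => h4 ⟨h.1, by omega⟩) H.1)⟩
      have h5 := h3.1 ((Om Q).subtype.map_isConj H)
      exact iff_of_false (fun h => h4 ⟨h.1, h.2.1⟩) fun h => h4 ⟨h5.2.2 h.1, h5.1.trans h.2.1⟩
  · rw [← Subgroup.orderOf_coe] at hg
    simp only [φ, inv2]
    split_ifs with h h'
    · exact h.2.1 ▸ (hQ.mem_Om_iff_two hG).1 g.2
    · exact (hQ.exists_alt_iff_plus hP hm _).2 ⟨g, hg, rfl, h'⟩
    · exact ⟨(hQ.mem_Om_iff_two hG).1 g.2, (hQ.exists_nonalt_iff hm _).2 ⟨g, hg, rfl, h'⟩⟩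
  · rintro ((s | s) | s) hs
    · obtain ⟨x, h3, rfl, h4⟩ := (hQ.exists_nonalt_iff hm s).1 hs.2
      exact ⟨⟨x, (hQ.mem_Om_iff_two hG).2 hs.1⟩, (Subgroup.orderOf_mk _ _).trans h3,
        (if_neg fun h => h4 h.1).trans (congrArg _ (if_neg h4))⟩
    · obtain ⟨W, h2, h3, h4⟩ : ∃ W : Submodule F V, finrank F W = s ∧ (∀ u ∈ W, Q u = 0) ∧
          (s = m → W = U) := by
        by_cases h : s = m
        · exact ⟨U, h ▸ hU, hU0, fun _ => rfl⟩
        · obtain ⟨W, h2, h3⟩ := hP.exists_singular_sub (s := s) (by have := hs.2.2; omega)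
          exact ⟨W, h2, h3, fun h' => absurd h' h⟩
      obtain ⟨x, h5, h6, h7⟩ := hQ.exists_altO h3 (h2 ▸ hs.1) (h2 ▸ hs.2.1)
      have h8 : rk1 x = s := by rw [rk1, h6, h2]
      refine ⟨⟨x, (hQ.mem_Om_iff_two hG).2 (h8 ▸ hs.1)⟩, (Subgroup.orderOf_mk _ _).trans h5,
        (if_neg fun h => ?_).trans (congrArg _ ((if_pos h7).trans (congrArg _ h8)))⟩
      have h9 : Odd (finrank F ↥(U ⊓ LinearMap.range (sub1 x))) := h.2.2
      have h10 : s = m := h8.symm.trans h.2.1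
      rw [h6, h4 h10, inf_idem, hU, ← h10] at h9
      exact Nat.not_odd_iff_even.2 hs.1 h9
    · have : Nontrivial V := Module.nontrivial_of_finrank_pos (R := F) (by omega)
      obtain ⟨w, hw⟩ := hQ.exists_ne_zero
      have h2 := hQ.finrank_inf_map_refl hm hU hU0 hw
      have h3 : finrank F (U.map ((refl Q w).1 : V →ₗ[F] V)) = m := by
        rw [LinearEquiv.finrank_map_eq, hU]
      obtain ⟨x, h5, h6, h7⟩ := hQ.exists_altO (singular_map hU0 (refl Q w)) (h3 ▸ hs) (h3 ▸ h1)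
      have h8 : rk1 x = m := by rw [rk1, h6, h3]
      refine ⟨⟨x, (hQ.mem_Om_iff_two hG).2 (h8 ▸ hs)⟩, (Subgroup.orderOf_mk _ _).trans h5,
        if_pos ⟨h7, h8, ?_⟩⟩
      have h9 : Even m := hs
      rw [h6, Nat.odd_iff]
      rw [Nat.even_iff] at h9
      omega

theorem ND.two_mul_card_Om_inf (hQ : ND Q) (hG : Good Q) {x : OG Q} (hx : x ^ 2 = 1)
    (h : ¬ (AltO x ∧ 2 * rk1 x = finrank F V)) :
    2 * Nat.card (Om Q ⊓ Subgroup.centralizer {x} : Subgroup _) =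
      Nat.card (Subgroup.centralizer {x}) := by
  obtain ⟨w, h1, h2⟩ := hQ.exists_refl_fix hx h
  have : Nontrivial V := ⟨w, 0, by rintro rfl; simp at h1⟩
  exact two_mul_card_inf_of_index_two
    (hQ.index_commutator_even hG CharTwo.two_eq_zero finrank_pos) h2 (hQ.refl_notMem_Om hG h1)

theorem ND.centralizer_le_Om (hQ : ND Q) (hG : Good Q) {x : OG Q} (hx : x ^ 2 = 1) (ha : AltO x)
    (hm : 2 * rk1 x = finrank F V) : Subgroup.centralizer {x} ≤ Om Q := fun g hg => by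
  rw [hQ.mem_Om_iff_of_max hG hx ha hm (y := x)
    (mul_inv_eq_iff_eq_mul.2 (Subgroup.mem_centralizer_singleton_iff.1 hg)), inf_idem]
  exact hQ.even_of_altO hx ha

theorem ND.card_fixW_nonalt (hQ : ND Q) {x : OG Q} (hx : x ^ 2 = 1) (ha : ¬ AltO x) {k r : ℕ}
    (hk : rk1 x = k + 1) (hn : finrank F V = 2 * (k + 1) + 2 * r) :
    Nat.card (fixW (OG Q) (LinearMap.range (sub1 x))) =
      Nat.card F ^ (k * (2 * r) + (k + 1) * k / 2) * (2 * H12.spOrd (Nat.card F) r) :=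
  card_fixW_nonsingular r k hQ hn _ hk (qe_O hx).ti (by
    rw [altO_iff] at ha
    push Not at ha
    exact ha)

theorem ND.card_Om_odd (hQ : ND Q) (hG : Good Q) {x : OG Q} (hx : x ^ 2 = 1) {k r : ℕ}
    (hk : rk1 x = 2 * k + 1) (hn : finrank F V = 2 * (2 * k + 1) + 2 * r) :
    Nat.card (Om Q ⊓ Subgroup.centralizer {x} : Subgroup _) =
      Nat.card F ^ (2 * k * (2 * r) + (2 * k + 1) * k) * H12.spOrd (Nat.card F) k *
        H12.spOrd (Nat.card F) r := by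
  have ha : ¬ AltO x := fun h => Nat.not_even_iff_odd.2 ⟨k, hk⟩ (hQ.even_of_altO hx h)
  have := hQ.two_mul_card_Om_inf hG hx fun h => ha h.1
  rw [(isIsom_OG Q).card_centralizer_odd (wittData_quad Q hQ) hx hk, hQ.card_fixW_nonalt hx ha hk hn,
    show (2 * k + 1) * (2 * k) / 2 = (2 * k + 1) * k by
      rw [mul_left_comm, Nat.mul_div_cancel_left _ two_pos]] at this
  exact Nat.eq_of_mul_eq_mul_left two_pos (this.trans (by ring))

theorem ND.card_Om_nonalt (hQ : ND Q) (hG : Good Q) {x : OG Q} (hx : x ^ 2 = 1) (ha : ¬ AltO x)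
    {k r : ℕ} (hk : rk1 x = 2 * k + 2) (hn : finrank F V = 2 * (2 * k + 2) + 2 * r) :
    Nat.card (Om Q ⊓ Subgroup.centralizer {x} : Subgroup _) =
      Nat.card F ^ ((2 * k + 1) * (2 * r) + (k + 2) * (2 * k + 1)) * H12.spOrd (Nat.card F) k *
        H12.spOrd (Nat.card F) r := by
  have := hQ.two_mul_card_Om_inf hG hx fun h => ha h.1
  rw [(isIsom_OG Q).card_centralizer_nonalt (wittData_quad Q hQ) hx ha hk,
    hQ.card_fixW_nonalt hx ha hk hn,
    show (2 * k + 1 + 1) * (2 * k + 1) / 2 = (k + 1) * (2 * k + 1) by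
      rw [show (2 * k + 1 + 1) * (2 * k + 1) = 2 * ((k + 1) * (2 * k + 1)) by ring,
        Nat.mul_div_cancel_left _ two_pos]] at this
  exact Nat.eq_of_mul_eq_mul_left two_pos (this.trans (by ring))

theorem ND.card_Om_alt (hQ : ND Q) (hG : Good Q) (hP : IsPlus Q) {x : OG Q} (hx : x ^ 2 = 1)
    (ha : AltO x) {k r : ℕ} (hk : rk1 x = 2 * k) (hn : finrank F V = 2 * (2 * k) + 2 * r) :
    Nat.card (Om Q ⊓ Subgroup.centralizer {x} : Subgroup _) =
      Nat.card F ^ (2 * k * (2 * r) + 2 * k * (2 * k - 1) / 2) * H12.spOrd (Nat.card F) k *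
        (if r = 0 then 1 else Nat.card F ^ (r * (r - 1)) * (Nat.card F ^ r - 1) *
          ∏ i ∈ Finset.range (r - 1), (Nat.card F ^ (2 * (i + 1)) - 1)) := by
  have h1 := (isIsom_OG Q).card_centralizer_alt (wittData_quad Q hQ) hx ha hk
  rw [hQ.card_fixW_plus hP (altO_iff.1 ha) hk hn] at h1
  split_ifs at h1 ⊢ with h
  · rw [inf_eq_right.2 (hQ.centralizer_le_Om hG hx ha (by omega)), h1]; ring
  · have := hQ.two_mul_card_Om_inf hG hx fun h' => h (by omega)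
    exact Nat.eq_of_mul_eq_mul_left two_pos (this.trans (h1.trans (by ring)))

section Mat

omit [Finite F] [CharP F 2]

open Matrix

variable {ι : Type} [Fintype ι] [DecidableEq ι] {Q : QuadraticForm F (ι → F)}

theorem sub1_toOG (g : isometryGroup F ⇑Q) : sub1 (toOG Q g) = Matrix.toLin' (mat g - 1) :=
  LinearMap.ext fun v => by simp [sub1_apply, toOG_apply, Matrix.sub_mulVec]

theorem rk1_toOG (g : isometryGroup F ⇑Q) : rk1 (toOG Q g) = (mat g - 1).rank := rk_toOG g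

theorem sq_toOG {g : isometryGroup F ⇑Q} (h : g ^ 2 = 1) : toOG Q g ^ 2 = 1 := by
  rw [← map_pow, h, map_one]

theorem altO_toOG (g : isometryGroup F ⇑Q) : AltO (toOG Q g) ↔ ∀ v, Q ((mat g - 1) *ᵥ v) = 0 := by
  rw [altO_iff', sub1_toOG]; rfl

theorem altO_toOG' [CharP F 2] (g : isometryGroup F ⇑Q) :
    AltO (toOG Q g) ↔ ∀ v, Q (v + mat g *ᵥ v) = 0 := by
  rw [altO_toOG]
  refine forall_congr' fun v => ?_
  rw [Matrix.sub_mulVec, Matrix.one_mulVec, show mat g *ᵥ v - v = v + mat g *ᵥ v from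
    funext fun i => by simp [CharTwo.sub_eq_add, add_comm]]

theorem exists_Omega_conj_iff {x y : isometryGroup F ⇑Q} : (∃ g ∈ Omega F ⇑Q, g * x * g⁻¹ = y) ↔
    ∃ g ∈ Om Q, g * toOG Q x * g⁻¹ = toOG Q y := by
  constructor
  · rintro ⟨g, h1, rfl⟩
    exact ⟨_, (mem_Omega_iff g).1 h1, by simp⟩
  · rintro ⟨g, h1, h2⟩
    obtain ⟨g, rfl⟩ := (toOG Q).surjective g
    exact ⟨g, (mem_Omega_iff g).2 h1, (toOG Q).injective (by simpa using h2)⟩

theorem card_Omega_comm (x : isometryGroup F ⇑Q) :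
    Nat.card {g : Omega F ⇑Q // (g : isometryGroup F ⇑Q) * x = x * g} =
      Nat.card (Om Q ⊓ Subgroup.centralizer {toOG Q x} : Subgroup _) :=
  Nat.card_congr ((Equiv.subtypeSubtypeEquivSubtypeInter _
    (fun g : isometryGroup F ⇑Q => g * x = x * g)).trans ((toOG Q).toEquiv.subtypeEquiv fun g => by
      simp only [Subgroup.mem_inf, Subgroup.mem_centralizer_singleton_iff, MulEquiv.toEquiv_eq_coe,
        EquivLike.coe_coe, ← map_mul, EmbeddingLike.apply_eq_iff_eq, mem_Omega_iff]))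

theorem ND.isConj_iff_polar [CharP F 2] (hQ : ND Q) {t s : isometryGroup F ⇑Q} (ht : orderOf t = 2)
    (hs : orderOf s = 2) : IsConj t s ↔ ∃ g ∈ preserving (Units.coeHom (Matrix ι ι F))
      (fun u v => Q (u + v) - Q u - Q v), g * (t : GL ι F) * g⁻¹ = (s : GL ι F) := by
  constructor
  · intro h
    obtain ⟨g, rfl⟩ := isConj_iff.1 h
    exact ⟨g, fun u v => OG_polar (toOG Q g) u v, rfl⟩
  · rintro ⟨g, h1, h2⟩
    rw [← isConj_equiv_iff (toOG Q)]
    refine hQ.isConj_of_polar (sq_toOG (ht ▸ pow_orderOf_eq_one t))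
      (sq_toOG (hs ▸ pow_orderOf_eq_one s)) (glEquiv ι F g) h1 fun v => ?_
    rw [mul_inv_eq_iff_eq_mul] at h2
    rw [toOG_apply, toOG_apply, glEquiv_apply, glEquiv_apply, mulVec_mulVec, mulVec_mulVec]
    exact congrArg (fun k : GL ι F => (k : Matrix ι ι F) *ᵥ v) h2

theorem ND.mem_Omega_iff_two [CharP F 2] [Finite F] (hQ : ND Q) (hG : Good Q)
    (g : isometryGroup F ⇑Q) : g ∈ Omega F ⇑Q ↔ Even (mat g - 1).rank := by
  rw [mem_Omega_iff, ← rk1_toOG]; exact hQ.mem_Om_iff_two hG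

end Mat

end Cfsg.Agent.H13
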