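import Cfsg.Agent.H13.EO7
import Cfsg.Agent.H13.Inv2O

/-!
Subspaces fixed by involutions of orthogonal groups in characteristic two.
-/

set_option autoImplicit false

namespace Cfsg.Agent.H13

open Module H28 QuadraticMap
open scoped Pointwise

universe u

variable {F : Type u} {V : Type*} [Field F] [AddCommGroup V] [Module F V] {Q : QuadraticForm F V}
  {U : Submodule F V} [FiniteDimensional F V]

theorem ND.exists_sum (hQ : ND Q) (hU : ND (Q.restrict U)) (x : OG (Q.restrict U))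
    (y : OG (Q.restrict (perp Q U))) : ∃ (g : OG Q) (h : Fx g U), resOG U g h.mem_iff = x ∧
      resOG _ g h.perp.mem_iff = y := by
  have h1 := hQ.isCompl hU
  have h3 := hQ.isCompl (hQ.nd_perp hU)
  have h4 : ∀ u : U, (extOG h1 x * extOG h3 y).1 u = x.1 u := fun u => by
    rw [OG_mul_apply, extOG_apply_perp h3 y (le_perp_perp U u.2), extOG_apply_mem]
  exact ⟨extOG h1 x * extOG h3 y, fun u hu => (h4 ⟨u, hu⟩).symm ▸ (x.1 _).2,
    OG_ext fun u => Subtype.ext (h4 u), OG_ext fun u => Subtype.ext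
      ((congrArg _ (extOG_apply_mem h3 y u)).trans (extOG_apply_perp h1 x (y.1 u).2))⟩

theorem ND.altO_split (hQ : ND Q) (hU : ND (Q.restrict U)) {g : OG Q} (h : Fx g U) :
    AltO g ↔ AltO (resOG U g h.mem_iff) ∧ AltO (resOG _ g h.perp.mem_iff) := by
  simp only [altO_iff']
  refine ⟨fun H => ⟨fun v => H v, fun v => H v⟩, fun H v => ?_⟩
  obtain ⟨w, z, rfl⟩ := exists_add_of_isCompl (hQ.isCompl hU) v
  rw [map_add, Q_add, show Q (sub1 g w) = 0 from H.1 w, show Q (sub1 g z) = 0 from H.2 z, add_zero,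
    zero_add]
  exact mem_perp.1 (sub1 (resOG _ g h.perp.mem_iff) z).2 _ (sub1 (resOG _ g h.mem_iff) w).2

theorem rk1_add_card {g : OG Q} (h : Unp g) : rk1 g + (jo g).card = finrank F V := by
  rw [← finrank_ker_sub_one h]; exact LinearMap.finrank_range_add_finrank_ker _

theorem ND.perp_range_sub1 (hQ : ND Q) (g : OG Q) : perp Q (LinearMap.range (sub1 g)) = fixS g :=
  (congrArg _ (hQ.perp_fixS g).symm).trans (hQ.perp_perp _)

variable [CharP F 2]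

theorem ND.rk1_split (hQ : ND Q) (hU : ND (Q.restrict U)) {g : OG Q} (hg : g ^ 2 = 1) (h : Fx g U) :
    rk1 g = rk1 (resOG U g h.mem_iff) + rk1 (resOG _ g h.perp.mem_iff) := by
  have h1 : Unp g := ⟨2, (pow_char_eq_one_iff _).1 (og_pow hg)⟩
  obtain ⟨h3, h4, h5⟩ := hQ.jo_split h1 hU h
  have h6 := rk1_add_card h1
  have := rk1_add_card h3
  have := rk1_add_card h4
  have := hQ.finrank_perp U
  rw [h5, Multiset.card_add] at h6
  omega

variable [Fintype F]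

theorem NS.exists_alt_iff {m : ℕ} {δ : ℤˣ} (h : NS Q U m δ) (s : ℕ) :
    (∃ x : OG (Q.restrict U), x ^ 2 = 1 ∧ rk1 x = s ∧ AltO x) ↔
      s % 2 = 0 ∧ 2 * s ≤ m ∧ (2 * s = m → δ = 1) := by
  rw [← h.rk, ← h.tp, ← h.nd.ns_top.exists_ts_iff, ← Nat.even_iff]
  refine ⟨?_, fun ⟨h1, T, _, h3, h4⟩ => ?_⟩
  · rintro ⟨x, h1, rfl, h3⟩
    exact ⟨h.nd.even_of_altO h1 h3, _, le_top, rfl, altO_iff.1 h3⟩
  rcases Nat.eq_zero_or_pos s with rfl | h5
  · exact ⟨1, one_pow _, rk1_eq_zero_iff.2 rfl, altO_iff'.2 (by simp [sub1_apply])⟩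
  · obtain ⟨x, h6, h7, h8⟩ := h.nd.exists_altO h4 (h3 ▸ h1) (h3 ▸ h5)
    exact ⟨x, h6 ▸ pow_orderOf_eq_one x, by rw [rk1, h7, h3], h8⟩

theorem ND.allO_char_two (hQ : ND Q) (hG : Good Q) {P : Submodule F V → Prop} :
    AllO Q 2 P ↔ ∀ g : OG Q, g ^ 2 = 1 → rk1 g % 2 = 0 → 0 < rk1 g → ∃ U, P U ∧ Fx g U := by
  simp only [AllO, negOne_eq_one (Q := Q) CharTwo.two_eq_zero, or_self, hQ.mem_Om_iff_two hG, Nat.even_iff,
    Nat.pos_iff_ne_zero, Ne, rk1_eq_zero_iff]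
  exact forall_congr' fun g => ⟨fun h h1 h3 h4 => h h3 h1 h4 h4, fun h h1 h3 h4 _ => h h3 h1 h4⟩

theorem ND.qe_char_two (hQ : ND Q) (hG : Good Q) {d m x y : ℕ} {δ : ℤˣ} (hn : finrank F V = 2 * d)
    (hy : ty Q = (-1) ^ y) (hx : δ = (-1) ^ x) (hm : Even m) (h0 : 0 < m) (h1 : m < 2 * d) :
    AllO Q 2 (NS Q · m δ) ↔
      (d - y % 2) / 2 ≤ (m / 2 - x % 2) / 2 + (d - m / 2 - (x + y) % 2) / 2 := by
  have key : ∀ {U}, NS Q U m δ → NS Q (perp Q U) (2 * d - m) ((-1) ^ (x + y)) := fun h => by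
    have := h.orth hQ
    rwa [kap_of_even (.inl hm), one_mul, hn, hx, hy, ← pow_add] at this
  have h3 : ∀ x : OG Q, x ^ 2 = 1 → AltO x → 2 * rk1 x ≤ 2 * d ∧ (2 * rk1 x = 2 * d → y % 2 = 0) :=
    fun x h3 h4 => by
      rw [← neg_one_pow_eq_one, ← hy, ← hn, ← hQ.ns_top.exists_ts_iff]
      exact ⟨_, le_top, rfl, altO_iff.1 h4⟩
  rw [hQ.allO_char_two hG]
  have hm' := Nat.even_iff.1 hm
  refine ⟨fun H => le_of_not_gt fun h => ?_, fun H g h4 h5 h6 => ?_⟩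
  · obtain ⟨T, -, h4, h5⟩ := (hQ.ns_top.exists_ts_iff (2 * ((d - y % 2) / 2))).2
      (by rw [hy, neg_one_pow_eq_one]; omega)
    obtain ⟨g, h6, h7, h8⟩ := hQ.exists_altO h5 (h4 ▸ even_two_mul _) (by omega)
    have h9 : rk1 g = _ := h7 ▸ h4
    have h10 : g ^ 2 = 1 := h6 ▸ pow_orderOf_eq_one g
    obtain ⟨U, h11, h12⟩ := H g h10 (by omega) (by omega)
    have h13 := hQ.rk1_split h11.nd h10 h12
    have h14 := (hQ.altO_split h11.nd h12).1 h8
    have h15 := (h11.exists_alt_iff _).1 ⟨resOG _ g h12.mem_iff, OG_ext fun v => Subtype.ext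
      (LinearEquiv.congr_fun (congrArg Subtype.val h10) v), rfl, h14.1⟩
    have h16 := ((key h11).exists_alt_iff _).1 ⟨resOG _ g h12.perp.mem_iff, OG_ext fun v => Subtype.ext
      (LinearEquiv.congr_fun (congrArg Subtype.val h10) v), rfl, h14.2⟩
    rw [hx, neg_one_pow_eq_one] at h15
    rw [neg_one_pow_eq_one] at h16
    omega
  obtain ⟨U, -, hU⟩ := hQ.ns_top.exists_le (δ := δ) (.inl hm) ⟨by omega, by omega, by omega⟩
  obtain ⟨a, b, h7, h8, h9, h10⟩ : ∃ (a : OG (Q.restrict U)) (b : OG (Q.restrict (perp Q U))), a ^ 2 = 1 ∧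
      b ^ 2 = 1 ∧ rk1 a + rk1 b = rk1 g ∧ (AltO a ∧ AltO b ↔ AltO g) := by
    by_cases h : AltO g
    · have := h3 g h4 h
      obtain ⟨a, h7, h8, h9⟩ := (hU.exists_alt_iff (min (rk1 g) (2 * ((m / 2 - x % 2) / 2)))).2
        (by rw [hx, neg_one_pow_eq_one]; omega)
      obtain ⟨b, h10, h11, h12⟩ := ((key hU).exists_alt_iff (rk1 g - rk1 a)).2
        (by rw [neg_one_pow_eq_one]; omega)
      exact ⟨a, b, h7, h10, by omega, iff_of_true ⟨h9, h12⟩ h⟩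
    · have := hQ.two_mul_rk1_le h4
      obtain ⟨a, h7, h8, h9⟩ := (hU.nd.exists_nonalt_iff (m := m / 2) (by rw [hU.rk]; omega)
        (min (rk1 g - 1) (m / 2))).1 (by omega)
      obtain ⟨b, h10, h11, -⟩ := ((key hU).nd.exists_nonalt_iff (m := d - m / 2) (by rw [(key hU).rk]; omega)
        (rk1 g - rk1 a)).1 (by omega)
      exact ⟨a, b, h7 ▸ pow_orderOf_eq_one a, h10 ▸ pow_orderOf_eq_one b, by omega,
        iff_of_false (fun h => h9 h.1) h⟩
  obtain ⟨g', h11, rfl, rfl⟩ := hQ.exists_sum hU.nd a b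
  have h12 : g' ^ 2 = 1 := OG_ext_of_isCompl
    (fun v hv => congrArg Subtype.val (LinearEquiv.congr_fun (congrArg Subtype.val h7) ⟨v, hv⟩))
    (fun v hv => congrArg Subtype.val (LinearEquiv.congr_fun (congrArg Subtype.val h8) ⟨v, hv⟩))
    (hQ.isCompl hU.nd)
  obtain ⟨c, rfl⟩ := isConj_iff.1 ((hQ.isConj_iff_two h12 h4).2
    ⟨(hQ.rk1_split hU.nd h12 h11).trans h9, (hQ.altO_split hU.nd h11).trans h10⟩)
  refine ⟨_, hU.map (OG_map c), ?_⟩
  rintro _ ⟨v, hv, rfl⟩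
  exact ⟨_, h11 v hv, congrArg c.1 (congrArg g'.1 (OG_inv_apply_apply c v)).symm⟩

theorem fx_point_iff {g : OG Q} :
    (∃ U : Submodule F V, (finrank F U = 1 ∧ ∃ v ∈ U, Q v ≠ 0) ∧ Fx g U) ↔ ∃ v ∈ fixS g, Q v ≠ 0 := by
  refine ⟨fun ⟨U, ⟨h1, v, h3, h4⟩, h5⟩ => ⟨v, ?_, h4⟩, fun ⟨v, h1, h3⟩ => ⟨F ∙ v, ⟨finrank_span_singleton ?_,
    v, Submodule.mem_span_singleton_self v, h3⟩, fx_of_le (c := 1) fun x hx => ?_⟩⟩
  · have h0 : v ≠ 0 := by rintro rfl; simp at h4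
    rw [← Submodule.eq_of_le_of_finrank_eq ((Submodule.span_singleton_le_iff_mem _ _).2 h3)
      ((finrank_span_singleton h0).trans h1.symm)] at h5
    obtain ⟨c, hc⟩ := Submodule.mem_span_singleton.1 (h5 v (Submodule.mem_span_singleton_self v))
    have h6 := OG_map g v
    change c • v = g.1 v at hc
    rw [← hc, Q_smul, mul_left_eq_self₀, or_iff_left h4, sq_eq_one_iff, CharTwo.neg_eq,
      or_self] at h6
    rw [mem_fixS, ← hc, h6, one_smul]
  · rintro rfl; simp at h3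
  · obtain ⟨c, rfl⟩ := Submodule.mem_span_singleton.1 hx
    rw [map_smul, mem_fixS.1 h1, one_smul]

theorem ND.point_two (hQ : ND Q) (hG : Good Q) {d : ℕ} (hn : finrank F V = 2 * d) (hd : 0 < d) :
    AllO Q 2 (fun U => finrank F U = 1 ∧ ∃ v ∈ U, Q v ≠ 0) ↔ Odd d ∨ ty Q ≠ 1 := by
  simp only [hQ.allO_char_two hG, fx_point_iff, ← hQ.perp_range_sub1]
  refine ⟨fun H => by_contra fun h => ?_, fun H g h1 h3 _ => ?_⟩
  · simp only [not_or, Nat.not_odd_iff_even, not_not] at h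
    obtain ⟨T, -, h4, h5⟩ := (hQ.ns_top.exists_ts_iff d).2 ⟨hn.ge, fun _ => h.2⟩
    obtain ⟨g, h6, h7, -⟩ := hQ.exists_altO h5 (h4 ▸ h.1) (by omega)
    have h9 : rk1 g = _ := h7 ▸ h4
    obtain ⟨v, h10, h11⟩ := H g (h6 ▸ pow_orderOf_eq_one g) (h9 ▸ Nat.even_iff.1 h.1) (by omega)
    rw [h7, hQ.perp_eq_self hn h4 h5] at h10
    exact h11 (h5 v h10)
  by_cases ha : AltO g
  · refine hQ.exists_nonsingular_perp _ ((hQ.two_mul_rk1_le h1).lt_of_ne fun h => H.elim (fun h' => ?_)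
      fun h' => h' (((hQ.ns_top.exists_ts_iff _).1 ⟨_, le_top, rfl, altO_iff.1 ha⟩).2 h))
    rw [Nat.odd_iff] at h'; omega
  · simp only [altO_iff, not_forall] at ha
    obtain ⟨w, h4, h5⟩ := ha
    exact ⟨w, mem_perp.2 fun u hu => (qe_O h1).ti u hu w h4, h5⟩

theorem ND.point_odd (hQ : ND Q) (hG : Good Q) [Nontrivial V] {r : ℕ} [hr : Fact r.Prime] (hr2 : r ≠ 2)
    (h : r ∣ Nat.card {U : Submodule F V // finrank F U = 1 ∧ ∃ v ∈ U, Q v ≠ 0}) :
    ¬ AllO Q r (fun U => finrank F U = 1 ∧ ∃ v ∈ U, Q v ≠ 0) := by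
  have : Finite V := Module.finite_of_finite F
  have hq := card_ne_zero_zmod (F := F) (p := 2) hr.out hr2
  simp only [hQ.allO_odd hG (hr.out.odd_of_ne_two hr2), fx_point_iff]
  refine fun H => not_dvd_card_of_fixed (G := OG Q) (fun g U ⟨h1, v, h3, h4⟩ =>
    ⟨(LinearEquiv.finrank_map_eq _ _).trans h1, _, ⟨v, h3, rfl⟩, (OG_map g v).trans_ne h4⟩)
    ?_ (fun R hR => ?_) h
  · rintro U U' ⟨h1, v, h3, h4⟩ ⟨h5, w, h6, h7⟩
    have e : ∀ {U : Submodule F V} {v}, finrank F U = 1 → v ∈ U → Q v ≠ 0 → U = F ∙ v := fun h1 h3 h4 =>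
      (Submodule.eq_of_le_of_finrank_eq ((Submodule.span_singleton_le_iff_mem _ _).2 h3)
        ((finrank_span_singleton (by rintro rfl; simp at h4)).trans h1.symm)).symm
    obtain ⟨c, hc⟩ := sgn_eq_one_iff.1 (sgn_eq_one_of_two CharTwo.two_eq_zero (Q v / Q w))
    have h8 : Q (c • w) = Q v := by rw [Q_smul, pow_two, ← hc, div_mul_cancel₀ _ h7]
    obtain ⟨g, hg⟩ := hQ.witt_one (by rintro rfl; simp at h4) (fun h => h4 (by rw [← h8, h, map_zero])) h8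
    refine ⟨g, ?_⟩
    rw [e h1 h3 h4, e h5 (U'.smul_mem c h6) (h8.trans_ne h4), ← hg]
    exact (Submodule.map_span _ _).trans (by simp)
  obtain ⟨α, h1, h3⟩ := hQ.exists_ns_fx (ρ := R.subtype) hr2 hq rfl hR
  by_cases h4 : Nontrivial (fx R.subtype)
  · obtain ⟨⟨v, h5⟩, h6⟩ := h3.nd.exists_ne_zero
    exact ⟨F ∙ v, ⟨finrank_span_singleton (by rintro rfl; exact h6 (map_zero Q)), v,
      Submodule.mem_span_singleton_self v, h6⟩, fun g hg => Fx.map_eq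
        (iv_of_le_fixR ((Submodule.span_singleton_le_iff_mem _ _).2 h5) ⟨g, hg⟩)⟩
  have h5 := h1.emb hQ.ns_top le_top
  have h6 := h3.rk
  have h0 := finrank_pos (R := F) (M := V)
  rw [not_nontrivial_iff_subsingleton] at h4
  rw [finrank_zero_of_subsingleton] at h6
  set i := orderOf (Fintype.card F : ZMod r)
  obtain ⟨β, o, h7, h8, h9⟩ : ∃ β o, (o ≤ if Odd i then 0 else (r - 1) / i) ∧ cc i * α = i * (2 * β + o) ∧
      tau i α = (-1) ^ o := by
    rcases Nat.even_or_odd i with h | h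
    · refine ⟨α / 2, α % 2, ?_, by simp [cc, h, Nat.div_add_mod], ?_⟩
      · rw [if_neg (Nat.not_odd_iff_even.2 h)]
        exact (Nat.le_of_lt_succ (Nat.mod_lt _ two_pos)).trans (Nat.div_pos (Nat.le_of_dvd
          (Nat.sub_pos_of_lt hr.out.one_lt) (ZMod.orderOf_dvd_card_sub_one hq)) (orderOf_pos_zmod hq))
      · rw [tau_eq, neg_one_pow_eq_iff]; simp [Nat.add_mod, Nat.even_iff.1 h]
    · exact ⟨α, 0, by simp, by simp [cc, Nat.not_even_iff_odd.2 h]; ring, by simp [tau, h]⟩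
  have h10 := h5.1
  obtain ⟨g, h11, h12, h13, -⟩ := hQ.exists_prof hr2 hq (i := i) rfl h7 (Nat.pos_of_ne_zero fun h => by
    rw [show 2 * β + o = 0 by omega] at h8; omega) (h8 ▸ h9 ▸ h5)
  obtain ⟨v, h14, h15⟩ := H g h11 h12
  have := hQ.finrank_perp (fixS g)
  rw [Submodule.finrank_eq_zero.1 (show finrank F (fixS g) = 0 by omega), Submodule.mem_bot] at h14
  simp [h14] at h15

end Cfsg.Agent.H13
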