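import Mathlib
import Cfsg.Agent.H28.ClField
import Cfsg.Agent.H13.SymF
import Cfsg.Agent.H13.Odd2
import Cfsg.Agent.H13.Count
import Cfsg.Agent.H13.Disc

/-!
Similarity groups of the bilinear forms given by invertible symmetric or skew matrices.
-/

set_option autoImplicit false

namespace Cfsg.Agent.H13

open Matrix Module QuadraticMap
open scoped MatrixGroups

variable {ι κ : Type} [Fintype ι] [DecidableEq ι] [Fintype κ] [DecidableEq κ]
  {K : Type*} [Field K]

/-- transport of matrices along a linear equivalence -/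
noncomputable def glc (e : (κ → K) ≃ₗ[K] (ι → K)) : GL κ K ≃* GL ι K :=
  (glEquiv κ K).trans ((LinearEquiv.conjRingEquiv_units e).trans (glEquiv ι K).symm)
where LinearEquiv.conjRingEquiv_units (e : (κ → K) ≃ₗ[K] (ι → K)) :
    ((κ → K) ≃ₗ[K] (κ → K)) ≃* ((ι → K) ≃ₗ[K] (ι → K)) :=
  { toFun := fun g => e.symm ≪≫ₗ g ≪≫ₗ e
    invFun := fun g => e ≪≫ₗ g ≪≫ₗ e.symm
    left_inv := fun g => by ext1 x; simp
    right_inv := fun g => by ext1 x; simp
    map_mul' := fun g h => by ext1 x; simp }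

theorem glc_mulVec (e : (κ → K) ≃ₗ[K] (ι → K)) (g : GL κ K) (v : κ → K) :
    (glc e g : Matrix ι ι K) *ᵥ e v = e ((g : Matrix κ κ K) *ᵥ v) := by
  rw [← glEquiv_apply, ← glEquiv_apply]
  simp [glc, glc.LinearEquiv.conjRingEquiv_units]

theorem mem_scalars_iff' {g : GL ι K} :
    g ∈ Geo.scalars ι K ↔ ∃ c : Kˣ, ∀ v, (g : Matrix ι ι K) *ᵥ v = (c : K) • v := by
  rw [Geo.mem_scalars_iff]
  refine exists_congr fun c => ⟨fun h v => by rw [h, smul_mulVec, one_mulVec], fun h =>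
    matrix_ext_mulVec fun v => by rw [h, smul_mulVec, one_mulVec]⟩

theorem glc_mem_scalars (e : (κ → K) ≃ₗ[K] (ι → K)) (g : GL κ K) :
    glc e g ∈ Geo.scalars ι K ↔ g ∈ Geo.scalars κ K := by
  simp only [mem_scalars_iff', e.surjective.forall, glc_mulVec, ← map_smul, e.injective.eq_iff]

instance normal_scalars : (Geo.scalars ι K).Normal := by
  have : Geo.scalars ι K = Subgroup.center _ := Subgroup.ext fun _ => H28.mem_scalars_iff_center
  rw [this]; infer_instance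

theorem projQuot_congr (φ : GL κ K ≃* GL ι K)
    (hφ : ∀ g, φ g ∈ Geo.scalars ι K ↔ g ∈ Geo.scalars κ K) {H : Subgroup (GL κ K)}
    {H' : Subgroup (GL ι K)} (h : ∀ g, φ g ∈ H' ↔ g ∈ H) : Nonempty (projQuot H ≃* projQuot H') := by
  let ψ : H ≃* H' :=
    { toFun := fun g => ⟨φ g, (h _).2 g.2⟩
      invFun := fun g => ⟨φ.symm g, (h _).1 (by simp)⟩
      left_inv := fun g => by simp
      right_inv := fun g => by simp
      map_mul' := fun g g' => by simp }
  refine ⟨QuotientGroup.congr _ _ ψ ?_⟩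
  ext g
  obtain ⟨g, rfl⟩ := ψ.surjective g
  exact (Subgroup.mem_map_iff_mem ψ.injective).trans (hφ g).symm

/-- if the similarities are scalar multiples of isometries -/
theorem projQuot_equiv {S H : Subgroup (GL ι K)} (h1 : H ≤ S)
    (h2 : ∀ g ∈ S, ∃ z ∈ Geo.scalars ι K, z * g ∈ H) (h3 : ∀ g ∈ H, g ∈ Geo.scalars ι K → g = 1) :
    Nonempty (H ≃* projQuot S) := by
  refine ⟨MulEquiv.ofBijective ((QuotientGroup.mk' _).comp (Subgroup.inclusion h1))
    ⟨(injective_iff_map_eq_one _).2 fun g hg => Subtype.ext (h3 _ g.2 ?_), fun x => ?_⟩⟩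
  · exact (QuotientGroup.eq_one_iff (Subgroup.inclusion h1 g)).1 hg
  · obtain ⟨g, rfl⟩ := QuotientGroup.mk_surjective x
    obtain ⟨z, hz, hg⟩ := h2 g g.2
    refine ⟨⟨_, hg⟩, QuotientGroup.eq.2 ?_⟩
    change (z * g.1)⁻¹ * g.1 ∈ Geo.scalars ι K
    simpa using normal_scalars.conj_mem _ (inv_mem hz) g.1⁻¹

/-- the similarity group of the form of a matrix -/
abbrev Sim (M : Matrix ι ι K) : Subgroup (GL ι K) :=
  Geo.similarityGroup fun u v => toBilin' M u v

theorem toBilin'_mulVec (M P : Matrix ι ι K) (u v : ι → K) :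
    toBilin' M (P *ᵥ u) (P *ᵥ v) = toBilin' (Pᵀ * M * P) u v := by
  rw [toBilin'_apply', toBilin'_apply', H28.dot_mulVec_mulVec]

theorem forall_toBilin'_iff {M M' P : Matrix ι ι K} {c : K} :
    (∀ u v, toBilin' M (P *ᵥ u) (P *ᵥ v) = c * toBilin' M' u v) ↔ Pᵀ * M * P = c • M' := by
  simp only [toBilin'_mulVec]
  refine ⟨fun h => toBilin'.injective (LinearMap.ext₂ fun u v => by rw [h]; simp), fun h u v => by
    rw [h]; simp⟩

theorem mem_Sim {M : Matrix ι ι K} {g : GL ι K} :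
    g ∈ Sim M ↔ ∃ c : Kˣ, (g : Matrix ι ι K)ᵀ * M * g = (c : K) • M :=
  exists_congr fun _ => forall_toBilin'_iff

theorem GSp_eq (m : ℕ) : GSp m K = Sim (J (Fin m) K) :=
  Subgroup.ext fun _ => H28.mem_GSp_iff.trans mem_Sim.symm

theorem scalar_form (M : Matrix ι ι K) (u : Kˣ) (g : Matrix ι ι K) :
    ((u : K) • g)ᵀ * M * ((u : K) • g) = ((u : K) ^ 2) • (gᵀ * M * g) := by
  rw [transpose_smul, smul_mul_assoc, smul_mul_assoc, mul_smul_comm, smul_smul, pow_two]

theorem scalar_mem_Sim (M : Matrix ι ι K) (u : Kˣ) : GeneralLinearGroup.scalar ι u ∈ Sim M :=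
  mem_Sim.2 ⟨u ^ 2, by
    rw [← mul_one (GeneralLinearGroup.scalar ι u), H28.coe_scalar_mul, scalar_form]; simp⟩

theorem center_le_Sim (M : Matrix ι ι K) : Subgroup.center (GL ι K) ≤ Sim M := fun _ h => by
  obtain ⟨u, rfl⟩ := H28.mem_center_GL_iff.1 h
  exact scalar_mem_Sim M u

/-- similarity of the forms -/
def Cg (M M' : Matrix ι ι K) : Prop :=
  ∃ (c : Kˣ) (P : GL ι K), (P : Matrix ι ι K)ᵀ * M * P = (c : K) • M'

theorem cg_iff {M M' : Matrix ι ι K} : Cg M M' ↔ ∃ (c : K) (e : (ι → K) ≃ₗ[K] (ι → K)), c ≠ 0 ∧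
    ∀ u v, toBilin' M (e u) (e v) = c * toBilin' M' u v := by
  constructor
  · rintro ⟨c, P, h⟩
    exact ⟨c, glEquiv ι K P, c.ne_zero, fun u v => by
      rw [glEquiv_apply, glEquiv_apply, forall_toBilin'_iff.2 h]⟩
  · rintro ⟨c, e, hc, h⟩
    obtain ⟨P, rfl⟩ := (glEquiv ι K).surjective e
    exact ⟨Units.mk0 c hc, P, forall_toBilin'_iff.1 h⟩

theorem sep_toBilin' (M : GL ι K) (x : ι → K) (h : ∀ y, toBilin' (M : Matrix ι ι K) x y = 0) :
    x = 0 := by
  ext i
  have := h ((M⁻¹ : GL ι K).1 *ᵥ Pi.single i 1)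
  rwa [toBilin'_apply', mulVec_mulVec, Units.mul_inv, one_mulVec, dotProduct_single,
    mul_one] at this

theorem toBilin'_transpose (M : Matrix ι ι K) (u v : ι → K) :
    toBilin' Mᵀ u v = toBilin' M v u := by
  rw [toBilin'_apply', toBilin'_apply', mulVec_transpose, dotProduct_comm, dotProduct_mulVec]

theorem symm_iff {M : Matrix ι ι K} : Mᵀ = M ↔ ∀ u v, toBilin' M u v = toBilin' M v u :=
  ⟨fun h u v => by rw [← toBilin'_transpose, h], fun h => toBilin'.injective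
    (LinearMap.ext₂ fun u v => by rw [toBilin'_transpose, h])⟩

theorem skew_iff {M : Matrix ι ι K} : Mᵀ = -M ↔ ∀ u v, toBilin' M u v = -toBilin' M v u :=
  ⟨fun h u v => by rw [← toBilin'_transpose, h]; simp, fun h => toBilin'.injective
    (LinearMap.ext₂ fun u v => by rw [toBilin'_transpose, h]; simp)⟩

/-- the form of `M` is alternating -/
def AltM (M : Matrix ι ι K) : Prop := ∀ v, toBilin' M v v = 0

theorem AltM.skew {M : Matrix ι ι K} (h : AltM M) : Mᵀ = -M :=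
  skew_iff.2 fun u v => (LinearMap.IsAlt.neg h v u).symm

theorem alt_of_skew (h2 : (2 : K) ≠ 0) {M : Matrix ι ι K} (h : Mᵀ = -M) : AltM M := fun v =>
  mul_left_cancel₀ h2 (by linear_combination skew_iff.1 h v v)

theorem AltM.sd {M : GL ι K} (h : AltM (M : Matrix ι ι K)) :
    H12.SD (σ := RingHom.id K) (toBilin' (M : Matrix ι ι K)) where
  invol _ := rfl
  skew x y := skew_iff.1 h.skew y x
  sep := sep_toBilin' M
  trace x := ⟨0, by simp [h x]⟩

theorem symND {M : GL ι K} (h : (M : Matrix ι ι K)ᵀ = M) : SymND (toBilin' (M : Matrix ι ι K)) :=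
  ⟨symm_iff.1 h, sep_toBilin' M⟩

theorem Cg.alt {M M' : Matrix ι ι K} (h : Cg M M') : AltM M ↔ AltM M' := by
  obtain ⟨c, e, hc, h⟩ := cg_iff.1 h
  rw [AltM, AltM, e.surjective.forall]
  simp only [h, mul_eq_zero, hc, false_or]

theorem AltM.cg {M M' : GL ι K} (h : AltM (M : Matrix ι ι K)) (h' : AltM (M' : Matrix ι ι K)) :
    Cg (M : Matrix ι ι K) M' := by
  obtain ⟨m, hm⟩ := h.sd.even_finrank
  obtain ⟨e, he⟩ := h.sd.exists_equiv_sp (m := m) (by omega)
  obtain ⟨e', he'⟩ := h'.sd.exists_equiv_sp (m := m) (by omega)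
  exact cg_iff.2 ⟨1, e'.trans e.symm, one_ne_zero, fun u v => by
    rw [one_mul, ← he, ← he']; simp⟩

theorem AltM.even {M : GL ι K} (h : AltM (M : Matrix ι ι K)) : Even (Fintype.card ι) := by
  simpa using h.sd.even_finrank

/-- every non-degenerate form is given by a matrix -/
theorem exists_GL_form {V : Type*} [AddCommGroup V] [Module K V] [FiniteDimensional K V]
    (B : LinearMap.BilinForm K V) (hB : ∀ x, (∀ y, B x y = 0) → x = 0)
    (h : finrank K V = Fintype.card ι) : ∃ (M : GL ι K) (e : V ≃ₗ[K] (ι → K)),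
      ∀ u v, toBilin' (M : Matrix ι ι K) (e u) (e v) = B u v := by
  let e : V ≃ₗ[K] (ι → K) := .ofFinrankEq _ _ (by simpa using h)
  let M := LinearMap.BilinForm.toMatrix' (B.comp e.symm.toLinearMap e.symm.toLinearMap)
  have hM : ∀ u v, toBilin' M (e u) (e v) = B u v := fun u v => by
    simp [M, toBilin'_toMatrix']
  have : M.det ≠ 0 := by
    rw [Ne, ← exists_vecMul_eq_zero_iff]
    rintro ⟨v, hv, h0⟩
    obtain ⟨v, rfl⟩ := e.surjective v
    rw [hB v fun y => by rw [← hM, toBilin'_apply', dotProduct_mulVec, h0, zero_dotProduct],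
      map_zero] at hv
    exact hv rfl
  exact ⟨GeneralLinearGroup.mkOfDetNeZero M this, e, hM⟩

theorem projQuot_sim {M : Matrix ι ι K} {f : (κ → K) → (κ → K) → K}
    (e : (κ → K) ≃ₗ[K] (ι → K)) {c : K} (hc : c ≠ 0)
    (h : ∀ u v, toBilin' M (e u) (e v) = c * f u v) :
    Nonempty (projQuot (Sim M) ≃* projQuot (Geo.similarityGroup f)) := by
  obtain ⟨φ⟩ := projQuot_congr (glc e) (glc_mem_scalars e) (H := Geo.similarityGroup f)
    (H' := Sim M) fun g => exists_congr fun d => by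
      simp only [e.surjective.forall, glc_mulVec, h, mul_left_comm (d : K) c,
        mul_right_inj' hc]
  exact ⟨φ.symm⟩

theorem AltM.equiv_PGSp {M : GL ι K} (h : AltM (M : Matrix ι ι K)) {m : ℕ}
    (hm : Fintype.card ι = 2 * m) : Nonempty (projQuot (Sim (M : Matrix ι ι K)) ≃* PGSp m K) := by
  obtain ⟨e, he⟩ := h.sd.exists_equiv_sp (m := m) (by simpa using hm)
  exact projQuot_sim e.symm one_ne_zero fun u v => by rw [← he]; simp [H12.spB_eq]

/-- the quadratic form of a symmetric matrix -/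
noncomputable def qM (M : Matrix ι ι K) : QuadraticForm K (ι → K) := (toBilin' M).toQuadraticMap

theorem qM_apply (M : Matrix ι ι K) (v : ι → K) : qM M v = toBilin' M v v := rfl

theorem polar_qM {M : Matrix ι ι K} (h : Mᵀ = M) (u v : ι → K) :
    polar (qM M) u v = 2 * toBilin' M u v := by
  rw [qM, LinearMap.BilinMap.polar_toQuadraticMap, symm_iff.1 h v u, two_mul]

theorem nd_qM (h2 : (2 : K) ≠ 0) {M : GL ι K} (h : (M : Matrix ι ι K)ᵀ = M) :
    ND (qM (M : Matrix ι ι K)) := fun x hx =>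
  sep_toBilin' M x fun y => by simpa [polar_qM h, h2] using hx y

theorem polar_of_sim {V W : Type*} [AddCommGroup V] [Module K V] [AddCommGroup W] [Module K W]
    {Q : QuadraticForm K V} {R : QuadraticForm K W} (e : V →ₗ[K] W) {c : K}
    (h : ∀ v, R (e v) = c * Q v) (u v : V) : polar R (e u) (e v) = c * polar Q u v := by
  simp only [polar, ← map_add, h]; ring

theorem cg_iff_qM (h2 : (2 : K) ≠ 0) {M M' : Matrix ι ι K} (h : Mᵀ = M) (h' : M'ᵀ = M') :
    Cg M M' ↔ ∃ (c : K) (e : (ι → K) ≃ₗ[K] (ι → K)), c ≠ 0 ∧ ∀ v, qM M (e v) = c * qM M' v := by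
  rw [cg_iff]
  refine exists₂_congr fun c e => and_congr_right fun _ => ⟨fun H v => H v v, fun H u v => ?_⟩
  have := polar_of_sim e.toLinearMap H u v
  rw [polar_qM h, polar_qM h'] at this
  exact mul_left_cancel₀ h2 (by linear_combination this)

theorem Sim_eq_quad (h2 : (2 : K) ≠ 0) {M : Matrix ι ι K} (h : Mᵀ = M) :
    Sim M = Geo.quadSimilarityGroup (qM M) := by
  ext g
  refine exists_congr fun c => ⟨fun H v => H v v, fun H u v => ?_⟩
  have := polar_of_sim (toLin' (g : Matrix ι ι K)) H u v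
  rw [polar_qM h, polar_qM h] at this
  exact mul_left_cancel₀ h2 (by simp only [toLin'_apply] at this; linear_combination this)

theorem projQuot_quad {Q : (ι → K) → K} {R : (κ → K) → K}
    (e : (κ → K) ≃ₗ[K] (ι → K)) {c : K} (hc : c ≠ 0) (h : ∀ v, Q (e v) = c * R v) :
    Nonempty (PGO K Q ≃* PGO K R) := by
  obtain ⟨φ⟩ := projQuot_congr (glc e) (glc_mem_scalars e) (H := Geo.quadSimilarityGroup R)
    (H' := Geo.quadSimilarityGroup Q) fun g => exists_congr fun d => by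
      simp only [e.surjective.forall, glc_mulVec, h, mul_left_comm (d : K) c,
        mul_right_inj' hc]
  exact ⟨φ.symm⟩

theorem equiv_PGO (h2 : (2 : K) ≠ 0) {M : Matrix ι ι K} (h : Mᵀ = M) {R : (κ → K) → K}
    (e : (ι → K) ≃ₗ[K] (κ → K)) {c : K} (hc : c ≠ 0) (he : ∀ v, R (e v) = c * qM M v) :
    Nonempty (projQuot (Sim M) ≃* PGO K R) := by
  obtain ⟨φ⟩ := projQuot_quad e hc he
  rw [Sim_eq_quad h2 h]
  exact ⟨φ.symm⟩

theorem exists_GL_quad (h2 : (2 : K) ≠ 0) {V : Type*} [AddCommGroup V] [Module K V]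
    [FiniteDimensional K V] {Q : QuadraticForm K V} (hQ : ND Q)
    (h : finrank K V = Fintype.card ι) : ∃ (M : GL ι K) (e : V ≃ₗ[K] (ι → K)),
      (M : Matrix ι ι K)ᵀ = M ∧ ∀ v, qM (M : Matrix ι ι K) (e v) = 2 * Q v := by
  obtain ⟨M, e, he⟩ := exists_GL_form (polarBilin Q) hQ h
  refine ⟨M, e, symm_iff.2 fun u v => ?_, fun v => by rw [qM_apply, he]; simp⟩
  obtain ⟨u, rfl⟩ := e.surjective u
  obtain ⟨v, rfl⟩ := e.surjective v
  rw [he, he]; exact polar_comm _ _ _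

theorem isPlus_iff_of_sim {V W : Type*} [AddCommGroup V] [Module K V] [AddCommGroup W]
    [Module K W] {Q : QuadraticForm K V} {R : QuadraticForm K W} (e : V ≃ₗ[K] W) {c : K}
    (hc : c ≠ 0) (h : ∀ v, R (e v) = c * Q v) : IsPlus R ↔ IsPlus Q :=
  ⟨IsPlus.of_semiSim (SemiSim.ofLinear e c hc h).symm, IsPlus.of_semiSim (.ofLinear e c hc h)⟩

variable [Finite K]

theorem ND.exists_iso_even {V W : Type*} [AddCommGroup V] [Module K V] [AddCommGroup W]
    [Module K W] [FiniteDimensional K V] [FiniteDimensional K W] {Q : QuadraticForm K V}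
    {R : QuadraticForm K W} (hQ : ND Q) (hR : ND R) {m : ℕ} (h1 : finrank K V = 2 * m)
    (h2 : finrank K W = 2 * m) (h : IsPlus Q ↔ IsPlus R) :
    ∃ e : V ≃ₗ[K] W, ∀ v, R (e v) = Q v := by
  by_cases hP : IsPlus Q
  · obtain ⟨e, he⟩ := hQ.equiv_QPlus hP h1
    obtain ⟨e', he'⟩ := hR.equiv_QPlus (h.1 hP) h2
    exact ⟨e.trans e'.symm, fun v => by rw [← he', ← he]; simp⟩
  · obtain ⟨a, b, hab⟩ := exists_anisotropic_binary K
    obtain rfl | ⟨k, rfl⟩ : m = 0 ∨ ∃ k, m = k + 1 := by cases m <;> simp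
    · exact absurd ⟨⊥, by simp [h1], by simp⟩ hP
    obtain ⟨e, he⟩ := hQ.equiv_QMinus hP (m := k) h1 hab
    obtain ⟨e', he'⟩ := hR.equiv_QMinus (mt h.2 hP) (m := k) h2 hab
    exact ⟨e.trans e'.symm, fun v => by rw [← he', ← he]; simp⟩

theorem cg_iff_isPlus (h2 : (2 : K) ≠ 0) {M M' : GL ι K} (h : (M : Matrix ι ι K)ᵀ = M)
    (h' : (M' : Matrix ι ι K)ᵀ = M') {m : ℕ} (hm : Fintype.card ι = 2 * m) :
    Cg (M : Matrix ι ι K) M' ↔ (IsPlus (qM (M : Matrix ι ι K)) ↔ IsPlus (qM (M' : Matrix ι ι K))) := by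
  rw [cg_iff_qM h2 h h']
  refine ⟨fun ⟨c, e, hc, H⟩ => isPlus_iff_of_sim e hc H, fun H => ?_⟩
  obtain ⟨e, he⟩ := (nd_qM h2 h').exists_iso_even (nd_qM h2 h) (m := m) (by simpa using hm)
    (by simpa using hm) H.symm
  exact ⟨1, e, one_ne_zero, by simpa using he⟩

theorem cg_odd (h2 : (2 : K) ≠ 0) {M M' : GL ι K} (h : (M : Matrix ι ι K)ᵀ = M)
    (h' : (M' : Matrix ι ι K)ᵀ = M') {m : ℕ} (hm : Fintype.card ι = 2 * m + 1) :
    Cg (M : Matrix ι ι K) M' := by
  obtain ⟨e, c, hc, he⟩ := (nd_qM h2 h).equiv_QOdd (m := m) (by simpa using hm)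
  obtain ⟨e', c', hc', he'⟩ := (nd_qM h2 h').equiv_QOdd (m := m) (by simpa using hm)
  refine (cg_iff_qM h2 h h').2 ⟨c' / c, e'.trans e.symm, div_ne_zero hc' hc, fun v => ?_⟩
  have := he (e.symm (e' v))
  rw [e.apply_symm_apply, he'] at this
  simp only [LinearEquiv.trans_apply]
  field_simp
  linear_combination -this

theorem cg_two [CharP K 2] {M M' : GL ι K} (h : (M : Matrix ι ι K)ᵀ = M)
    (h' : (M' : Matrix ι ι K)ᵀ = M') (ha : AltM (M : Matrix ι ι K) ↔ AltM (M' : Matrix ι ι K)) :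
    Cg (M : Matrix ι ι K) M' := by
  obtain ⟨e, he⟩ := (symND h').exists_equiv (symND h) rfl ha.symm
  exact cg_iff.2 ⟨1, e, one_ne_zero, by simpa using he⟩

end Cfsg.Agent.H13
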