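import Mathlib
import Cfsg.Agent.H13.GA2
import Cfsg.Agent.H13.EO4
import Cfsg.Agent.H28.OField

/-!
Centralisers of similarities: semisimple elements of odd prime order and graph involutions of
even-dimensional orthogonal groups.
-/

set_option autoImplicit false

namespace Cfsg.Agent.H13

open Module H28 QuadraticMap SemiSim

universe u

section Grp
variable {X Y : Type*} [Group X] [Group Y]

theorem isConjUnder_iff_of {H G : Subgroup X} (hle : H ≤ G) {x : X}
    (h : ∀ u ∈ G, ∃ t, Commute t x ∧ u * t ∈ H) (y : X) : IsConjUnder H x y ↔ IsConjUnder G x y := by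
  refine ⟨fun ⟨u, hu, e⟩ => ⟨u, hle hu, e⟩, fun ⟨u, hu, e⟩ => ?_⟩
  obtain ⟨t, ht, h1⟩ := h u hu
  exact ⟨_, h1, by rw [e, mul_assoc u t, ht.eq]; group⟩

theorem isConjUnder_map_iff (A : Y →* X) {H G : Subgroup Y} (hle : H ≤ G) {x : Y}
    (h : ∀ u ∈ G, ∃ t, Commute t x ∧ u * t ∈ H) (y : X) :
    IsConjUnder (H.map A) (A x) y ↔ IsConjUnder (G.map A) (A x) y := by
  refine isConjUnder_iff_of (Subgroup.map_mono hle) ?_ y
  rintro _ ⟨u, hu, rfl⟩
  obtain ⟨t, ht, h1⟩ := h u hu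
  exact ⟨_, ht.map A, _, h1, map_mul _ _ _⟩

end Grp

variable {F : Type u} {V : Type*} [Field F] [AddCommGroup V] [Module F V] [FiniteDimensional F V]
  {Q : QuadraticForm F V} {m : ℕ}

theorem det_of_alt (B : LinearMap.BilinForm F V) (ha : ∀ x, B x x = 0)
    (hs : ∀ x, (∀ y, B x y = 0) → x = 0) (hm : finrank F V = 2 * m) (s : V ≃ₗ[F] V) {c : F}
    (hc : c ≠ 0) (h : ∀ x y, B (s x) (s y) = c * B x y) :
    LinearMap.det (s : V →ₗ[F] V) = c ^ m := by
  obtain ⟨M, e, he⟩ := exists_GL_form (ι := Fin (2 * m)) B hs (by simpa using hm)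
  have hM : AltM (M : Matrix (Fin (2 * m)) (Fin (2 * m)) F) := fun v => by
    obtain ⟨v, rfl⟩ := e.surjective v
    rw [he, ha]
  obtain ⟨g, hg⟩ := (glEquiv _ F).surjective (e.symm ≪≫ₗ s ≪≫ₗ e)
  have h1 : ∀ v, (g : Matrix (Fin (2 * m)) (Fin (2 * m)) F).mulVec (e v) = e (s v) := fun v => by
    rw [← glEquiv_apply, hg]; simp
  have h2 := hM.det_of_sim (g := g) (c := Units.mk0 c hc) (m := m) (by simp)
    (forall_toBilin'_iff.1 fun u v => by
      obtain ⟨u, rfl⟩ := e.surjective u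
      obtain ⟨v, rfl⟩ := e.surjective v
      rw [h1, h1, he, he, h]; rfl)
  rw [← LinearMap.det_conj _ e, ← show _ = c ^ m from congrArg Units.val h2,
    Matrix.GeneralLinearGroup.val_det_apply, ← LinearMap.det_toLin']
  congr 1
  refine LinearMap.ext fun v => ?_
  obtain ⟨v, rfl⟩ := e.surjective v
  simp [h1]

theorem ND.det_of_skew (hQ : ND Q) (h2 : (2 : F) ≠ 0) (hm : finrank F V = 2 * m) {k : V →ₗ[F] V}
    (hk : ∀ x y, polar Q (k x) y = -polar Q x (k y)) (hi : ∀ x, k x = 0 → x = 0) (s : V ≃ₗ[F] V)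
    {c ε : F} (hc : c ≠ 0) (hε : ε ≠ 0) (hs : ∀ v, Q (s v) = c * Q v)
    (h : ∀ v, k (s v) = ε • s (k v)) : LinearMap.det (s : V →ₗ[F] V) = (ε * c) ^ m :=
  det_of_alt (LinearMap.BilinForm.compLeft (polarBilin Q) k) (fun x => mul_left_cancel₀ h2 (by
      have := hk x x
      rw [polar_comm Q x] at this
      change 2 * polar Q (k x) x = _
      linear_combination this))
    (fun x hx => hi x (hQ _ hx)) hm s (mul_ne_zero hε hc) fun x y => by
      change polar Q (k (s x)) (s y) = _ * polar Q (k x) y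
      rw [h, polar_smul_left, smul_eq_mul, mul_assoc]
      exact congrArg _ (polar_of_sim s.toLinearMap hs _ _)

theorem ND.det_of_comm (hQ : ND Q) (h2 : (2 : F) ≠ 0) (hm : finrank F V = 2 * m) {g : OG Q}
    (hg : ∀ v, g.1 (g.1 v) = v → v = 0) (s : V ≃ₗ[F] V) {c : F} (hc : c ≠ 0)
    (hs : ∀ v, Q (s v) = c * Q v) :
    ((∀ v, s (g.1 v) = g.1 (s v)) → LinearMap.det (s : V →ₗ[F] V) = c ^ m) ∧
    ((∀ v, s (g.1 v) = (g⁻¹).1 (s v)) → LinearMap.det (s : V →ₗ[F] V) = (-c) ^ m) := by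
  have h1 : ∀ v, g.1 ((g⁻¹).1 v) = v := fun v => by rw [← OG_mul_apply, mul_inv_cancel]; rfl
  have h1' : ∀ v, (g⁻¹).1 (g.1 v) = v := fun v => by rw [← OG_mul_apply, inv_mul_cancel]; rfl
  have key := fun ε hε => hQ.det_of_skew h2 hm (k := (g.1 : V →ₗ[F] V) - ((g⁻¹).1 : V →ₗ[F] V))
    (fun x y => by
      have e1 := OG_polar g x ((g⁻¹).1 y)
      have e2 := OG_polar g ((g⁻¹).1 x) y
      rw [h1] at e1 e2
      simp only [LinearMap.sub_apply, LinearEquiv.coe_coe, polar_sub_left, polar_sub_right]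
      linear_combination e1 + e2)
    (fun x hx => hg x (by
      rw [LinearMap.sub_apply, sub_eq_zero] at hx
      exact (congrArg g.1 hx).trans (h1 x))) s hc (ε := ε) hε hs
  refine ⟨fun h => (key 1 one_ne_zero fun v => ?_).trans (by rw [one_mul]),
    fun h => (key (-1) (by simp) fun v => ?_).trans (by rw [neg_one_mul])⟩
  · have := h ((g⁻¹).1 v)
    rw [h1] at this
    simp [h, this, h1']
  · have := h ((g⁻¹).1 v)
    rw [h1] at this
    simp [h, this, h1]

theorem ND.charpoly_adjoint (hQ : ND Q) {a b : End F V} (h : ∀ x y, polar Q (a x) y = polar Q x (b y)) :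
    b.charpoly = a.charpoly := by
  let e := finBasis F V
  have h1 := congrArg (LinearMap.BilinForm.toMatrix e)
    (show LinearMap.BilinForm.compLeft (polarBilin Q) a =
      LinearMap.BilinForm.compRight (polarBilin Q) b from LinearMap.ext₂ h)
  have h2 : IsUnit (LinearMap.BilinForm.toMatrix e (polarBilin Q)).det :=
    (gdet_eq_toMatrix _ e ▸ gdet_ne_zero hQ.nondeg e).isUnit
  rw [LinearMap.BilinForm.toMatrix_compLeft, LinearMap.BilinForm.toMatrix_compRight] at h1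
  rw [← LinearMap.charpoly_toMatrix b e, ← LinearMap.charpoly_toMatrix a e,
    ← Matrix.nonsing_inv_mul_cancel_left _ (LinearMap.toMatrix e e b) h2, ← h1,
    Matrix.charpoly_mul_comm, Matrix.mul_nonsing_inv_cancel_right _ _ h2, Matrix.charpoly_transpose]

theorem det_of_sq {s : End F V} {z : F} (hz : ¬ IsSquare z) (h : ∀ v, s (s v) = z • v)
    (hm : finrank F V = 2 * m) : LinearMap.det s = (-z) ^ m := by
  open Polynomial in
  have hp : Irreducible (X ^ 2 - C z : F[X]) :=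
    X_pow_sub_C_irreducible_of_prime Nat.prime_two fun b hb => hz ⟨b, by rw [← hb, pow_two]⟩
  let e := finBasis F V
  let A := LinearMap.toMatrix e e s
  have hA : A * A = z • (1 : Matrix _ _ F) := by
    rw [← LinearMap.toMatrix_mul, show s * s = z • LinearMap.id from LinearMap.ext h]; simp
  have h1 : A.charmatrix * (-A).charmatrix = (X ^ 2 - C z : F[X]) • (1 : Matrix _ _ F[X]) := by
    have : (C : F →+* F[X]).mapMatrix A * (C : F →+* F[X]).mapMatrix A =
        (C z : F[X]) • (1 : Matrix _ _ F[X]) := by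
      rw [← map_mul, hA]; ext1 i j; by_cases h : i = j <;> simp [h]
    rw [Matrix.charmatrix, Matrix.charmatrix, map_neg, sub_neg_eq_add, sub_mul, mul_add, mul_add,
      this, (Matrix.scalar_commute X (fun _ => Commute.all _ _) (C.mapMatrix A)).eq, ← map_mul,
      sub_smul, add_sub_add_comm, add_comm, sub_add_sub_cancel']
    simp [pow_two, Matrix.smul_one_eq_diagonal]
  have h2 : A.charpoly ∣ (X ^ 2 - C z) ^ finrank F V :=
    ⟨(-A).charpoly, by rw [Matrix.charpoly, Matrix.charpoly, ← Matrix.det_mul, h1]; simp⟩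
  obtain ⟨j, -, hj⟩ := (dvd_prime_pow hp.prime _).1 h2
  have hmon : (X ^ 2 - C z : F[X]).Monic := monic_X_pow_sub_C z two_ne_zero
  have h3 := eq_of_monic_of_associated A.charpoly_monic (hmon.pow j) hj
  have h4 := congrArg natDegree h3
  rw [Matrix.charpoly_natDegree_eq_dim, hmon.natDegree_pow, natDegree_X_pow_sub_C,
    Fintype.card_fin, hm] at h4
  obtain rfl : m = j := by omega
  rw [← LinearMap.det_toMatrix e, Matrix.det_eq_sign_charpoly_coeff, h3, coeff_zero_eq_eval_zero]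
  simp [hm, pow_mul]

omit [FiniteDimensional F V] in
theorem exists_glue {W : Submodule F V} (hW : IsCompl W (perp Q W)) (a : W ≃ₗ[F] W)
    (b : perp Q W ≃ₗ[F] perp Q W) {c : F} (ha : ∀ w, Q (a w) = c * Q w)
    (hb : ∀ w, Q (b w) = c * Q w) : ∃ e : V ≃ₗ[F] V, (∀ v, Q (e v) = c * Q v) ∧
      ∀ (w : W) (z : perp Q W), e (w + z) = a w + b z := by
  let p := Submodule.prodEquivOfIsCompl _ _ hW
  have h1 : ∀ (w : W) (z : perp Q W), (p.symm ≪≫ₗ a.prodCongr b ≪≫ₗ p) (w + z) = a w + b z :=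
    fun w z => by
      rw [show (w : V) + z = p (w, z) from rfl]; simp [p]
  refine ⟨_, fun v => ?_, h1⟩
  obtain ⟨w, z, rfl⟩ := exists_add_of_isCompl hW v
  rw [h1, Q_add, Q_add, ha, hb, mem_perp.1 z.2 _ w.2, mem_perp.1 (b z).2 _ (a w).2]; ring

variable [Fintype F]

section Odd

variable {r : ℕ} [hr : Fact r.Prime] (hr2 : r ≠ 2) (hq : (Fintype.card F : ZMod r) ≠ 0)
  (h2 : (2 : F) ≠ 0)
include hr2 hq

theorem ND.exists_sim_comm (hQ : ND Q) {g : OG Q} (hg : g ^ r = 1) (h1 : ∀ v, g.1 v = v → v = 0)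
    {c : F} (hc : c ≠ 0) :
    ∃ e : V ≃ₗ[F] V, (∀ v, Q (e v) = c * Q v) ∧ ∀ v, e (g.1 v) = g.1 (e v) := by
  have h : Fpf r Q (g.1 : End F V) := ⟨hQ, OG_map g, og_pow hg, one_notMem_rts h1⟩
  have h' : Fpf r (c⁻¹ • Q) (g.1 : End F V) :=
    ⟨(ofLinear (R := c⁻¹ • Q) (.refl F V) c⁻¹ (inv_ne_zero hc) fun _ => rfl).nd hQ,
      fun x => congrArg (c⁻¹ * ·) (OG_map g x), h.pow, h.ne⟩
  obtain ⟨e, he, he'⟩ := h.wall hr.out hr2 (cast_ne_zero_of_card hq) h' rfl
  exact ⟨e, fun v => by rw [← he v]; simp [hc], he'⟩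

include h2

theorem ND.exists_comm_fpf (hQ : ND Q) {g : OG Q} (hg : g ^ r = 1) (h1 : ∀ v, g.1 v = v → v = 0)
    (hm : finrank F V = 2 * m) (h : Odd m ∨ disc Q = -1) : ∃ k : OG Q, Commute k g ∧
      dickson hQ (good_of_two_ne_zero h2) k = 1 ∧ spinor hQ (good_of_two_ne_zero h2) k = -1 := by
  have hG : Good Q := good_of_two_ne_zero h2
  rcases h with h | h
  · have hf : Fpf r Q (g.1 : End F V) := ⟨hQ, OG_map g, og_pow hg, one_notMem_rts h1⟩
    have hf' : Fpf r Q ((g⁻¹).1 : End F V) := ⟨hQ, OG_map _, og_pow (by rw [inv_pow, hg, inv_one]),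
      one_notMem_rts fun v hv => h1 v (by
        rw [← show (g⁻¹).1 v = v from hv, ← OG_mul_apply, mul_inv_cancel]; exact hv.symm)⟩
    obtain ⟨t, ht, ht'⟩ := hf.wall hr.out hr2 (cast_ne_zero_of_card hq) hf' (by
      rw [rts, rts, hQ.charpoly_adjoint (a := (g.1 : End F V)) (b := ((g⁻¹).1 : End F V))
        fun x y => ?_]
      rw [← OG_polar g x]
      congr 1
      change _ = (g * g⁻¹).1 y
      rw [mul_inv_cancel]; rfl)
    obtain ⟨c, hc, hc'⟩ := exists_nonsquare h2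
    obtain ⟨d, hd, hd'⟩ := hQ.exists_sim_comm hr2 hq hg h1 hc
    let t' : OG Q := ⟨t, ht⟩
    let δ : SemiSim Q Q := ofLinear d c hc hd
    have e1 : dickson hQ hG t' = -1 := units_cast_inj h2 ((det_eq_dickson hQ hG t').symm.trans (by
      simpa [h.neg_one_pow] using (hQ.det_of_comm h2 hm (inj_sq_of_prime hr.out hr2 hf.pow hf.ne) t
        one_ne_zero (by simpa using ht)).2 ht'))
    have e2 : t' * g = g⁻¹ * t' := OG_ext ht'
    have e3 : δ.conj g = g := OG_ext fun v => by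
      obtain ⟨v, rfl⟩ := δ.e.surjective v
      rw [conj_apply_e]; exact hd' v
    have e4 := congrArg δ.conj e2
    rw [map_mul, map_mul, map_inv, e3] at e4
    refine ⟨δ.conj t' * t'⁻¹, ?_, by simp [dickson_conj], by
      simp [spinor_conj, e1, mu_apply, δ, ofLinear, hc', mul_comm]⟩
    have e5 : t'⁻¹ * g = g⁻¹ * t'⁻¹ := by
      rw [inv_mul_eq_iff_eq_mul, ← mul_assoc, eq_mul_inv_iff_mul_eq, eq_comm,
        mul_inv_eq_iff_eq_mul, mul_assoc, e2, mul_inv_cancel_left]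
    have e6 : δ.conj t' * g⁻¹ = g * δ.conj t' := by
      rw [mul_inv_eq_iff_eq_mul, mul_assoc, e4, mul_inv_cancel_left]
    rw [Commute, SemiconjBy, mul_assoc, e5, ← mul_assoc, e6, mul_assoc]
  · exact ⟨negOne Q, (negOne_comm g).symm, by simp [hQ.dickson_negOne hG h2, hm], by
      simp [hQ.spinor_negOne hG h2, hm, h, pow_mul]⟩

theorem ND.exists_comm_sp (hQ : ND Q) {g : OG Q} (hg : g ^ r = 1) (h1 : g ≠ 1) :
    ∃ k : OG Q, Commute k g ∧ dickson hQ (good_of_two_ne_zero h2) k = 1 ∧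
      spinor hQ (good_of_two_ne_zero h2) k = -1 := by
  obtain ⟨β, o, -, h3, -, h4⟩ := hQ.prof hr2 hq rfl hg
  obtain ⟨α, h5, -, h6⟩ := hQ.exists_ns_fixS hr2 hq rfl hg
  obtain ⟨U, h7, h8, h9⟩ := h4 1 (by
    rw [← h3, h5.rk]; exact Nat.mul_le_mul_left _ (h6 h1))
  set i := orderOf (Fintype.card F : ZMod r)
  have hW := hQ.isCompl h9.nd
  have hd := (hQ.isCompl (fx_zpowers g ▸ hQ.nd_fx (ρ := (Subgroup.zpowers g).subtype)
    (by have : Finite V := Module.finite_of_finite F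
        exact card_ne_zero_of_pgroup hq (isPGroup_zpowers hg)))).disjoint
  let g' := resOG U g h8.mem_iff
  obtain ⟨k, e1, e2, e3⟩ := h9.nd.exists_comm_fpf hr2 hq h2 (g := g') (m := cc i / 2)
    (OG_ext fun v => Subtype.ext (by
      have : ∀ n v, (((g' ^ n).1 v : U) : V) = (g ^ n).1 v := fun n => by
        induction n with
        | zero => exact fun _ => rfl
        | succ n ih => exact fun v => by rw [pow_succ, pow_succ, OG_mul_apply, ih]; rfl
      rw [this, hg]; rfl))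
    (fun v hv => Subtype.ext (Submodule.disjoint_def.1 hd _
      (mem_fixS.2 (congrArg Subtype.val hv)) (h7 v.2)))
    (by
      rw [h9.rk, cc]
      split_ifs with h
      · simpa using (Nat.two_mul_div_two_of_even h).symm
      · omega) (by
      by_cases h : Odd (cc i / 2)
      · exact .inl h
      · have h10 := h9.nd.ty_eq h2
        have h11 : Even i := by
          by_contra h12
          simp [cc, h12, Nat.not_even_iff_odd.1 h12] at h
        rw [h9.tp, h9.rk, mul_one, Int.units_pow_eq_pow_mod_two, Nat.even_iff.1 (Nat.not_odd_iff_even.1 h), pow_zero, mul_one] at h10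
        exact .inr (by rw [← h10]; simp [tau, h11]))
  refine ⟨extOG hW k, OG_ext_of_isCompl (fun w hw => ?_) (fun z hz => ?_) hW,
    (dickson_extOG _ _ _ _ _ _).trans e2, (spinor_extOG _ _ _ _ _ _).trans e3⟩
  · rw [OG_mul_apply, OG_mul_apply, extOG_apply_mem hW k ⟨g.1 w, h8 w hw⟩,
      extOG_apply_mem hW k ⟨w, hw⟩]
    exact congrArg Subtype.val (congrArg (fun x : OG _ => x.1 ⟨w, hw⟩) e1.eq)
  · rw [OG_mul_apply, OG_mul_apply, extOG_apply_perp hW k hz,
      extOG_apply_perp hW k (z := g.1 z) (h8.perp z hz)]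

theorem exists_comm_mu (h : Ev Q m) {g : OG Q} (hg : g ^ r = 1) :
    ∃ δ : OSim Q, Commute δ (oS Q g) ∧ mu Q δ = -1 ∧ h.dk δ = 1 := by
  obtain ⟨c, hc, hc'⟩ := exists_nonsquare h2
  obtain ⟨α, h5, h6, -⟩ := h.nd.exists_ns_fixS hr2 hq rfl hg
  have hW := h.nd.isCompl h6.nd
  have hF : Fx g (perp Q (fixS g)) := Fx.perp fun v hv => (mem_fixS.1 hv).symm ▸ hv
  let g' := resOG _ g hF.mem_iff
  obtain ⟨j, hj⟩ : Even (cc (orderOf (Fintype.card F : ZMod r))) := by
    rw [cc]; split_ifs with h <;> simp [h]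
  have h7 := (perp Q (fixS g)).finrank_le
  obtain ⟨a, ha⟩ := h6.nd.exists_similarity (m := m - j * α) (by
    rw [h6.rk, h.dim, hj, add_mul]; omega) hc
  obtain ⟨b, hb, hb'⟩ := h5.nd.exists_sim_comm hr2 hq (g := g') (OG_ext fun v => Subtype.ext (by
      have : ∀ n v, (((g' ^ n).1 v : perp Q (fixS g)) : V) = (g ^ n).1 v := fun n => by
        induction n with
        | zero => exact fun _ => rfl
        | succ n ih => exact fun v => by rw [pow_succ, pow_succ, OG_mul_apply, ih]; rfl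
      rw [this, hg]; rfl))
    (fun v hv => Subtype.ext (Submodule.disjoint_def.1 hW.disjoint _
      (mem_fixS.2 (congrArg Subtype.val hv)) v.2)) hc
  obtain ⟨e, he, he'⟩ := exists_glue hW a b ha hb
  have h8 : ∀ v, e (g.1 v) = g.1 (e v) := fun v => by
    obtain ⟨w, z, rfl⟩ := exists_add_of_isCompl hW v
    rw [he', map_add g.1, map_add g.1, mem_fixS.1 w.2, mem_fixS.1 (a w).2,
      show g.1 z = g'.1 z from rfl, he', hb']; rfl
  let δ : OSim Q := ⟨ofLinear e c hc he, rfl⟩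
  have h9 : Commute δ (oS Q g) := Subtype.ext (ext' h8 (fun _ => rfl) (by simp [mul_c]))
  have h10 : mu Q δ = -1 := hc'
  rcases Int.units_eq_one_or (h.dk δ) with h11 | h11
  · exact ⟨δ, h9, h10, h11⟩
  by_cases h0 : fixS g = ⊥
  · have h12 : ∀ v, g.1 v = v → v = 0 := fun v hv => by simpa [h0] using mem_fixS.2 hv
    rw [h.dk_eq h2 (s := δ) (x := 1) (((h.nd.det_of_comm h2 h.dim (inj_sq_of_prime hr.out hr2
      (og_pow hg) (one_notMem_rts h12)) e hc he).1 h8).trans (by simp; rfl))] at h11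
    exact absurd h11 (by decide)
  · have := Submodule.nontrivial_iff_ne_bot.2 h0
    obtain ⟨v, hv⟩ := h6.nd.exists_ne_zero
    refine ⟨δ * oS Q (refl Q v), h9.mul_left (Commute.map ?_ _), by simp [h10],
      by simp [h11, dickson_refl h.nd h.good (v := v) hv]⟩
    rw [Commute, SemiconjBy, eq_comm, ← mul_inv_eq_iff_eq_mul, conj_refl, mem_fixS.1 v.2]

theorem classes_odd {X : Type*} [Group X] (h : Ev Q m) {A : SemiSim Q Q →* X}
    (hA : A.ker = (scalar Q).range) {x : X} (hx : x ∈ (OSim Q).map A) (hxr : orderOf x = r) :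
    (∀ y, (IsConjUnder ((ZΩ Q).map A) x y ↔ IsConjUnder (h.Sp.map A) x y) ∧
      (IsConjUnder ((h.dik.ker.map (ofOG Q)).map A) x y ↔ IsConjUnder (h.Sp.map A) x y)) ∧
    ∀ y, IsConjUnder ((ofOG Q).range.map A) x y ↔ IsConjUnder ((OSim Q).map A) x y := by
  have := h.nontrivial
  obtain ⟨j, hj⟩ := hr.out.odd_of_ne_two hr2
  obtain ⟨g, hg, rfl⟩ : ∃ g : OG Q, g ^ r = 1 ∧ A (ofOG Q g) = x := by
    obtain ⟨s, hs, rfl⟩ := hx
    obtain ⟨z, hz⟩ : s ^ r ∈ (scalar Q).range := by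
      rw [← hA, MonoidHom.mem_ker, map_pow, ← hxr, pow_orderOf_eq_one]
    obtain ⟨a, g, rfl⟩ := exists_of_mu hs (by
      have := congrArg (mu Q) hz
      rwa [mu_scalar, map_pow, hj, pow_succ, pow_mul, Int.units_sq, one_pow, one_mul,
        eq_comm] at this)
    rw [map_eq_of_scalar hA] at hxr ⊢
    obtain ⟨w, hw⟩ : ofOG Q (g ^ r) ∈ (scalar Q).range := by
      rw [← hA, MonoidHom.mem_ker, map_pow, map_pow, ← hxr, pow_orderOf_eq_one]
    rcases eq_one_or_negOne_of_smul (g := g ^ r) (c := w) (congrArg SemiSim.c hw)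
      (fun v => (congrArg (fun s : SemiSim Q Q => s.e v) hw).symm) with e | e
    · exact ⟨g, e, rfl⟩
    · refine ⟨negOne Q * g, ?_, by rw [map_mul, ← scalar_neg_one, map_eq_of_scalar hA]⟩
      rw [Commute.mul_pow (negOne_comm g).symm, e, hj, pow_succ, pow_mul, pow_two, negOne_mul_self,
        one_pow, one_mul, negOne_mul_self]
  have h1 : g ≠ 1 := by
    rintro rfl
    simp only [map_one, orderOf_one] at hxr
    exact hr.out.one_lt.ne hxr
  obtain ⟨k, k1, k2, k3⟩ := h.nd.exists_comm_sp hr2 hq h2 hg h1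
  obtain ⟨δ, d1, d2, d3⟩ := exists_comm_mu hr2 hq h2 h hg
  have d4 : Commute δ.1 (ofOG Q g) := congrArg Subtype.val d1
  have key : ∀ u ∈ h.Sp, ∃ t, Commute t (ofOG Q g) ∧ u * t ∈ ZΩ Q := by
    have k4 : ∀ u ∈ h.Sp, mu Q u = 1 → ∃ t, Commute t (ofOG Q g) ∧ u * t ∈ ZΩ Q := by
      intro u hu e
      obtain ⟨z, g', e1, rfl⟩ := h.exists_of_mem_Sp hu e
      rcases Int.units_eq_one_or (h.sp g') with e2 | e2
      · exact ⟨1, Commute.one_left _, mem_ZΩ.2 ⟨z, g', (h.nd.mem_commutator_iff h.good _).2 ⟨e1, e2⟩,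
          mul_one _⟩⟩
      · exact ⟨_, k1.map (ofOG Q), mem_ZΩ.2 ⟨z, g' * k, (h.nd.mem_commutator_iff h.good _).2
          ⟨by simp [e1, k2], by simp [e2, k3]⟩, by rw [map_mul, mul_assoc]⟩⟩
    intro u hu
    rcases Int.units_eq_one_or (mu Q u) with e | e
    · exact k4 u hu e
    · obtain ⟨t, t1, t2⟩ := k4 (u * δ) (mul_mem hu (h.mem_Sp.2 d3)) (by simp [e, d2])
      exact ⟨δ * t, d4.mul_left t1, by rwa [← mul_assoc]⟩
  have hZ : ∀ z, A (scalar Q z) = 1 := fun z => show _ ∈ A.ker from hA ▸ ⟨z, rfl⟩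
  refine ⟨fun y => ⟨isConjUnder_map_iff A h.ZΩ_le_Sp key y, isConjUnder_iff_of
    (Subgroup.map_mono ?_) ?_ y⟩, isConjUnder_iff_of (Subgroup.map_mono ?_) ?_⟩
  · rintro _ ⟨g, hg, rfl⟩
    exact h.ofOG_mem_Sp.2 hg
  · rintro _ ⟨u, hu, rfl⟩
    obtain ⟨t, t1, t2⟩ := key u hu
    obtain ⟨z, g', hg', e⟩ := mem_ZΩ.1 t2
    exact ⟨_, t1.map A, _, ⟨g', ((h.nd.mem_commutator_iff h.good _).1 hg').1, rfl⟩, by
      rw [← map_mul, e, map_eq_of_scalar hA]⟩
  · rintro _ ⟨g, rfl⟩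
    exact (oS Q g).2
  · rintro _ ⟨u, hu, rfl⟩
    rcases Int.units_eq_one_or (mu Q u) with e | e
    · obtain ⟨z, g', rfl⟩ := exists_of_mu hu e
      exact ⟨1, Commute.one_left _, _, ⟨g', rfl⟩, by rw [mul_one, map_eq_of_scalar hA]⟩
    · obtain ⟨z, g', e'⟩ := exists_of_mu (mul_mem hu δ.2) (by simp [e, d2])
      exact ⟨_, d4.map A, _, ⟨g', rfl⟩, by rw [← map_mul, e', map_eq_of_scalar hA]⟩

end Odd

theorem classes_odd' {ι : Type} [Fintype ι] [DecidableEq ι] {Q : QuadraticForm F (ι → F)}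
    (h : Ev Q m) {p : ℕ} [Fact p.Prime] [CharP F p] (hp : p ≠ 2) {x : MulAut (POmega F ⇑Q)}
    (hx : x ∈ pgoAut F ⇑Q) {r : ℕ} (hr : r.Prime) (hro : Odd r) (hrp : r ≠ p) (hxr : orderOf x = r) :
    (∀ y, (IsConjUnder (Inn (POmega F ⇑Q)) x y ↔ IsConjUnder (h.Sp.map (aut Q)) x y) ∧
      (IsConjUnder (psoAut F ⇑Q) x y ↔ IsConjUnder (h.Sp.map (aut Q)) x y)) ∧
    ∀ y, IsConjUnder (poAut F ⇑Q) x y ↔ IsConjUnder (pgoAut F ⇑Q) x y := by
  have := Fact.mk hr
  have : Nonempty ι := Fintype.card_pos_iff.1 (by have := h.five; simp at this; omega)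
  have h2 : (2 : F) ≠ 0 := fun e => hp ((Nat.prime_dvd_prime_iff_eq Fact.out Nat.prime_two).1
    ((CharP.cast_eq_zero_iff F p 2).1 e))
  obtain ⟨n, hp', hn⟩ := FiniteField.card F p
  rw [pgoAut_eq] at hx ⊢
  rw [inn_eq_ZΩ h.nd h.five, psoAut_eq h.nd h.good h2, poAut_eq h.nd]
  exact classes_odd (by rintro rfl; exact absurd hro (by decide)) (fun e => hrp
    ((Nat.prime_dvd_prime_iff_eq hr hp').1 (hr.dvd_of_dvd_pow (hn ▸ (ZMod.natCast_eq_zero_iff _ _).1 e))))
    h2 h (ker_aut h.nd h.five) hx hxr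

end Cfsg.Agent.H13
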