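import Mathlib
import Cfsg.Agent.H13.GA5

/-!
Splitting of classes of graph involutions of even-dimensional orthogonal groups.
-/

set_option autoImplicit false

namespace Cfsg.Agent.H13

open Module H28 QuadraticMap SemiSim

universe u

variable {F : Type u} {V : Type*} [Field F] [AddCommGroup V] [Module F V] [FiniteDimensional F V]
  {Q : QuadraticForm F V} {m : ℕ} (h2 : (2 : F) ≠ 0)
include h2

theorem ND.rk_add_rk_neg (hQ : ND Q) {g : OG Q} (hg : g ^ 2 = 1) :
    finrank F (fixS (negOne Q * g)) = rk g := by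
  rw [rk, ← hQ.perp_fixS]
  refine congrArg (fun U : Submodule F V => finrank F U) <| le_antisymm (fun v hv => mem_perp.2 fun w hw => mul_left_cancel₀ h2 ?_) fun v hv =>
    mem_fixS.2 (by rw [OG_mul_apply, hQ.neg_of_perp hg hv, negOne_apply, neg_neg])
  have h1 := OG_polar g w v
  rw [mem_fixS.1 hw, show g.1 v = -v from neg_eq_iff_eq_neg.1 (mem_fixS.1 hv), polar_neg_right] at h1
  linear_combination -h1

variable [Fintype F]

theorem graph_key (h : Ev Q m) {t : SemiSim Q Q} {g : OG Q} {w : Fˣ} (ht : mu Q t = -1)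
    (hg : h.dik g = -1) (e : ofOG Q (t.conj g) = scalar Q w * ofOG Q g) :
    t.conj g = negOne Q * g ∧ disc Q = -1 := by
  have h1 : (w : F) ^ 2 = 1 := by simpa [mul_c] using (congrArg SemiSim.c e).symm
  have h3 := spinor_conj h.nd h.good t g
  rw [if_neg (by rw [hg]; decide), ht] at h3
  obtain rfl | rfl : w = 1 ∨ w = -1 := (sq_eq_one_iff.1 h1).imp Units.ext Units.ext
  · rw [map_one, one_mul] at e
    rw [ofOG_injective e, left_eq_mul] at h3
    exact absurd h3 (by decide)
  · rw [scalar_neg_one, ← map_mul] at e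
    rw [ofOG_injective e, map_mul, mul_comm, mul_right_inj, h.nd.spinor_negOne _ h2, h.dim, pow_mul,
      Int.units_sq, one_pow, one_mul] at h3
    exact ⟨ofOG_injective e, h3⟩

variable (h : Ev Q m) {s : OSim Q} {z : Fˣ} (hs : s * s = zS Q z) (hd : h.dk s = -1)
include hs hd

theorem graph_c : s.1.c = z := by
  have h1 : ∀ v, s.1.e (s.1.e v) = (z : F) • v := fun v => congrArg (fun s : OSim Q => s.1.e v) hs
  have h3 : s.1.c ^ 2 = z ^ 2 := by
    simpa [mul_c, H28.mem_Sim.1 s.2, pow_two] using congrArg (fun s : OSim Q => s.1.c) hs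
  refine (sq_eq_sq_iff_eq_or_eq_neg.1 h3).resolve_right fun e => ?_
  rw [h.dk_eq h2 (x := 1) ((h.nd.det_of_skew h2 h.dim (k := (H28.lin s : V →ₗ[F] V)) (fun x y => by
      obtain ⟨y, rfl⟩ := (H28.lin s).surjective y
      refine (polar_of_sim (H28.lin s : V →ₗ[F] V) (Sim_Q s) x y).trans ?_
      simp [h1, e]) (fun x hx => (map_eq_zero_iff _ (H28.lin s).injective).1 hx) (H28.lin s) s.1.c_ne one_ne_zero
      (Sim_Q s) fun v => (one_smul _ _).symm).trans (by simp))] at hd
  exact absurd hd (by decide)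

theorem graph_sq (e : mu Q s = 1) : ∃ a g, s = zS Q a * oS Q g ∧ g ^ 2 = 1 ∧ h.dik g = -1 := by
  have h1 := graph_c h2 h hs hd
  obtain ⟨a, g, rfl⟩ := exists_zS_oS (s := s) (sgn_eq_one_iff.1 e)
  refine ⟨a, g, rfl, OG_ext fun v => smul_right_injective V z.ne_zero ?_, by simpa using hd⟩
  have := congrArg (fun s : OSim Q => s.1.e v) hs
  simp only [Subgroup.coe_mul, mul_e, coe_zS, coe_oS, scalar_e, ofOG_e, _root_.map_smul, smul_smul,
    mul_c, scalar_c, ofOG_c, map_one, mul_one] at this h1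
  rw [← pow_two, h1] at this
  exact this

theorem exists_comm_graph : ∃ k : OG Q, s.1.conj k = k ∧ h.dik k = 1 ∧ h.sp k = -1 := by
  rcases Int.units_eq_one_or (mu Q s) with e | e
  · obtain ⟨a, g, rfl, h3, -⟩ := graph_sq h2 h hs hd e
    obtain ⟨c, hc, hc'⟩ := exists_nonsquare h2
    have key : ∀ (g' : OG Q) (a' : F), a' ≠ 0 → g' ^ 2 = 1 → 2 ≤ finrank F (fixS g') →
        (∀ v, (zS Q a * oS Q g).1.e v = a' • g'.1 v) →
        ∃ k : OG Q, (zS Q a * oS Q g).1.conj k = k ∧ h.dik k = 1 ∧ h.sp k = -1 := by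
      intro g' a' ha h4 h5 h6
      obtain ⟨u, hu⟩ := (h.nd.nd_fixS h2 h4).exists_eq h5 1
      obtain ⟨v, hv⟩ := (h.nd.nd_fixS h2 h4).exists_eq h5 c
      change Q u = 1 at hu
      change Q v = c at hv
      refine ⟨refl Q u * refl Q v, ?_, by simp [dickson_refl, hu, hv, hc], by
        simp [spinor_refl, hu, hv, hc, hc', sgn_one]⟩
      rw [map_mul, SemiSim.conj_refl, SemiSim.conj_refl, h6, h6, mem_fixS.1 u.2, mem_fixS.1 v.2,
        refl_smul ha, refl_smul ha]
    by_cases h5 : 2 ≤ finrank F (fixS g)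
    · exact key g a a.ne_zero h3 h5 fun _ => rfl
    · have := rk_add_finrank_fixS g
      have := h.five
      exact key (negOne Q * g) (-a) (by simp) (by
        rw [Commute.mul_pow (negOne_comm g).symm, h3, pow_two, negOne_mul_self, one_mul])
        (by rw [h.nd.rk_add_rk_neg h2 h3]; omega) fun v => by
          rw [OG_mul_apply, negOne_apply, smul_neg, neg_smul, neg_neg]; rfl
  have h0 := graph_c h2 h hs hd
  have h1 : ∀ v, H28.lin s (H28.lin s v) = (z : F) • v := fun v => congrArg (fun s : OSim Q => s.1.e v) hs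
  have h3 : ∀ x y, polar Q (H28.lin s x) (H28.lin s y) = z * polar Q x y := fun x y =>
    h0 ▸ polar_of_sim (H28.lin s : V →ₗ[F] V) (Sim_Q s) x y
  have h4 : ∀ x y, polar Q (H28.lin s x) y = polar Q x (H28.lin s y) := fun x y => by
    obtain ⟨y, rfl⟩ := (H28.lin s).surjective y
    rw [h3, h1]; simp
  have h5 : ∀ x, Q (H28.lin s x) = z * Q x := fun x => h0 ▸ Sim_Q s x
  have hz : ¬ IsSquare (z : F) := h0 ▸ sgn_eq_neg_one_iff.1 e
  obtain ⟨v, v1, v2⟩ : ∃ v, Q v ≠ 0 ∧ polar Q v (H28.lin s v) = 0 := by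
    obtain ⟨x, x0, x1⟩ := exists_singular (LinearMap.BilinMap.toQuadraticMap
      (LinearMap.BilinForm.compRight (polarBilin Q) (H28.lin s : V →ₗ[F] V))) (by have := h.five; omega)
    change polar Q x (H28.lin s x) = 0 at x1
    by_cases x2 : Q x = 0
    swap
    · exact ⟨x, x2, x1⟩
    obtain ⟨y, hy⟩ := h.nd.exists_polar_eq (e := ![x, H28.lin s x]) (LinearIndependent.pair_iff.2
      fun a b hab => by
        have := congrArg (H28.lin s) hab
        rw [map_add, _root_.map_smul, _root_.map_smul, h1, map_zero] at this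
        have h6 : (a ^ 2 - b ^ 2 * z) • x = 0 := by
          linear_combination (norm := module) a • hab - b • this
        rw [smul_eq_zero, or_iff_left x0] at h6
        by_cases hb : b = 0
        · exact ⟨by simpa [hb] using h6, hb⟩
        · exact absurd ⟨a / b, by field_simp; linear_combination -h6⟩ hz) ![1, 0]
    have y1 : polar Q y x = 1 := hy 0
    have y2 : polar Q y (H28.lin s x) = 0 := hy 1
    refine ⟨y + (1 - Q y) • x + (-polar Q y (H28.lin s y) / (2 * z)) • H28.lin s x, ?_, ?_⟩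
    · simp [Q_add, Q_smul, x1, x2, y1, y2, h5, -H28.lin_apply]
    · simp only [map_add, _root_.map_smul, h1, polar_add_left, polar_add_right, polar_smul_left,
        polar_smul_right, h3, x1, y1, y2, ← h4 x y, polar_comm Q (H28.lin s x), polar_comm Q x y,
        polar_self', x2, smul_eq_mul]
      field_simp; ring
  have v3 : Q (H28.lin s v) ≠ 0 := by simp [h5, v1, -H28.lin_apply]
  refine ⟨refl Q v * refl Q (H28.lin s v), ?_, by simp [dickson_refl, v1, v3, -H28.lin_apply], ?_⟩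
  · rw [map_mul, SemiSim.conj_refl, SemiSim.conj_refl, ← H28.lin_apply, ← H28.lin_apply, h1,
      refl_smul z.ne_zero, (refl_commute v2).eq]
  · rw [map_mul, spinor_refl _ _ v1, spinor_refl _ _ v3, h5, sgn_mul z.ne_zero v1,
      sgn_eq_neg_one_iff.2 hz, mul_comm, mul_assoc, Int.units_mul_self, mul_one]

theorem mu_of_comm_graph (H : disc Q = 1 ∨ Even m) {t : OSim Q} (ht : h.dk t = 1) {w : Fˣ}
    (e : t.1 * s * t.1⁻¹ = scalar Q w * s) : mu Q t = 1 := by
  refine (Int.units_eq_one_or _).resolve_right fun h1 => ?_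
  have key : ∀ (a : Fˣ) (g : OG Q), h.dik g = -1 →
      t.1 * (scalar Q a * ofOG Q g) * t.1⁻¹ = scalar Q w * (scalar Q a * ofOG Q g) →
      t.1.conj g = negOne Q * g ∧ disc Q = -1 := fun a g hg e => graph_key h2 h h1 hg (w := w) (by
    rw [← mul_assoc, Sim_mul_scalar t.2, ← mul_assoc, ← map_mul, mul_comm w, map_mul, mul_assoc,
      mul_assoc, mul_assoc, mul_right_inj, ← mul_assoc] at e
    rw [← conj_ofOG, e])
  rcases Int.units_eq_one_or (mu Q s) with h3 | h3
  · obtain ⟨a, g, rfl, h4, h5⟩ := graph_sq h2 h hs hd h3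
    obtain ⟨h6, h7⟩ := key a g h5 e
    rcases H with H | H
    · exact absurd (H.symm.trans h7) (by decide)
    have h8 : fixS (negOne Q * g) = (fixS g).map (H28.lin t : V →ₗ[F] V) := by
      ext v
      obtain ⟨v, rfl⟩ := (H28.lin t).surjective v
      rw [← h6, Submodule.mem_map_equiv, LinearEquiv.symm_apply_apply, mem_fixS, mem_fixS,
        H28.lin_apply, conj_apply_e, t.1.e.injective.eq_iff]
    have h9 := h.nd.rk_add_rk_neg h2 h4
    have := rk_add_finrank_fixS g
    rw [h8, LinearEquiv.finrank_map_eq] at h9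
    rw [(dickson_eq_one_iff _ _ g).2 ((show m = rk g by have := h.dim; omega) ▸ H)] at h5
    exact absurd h5 (by decide)
  rcases H with H | H
  · obtain ⟨a, g, h4⟩ := exists_zS_oS (s := s * t) (sgn_eq_one_iff.1 (show mu Q (s * t) = 1 by
      rw [map_mul, h1, h3]; decide))
    have h5 := congrArg h.dk h4
    refine absurd (H.symm.trans (key a g (by simpa [hd, ht] using h5.symm) ?_).2) (by decide)
    rw [← show s.1 * t.1 = scalar Q a * ofOG Q g from congrArg Subtype.val h4, ← mul_assoc _ s.1 t.1,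
      ← mul_assoc, ← e]
    group
  · have h0 := graph_c h2 h hs hd
    rw [h.dk_eq h2 (x := 1) ((det_of_sq (h0 ▸ sgn_eq_neg_one_iff.1 h3) (fun v =>
      congrArg (fun s : OSim Q => s.1.e v) hs) h.dim).trans (by simp [h0, H.neg_pow]))] at hd
    exact absurd hd (by decide)

omit hs in
theorem split_graph {X : Type*} [Group X] {A : SemiSim Q Q →* X} (hA : A.ker = (scalar Q).range)
    (ho : orderOf (A s) = 2) :
    (splitClassCount (h.Sp.map A) ((ZΩ Q).map A) (A s) = 1 ∨
      splitClassCount (h.Sp.map A) ((ZΩ Q).map A) (A s) = 2) ∧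
    (disc Q = 1 ∨ Even m → splitClassCount (h.Sp.map A) ((ZΩ Q).map A) (A s) = 2) := by
  obtain ⟨z, hz⟩ : s.1 * s ∈ (scalar Q).range := by
    rw [← hA, MonoidHom.mem_ker, map_mul, ← pow_two, ← ho, pow_orderOf_eq_one]
  have hs : s * s = zS Q z := Subtype.ext hz.symm
  have h1 := splitClassCount_eq (A.comp h.Sp.subtype) ((ZΩ Q).subgroupOf h.Sp) (A s)
  rw [MonoidHom.range_comp, Subgroup.range_subtype, ← Subgroup.map_map,
    Subgroup.subgroupOf_map_subtype, inf_eq_left.2 h.ZΩ_le_Sp] at h1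
  rw [h1]
  have h3 : ((mu Q).comp h.Sp.subtype).ker.index = 2 := by
    obtain ⟨δ, d1, d2⟩ := h.exists_mu h2
    rw [Subgroup.index_ker, MonoidHom.range_eq_top.2 fun x => by
      rcases Int.units_eq_one_or x with rfl | rfl
      exacts [⟨1, map_one _⟩, ⟨⟨δ, h.mem_Sp.2 d1⟩, d2⟩]]
    simp
  have h4 : ((mu Q).comp h.Sp.subtype).ker ≤ (ZΩ Q).subgroupOf h.Sp ⊔
      (Subgroup.centralizer {A s}).comap (A.comp h.Sp.subtype) := by
    rintro ⟨u, hu⟩ e
    obtain ⟨k, k1, k2, k3⟩ := exists_comm_graph h2 h hs hd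
    obtain ⟨a, g, e1, rfl⟩ := h.exists_of_mem_Sp hu e
    rcases Int.units_eq_one_or (h.sp g) with e2 | e2
    · exact Subgroup.mem_sup_left (mem_ZΩ.2 ⟨a, g, (h.nd.mem_commutator_iff h.good _).2 ⟨e1, e2⟩, rfl⟩)
    · have h5 : scalar Q a * ofOG Q (g * k⁻¹) ∈ ZΩ Q := mem_ZΩ.2 ⟨a, _,
        (h.nd.mem_commutator_iff h.good _).2 ⟨by simp [e1, k2], by simp [e2, k3]⟩, rfl⟩
      have := Subgroup.mul_mem_sup (S := (ZΩ Q).subgroupOf h.Sp)
        (T := (Subgroup.centralizer {A s}).comap (A.comp h.Sp.subtype))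
        (x := ⟨_, h.ZΩ_le_Sp h5⟩) (y := ⟨_, h.ofOG_mem_Sp.2 k2⟩) h5
        (Subgroup.mem_centralizer_singleton_iff.2 (by
          change A (ofOG Q k) * _ = _ * A (ofOG Q k)
          rw [← map_mul, ← map_mul, ← k1, ← conj_ofOG, inv_mul_cancel_right, conj_ofOG, k1]))
      convert this using 1
      exact Subtype.ext (by simp [mul_assoc])
  refine ⟨(Nat.dvd_prime Nat.prime_two).1 (h3 ▸ Subgroup.index_dvd_of_le h4), fun H => ?_⟩
  rw [← h3, le_antisymm h4 (sup_le (fun u hu => ZΩ_le_mu hu) fun u hu => ?_)]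
  obtain ⟨w, hw⟩ : u.1 * s * u.1⁻¹ * s.1⁻¹ ∈ (scalar Q).range := by
    rw [← hA, MonoidHom.mem_ker, map_mul, map_mul, map_mul,
      show A u * A s = A s * A u from Subgroup.mem_centralizer_singleton_iff.1 hu]
    simp
  exact mu_of_comm_graph h2 h hs hd H (t := ⟨u, h.Sp_le u.2⟩) (h.mem_Sp.1 u.2) (w := w)
    (by rw [hw]; simp)

end Cfsg.Agent.H13
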