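import Mathlib
import Cfsg.Agent.H13.Wall2

/-!
Classes of elements of prime order `r` in `PGL` and `PGU` when the centre has order divisible
by `r`.
-/

set_option autoImplicit false

namespace Cfsg.Agent.H13

open Module H28 Polynomial MulAction

section Comb
variable {H : Type*} [CommGroup H] {r n : ℕ}

/-- multisets on `H` of size `n` with a translation fixing them -/
def PT (H : Type*) [CommGroup H] (n : ℕ) := {p : H × Sym H n // p.2.map (p.1 * ·) = p.2}

instance : MulAction H (PT H n) where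
  smul h p := ⟨(p.1.1, p.1.2.map (h * ·)), by
    conv_rhs => rw [← p.2]
    simp only [Sym.map_map, Function.comp_def, mul_left_comm]⟩
  one_smul p := Subtype.ext (Prod.ext rfl (by
    change p.1.2.map (1 * ·) = _
    simp))
  mul_smul a b p := Subtype.ext (Prod.ext rfl (by
    change p.1.2.map (a * b * ·) = (p.1.2.map (b * ·)).map (a * ·)
    simp only [Sym.map_map, Function.comp_def, mul_assoc]))

variable [Fintype H] (hr : r.Prime) (hH : Nat.card H = r)
include hr hH

theorem sym_fix_iff {h : H} (h1 : h ≠ 1) (S : Sym H n) :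
    S.map (h * ·) = S ↔ S.1 = (n / r) • Finset.univ.val ∧ r ∣ n := by
  classical
  have := Fact.mk hr
  constructor
  · intro e
    have h2 : ∀ x, S.1.count (h * x) = S.1.count x := fun x => by
      conv_lhs => rw [← e]
      exact Multiset.count_map_eq_count' _ _ (mul_right_injective h) x
    have h3 : S.1 = S.1.count 1 • Finset.univ.val := Multiset.ext.2 fun x => by
      obtain ⟨k, rfl⟩ := mem_powers_of_prime_card hH h1 (g' := x)
      rw [Multiset.count_nsmul, Multiset.count_univ, mul_one]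
      induction k with
      | zero => simp
      | succ k ih => simp only [pow_succ', h2, ih]
    have h4 := congrArg Multiset.card h3
    rw [S.2, Multiset.card_nsmul, Finset.card_val, Finset.card_univ, ← Nat.card_eq_fintype_card,
      hH] at h4
    exact ⟨by rwa [Nat.div_eq_of_eq_mul_left hr.pos h4], Dvd.intro_left _ h4.symm⟩
  · rintro ⟨e, -⟩
    refine Subtype.ext (show S.1.map _ = _ from ?_)
    rw [e, Multiset.map_nsmul]
    exact congrArg _ (Multiset.map_univ_val_equiv (Equiv.mulLeft h))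

theorem card_orbits_PT : Nat.card (orbitRel.Quotient H (PT H n)) * r =
    (n + r - 1).choose (r - 1) + (r ^ 2 - 1) * if r ∣ n then 1 else 0 := by
  classical
  have : Finite (PT H n) := Subtype.finite
  have := Fintype.ofFinite (orbitRel.Quotient H (PT H n))
  have := fun h : H => Fintype.ofFinite (fixedBy (PT H n) h)
  have h1 := sum_card_fixedBy_eq_card_orbits_mul_card_group H (PT H n)
  simp only [← Nat.card_eq_fintype_card, hH] at h1
  have h2 : ∀ h : H, Nat.card (fixedBy (PT H n) h) =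
      ∑ ω : H, Nat.card {S : Sym H n // S.map (ω * ·) = S ∧ S.map (h * ·) = S} := fun h => by
    rw [← Nat.card_sigma]
    exact Nat.card_congr ⟨fun p => ⟨p.1.1.1, p.1.1.2, p.1.2, congrArg (·.1.2) p.2⟩,
      fun p => ⟨⟨(p.1, p.2.1), p.2.2.1⟩, Subtype.ext (Prod.ext rfl p.2.2.2)⟩,
      fun _ => rfl, fun _ => rfl⟩
  rw [← h1, Finset.sum_congr rfl fun h _ => h2 h, ← Fintype.sum_prod_type',
    ← Finset.add_sum_erase _ _ (Finset.mem_univ 1), Finset.sum_congr rfl
      (g := fun _ => if r ∣ n then 1 else 0) fun p hp => ?_]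
  · have := hr.pos
    rw [Nat.card_eq_fintype_card] at hH
    simp [Sym.card_sym_eq_choose, hH, pow_two,
      Nat.choose_symm_of_eq_add (show n + r - 1 = r - 1 + n by omega), add_comm r n]
  have h3 : ∀ S : Sym H n, (S.map (p.2 * ·) = S ∧ S.map (p.1 * ·) = S) ↔
      S.1 = (n / r) • Finset.univ.val ∧ r ∣ n := fun S => by
    by_cases h4 : p.1 = 1 <;> by_cases h5 : p.2 = 1
    · exact absurd (Prod.ext h4 h5) (Finset.ne_of_mem_erase hp)
    all_goals simp [h4, h5, sym_fix_iff hr hH]
  simp only [h3]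
  split_ifs with h
  · exact Nat.card_eq_one_iff_unique.2 ⟨⟨fun a b => Subtype.ext (Subtype.ext
      (a.2.1.trans b.2.1.symm))⟩, ⟨⟨⟨_, by
        simp [← Nat.card_eq_fintype_card, hH, Nat.div_mul_cancel h]⟩, rfl, h⟩⟩⟩
  · simp [h]

end Comb

variable {F V : Type*} [Field F] [AddCommGroup V] [Module F V] [FiniteDimensional F V]

local notation "K" => AlgebraicClosure F
local notation "ι" => algebraMap F (AlgebraicClosure F)

theorem rts_smul' {c : F} (hc : c ≠ 0) (a : End F V) : rts (c • a) = (rts a).map (ι c * ·) := by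
  have h : ι c ≠ 0 := by simpa
  rw [rts_eq (finBasis F V), rts_eq (finBasis F V), ← roots_scaleRoots _ h.isUnit, map_smul,
    Matrix.map_smul' _ _ _ (map_mul ι)]
  generalize (LinearMap.toMatrix (finBasis F V) (finBasis F V) a).map ι = A
  refine congrArg _ (Polynomial.funext fun t => ?_)
  rw [← mul_inv_cancel_left₀ h t, scaleRoots_eval_mul, Matrix.eval_charpoly, Matrix.eval_charpoly,
    Matrix.charpoly_natDegree_eq_dim, ← Matrix.det_smul, smul_sub, map_mul, Matrix.scalar_apply,
    ← Matrix.smul_eq_diagonal_mul]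

theorem card_classes_proj [Finite F] [Nontrivial V] {G : Type*} [Group G] [Finite G] {ρ : G →* End F V}
    (hZ : ∀ g, g ∈ Subgroup.center G ↔ ∃ c : F, ρ g = c • 1) {z : ℤ}
    (hμ : ∀ a : K, a ^ (z - 1) = 1 ↔ ∃ g c, ρ g = c • 1 ∧ ι c = a)
    (hc : ∀ x y, Sim (ρ x) (ρ y) → IsConj x y) (h1 : ∀ g, (rts (ρ g)).map (· ^ z) = rts (ρ g))
    {r : ℕ} (hr : r.Prime) (hrz : (r : ℤ) ∣ z - 1) (h0 : (((z - 1).natAbs : ℕ) : F) ≠ 0)
    (h2 : ∀ M : Multiset K, M.card = finrank F V → M.map (· ^ z) = M →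
      (∀ x ∈ M, x ^ ((z - 1).natAbs * r) = 1) → ∃ g, ρ g ^ ((z - 1).natAbs * r) = 1 ∧ rts (ρ g) = M) :
    Nat.card {C : ConjClasses (G ⧸ Subgroup.center G) // ∃ g, ConjClasses.mk g = C ∧ orderOf g = r} =
      ((finrank F V + r - 1).choose (r - 1) - r - if r ∣ finrank F V then 1 else 0) / r +
        r * if r ∣ finrank F V then 1 else 0 := by
  classical
  have := Fact.mk hr
  have hr0 : (r : F) ≠ 0 := fun h => h0 (by
    obtain ⟨k, hk⟩ := Int.natCast_dvd.1 hrz
    simp [hk, h])
  have : NeZero (r : K) := ⟨by rwa [← map_natCast ι, _root_.map_ne_zero]⟩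
  have : NeZero r := ⟨hr.ne_zero⟩
  have hk := Nat.cast_mul (α := F) _ r ▸ mul_ne_zero h0 hr0
  let H := rootsOfUnity r K
  have hH : Nat.card H = r :=
    (HasEnoughRootsOfUnity.prim (M := K) (n := r)).choose_spec.card_rootsOfUnity
  have hH' : ∀ h : H, ((h.1 : K)) ^ (z - 1) = 1 := fun h => by
    obtain ⟨k, hk⟩ := hrz
    rw [hk, zpow_mul, zpow_natCast, (mem_rootsOfUnity' _ _).1 h.2, one_zpow]
  have hA : ∀ {x : K}, x ^ (z - 1) = 1 → x ^ (z - 1).natAbs = 1 := fun h => by
    rcases Int.natAbs_eq (z - 1) with e | e <;> rw [e] at h <;>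
      simpa only [zpow_neg, zpow_natCast, inv_eq_one] using h
  let R : G → PT H (finrank F V) → Prop := fun g p => ρ g ^ ((z - 1).natAbs * r) = 1 ∧ ∃ x : K,
    x ≠ 0 ∧ x ^ (z - 1) = p.1.1.1 ∧ rts (ρ g) = p.1.2.1.map fun h => x * h.1
  have key : ∀ g g' p p', R g p → R g' p' →
      (IsConj (g : G ⧸ Subgroup.center G) g' ↔ orbitRel H _ p' p) := by
    rintro g g' p p' ⟨a1, x, x0, x1, x2⟩ ⟨b1, y, y0, y1, y2⟩
    have h3 : ∀ (s : G) (c : F), ρ s = c • 1 → rts (ρ (g * s)) = p.1.2.1.map fun h => ι c * x * h.1 :=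
      fun s c hs => by
        rw [map_mul, hs, mul_smul_comm, mul_one, rts_smul' (by
          rintro rfl; exact ((Group.isUnit s).map ρ).ne_zero (by simpa using hs)), x2, Multiset.map_map]
        simp [mul_assoc]
    constructor
    · intro h
      obtain ⟨u, hu⟩ := isConj_iff.1 h
      obtain ⟨u, rfl⟩ := QuotientGroup.mk_surjective u
      obtain ⟨s, hs, e⟩ := (QuotientGroup.mk'_eq_mk' _).1 (show QuotientGroup.mk' _ (u * g * u⁻¹) =
        QuotientGroup.mk' _ g' from hu)
      obtain ⟨c, hc'⟩ := (hZ s).1 hs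
      have h4 := (sim_of_isConj ρ (isConj_iff.2 ⟨u, show u * (g * s) * u⁻¹ = g' by
        rw [← e, ← mul_assoc, mul_assoc _ s, ← Subgroup.mem_center_iff.1 hs, ← mul_assoc]⟩)).rts_eq
      rw [h3 s c hc', y2] at h4
      obtain ⟨h, hh⟩ := Multiset.card_pos_iff_exists_mem.1 (p.1.2.2.symm ▸ finrank_pos)
      obtain ⟨h', -, e1⟩ := Multiset.mem_map.1 (h4 ▸ Multiset.mem_map_of_mem _ hh)
      have e2 : ι c * x = y * (h' * h⁻¹).1 := by simp [← mul_assoc, e1]
      refine ⟨h' * h⁻¹, Subtype.ext (Prod.ext (Subtype.ext (Units.ext ?_)) (Subtype.ext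
        (Multiset.map_injective (f := fun h : H => y * h.1) (fun a b e => Subtype.ext (Units.ext
          (mul_left_cancel₀ y0 e))) ?_)))⟩
      · have := congrArg (· ^ (z - 1)) e2
        simp only [mul_zpow, (hμ _).2 ⟨s, c, hc', rfl⟩, hH', x1, y1, one_mul, mul_one] at this
        exact this
      · refine .trans (Multiset.map_map _ _ _) (.trans ?_ h4)
        simp [e2, mul_assoc]
    · rintro ⟨h, rfl⟩
      obtain ⟨s, c, e1, e2⟩ := (hμ (y * h.1 * x⁻¹)).1 (by
        rw [mul_zpow, mul_zpow, hH', inv_zpow, x1, y1, mul_one]; exact mul_inv_cancel₀ (Units.ne_zero _))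
      have e3 := (hZ s).2 ⟨c, e1⟩
      have := (QuotientGroup.mk' (Subgroup.center G)).map_isConj
        (hc (g * s) g' (sim_of_charpoly hk ?_ hk b1 (charpoly_eq_of_rts ?_)))
      · rwa [map_mul, show QuotientGroup.mk' _ s = 1 from (QuotientGroup.eq_one_iff s).2 e3,
          mul_one] at this
      · rw [map_mul, e1, mul_smul_comm, mul_one, _root_.smul_pow, a1, pow_mul,
          show c ^ _ = 1 from (ι).injective (by
            rw [map_pow, hA ((hμ _).2 ⟨s, c, e1, rfl⟩), map_one]), one_pow, one_smul]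
      · rw [h3 s c e1, y2, e2]
        refine .trans ?_ (Multiset.map_map _ _ _).symm
        simp [x0, mul_assoc]
  have h3 : ∀ g : G, (g : G ⧸ Subgroup.center G) ^ r = 1 → ∃ p, R g p := fun g hg => by
    obtain ⟨c, hc⟩ := (hZ _).1 ((QuotientGroup.eq_one_iff _).1 hg)
    have h4 := (hμ _).2 ⟨_, c, hc, rfl⟩
    rw [map_pow] at hc
    obtain ⟨x, hx⟩ := Multiset.card_pos_iff_exists_mem.1 ((card_rts (ρ g)).symm ▸ finrank_pos)
    have h5 := ne_zero_of_mem_rts ((LinearMap.isUnit_iff_isUnit_det _).1 ((Group.isUnit g).map ρ)).ne_zero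
    have x0 := h5 x hx
    obtain ⟨S, hS⟩ : ∃ S : Multiset H, rts (ρ g) = S.map fun h => x * h.1 := by
      have : CanLift K H (fun h => x * h.1) (· ∈ rts (ρ g)) := ⟨fun y hy =>
        ⟨rootsOfUnity.mkOfPowEq (x⁻¹ * y) (by
          rw [mul_pow, inv_pow, pow_eq_of_mem_rts hx hc, pow_eq_of_mem_rts hy hc,
            ← pow_eq_of_mem_rts hx hc, inv_mul_cancel₀ (pow_ne_zero _ x0)]), by simp [x0]⟩⟩
      obtain ⟨S, hS⟩ := CanLift.prf (β := Multiset H) (rts (ρ g)) fun _ h => h
      exact ⟨S, hS.symm⟩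
    let ω : H := rootsOfUnity.mkOfPowEq (x ^ (z - 1)) (by
      rw [← zpow_natCast, zpow_comm, zpow_natCast, pow_eq_of_mem_rts hx hc, h4])
    refine ⟨⟨(ω, ⟨S, by rw [← card_rts (ρ g), hS, Multiset.card_map]⟩), Subtype.ext
      (Multiset.map_injective (f := fun h : H => x * h.1) (fun a b e => Subtype.ext (Units.ext
        (mul_left_cancel₀ x0 e))) ?_)⟩, ?_, x, x0, rfl, hS⟩
    · refine .trans (Multiset.map_map _ _ _) (.trans ?_ ((h1 g).trans hS))
      refine .trans ?_ (congrArg _ hS.symm)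
      refine (Multiset.map_congr rfl fun h _ => ?_).trans (Multiset.map_map _ _ _).symm
      rw [Function.comp_apply, Function.comp_apply, ← sub_add_cancel z 1,
        zpow_add_one₀ (by simp [x0]), mul_zpow, hH']
      simp [ω, mul_left_comm]
    · rw [mul_comm, pow_mul, hc, _root_.smul_pow, show c ^ _ = 1 from (ι).injective (by
        rw [map_pow, hA h4, map_one]), one_pow, one_smul]
  have h4 : ∀ p, ∃ g : G, (g : G ⧸ Subgroup.center G) ^ r = 1 ∧ R g p := fun q => by
    obtain ⟨x, x0, x1⟩ : ∃ x : K, x ≠ 0 ∧ x ^ (z - 1) = q.1.1.1 := by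
      have h5 : 0 < (z - 1).natAbs := Nat.pos_of_ne_zero fun h => h0 (by simp [h])
      obtain ⟨x, hx⟩ := IsAlgClosed.exists_pow_nat_eq (q.1.1.1 : K) h5
      have x0 : x ≠ 0 := by rintro rfl; exact q.1.1.1.ne_zero (by rw [← hx, zero_pow h5.ne'])
      rcases Int.natAbs_eq (z - 1) with e | e
      · exact ⟨x, x0, by rw [e, zpow_natCast, hx]⟩
      · exact ⟨x⁻¹, by simpa, by rw [e, inv_zpow', neg_neg, zpow_natCast, hx]⟩
    have h5 : (x ^ r) ^ (z - 1) = 1 := by
      rw [← zpow_natCast, zpow_comm, x1, zpow_natCast, (mem_rootsOfUnity' _ _).1 q.1.1.2]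
    have h6 : ∀ y ∈ q.1.2.1.map fun h : H => x * h.1, y ^ r = x ^ r := fun y hy => by
      obtain ⟨h, -, rfl⟩ := Multiset.mem_map.1 hy
      rw [mul_pow, (mem_rootsOfUnity' _ _).1 h.2, mul_one]
    obtain ⟨g, g1, g2⟩ := h2 (q.1.2.1.map fun h => x * h.1) (by simp) (by
      conv_rhs => rw [← q.2]
      refine (Multiset.map_map _ _ _).trans (.trans ?_ (Multiset.map_map _ _ _).symm)
      refine Multiset.map_congr rfl fun h _ => ?_
      rw [Function.comp_apply, Function.comp_apply, ← sub_add_cancel z 1,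
        zpow_add_one₀ (by simp [x0]), mul_zpow, hH', x1]
      simp [mul_left_comm]) fun y hy => by rw [pow_mul', h6 y hy, hA h5]
    obtain ⟨s, c, e1, e2⟩ := (hμ _).1 h5
    refine ⟨g, (QuotientGroup.eq_one_iff _).2 ((hZ _).2 ⟨c, ?_⟩), g1, x, x0, x1, g2⟩
    obtain ⟨p, _⟩ := CharP.exists F
    have := Fact.mk (CharP.char_is_prime F p)
    simpa using pow_eq_smul_of_rts (p := p) (k := 0) (fun y hy => (isSS_ed hk g1 y hy).le)
      fun y hy => (h6 y (g2 ▸ hy)).trans e2.symm
  have : Nonempty (PT H (finrank F V)) := ⟨⟨(1, Sym.replicate _ 1), by simp⟩⟩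
  choose! ψ hψ using h3
  let φ : G ⧸ Subgroup.center G → orbitRel.Quotient H (PT H (finrank F V)) := fun x => ⟦ψ x.out⟧
  have h5 : ∀ x y, x ^ r = 1 → y ^ r = 1 → (IsConj x y ↔ φ x = φ y) := fun x y hx hy => by
    simpa [eq_comm (a := φ x), φ, Quotient.eq] using
      key _ _ _ _ (hψ x.out (by simpa)) (hψ y.out (by simpa))
  have := Fintype.ofFinite H
  have h6 := card_orbits_PT (n := finrank F V) hr hH
  have : Finite (PT H (finrank F V)) := Subtype.finite
  rw [card_conjClasses_eq' φ (orderOf · = r) (· ≠ φ 1) (fun x y hx hy => h5 x y (hx ▸ pow_orderOf_eq_one x)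
    (hy ▸ pow_orderOf_eq_one y)) (fun x hx e => hr.one_lt.ne' (by
      rw [← hx, isConj_one_left.1 ((h5 x 1 (hx ▸ pow_orderOf_eq_one x) (one_pow r)).2 e),
        orderOf_one])) fun y hy => ?_, show Nat.card {y // y ≠ φ 1} =
      Nat.card (orbitRel.Quotient H (PT H (finrank F V))) - 1 by
      have := Fintype.ofFinite (orbitRel.Quotient H (PT H (finrank F V))); simp]
  · generalize Nat.card _ = O at h6
    have h7 := mt Nat.choose_eq_one_iff.1 (show ¬ (r - 1 = 0 ∨ finrank F V + r - 1 = r - 1) by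
      have := hr.two_le; have := finrank_pos (R := F) (M := V); omega)
    have h8 := Nat.choose_pos (show r - 1 ≤ finrank F V + r - 1 by omega)
    have h9 := hr.pos
    split_ifs at h6 ⊢
    · obtain ⟨k, rfl⟩ := Nat.exists_eq_add_of_lt (show r < O by
        by_contra! h
        have := Nat.mul_le_mul_right r h
        rw [pow_two] at h6
        omega)
      rw [Nat.div_eq_of_eq_mul_left h9 (k := k) (by
        have := Nat.mul_pos h9 h9
        rw [pow_two, add_mul, add_mul] at h6; omega)]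
      omega
    · rw [Nat.div_eq_of_eq_mul_left h9 (k := O - 1) (by rw [Nat.sub_one_mul]; omega)]
      simp
  · obtain ⟨q, rfl⟩ := Quotient.exists_rep y
    obtain ⟨g, g1, g2⟩ := h4 q
    have h7 : φ g = ⟦q⟧ := Quotient.sound ((key _ _ _ _ g2 (hψ _ (by simpa))).1
      (by rw [QuotientGroup.out_eq']))
    exact ⟨g, orderOf_eq_prime g1 fun e => hy (by rw [← h7, e]), h7⟩

theorem card_classes_PGL [Fintype F] {n r : ℕ} (hn : 0 < n) (hr : r.Prime)
    (hrq : r ∣ Fintype.card F - 1) :
    Nat.card {C : ConjClasses (GL (Fin n) F ⧸ Subgroup.center (GL (Fin n) F)) //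
      ∃ g, ConjClasses.mk g = C ∧ orderOf g = r} =
      ((n + r - 1).choose (r - 1) - r - if r ∣ n then 1 else 0) / r + r * if r ∣ n then 1 else 0 := by
  have : Nonempty (Fin n) := ⟨⟨0, hn⟩⟩
  have h0 := Fintype.one_lt_card (α := F)
  have h1 : ((Fintype.card F : ℤ) - 1) = (Fintype.card F - 1 : ℕ) := by omega
  let φ := FiniteField.frobeniusAlgHom F K
  have hφ : (fun x => x ^ (Fintype.card F : ℤ)) = φ := funext fun x => zpow_natCast _ _
  simpa using card_classes_proj (ρ := (tl (Fin n) F).comp (Units.coeHom _)) (fun g => by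
      rw [Matrix.GeneralLinearGroup.mem_center_iff_val_mem_range_scalar]
      exact exists_congr fun c => by
        rw [eq_comm, ← Matrix.toLin'.injective.eq_iff, Matrix.scalar_apply,
          ← Matrix.smul_one_eq_diagonal, map_smul, Matrix.toLin'_one]; rfl)
    (z := Fintype.card F) (fun a => ⟨fun h => by
      have a0 : a ≠ 0 := by rintro rfl; rw [zero_zpow _ (by omega)] at h; exact zero_ne_one h
      obtain ⟨c, rfl⟩ := exists_of_pow_card (c := a) (by
        rw [← zpow_natCast, ← sub_add_cancel (Fintype.card F : ℤ) 1, zpow_add_one₀ a0, h, one_mul])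
      exact ⟨Matrix.GeneralLinearGroup.scalar _ (Units.mk0 c (by simpa using a0)), c, by
        refine LinearMap.ext fun v => ?_; simp [tl, Matrix.diagonal_const_mulVec], rfl⟩, by
      rintro ⟨g, c, h, rfl⟩
      rw [h1, zpow_natCast, ← map_pow, FiniteField.pow_card_sub_one_eq_one, map_one]
      rintro rfl
      exact ((Group.isUnit g).map _).ne_zero (h.trans (zero_smul _ _))⟩)
    (fun x y h => isConj_GL_iff.2 (isConj_iff_sim.2 h))
    (fun g => hφ ▸ map_rts _ φ.toRingHom φ.commutes) hr (h1 ▸ Int.natCast_dvd_natCast.2 hrq)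
    (by rw [h1, Int.natAbs_natCast, Nat.cast_pred (by omega)]; simp) fun M e1 e2 e3 => by
      obtain ⟨A, a1, a2⟩ := exists_rts (by simpa using e2) e3
      obtain rfl : M.card = n := by simpa using e1
      have a3 := IsUnit.of_pow_eq_one a1 (mul_ne_zero (by omega) hr.ne_zero)
      exact ⟨a3.unit, ((tl _ F).map_pow A _).symm.trans (by rw [a1, map_one]), a2⟩

theorem card_classes_PGU [Fintype F] {q n r : ℕ} (hF : Fintype.card F = q ^ 2) (hn : 2 ≤ n)
    (hr : r.Prime) (hrq : r ∣ q + 1) :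
    Nat.card {C : ConjClasses (GU n F q ⧸ Subgroup.center (GU n F q)) //
      ∃ g, ConjClasses.mk g = C ∧ orderOf g = r} =
      ((n + r - 1).choose (r - 1) - r - if r ∣ n then 1 else 0) / r + r * if r ∣ n then 1 else 0 := by
  have : Nonempty (Fin n) := ⟨⟨0, by omega⟩⟩
  obtain ⟨p, a, hp, _, hq⟩ := H12.exists_pow_of_card_eq_sq hF
  have := Fact.mk hp
  let ρ := iterateFrobenius K p a
  have hρ : (fun x => (ρ x)⁻¹) = fun x => x ^ (-q : ℤ) := funext fun x => by
    rw [iterateFrobenius_def, ← hq, zpow_neg, zpow_natCast]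
  have hρ' (c : F) : ρ (ι c) = ι (H12.frobq hF c) := by
    rw [iterateFrobenius_def, ← hq, H12.frobq_apply, map_pow]
  have hσ := H12.frobq_ne_id hF
  have D := H12.sd_uB hF n
  have h1 : (-q : ℤ) - 1 = -(q + 1 : ℕ) := by omega
  have h2 : ((q + 1 : ℕ) : F) ≠ 0 := by
    have : (q : F) ^ 2 = 0 := by exact_mod_cast hF ▸ FiniteField.cast_card_eq_zero F
    simp [pow_eq_zero_iff two_ne_zero |>.1 this]
  simpa using card_classes_proj (ρ := tg (GU n F q)) (fun g => by
      rw [← Subgroup.mem_map_iff_mem (f := (H12.guEquiv hF n : GU n F q →* H12.UG (H12.uB hF n)))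
        (H12.guEquiv hF n).injective,
        H12.map_center_equiv, D.mem_center_UG_iff D.ns (by simpa)]
      exact exists_congr fun c => ⟨fun h => LinearMap.ext h, fun h => LinearMap.congr_fun h⟩)
    (z := -q) (fun a => by
      rw [h1, zpow_neg, zpow_natCast, inv_eq_one]
      refine ⟨fun h => ?_, ?_⟩
      · obtain ⟨c, rfl⟩ := exists_of_pow_card (c := a) (by
          obtain ⟨k, rfl⟩ := Nat.exists_eq_add_one_of_ne_zero (n := q) (hq ▸ pow_ne_zero _ hp.ne_zero)
          rw [hF, show (k + 1) ^ 2 = (k + 1 + 1) * k + 1 by ring, pow_succ, pow_mul, h, one_pow, one_mul])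
        obtain ⟨g, hg⟩ := ((rl_GU hF n).range (c • 1)).2 ⟨fun x y => by
          have : H12.frobq hF c * c = 1 := (ι).injective (by
            rw [H12.frobq_apply, ← pow_succ, map_pow, h, map_one])
          simp [← mul_assoc, mul_comm c (H12.frobq hF c), this], fun _ => rfl⟩
        exact ⟨g, c, hg, rfl⟩
      · rintro ⟨g, c, h, rfl⟩
        rw [← map_pow, pow_succ, ← H12.frobq_apply hF,
          mul_eq_one_of_pres D (h ▸ (rl_GU hF n).pres g), map_one])
    (fun x y => ((rl_GU hF n).isConj_iff_u D hσ).2)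
    (fun g => hρ ▸ map_rts_of_pres D ((rl_GU hF n).pres g) ρ hρ') hr
    (h1 ▸ (Int.natCast_dvd_natCast.2 hrq).neg_right) (by rwa [h1, Int.natAbs_neg, Int.natAbs_natCast])
    fun M e1 e2 e3 => by
      obtain ⟨B, a, hB, ha, ha', h5⟩ := exists_sd_rts (H12.frobq_frobq hF) ρ hρ' (M := M) (by
        conv_rhs => rw [← e2, ← e2]
        simp only [Multiset.map_map, Function.comp_def, ← zpow_mul, neg_mul_neg, hF, pow_two]
        exact_mod_cast rfl) (hρ ▸ e2) (by
          obtain ⟨k, hk⟩ := hrq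
          rw [h1, Int.natAbs_neg, Int.natAbs_natCast, Nat.cast_mul]
          exact mul_ne_zero h2 fun h => h2 (by simp [hk, h])) e3 (.inl hσ)
      obtain ⟨e, he⟩ := hB.exists_equiv_std hσ (H12.skw_ne hF) (H12.frobq_skw hF) (n := n)
        (by simpa using e1)
      obtain ⟨g, hg⟩ := (rl_GU hF n).exists_sim e (c := 1) (d := 1) (N' := fun _ => 0)
        (by simpa using he) (by simp) ha (by simp)
      exact ⟨g, (hg.pow _).eq_one_iff.1 ha', hg.rts_eq ▸ h5⟩

end Cfsg.Agent.H13
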