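import Mathlib
import Cfsg.Agent.H13.PG

/-!
Homocyclic Sylow subgroups of `GL`, `SL`, `Sp` for large primes.
-/

set_option autoImplicit false

namespace Cfsg.Agent.H13

open Module H28 H12 Finset Polynomial

/-- `G` embeds in `H` -/
def Em (G H : Type*) [Group G] [Group H] : Prop := ∃ f : G →* H, Function.Injective f

section Em
variable {G H K L : Type*} [Group G] [Group H] [Group K] [Group L]

theorem Em.trans (h : Em G H) (h' : Em H K) : Em G K :=
  let ⟨f, hf⟩ := h; let ⟨g, hg⟩ := h'; ⟨g.comp f, hg.comp hf⟩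

theorem Em.of_equiv (e : G ≃* H) : Em G H := ⟨e, e.injective⟩

theorem Em.prod (h : Em G H) (h' : Em K L) : Em (G × K) (H × L) :=
  let ⟨f, hf⟩ := h; let ⟨g, hg⟩ := h'; ⟨f.prodMap g, hf.prodMap hg⟩

theorem Em.pi (h : Em G H) (ι : Type*) : Em (ι → G) (ι → H) :=
  let ⟨f, hf⟩ := h; ⟨f.compLeft ι, hf.comp_left⟩

theorem em_pi {X : ℕ → Type*} [∀ n, Group (X n)] (hs : ∀ m n, Em (X m × X n) (X (m + n))) {d : ℕ}
    (h : Em G (X d)) (a n : ℕ) (hn : a * d ≤ n) : Em (Fin a → G) (X n) := by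
  induction a generalizing n with
  | zero => exact ⟨1, Function.injective_of_subsingleton _⟩
  | succ a ih =>
    obtain ⟨k, rfl⟩ := Nat.exists_eq_add_of_le (show d ≤ n by nlinarith)
    refine Em.trans ⟨(Pi.evalMonoidHom _ 0).prod (MonoidHom.mk' Fin.tail fun _ _ => rfl),
      fun x y e => ?_⟩ ((h.prod (ih k (by nlinarith))).trans (hs d k))
    rw [← Fin.cons_self_tail x, ← Fin.cons_self_tail y]
    exact congrArg₂ _ (congrArg Prod.fst e) (congrArg Prod.snd e)

theorem em_cyc [Finite G] {g : G} {R : ℕ} (h : R ∣ orderOf g) : Em (Multiplicative (ZMod R)) G := by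
  have : NeZero R := ⟨ne_zero_of_dvd_ne_zero (orderOf_pos g).ne' h⟩
  exact (Em.of_equiv (mulEquivOfCyclicCardEq (G' := Subgroup.zpowers (g ^ (orderOf g / R))) (by
    simp [orderOf_pow_orderOf_div (orderOf_pos g).ne' h]))).trans ⟨_, Subgroup.subtype_injective _⟩

theorem Em.sylow [Finite G] {r v a : ℕ} [hr : Fact r.Prime]
    (h : Em (Fin a → Multiplicative (ZMod (r ^ v))) G) (hc : padicValNat r (Nat.card G) = v * a)
    (P : Sylow r G) : Nonempty (P ≃* (Fin a → Multiplicative (ZMod (r ^ v)))) := by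
  obtain ⟨f, hf⟩ := h
  exact ⟨(P.equiv (Sylow.ofCard f.range (by
    rw [← Nat.card_congr (MonoidHom.ofInjective hf).toEquiv, Nat.factorization_def _ hr.out, hc]
    simp [Nat.card_pi, pow_mul]))).trans (MonoidHom.ofInjective hf).symm⟩

end Em

section Val
variable {r q : ℕ} [hr : Fact r.Prime] (hq : 1 < q) (hrq : ¬ r ∣ q)

theorem val_prod_ite {ι : Type*} (s : Finset ι) (g : ι → ℕ) (P : ι → Prop) [DecidablePred P] {v : ℕ}
    (h : ∀ i ∈ s, g i ≠ 0 ∧ padicValNat r (g i) = if P i then v else 0) :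
    padicValNat r (∏ i ∈ s, g i) = v * #{i ∈ s | P i} := by
  rw [← Nat.factorization_def _ hr.out, Nat.factorization_prod fun i hi => (h i hi).1,
    Finsupp.finset_sum_apply, sum_congr rfl fun i hi => (Nat.factorization_def _ hr.out).trans
      (h i hi).2, ← sum_filter, sum_const, smul_eq_mul, mul_comm]

include hrq in
theorem ord_pos : 0 < orderOf (q : ZMod r) :=
  (isOfFinOrder_iff_pow_eq_one.2 ⟨r - 1, Nat.sub_pos_of_lt hr.out.one_lt,
    ZMod.pow_card_sub_one_eq_one (by rwa [Ne, ZMod.natCast_eq_zero_iff])⟩).orderOf_pos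

include hq hrq

theorem val_cyclotomic :
    padicValNat r ((cyclotomic (orderOf (q : ZMod r)) ℤ).eval (q : ℤ)).natAbs =
      padicValNat r (q ^ orderOf (q : ZMod r) - 1) := by
  have h0 := ord_pos hrq
  have h1 := congrArg (fun p => (p.eval (q : ℤ)).natAbs) (prod_cyclotomic_eq_X_pow_sub_one h0 ℤ)
  have h2 := Nat.one_lt_pow h0.ne' hq
  simp only [← Nat.cons_self_properDivisors h0.ne', prod_cons, eval_mul, Int.natAbs_mul, eval_sub,
    eval_pow, eval_X, eval_one] at h1
  rw [show ((q : ℤ) ^ orderOf (q : ZMod r) - 1).natAbs = q ^ orderOf (q : ZMod r) - 1 by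
    rw [← Nat.cast_pow, ← Nat.cast_pred (by omega), Int.natAbs_natCast]] at h1
  have h3 := (h1.trans_gt (Nat.sub_pos_of_lt h2)).ne'
  rw [← h1, padicValNat.mul (left_ne_zero_of_mul h3) (right_ne_zero_of_mul h3),
    padicValNat.eq_zero_of_not_dvd (n := Int.natAbs (eval _ (∏ _ ∈ _, _)))]
  · rfl
  rw [← Int.natCast_dvd, eval_prod, (Nat.prime_iff_prime_int.1 hr.out).dvd_finsetProd_iff]
  rintro ⟨e, he, h⟩
  have := int_dvd_pow_sub_iff.1 (h.trans (by
    simpa using eval_dvd (x := (q : ℤ)) (cyclotomic.dvd_X_pow_sub_one e ℤ)))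
  exact (Nat.le_of_dvd (Nat.pos_of_mem_properDivisors he) this).not_gt (Nat.mem_properDivisors.1 he).2

theorem val_pow_sub {e : ℕ} (he : ¬ r ∣ e) (j : ℕ) : q ^ j * (q ^ e - 1) ≠ 0 ∧
    padicValNat r (q ^ j * (q ^ e - 1)) =
      if orderOf (q : ZMod r) ∣ e then padicValNat r (q ^ orderOf (q : ZMod r) - 1) else 0 := by
  have h0 := Nat.sub_ne_zero_of_lt (Nat.one_lt_pow (n := e) (fun h => he (h ▸ dvd_zero r)) hq)
  have h1 : q ^ j ≠ 0 := by positivity
  refine ⟨mul_ne_zero h1 h0, ?_⟩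
  rw [padicValNat.mul h1 h0, padicValNat.eq_zero_of_not_dvd fun h => hrq (hr.out.dvd_of_dvd_pow h),
    zero_add]
  split_ifs with h
  · obtain ⟨m, rfl⟩ := h
    obtain ⟨y, hy⟩ := Nat.exists_eq_add_one_of_ne_zero (n := q ^ orderOf (q : ZMod r)) (by positivity)
    have h2 := geom_sum_mul_add y m
    rw [pow_mul, hy, ← h2, Nat.add_sub_cancel] at h0 ⊢
    rw [padicValNat.mul (left_ne_zero_of_mul h0) (right_ne_zero_of_mul h0),
      padicValNat.eq_zero_of_not_dvd, zero_add, Nat.add_sub_cancel]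
    rw [← ZMod.natCast_eq_zero_iff, ← hy]
    simpa [pow_orderOf_eq_one, ZMod.natCast_eq_zero_iff] using fun h => he (h.mul_left _)
  · exact padicValNat.eq_zero_of_not_dvd (mt (dvd_pow_sub_iff (by omega)).1 h)

theorem val_GL {n : ℕ} (hn : n < r) : padicValNat r (∏ i : Fin n, (q ^ n - q ^ (i : ℕ))) =
    padicValNat r (q ^ orderOf (q : ZMod r) - 1) * (n / orderOf (q : ZMod r)) := by
  rw [Fin.prod_univ_eq_prod_range (fun i => q ^ n - q ^ i), ← prod_range_reflect,
    ← Nat.card_multiples]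
  refine val_prod_ite _ _ _ fun i hi => ?_
  rw [mem_range] at hi
  rw [show q ^ n - q ^ (n - 1 - i) = q ^ (n - 1 - i) * (q ^ (i + 1) - 1) by
    rw [mul_tsub, ← pow_add, mul_one, show n - 1 - i + (i + 1) = n by omega]]
  exact val_pow_sub hq hrq (Nat.not_dvd_of_pos_of_lt (by omega) (by omega)) _

end Val

variable {F : Type*} [Field F]

theorem em_GL_sum (m n : ℕ) : Em (GL (Fin m) F × GL (Fin n) F) (GL (Fin (m + n)) F) := by
  let f : Matrix (Fin m) (Fin m) F × Matrix (Fin n) (Fin n) F →* Matrix _ _ F :=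
    { toFun := fun x => Matrix.fromBlocks x.1 0 0 x.2
      map_one' := Matrix.fromBlocks_one
      map_mul' := fun x y => by simp [Matrix.fromBlocks_multiply] }
  exact (Em.of_equiv MulEquiv.prodUnits.symm).trans <| Em.trans ⟨Units.map f, Units.map_injective
    fun x y e => Prod.ext (Matrix.fromBlocks_inj.1 e).1 (Matrix.fromBlocks_inj.1 e).2.2.2⟩
    (.of_equiv (Units.mapEquiv (Matrix.reindexAlgEquiv F F finSumFinEquiv).toMulEquiv))

theorem em_UG_sum {V W : Type*} [AddCommGroup V] [Module F V] [AddCommGroup W] [Module F W]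
    {σ : F →+* F} (B : V →ₛₗ[σ] V →ₗ[F] F) (B' : W →ₛₗ[σ] W →ₗ[F] F) :
    Em (UG B × UG B') (UG (sumB B B')) :=
  ⟨MonoidHom.mk' (fun x => ⟨x.1.1.prodCongr x.2.1, fun u v => by
      simp [sumB_apply, UG_map]⟩) fun _ _ => rfl, fun x y e => Prod.ext
    (UG_ext fun v => congrArg (fun g : UG (sumB B B') => (g.1 (v, 0)).1) e)
    (UG_ext fun v => congrArg (fun g : UG (sumB B B') => (g.1 (0, v)).2) e)⟩

theorem em_sp_sum (m n : ℕ) : Em (Matrix.symplecticGroup (Fin m) F × Matrix.symplecticGroup (Fin n) F)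
    (Matrix.symplecticGroup (Fin (m + n)) F) := by
  obtain ⟨e⟩ := (sd_sumB (sd_spB (l := Fin m) (F := F)) (sd_spB (l := Fin n))).nonempty_UG_equiv_sp
    (m := m + n) (by simp; omega)
  exact ((Em.of_equiv (spEquiv _ F)).prod (.of_equiv (spEquiv _ F))).trans
    ((em_UG_sum _ _).trans (.of_equiv e))

theorem em_SL_diag (k : ℕ) : Em (Fin k → Fˣ) (Matrix.SpecialLinearGroup (Fin (k + 1)) F) :=
  ⟨MonoidHom.mk' (fun x => ⟨Matrix.diagonal fun i => (Fin.cons (∏ i, x i)⁻¹ x : _ → Fˣ) i, by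
      rw [Matrix.det_diagonal, ← Units.coe_prod, Fin.prod_univ_succ]; simp⟩)
    fun x y => Subtype.ext (by
      refine .trans ?_ (Matrix.diagonal_mul_diagonal _ _).symm
      exact congrArg Matrix.diagonal (funext fun i => Fin.cases (by simp [prod_mul_distrib, mul_comm])
        (fun _ => rfl) i)),
    fun x y e => funext fun i => Units.ext
      (congrFun (Matrix.diagonal_injective (congrArg Subtype.val e)) i.succ)⟩

variable [Fintype F]

theorem em_GL_cyc {d R : ℕ} (hd : 0 < d) (h : R ∣ Fintype.card F ^ d - 1) :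
    Em (Multiplicative (ZMod R)) (GL (Fin d) F) := by
  obtain ⟨p, _⟩ := CharP.exists F
  have := Fact.mk (CharP.char_is_prime F p)
  have : NeZero d := ⟨by omega⟩
  let E := FiniteField.Extension F p d
  obtain ⟨t, h0, ht⟩ := exists_orderOf_field (E := E) (m := R)
    (by rwa [FiniteField.natCard_extension, Nat.card_eq_fintype_card])
  let b := finBasisOfFinrankEq F E (FiniteField.finrank_extension F p d)
  exact (em_cyc (g := Units.mk0 t h0) (by rw [← orderOf_units]; exact ht.ge.antisymm ht.le ▸ dvd_rfl)).trans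
    ⟨Units.map (Algebra.leftMulMatrix b : E →* _), Units.map_injective
      (Algebra.leftMulMatrix_injective b)⟩

theorem em_sp_cyc {d N R : ℕ} (hN : Pm (Fintype.card F) d N) (h : R ∣ N) :
    Em (Multiplicative (ZMod R)) (Matrix.symplecticGroup (Fin d) F) := by
  obtain ⟨p, _⟩ := CharP.exists F
  have := Fact.mk (CharP.char_is_prime F p)
  obtain ⟨a, -, ha⟩ := FiniteField.card F p
  obtain ⟨V, _, _, _, B, D, h1, t, h2, h3, -⟩ := tor' ha hN
  obtain ⟨e⟩ := D.nonempty_UG_equiv_sp h1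
  obtain ⟨g, rfl⟩ := exists_en h2 (S2512.det_sp D h2)
  refine em_cyc (g := e g.1) (h.trans (h3 _ ?_))
  rw [MulEquiv.orderOf_eq, Subgroup.orderOf_coe, ← map_pow, pow_orderOf_eq_one, map_one]

end Cfsg.Agent.H13
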