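import Cfsg.Agent.H28.UCent
import Cfsg.Agent.H28.Elu6
import Cfsg.Agent.H13.Wall4

/-! Centralisers of unipotent elements of unitary groups. -/

set_option autoImplicit false

namespace Cfsg.Agent.H13

open Polynomial Module MulAction H28 H12

universe u

variable {F : Type u} {U V W : Type*} [Field F] [AddCommGroup U] [Module F U] [AddCommGroup V] [Module F V]
  [AddCommGroup W] [Module F W] {σ : F →+* F} {B : V →ₛₗ[σ] V →ₗ[F] F} {B' : W →ₛₗ[σ] W →ₗ[F] F}

theorem card_cU_congr {a : End F V} {b : End F W} (e : V ≃ₗ[F] W) (h1 : ∀ x y, B' (e x) (e y) = B x y)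
    (he : ∀ v, e (a v) = b (e v)) : Nat.card ↥(UG B ⊓ centE a) = Nat.card ↥(UG B' ⊓ centE b) := by
  have he' : ∀ w, e.symm (b w) = a (e.symm w) := fun w => e.injective (by simp [he])
  have h2 : ∀ x y, B (e.symm x) (e.symm y) = B' x y := fun x y => by simp [← h1]
  exact Nat.card_congr ⟨fun g => ⟨e.symm ≪≫ₗ g.1 ≪≫ₗ e, fun x y => by simp [h1, h2, g.2.1 _ _],
    fun v => by simp [he', g.2.2 _, he]⟩, fun g => ⟨e ≪≫ₗ g.1 ≪≫ₗ e.symm, fun x y => by simp [h1, h2, g.2.1 _ _],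
    fun v => by simp [he', g.2.2 _, he]⟩, fun g => by ext; simp, fun g => by ext; simp⟩

variable [Finite F] [FiniteDimensional F U] [FiniteDimensional F V] [FiniteDimensional F W]

theorem wall_u (hσ : σ ≠ RingHom.id F) (D : SD B) (D' : SD B') {a : End F V} {b : End F W} (ha : Pres B a)
    (hb : Pres B' b) (h : ed a = ed b) :
    ∃ g : V ≃ₗ[F] W, (∀ x y, B' (g x) (g y) = B x y) ∧ ∀ v, g (a v) = b (g v) :=
  wall_core (ε := -1) D.wittData.nds D'.wittData.nds (by simpa using D.skew) (by simpa using D'.skew) ha hb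
    (sim_iff_ed.2 h) (Or.inl hσ)

theorem glue_u (hσ : σ ≠ RingHom.id F) {C : U →ₛₗ[σ] U →ₗ[F] F} (E : SD C) (D' : SD B') (D : SD B) {c : End F U}
    {a : End F W} {b : End F V} (ha : Pres B' a) (hb : Pres B b) (he : ed b = ed c + ed a) (ψ : U →ₗ[F] V)
    (h1 : ∀ x y, B (ψ x) (ψ y) = C x y) (h2 : ∀ x, ψ (c x) = b (ψ x)) :
    ∃ g : (U × W) ≃ₗ[F] V, (∀ x y, B (g x) (g y) = sumB C B' x y) ∧ (∀ x, g (c.prodMap a x) = b (g x)) ∧
      ∀ x, g (x, 0) = ψ x := by
  have a1 : Disjoint (LinearMap.range ψ) (sperp B (LinearMap.range ψ)) := D.disjoint_iff.2 (by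
    rintro _ ⟨x, rfl⟩ h
    rw [E.sep x fun y => by rw [← h1, h _ ⟨y, rfl⟩], map_zero])
  have a2 : Function.Injective ψ := (injective_iff_map_eq_zero _).2 fun x h => E.sep x fun y => by simp [← h1, h]
  have a3 : Iv b (sperp B (LinearMap.range ψ)) := Iv.sperp D hb (by rintro _ ⟨x, rfl⟩; exact ⟨_, h2 x⟩)
  let e := (LinearEquiv.ofInjective ψ a2).prodCongr (.refl F _) ≪≫ₗ Submodule.prodEquivOfIsCompl _ _ (D.isCompl a1)
  have a4 : ∀ x, e x = ψ x.1 + x.2 := fun _ => rfl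
  have a5 : ed (c.prodMap (b.restrict a3) : End F (U × _)) = ed b := Sim.ed_eq ⟨e, fun v => by simp [a4, h2]; rfl⟩
  obtain ⟨g, b1, b2⟩ := wall_u hσ D' (D.restrict (D.disjoint_sperp a1)) ha (b := b.restrict a3) (fun x y => hb _ _)
    (add_left_cancel (he.symm.trans (a5.symm.trans (ed_prodMap _ _))))
  refine ⟨(LinearEquiv.refl F U).prodCongr g ≪≫ₗ e, fun x y => ?_, fun x => by simp [a4, h2, b2]; rfl, fun x => by simp [a4]⟩
  simp [a4, h1, ← b1, sumB_apply, (g _).2 _ ⟨_, rfl⟩, D.comm0 ((g _).2 _ ⟨_, rfl⟩)]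

section Tr
variable {m : ℕ}

local notation "ρ" => (AdjoinRoot.root ((X - 1 : F[X]) ^ (m + 1)) : Tr F (m + 1))

omit [Finite F] in
theorem Tr_mul_socle (c : Tr F (m + 1)) : ∃ d : F, c * (ρ - 1) ^ m = d • (ρ - 1) ^ m := by
  obtain ⟨w, rfl⟩ := AdjoinRoot.mk_surjective c
  obtain ⟨u, hu⟩ := X_sub_C_dvd_sub_C_eval (p := w) (a := 1)
  generalize w.eval 1 = d at hu
  refine ⟨d, ?_⟩
  rw [eq_add_of_sub_eq hu, map_add, map_mul, add_mul, map_sub, AdjoinRoot.mk_X, C_1, map_one, mul_right_comm,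
    ← pow_succ', Tr_pow_eq_zero.2 le_rfl, zero_mul, zero_add, Algebra.smul_def]; rfl

omit [Finite F] in
theorem exists_tau (hσ : ∀ a, σ (σ a) = a) : ∃ τ : Tr F (m + 1) →+* Tr F (m + 1), (∀ r, τ (τ r) = r) ∧
    (∀ c, τ (algebraMap F _ c) = algebraMap F _ (σ c)) ∧ τ ρ * ρ = 1 := by
  have h0 : (ρ - 1) ^ (m + 1) = 0 := Tr_pow_eq_zero.2 le_rfl
  obtain ⟨ρ', h1⟩ : ∃ ρ', ρ' * ρ = 1 := by
    simpa using (IsNilpotent.isUnit_add_one ⟨_, h0⟩).exists_left_inv
  let τ : Tr F (m + 1) →+* Tr F (m + 1) := AdjoinRoot.lift ((AdjoinRoot.of _).comp σ) ρ' (by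
    simp [eval₂_pow, show ρ' - 1 = -ρ' * (ρ - 1) by linear_combination h1, mul_pow, h0, -neg_mul])
  have hτ : τ ρ = ρ' := AdjoinRoot.lift_root _
  have hτ' : ∀ c, τ (algebraMap F _ c) = algebraMap F _ (σ c) := fun c => AdjoinRoot.lift_of _
  have hτ2 : τ ρ' = ρ := by
    have := congrArg τ h1
    rw [map_mul, hτ, map_one] at this
    linear_combination ρ * this - τ ρ' * h1
  exact ⟨τ, fun a => DFunLike.congr_fun (AdjoinRoot.ringHom_ext (f := τ.comp τ) (g := RingHom.id _)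
    (RingHom.ext fun c => by simpa [hσ] using (congrArg τ (hτ' c)).trans (hτ' _)) (by simpa [hτ] using hτ2)) a,
    hτ', hτ ▸ h1⟩

variable {τ : Tr F (m + 1) →+* Tr F (m + 1)} (t1 : ∀ r, τ (τ r) = r)
  (t2 : ∀ c, τ (algebraMap F _ c) = algebraMap F _ (σ c)) (t3 : τ (AdjoinRoot.root _) * AdjoinRoot.root _ = 1)
  {b : End F V} (hb : (b - 1) ^ (m + 1) = 0)

omit [Finite F] [FiniteDimensional F V] in
include t2 t3 in
theorem act_adj (hσ : ∀ a, σ (σ a) = a) (h : Pres B b) (r : Tr F (m + 1)) (x y : V) : B (act hb (τ r) x) y = B x (act hb r y) := by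
  obtain ⟨p, rfl⟩ := AdjoinRoot.mk_surjective r
  induction p using Polynomial.induction_on generalizing x y with
  | C c =>
    rw [show AdjoinRoot.mk _ (C c) = algebraMap F (Tr F (m + 1)) c from rfl, t2, AlgHom.commutes, AlgHom.commutes]
    simp [hσ]
  | add p q hp hq => simp only [map_add, LinearMap.add_apply, hp, hq]
  | monomial n c ih =>
    rw [pow_succ X, ← mul_assoc, map_mul (AdjoinRoot.mk _), map_mul τ, mul_comm (AdjoinRoot.mk _ _), map_mul (act hb),
      map_mul (act hb), End.mul_apply, End.mul_apply, ih, AdjoinRoot.mk_X, ← h, act_root, ← End.mul_apply b]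
    nth_rw 1 [← act_root hb]
    rw [← map_mul, mul_comm, t3, map_one]
    rfl

omit [Finite F] [FiniteDimensional F V] in
include t2 t3 in
theorem nd_act_iff (D : SD B) (h : Pres B b) (y : V) : B y (((b - 1) ^ m) y) ≠ 0 ↔
    ∀ r, (∀ s, B (act hb r y) (act hb s y) = 0) → r = 0 := by
  have a1 : act hb ((ρ - 1) ^ m) = (b - 1) ^ m := by rw [map_pow, map_sub, act_root, map_one]
  refine ⟨fun h1 r h2 => by_contra fun h3 => h1 (D.comm0 ?_), fun h1 h2 => ?_⟩
  · obtain ⟨c, hc⟩ := Tr_socle h3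
    rw [← a1, ← hc, map_mul, End.mul_apply, D.comm0_iff, ← act_adj t2 t3 hb D.invol h, D.comm0_iff, h2]
  · refine absurd (Tr_pow_eq_zero.1 (h1 ((ρ - 1) ^ m) fun s => ?_)) (by omega)
    obtain ⟨d, hd⟩ := Tr_mul_socle (τ s)
    rw [← act_adj t2 t3 hb D.invol h, ← End.mul_apply, ← map_mul, hd, map_smul, a1]
    simp [D.comm0 h2]

omit t2 t3 hb in
include t1 in
theorem card_herm (hσ : σ ≠ RingHom.id F) (h2 : ∀ a, σ (σ a) = a)
    (t2 : ∀ c, τ (algebraMap F _ c) = algebraMap F _ (σ c)) :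
    Nat.card {h // τ h = h ∧ IsUnit h} + q0 σ ^ m = q0 σ ^ (m + 1) := by
  have : Finite (Tr F (m + 1)) := Module.finite_of_finite F
  let T : Tr F (m + 1) →ₛₗ[σ] Tr F (m + 1) := ⟨τ.toAddMonoidHom, fun c x => by
    simp only [Algebra.smul_def, ← t2]; exact map_mul τ _ _⟩
  let J := LinearMap.ker ((cyc ((X - 1 : F[X]) ^ (m + 1)) - 1) ^ m)
  have a1 : ∀ x, x ∈ J ↔ ¬ IsUnit x := fun x => by
    rw [LinearMap.mem_ker, ← aeval_sub_one_pow, aeval_cyc_apply, map_pow, map_sub, AdjoinRoot.mk_X, map_one]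
    exact ⟨fun h hx => absurd (Tr_pow_eq_zero.1 (hx.mul_left_eq_zero.1 h)) (by omega), fun h => by_contra (h ∘ Tr_unit)⟩
  obtain ⟨a2, a3⟩ := jt_of_ed (a := cyc ((X - 1 : F[X]) ^ (m + 1))) (M := {m + 1}) (by simp) (ed_cyc (upp F (m + 1)))
  have a4 := card_fixed_semilinear hσ h2 T t1
  have a5 := card_fixed_semilinear hσ h2 ((T.domRestrict J).codRestrict J fun x => (a1 _).2 fun h =>
    (a1 _).1 x.2 (t1 x.1 ▸ h.map τ)) fun x => Subtype.ext (t1 x.1)
  rw [Module.natCard_eq_pow_finrank (K := F) (V := Tr F _), card_eq_q0_sq hσ h2, ← pow_mul, mul_comm, pow_mul,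
    finrank_Tr] at a4
  rw [Module.natCard_eq_pow_finrank (K := F) (V := J), card_eq_q0_sq hσ h2, ← pow_mul, mul_comm, pow_mul,
    finrank_ker_pow a2, a3] at a5
  simp only [Multiset.map_singleton, Multiset.sum_singleton, Nat.le_succ, min_eq_left] at a5
  rw [← Nat.pow_left_injective two_ne_zero a4, ← Nat.pow_left_injective two_ne_zero a5, ← Nat.card_sum]
  classical
  refine Nat.card_congr (.trans (Equiv.sumCongr (Equiv.subtypeSubtypeEquivSubtypeInter _ _).symm ?_)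
    (Equiv.sumCompl fun x : {v // T v = v} => IsUnit x.1))
  exact ⟨fun x => ⟨⟨x.1.1, congrArg Subtype.val x.2⟩, (a1 _).1 x.1.2⟩, fun x => ⟨⟨x.1.1, (a1 _).2 x.2⟩,
    Subtype.ext x.1.2⟩, fun _ => rfl, fun _ => rfl⟩

include t1 t2 t3 hb in
theorem card_noniso (hσ : σ ≠ RingHom.id F) (D : SD B) (h : Pres B b) {c : ℕ}
    (hc : finrank F (LinearMap.ker ((b - 1) ^ m)) + c = finrank F V) : Nat.card {v // B v (((b - 1) ^ m) v) ≠ 0} =
      Nat.card F ^ finrank F (LinearMap.ker ((b - 1) ^ m)) * ((q0 σ ^ 2) ^ c - (guIso (q0 σ) c + 1)) := by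
  classical
  have a1 : act hb ((ρ - 1) ^ m) = (b - 1) ^ m := by rw [map_pow, map_sub, act_root, map_one]
  obtain ⟨d, hd⟩ := Tr_mul_socle (m := m) ((-τ ρ) ^ m)
  have a2 : τ ((ρ - 1) ^ m) = d • (ρ - 1) ^ m := by
    rw [← hd, ← mul_pow, map_pow, map_sub, map_one]; congr 1; linear_combination t3
  have a3 : d * σ d = 1 := by
    have := congrArg τ a2
    rw [t1, Algebra.smul_def, map_mul, t2, a2, ← Algebra.smul_def, smul_smul, eq_comm, ← sub_eq_zero,
      ← one_smul F ((ρ - 1) ^ m), smul_smul, mul_one, ← sub_smul, smul_eq_zero, Tr_pow_eq_zero] at this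
    linear_combination this.resolve_right (by omega)
  have a4 : ∀ x y, B x (((b - 1) ^ m) y) = σ d * B (((b - 1) ^ m) x) y := fun x y => by
    rw [← a1, ← act_adj t2 t3 hb D.invol h, a2]; simp
  generalize (b - 1) ^ m = T at a4 hc
  obtain ⟨θ, hθ⟩ := DFunLike.ne_iff.1 hσ
  obtain ⟨s, s1, s2⟩ := h90_ring D.invol (θ := θ) (IsUnit.mk0 _ (sub_ne_zero.2 (Ne.symm hθ))) a3
  obtain ⟨K, hK⟩ := (LinearMap.ker T).exists_isCompl
  let β : K →ₛₗ[σ] K →ₗ[F] F := res (s • B.compl₂ T) K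
  have b1 : ∀ x y, β x y = s * B x (T y) := fun _ _ => rfl
  have b2 : ∀ x y, β y x = -σ (β x y) := fun x y => by
    rw [b1, b1, map_mul, D.σ_map, a4]; linear_combination (σ d * B (T y) x) * s2 + (σ s * B (T y) x) * a3
  have b3 : ∀ v, ∃ k u, T k = 0 ∧ v = k + (u : K) := fun v => by
    obtain ⟨x, rfl⟩ := (Submodule.prodEquivOfIsCompl _ _ hK).surjective v
    exact ⟨x.1, x.2, x.1.2, rfl⟩
  have b4 := SD.niso_unitary (B := β) ⟨D.invol, b2, fun x hx => Subtype.ext (Submodule.disjoint_def.1 hK.disjoint _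
    (D.sep _ fun y => ?_) x.2), fun x => exists_sub_conj_eq hσ D.invol (by rw [b2 x x, map_neg, D.invol, ← b2])⟩ hσ
  · have : Finite V := Module.finite_of_finite F
    have := Fintype.ofFinite K
    have b5 := Submodule.finrank_add_eq_of_isCompl hK
    clear_value β
    rw [show finrank F K = c by omega, niso] at b4
    rw [← b4, ← card_eq_q0_sq hσ D.invol, ← show finrank F K = c by omega, ← Module.natCard_eq_pow_finrank,
      ← Module.natCard_eq_pow_finrank, Nat.card_eq_fintype_card (α := K), Nat.card_eq_fintype_card (α := {x // β x x = 0}),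
      ← Fintype.card_subtype_compl, ← Nat.card_eq_fintype_card (α := {x // ¬ β x x = 0}), ← Nat.card_prod]
    refine Nat.card_congr (.trans ((Submodule.prodEquivOfIsCompl _ _ hK).toEquiv.subtypeEquiv
      (p := fun x => ¬ β x.2 x.2 = 0) fun x => ?_).symm 
      ⟨fun x => (x.1.1, ⟨_, x.2⟩), fun x => ⟨(x.1, x.2.1), x.2.2⟩, fun _ => rfl, fun _ => rfl⟩)
    simp [b1, s1.ne_zero, a4 x.1, show T x.1 = 0 from x.1.2]
  obtain ⟨k, u, h1, rfl⟩ := b3 y
  have h2 := hx u
  have d0 : σ d ≠ 0 := right_ne_zero_of_mul (a3 ▸ one_ne_zero)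
  have h3 := a4 x k
  rw [b1, a4, mul_eq_zero, mul_eq_zero] at h2
  rw [h1, map_zero, eq_comm, mul_eq_zero] at h3
  rw [map_add, h3.resolve_left d0, (h2.resolve_left s1.ne_zero).resolve_left d0, add_zero]

set_option maxHeartbeats 2000000 in
include t1 t2 t3 in
theorem card_cU_step (hσ : σ ≠ RingHom.id F) {C : Tr F (m + 1) →ₛₗ[σ] Tr F (m + 1) →ₗ[F] F} (E : SD C) (D : SD B')
    (hc : Pres C (cyc _)) {a : End F W} (h : Pres B' a) (ha : (a - 1) ^ (m + 1) = 0) :
    Nat.card ↥(UG (sumB C B') ⊓ centE ((cyc _).prodMap a)) * Nat.card {h // τ h = h ∧ IsUnit h} =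
      Nat.card {v // sumB C B' v ((((cyc _).prodMap a - 1 : End F _) ^ m) v) ≠ 0} * Nat.card ↥(UG B' ⊓ centE a) := by
  have : Finite (Tr F (m + 1)) := Module.finite_of_finite F
  have he := ed_prodMap (cyc ((X - 1 : F[X]) ^ (m + 1))) a
  have hp := hc.prodMap h
  set b : End F (Tr F (m + 1) × W) := (cyc ((X - 1 : F[X]) ^ (m + 1))).prodMap a with hb'
  have h0 : (cyc ((X - 1 : F[X]) ^ (m + 1)) - 1) ^ (m + 1) = 0 := by
    rw [← aeval_sub_one_pow, aeval_cyc_eq_zero_iff]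
  have hb : (b - 1) ^ (m + 1) = 0 := by
    rw [← aeval_sub_one_pow, aeval_prodMap, aeval_sub_one_pow, aeval_sub_one_pow, h0, ha]; ext <;> simp
  have e0 : ∀ r x, act h0 r x = r * x := map_act h0 (l := LinearMap.id) fun _ => rfl
  have a0 : ∀ r x y, C (τ r * x) y = C x (r * y) := fun r x y => by
    rw [← e0, ← e0, act_adj t2 t3 h0 E.invol hc]
  have a1 : ∀ g ∈ centE b, ∀ r, act hb r (g (1, 0)) = g (r, 0) := fun g hg r => by
    obtain ⟨p, rfl⟩ := AdjoinRoot.mk_surjective r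
    rw [act_mk, ← LinearEquiv.coe_coe, ← intertwine_aeval (a := b) _ hg]
    simp [hb', aeval_prodMap, aeval_cyc_apply]
  set G := UG (sumB C B') ⊓ centE b
  have a2 : ∀ v ∈ orbit G ((1, 0) : Tr F (m + 1) × W), ∀ r s, sumB C B' (act hb r v) (act hb s v) = C r s := by
    rintro _ ⟨g, rfl⟩ r s
    exact (congrArg₂ (sumB C B' · ·) (a1 _ g.2.2 r) (a1 _ g.2.2 s)).trans ((g.2.1 _ _).trans (by simp [sumB_apply]))
  obtain ⟨θ, hθ⟩ := DFunLike.ne_iff.1 hσ
  choose s hs using fun h : {h // τ h = h ∧ IsUnit h} => exists_norm_ring t1 (θ := algebraMap F _ θ)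
    (by rw [t2, ← map_sub]; exact (IsUnit.mk0 _ (sub_ne_zero.2 (Ne.symm hθ))).map _) h.2.1 h.2.2
  have s1 : ∀ h, IsUnit (s h) := fun h => isUnit_of_mul_isUnit_right (hs h ▸ h.2.2)
  have a3 : Function.Bijective fun z : orbit G ((1, 0) : Tr F (m + 1) × W) × {h // τ h = h ∧ IsUnit h} =>
      (⟨act hb (s z.2) z.1, (nd_act_iff t2 t3 hb (sd_sumB E D) hp _).2 fun r hr => (s1 z.2).mul_left_eq_zero.1
        (E.sep _ fun y => by
          obtain ⟨y, rfl⟩ : ∃ x, x * s z.2 = y := ⟨_, (s1 z.2).unit.inv_mul_cancel_right y⟩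
          simpa only [← End.mul_apply, ← map_mul, a2 _ z.1.2] using hr y)⟩ :
        {v // sumB C B' v (((b - 1) ^ m) v) ≠ 0}) := by
    refine ⟨fun z z' e => ?_, fun y => ?_⟩
    · replace e : act hb (s z.2) z.1 = act hb (s z'.2) z'.1 := congrArg Subtype.val e
      have e1 : z.2 = z'.2 := Subtype.ext (E.ext_left fun r => by
        have := congrArg₂ (fun x y => sumB C B' x (act hb r y)) e e
        simp only [← End.mul_apply, ← map_mul, a2 _ z.1.2, a2 _ z'.1.2, mul_comm r] at this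
        rwa [← hs, ← hs, a0, a0])
      exact Prod.ext (Subtype.ext (((End.isUnit_iff _).1 ((s1 _).map (act hb))).1 (e1 ▸ e))) e1
    let φ : Tr F (m + 1) →ₗ[F] _ := (act hb).toLinearMap.flip y.1
    let C' : Tr F (m + 1) →ₛₗ[σ] Tr F (m + 1) →ₗ[F] F := ((sumB C B').comp φ).compl₂ φ
    obtain ⟨k, hk⟩ := E.wittData.nds.exists_rep C'
    have b1 : ∀ r, k r = r * k 1 := fun r => by
      have := map_act h0 (l := k) (LinearMap.congr_fun (E.wittData.nds.comm_rep hk hc fun u v => by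
        simpa [C', φ, cyc_apply, act_root] using hp _ _).symm) r 1
      rwa [e0, mul_one] at this
    have b2 : ∀ r r', C (r * k 1) r' = sumB C B' (act hb r y.1) (act hb r' y.1) := fun r r' => b1 r ▸ hk r r'
    obtain ⟨r, hr⟩ := ((End.isUnit_iff _).1 (NDS.isUnit_rep ⟨E.invol, (nd_act_iff t2 t3 hb (sd_sumB E D) hp _).1 y.2⟩ hk)).2 1
    let z : {h // τ h = h ∧ IsUnit h} := ⟨k 1, E.ext_left fun r => by
      rw [← mul_one (τ _), a0, E.skew, mul_comm, b2, ← (sd_sumB E D).skew, ← b2, one_mul],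
        .of_mul_eq_one_right r (b1 r ▸ hr)⟩
    obtain ⟨x, hx⟩ := (s1 z).exists_left_inv
    have e1 : τ (s z) * s z = k 1 := hs z
    obtain ⟨ψ, b3⟩ : ∃ ψ : Tr F (m + 1) →ₗ[F] Tr F (m + 1) × W, ∀ r, ψ r = act hb (r * x) y.1 :=
      ⟨φ ∘ₗ LinearMap.mulRight F x, fun _ => rfl⟩
    obtain ⟨g, c1, c2, c3⟩ := glue_u hσ E D (sd_sumB E D) h hp he ψ (fun r r' => by
      rw [b3, b3, ← b2, show r * x * k 1 = τ (s z) * r by linear_combination (r * τ (s z)) * hx - r * x * e1, a0,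
        show s z * (r' * x) = r' by linear_combination r' * hx]) fun r => by
          rw [b3, b3, cyc_apply, mul_assoc, map_mul, act_root]; rfl
    refine ⟨(⟨_, ⟨g, c1, c2⟩, rfl⟩, z), Subtype.ext ?_⟩
    change act hb (s z) (g (1, 0)) = _
    rw [a1 g c2, c3, b3, mul_comm, hx, map_one]; rfl
  have a4 : Function.Bijective fun c : ↥(UG B' ⊓ centE a) => (⟨⟨(LinearEquiv.refl F _).prodCongr c.1,
      fun x y => by simp [sumB_apply, c.2.1 _ _], fun v => by simp [hb', c.2.2 _]⟩, by simp [Subgroup.smul_def]⟩ :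
        stabilizer G ((1, 0) : Tr F (m + 1) × W)) := by
    refine ⟨fun z z' e => Subtype.ext (LinearEquiv.ext fun y => congrArg (fun g : stabilizer G _ => (g.1.1 (0, y)).2) e),
      fun g => ?_⟩
    have h3 : ∀ c, g.1.1 (c, 0) = (c, 0) := fun c => by
      rw [← a1 _ g.1.2.2, show g.1.1 (1, 0) = (1, 0) from g.2]; exact a1 1 (one_mem _) c
    have h4 : ∀ y, g.1.1 (0, y) = (0, (g.1.1 (0, y)).2) := fun y => Prod.ext (E.sep _ fun c => by
      simpa [h3, sumB_apply] using g.1.2.1 (0, y) (c, 0)) rfl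
    have h5 : ∀ x y, B' (g.1.1 (0, x)).2 (g.1.1 (0, y)).2 = B' x y := fun x y => by
      have := g.1.2.1 (0, x) (0, y)
      rw [h4 x, h4 y] at this
      simpa [sumB_apply] using this
    refine ⟨⟨.ofInjectiveEndo (LinearMap.snd F _ _ ∘ₗ g.1.1.toLinearMap ∘ₗ LinearMap.inr F _ _)
      ((injective_iff_map_eq_zero _).2 fun y hy => D.sep _ fun z => ?_), h5, fun y => ?_⟩,
      Subtype.ext (Subtype.ext (LinearEquiv.ext fun v => ?_))⟩
    · rw [← h5, show (g.1.1 (0, y)).2 = 0 from hy]; simp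
    · simpa [hb'] using congrArg Prod.snd (g.1.2.2 (0, y))
    · conv_rhs => rw [← Prod.fst_add_snd v, map_add, h3, h4]
      exact Prod.ext (add_zero _).symm (zero_add _).symm
  rw [← Nat.card_congr (orbitProdStabilizerEquivGroup G ((1, 0) : Tr F (m + 1) × W)), Nat.card_prod,
    ← Nat.card_eq_of_bijective _ a3, ← Nat.card_eq_of_bijective _ a4, Nat.card_prod, mul_right_comm]

end Tr

theorem guOrd_succ {q : ℕ} (hq : 1 ≤ q) (c : ℕ) :
    guOrd q (c + 1) * (q - 1) = ((q ^ 2) ^ (c + 1) - (guIso q (c + 1) + 1)) * guOrd q c := by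
  have h1 : ∀ k, 1 ≤ q ^ k := fun k => Nat.one_le_pow _ _ hq
  have h2 : (q ^ 2) ^ (c + 1) = guIso q (c + 1) + 1 + q ^ c * (if Even c then q ^ (c + 1) + 1 else q ^ (c + 1) - 1) *
      (q - 1) := by
    by_cases h : Even c <;> simp only [guIso, Nat.even_add_one, h, if_true, if_false, not_true, not_false_eq_true,
      Nat.add_sub_cancel] <;> zify [h1, hq] <;> ring
  rw [h2, Nat.add_sub_cancel_left, guOrd, guOrd, Finset.prod_range_succ, Nat.triangle_succ]
  ring

theorem card_cU_jt (hσ : σ ≠ RingHom.id F) (L : ℕ) (M : Multiset ℕ) (h : ∀ k ∈ M, 0 < k ∧ k < L) :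
    ∀ {V : Type u} [AddCommGroup V] [Module F V] [FiniteDimensional F V] {B : V →ₛₗ[σ] V →ₗ[F] F} {a : End F V},
    SD B → Pres B a → ed a = M.map (upp F) → Nat.card ↥(UG B ⊓ centE a) = q0 σ ^ (2 * (∑ i ∈ Finset.range L,
      ∑ j ∈ Finset.range L, if i < j then i * M.count i * M.count j else 0) +
        ∑ i ∈ Finset.range L, (i - 1) * M.count i ^ 2) * ∏ i ∈ Finset.range L, guOrd (q0 σ) (M.count i) := by
  induction hn : M.card generalizing M with
  | zero =>
    obtain rfl := Multiset.card_eq_zero.1 hn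
    intro V _ _ _ B a _ _ h3
    have : Subsingleton V := finrank_zero_iff.1 (by simpa [h3] using finrank_eq_sum_ed a)
    have : Unique ↥(UG B ⊓ centE a) := ⟨⟨1⟩, fun _ => Subtype.ext (Subsingleton.elim _ _)⟩
    simp [guOrd]
  | succ n ih =>
    intro V _ _ _ B' b f1 f2 f3
    obtain ⟨D, hD, h1⟩ := Multiset.exists_max_image (s := M) id (by rintro rfl; simp at hn)
    obtain ⟨M, rfl⟩ := Multiset.exists_cons_of_mem hD
    obtain ⟨D, rfl⟩ : ∃ E, D = E + 1 := Nat.exists_eq_add_of_le' (h D hD).1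
    have h0 : ∀ k ∈ M, 0 < k ∧ k < L := fun k hk => h k (Multiset.mem_cons_of_mem hk)
    obtain ⟨W, _, _, _, B, a, g1, g2, g3⟩ := exists_sd_jt hσ f1.invol M
    obtain ⟨θ, hθ⟩ : ∃ θ, θ ≠ (-1) ^ D * σ θ := by
      by_contra! h
      have h1 := h 1
      rw [map_one, mul_one] at h1
      exact hσ (RingHom.ext fun x => by simpa [← h1] using (h x).symm)
    obtain ⟨C, c1, c2⟩ := exists_sd_unip f1.invol hθ
    obtain ⟨τ, t1, t2, t3⟩ := exists_tau (m := D) f1.invol
    obtain ⟨h2, h3⟩ := jt_of_ed (fun k hk => (h0 k hk).1) g3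
    have h4 : ed ((cyc ((X - 1 : F[X]) ^ (D + 1))).prodMap a : End F (Tr F (D + 1) × _)) =
        ((D + 1) ::ₘ M).map (upp F) := by
      rw [ed_prodMap, g3, show ed (cyc ((X - 1 : F[X]) ^ (D + 1))) = _ from ed_cyc (upp F (D + 1))]
      simp
    obtain ⟨h5, h6⟩ := jt_of_ed (fun k hk => (h k hk).1) h4
    have h7 := finrank_ker_pow h5 D
    have h8 := sum_jt h5
    obtain ⟨e, e5, e6⟩ := wall_u hσ f1 (sd_sumB c1 g1) f2 (c2.prodMap g2) (f3.trans h4.symm)
    have h9 : (((D + 1) ::ₘ M).map (min D)).sum + (M.count (D + 1) + 1) = ((D + 1) ::ₘ M).sum := by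
      rw [← Multiset.count_cons_self]
      generalize (D + 1) ::ₘ M = N at h1
      induction N using Multiset.induction_on with
      | empty => simp
      | cons a N ih =>
        have := ih fun k hk => h1 k (Multiset.mem_cons_of_mem hk)
        have := h1 a (Multiset.mem_cons_self _ _)
        simp only [Multiset.map_cons, Multiset.sum_cons, Multiset.count_cons, id] at *
        split_ifs <;> omega
    have a1 := card_cU_step t1 t2 t3 hσ c1 g1 c2 g2 ((pow_eq_zero_iff_jt h2 _).2 fun k hk =>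
      h1 k (Multiset.mem_cons_of_mem (h3 ▸ hk)))
    have q2 := two_le_q0 (σ := σ)
    rw [card_noniso t1 t2 t3 ((pow_eq_zero_iff_jt h5 _).2 fun k hk => h1 k (h6 ▸ hk)) hσ (sd_sumB c1 g1)
      (c2.prodMap g2) (c := M.count (D + 1) + 1) (by rw [h7, ← h8, h6, h9]), ih M h0 (by simpa using hn) g1 g2 g3, h7, h6,
      Nat.eq_sub_of_add_eq (card_herm t1 hσ f1.invol t2), ← card_cU_congr e e5 e6, pow_succ, ← Nat.mul_sub_one,
      card_eq_q0_sq hσ f1.invol] at a1
    have hL := Finset.mem_range.2 (h _ hD).2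
    have e2 : ∑ i ∈ Finset.range L, (i - 1) * ((D + 1) ::ₘ M).count i ^ 2 =
        ∑ i ∈ Finset.range L, (i - 1) * M.count i ^ 2 + D * (2 * M.count (D + 1) + 1) := by
      rw [← Finset.add_sum_erase _ _ hL, ← Finset.add_sum_erase _ _ hL, Multiset.count_cons_self,
        Finset.sum_congr rfl fun i hi => by rw [Multiset.count_cons_of_ne (Finset.ne_of_mem_erase hi)], Nat.add_sub_cancel]
      ring
    have e3 : (∑ i ∈ Finset.range L, ∑ j ∈ Finset.range L,
        if i < j then i * ((D + 1) ::ₘ M).count i * ((D + 1) ::ₘ M).count j else 0) + (D + 1) * M.count (D + 1) =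
        (∑ i ∈ Finset.range L, ∑ j ∈ Finset.range L, if i < j then i * M.count i * M.count j else 0) + M.sum := by
      rw [← sum_count fun k hk => (h0 k hk).2, ← Finset.sum_add_distrib, ← Finset.add_sum_erase _ _ hL, eq_comm,
        ← Finset.add_sum_erase _ _ hL, eq_comm, add_right_comm]
      have hc : ∀ j, D + 1 < j → M.count j = 0 := fun j hj => Multiset.count_eq_zero.2 fun hj' =>
        absurd (h1 j (Multiset.mem_cons_of_mem hj')) (by simpa using hj)
      refine congrArg₂ (fun a b : ℕ => a + b) (congrArg₂ (fun a b : ℕ => a + b) ?_ rfl) ?_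
      · refine Finset.sum_congr rfl fun j _ => if_ctx_congr Iff.rfl (fun hj => ?_) fun _ => rfl
        simp [Multiset.count_cons_of_ne hj.ne', hc j hj]
      refine Finset.sum_congr rfl fun i hi => ?_
      rw [← Finset.add_sum_erase _ _ hL, eq_comm, ← Finset.add_sum_erase _ _ hL, eq_comm, Multiset.count_cons_self,
        Multiset.count_cons_of_ne (Finset.ne_of_mem_erase hi), Finset.sum_congr rfl fun j hj => by
          rw [Multiset.count_cons_of_ne (Finset.ne_of_mem_erase hj)]]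
      split_ifs with c
      · ring
      · rw [hc i (lt_of_le_of_ne (not_lt.1 c) (Finset.ne_of_mem_erase hi).symm)]; simp
    rw [← Finset.mul_prod_erase _ _ hL] at a1 ⊢
    rw [e2, Multiset.count_cons_self, Finset.prod_congr rfl fun i hi => by
      rw [Multiset.count_cons_of_ne (Finset.ne_of_mem_erase hi)]]
    rw [Multiset.sum_cons] at h9
    generalize (∑ i ∈ Finset.range L, ∑ j ∈ Finset.range L,
        if i < j then i * ((D + 1) ::ₘ M).count i * ((D + 1) ::ₘ M).count j else 0) = x at *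
    generalize (∑ i ∈ Finset.range L, ∑ j ∈ Finset.range L, if i < j then i * M.count i * M.count j else 0) = y at *
    have e4 := congrArg (q0 σ ^ ·) (show 2 * x + (∑ i ∈ Finset.range L, (i - 1) * M.count i ^ 2 +
      D * (2 * M.count (D + 1) + 1)) + D = 2 * (((D + 1) ::ₘ M).map (min D)).sum +
        (2 * y + ∑ i ∈ Finset.range L, (i - 1) * M.count i ^ 2) by nlinarith)
    beta_reduce at e4
    rw [pow_add, pow_add _ (2 * _) (2 * y + _), pow_mul] at e4
    refine Nat.eq_of_mul_eq_mul_right (Nat.mul_pos (pow_pos (by omega) D) (by omega : 0 < q0 σ - 1)) (a1.trans ?_)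
    have e1 := guOrd_succ (q := q0 σ) (by omega) (M.count (D + 1))
    rw [mul_mul_mul_comm _ _ (q0 σ ^ D), e4, mul_right_comm (guOrd _ _), e1]
    ring

end Cfsg.Agent.H13
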